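import Mathlib

/-!
# Order 2520: the local configuration around a Sylow 3-subgroup (helper82, CALL S0984)

`A7Cfg P x x2 t K` records, in a finite group, a Sylow 3-subgroup `P` of order 9 generated by two
conjugate commuting elements `x`, `x2` of order 3, an involution `t` inverting `P`, and a subgroup
`K` of order 4 of the centralizer of `x` that contains every 2-element of that centralizer and on
which the elements of `P` outside `⟨x⟩` act without fixed points.
-/

set_option autoImplicit false

namespace Cfsg.Agent.Helper82

/-- The local configuration used in the order 2520 argument. -/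
structure A7Cfg {G : Type*} [Group G] (P : Sylow 3 G) (x x2 t : G) (K : Subgroup G) : Prop where
  hP9 : Nat.card (P : Subgroup G) = 9
  hxP : x ∈ (P : Subgroup G)
  hx : orderOf x = 3
  hx2P : x2 ∈ (P : Subgroup G)
  hx2 : x2 ∉ Subgroup.zpowers x
  hconj : IsConj x x2
  ht : orderOf t = 2
  htinv : ∀ y ∈ (P : Subgroup G), t * y * t⁻¹ = y⁻¹
  hK4 : Nat.card K = 4
  hKx : ∀ k ∈ K, k * x = x * k
  hKall : ∀ g : G, g * x = x * g → orderOf g ∣ 4 → g ∈ K
  hKfix : ∀ y ∈ (P : Subgroup G), y ∉ Subgroup.zpowers x → ∀ k ∈ K, y * k = k * y → k = 1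

end Cfsg.Agent.Helper82
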