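import Mathlib
import Cfsg.Agent.Helper53.PCenter

/-!
# CALL S1906 (helper14), piece VB (helper82, double)
-/

set_option autoImplicit false

namespace Cfsg.Agent.Helper82.S1906P

open scoped commutatorElement

variable {F : Type*} [Field F] {V : Type*} [AddCommGroup V] [Module F V] {P : Type*} [Group P]

/-- VB. In a nonabelian `P` the element acting as `1` on `L` and `-1` on `W` is a commutator
product. -/
theorem s1906_vb [Finite P] (hP : IsPGroup 2 P) (ρ : Representation F P V)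
    (hfaith : ∀ x : P, (∀ v : V, ρ x v = v) → x = 1)
    (L W : Submodule F V) (hLW : IsCompl L W)
    (lam : P →* Fˣ) (hlam : ∀ x : P, ∀ v ∈ L, ρ x v = (lam x : F) • v)
    (hva : ∀ t : P, (∀ x : P, t * x = x * t) → t * t = 1 →
      (∀ v ∈ W, ρ t v = v) ∨ (∀ v ∈ W, ρ t v = -v))
    (hnab : ¬ ∀ x y : P, x * y = y * x) :
    ∃ w ∈ _root_.commutator P, (∀ v ∈ L, ρ w v = v) ∧ (∀ v ∈ W, ρ w v = -v) := by
  have : Fact (Nat.Prime 2) := ⟨Nat.prime_two⟩
  -- the commutator subgroup is nontrivial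
  have hne : _root_.commutator P ≠ ⊥ := by
    intro h
    apply hnab
    intro x y
    have h1 : ⁅x, y⁆ ∈ _root_.commutator P := Subgroup.commutator_mem_commutator
      (Subgroup.mem_top x) (Subgroup.mem_top y)
    rw [h, Subgroup.mem_bot, commutatorElement_def] at h1
    calc x * y = (x * y * x⁻¹ * y⁻¹) * (y * x) := by group
      _ = y * x := by rw [h1, one_mul]
  have hnorm : (⊤ : Subgroup P) ≤ Subgroup.normalizer ((_root_.commutator P : Subgroup P) : Set P) := by
    rw [Subgroup.normalizer_eq_top]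
  obtain ⟨z, hzc, hz1, hzcen⟩ := Cfsg.Agent.Helper53.exists_central_of_normalized
    (p := 2) (P := (⊤ : Subgroup P)) (A := _root_.commutator P) (hP.to_subgroup ⊤) le_top hnorm hne
  obtain ⟨k, hk⟩ := (IsPGroup.iff_orderOf.mp hP) z
  have hk0 : k ≠ 0 := by
    rintro rfl
    rw [pow_zero, orderOf_eq_one_iff] at hk
    exact hz1 hk
  obtain ⟨j, rfl⟩ : ∃ j, k = j + 1 := ⟨k - 1, by omega⟩
  -- the involution
  have ht1 : z ^ 2 ^ j ≠ 1 := by
    apply pow_ne_one_of_lt_orderOf (by positivity)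
    rw [hk]
    exact Nat.pow_lt_pow_right (by norm_num) (Nat.lt_succ_self j)
  have ht2 : z ^ 2 ^ j * z ^ 2 ^ j = 1 := by
    rw [← pow_add, ← two_mul, ← pow_succ', ← hk, pow_orderOf_eq_one]
  have htc : z ^ 2 ^ j ∈ _root_.commutator P := Subgroup.pow_mem _ hzc _
  have htcen : ∀ x : P, z ^ 2 ^ j * x = x * z ^ 2 ^ j := by
    intro x
    have h1 : Commute x z := hzcen x (Subgroup.mem_top x)
    exact ((h1.pow_right (2 ^ j)).eq).symm
  have hlamt : lam (z ^ 2 ^ j) = 1 := by
    have h1 : _root_.commutator P ≤ lam.ker := Abelianization.commutator_subset_ker lam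
    exact MonoidHom.mem_ker.mp (h1 htc)
  have htL : ∀ v ∈ L, ρ (z ^ 2 ^ j) v = v := by
    intro v hv
    rw [hlam _ v hv, hlamt, Units.val_one, one_smul]
  refine ⟨z ^ 2 ^ j, htc, htL, ?_⟩
  rcases hva (z ^ 2 ^ j) htcen ht2 with h1 | h1
  · exfalso
    apply ht1
    apply hfaith
    intro v
    have hv : v ∈ L ⊔ W := by rw [hLW.sup_eq_top]; exact Submodule.mem_top
    obtain ⟨l, hl, w, hw, rfl⟩ := Submodule.mem_sup.mp hv
    rw [map_add, htL l hl, h1 w hw]
  · exact h1

end Cfsg.Agent.Helper82.S1906P
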