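import Mathlib
import Cfsg.Agent.Helper9.OrdTools
import Cfsg.Agent.Helper8.SylFix

/-!
# Elements of prime order centralizing a Sylow subgroup (helper82)

`prime_mul_lt_card_sylow`: in a finite simple group with more than one Sylow `p`-subgroup, an
element `y` of prime order `r ≠ p` centralizing a Sylow `p`-subgroup satisfies
`r * p + 1 ≤ n_p`.  (Count the Sylow `p`-subgroups fixed by `y`: their number is `≡ 1 (mod p)`,
`≡ n_p (mod r)` and `< n_p`.)
-/

set_option autoImplicit false

namespace Cfsg.Agent.Helper82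

open Subgroup

/-- In a finite simple group with `n_p > 1`, an element of prime order `r ≠ p` centralizing a
Sylow `p`-subgroup forces `r * p + 1 ≤ n_p`. -/
theorem prime_mul_lt_card_sylow {G : Type*} [Group G] [Finite G] [IsSimpleGroup G]
    {p r : ℕ} [Fact p.Prime] [Fact r.Prime] (hrp : r ≠ p) (P : Sylow p G) (y : G)
    (hy : y ∈ centralizer ((P : Subgroup G) : Set G)) (hyo : orderOf y = r)
    (h1 : 1 < Nat.card (Sylow p G)) : r * p + 1 ≤ Nat.card (Sylow p G) := by
  have hp : p.Prime := Fact.out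
  have hr : r.Prime := Fact.out
  have hy1 : y ≠ 1 := by
    rintro rfl
    rw [orderOf_one] at hyo
    exact hr.one_lt.ne hyo
  have hcomm : ∀ x ∈ (P : Subgroup G), x * y = y * x := fun x hx =>
    (Subgroup.mem_centralizer_iff.mp hy x hx)
  have hf1 := Cfsg.Agent.Helper8.SylFix.card_fixedBy_modEq_one P y hcomm
  have hfr := Cfsg.Agent.Helper8.SylFix.card_fixedBy_modEq (p := p) (q := r) (k := 1) y
    (by rw [pow_one]; exact hyo)
  have hlt := Cfsg.Agent.Helper8.SylFix.card_fixedBy_lt h1 y hy1
  have hd1 := card_sylow_modEq_one p G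
  set f := Nat.card (MulAction.fixedBy (Sylow p G) y) with hf
  set d := Nat.card (Sylow p G) with hd
  have hpd : p ∣ d - f := (Nat.modEq_iff_dvd' hlt.le).mp (hf1.trans hd1.symm)
  have hrd : r ∣ d - f := (Nat.modEq_iff_dvd' hlt.le).mp hfr.symm
  have hcop : Nat.Coprime r p := (Nat.coprime_primes hr hp).mpr hrp
  have hrp_dvd : r * p ∣ d - f := hcop.mul_dvd_of_dvd_of_dvd hrd hpd
  have hpos : 0 < d - f := Nat.sub_pos_of_lt hlt
  have hle := Nat.le_of_dvd hpos hrp_dvd
  have hf0 : 1 ≤ f := by
    rcases Nat.eq_zero_or_pos f with h0 | h0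
    · exfalso
      have := hf1
      rw [h0, Nat.ModEq, Nat.zero_mod, Nat.mod_eq_of_lt hp.one_lt] at this
      exact absurd this (by norm_num)
    · exact h0
  omega

end Cfsg.Agent.Helper82
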