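import Mathlib

/-!
# Arithmetic of the degrees of the principal `2`-block for a Klein four Sylow subgroup (helper82)

Three degrees `d₂, d₃, d₄` with signs `1, ε, -1`, `1 + d₂ + ε d₃ - d₄ = 0`, each `dᵢ` and each
`(dᵢ + εᵢ)/2` a product of powers of two fixed odd primes `p ≠ q`: then `{p, q} = {3, 5}` and the
degrees `3` and `5` occur.
-/

set_option autoImplicit false

namespace Cfsg.Agent.Helper82

theorem ka_one (d e : ℕ) (ε : ℤ) (hε : ε = 1 ∨ ε = -1) (hd : 2 ≤ d)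
    (he : (d : ℤ) + ε = 2 * e) (h1 : e = 1) : d = 3 ∧ ε = -1 := by
  subst h1
  rcases hε with h | h <;> subst h
  · exfalso
    push_cast at he
    omega
  · refine ⟨?_, rfl⟩
    push_cast at he
    omega

theorem ka_pow_one (π : ℕ) (hπ : π.Prime) (e : ℕ) (h : ∃ t, e = π ^ t) (hnd : ¬ π ∣ e) :
    e = 1 := by
  obtain ⟨t, rfl⟩ := h
  rcases Nat.eq_zero_or_pos t with h0 | h0
  · rw [h0, pow_zero]
  · exact absurd (dvd_pow_self π h0.ne') hnd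

/-- The core: one degree divisible by `π`, the two others with `(d + ε)/2` a power of `π`. -/
theorem ka_core (π : ℕ) (hπ : π.Prime) (d₀ d₁ d₂ e₁ e₂ : ℕ) (ε₀ ε₁ ε₂ : ℤ)
    (hε₀ : ε₀ = 1 ∨ ε₀ = -1) (hε₁ : ε₁ = 1 ∨ ε₁ = -1) (hε₂ : ε₂ = 1 ∨ ε₂ = -1)
    (hrel : (1 : ℤ) + ε₀ * d₀ + ε₁ * d₁ + ε₂ * d₂ = 0)
    (hd₀ : π ∣ d₀) (hd₁ : 2 ≤ d₁) (hd₂ : 2 ≤ d₂)
    (he₁ : (d₁ : ℤ) + ε₁ = 2 * e₁) (he₂ : (d₂ : ℤ) + ε₂ = 2 * e₂)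
    (ht₁ : ∃ t, e₁ = π ^ t) (ht₂ : ∃ t, e₂ = π ^ t) :
    (d₁ = 3 ∧ d₂ = 3 ∧ d₀ = 5) ∨ (π = 3 ∧ (d₁ = 3 ∨ d₂ = 3)) := by
  have hsq₁ : ε₁ * ε₁ = 1 := by rcases hε₁ with h | h <;> rw [h] <;> norm_num
  have hsq₂ : ε₂ * ε₂ = 1 := by rcases hε₂ with h | h <;> rw [h] <;> norm_num
  have key : ε₀ * d₀ + 2 * ε₁ * e₁ + 2 * ε₂ * e₂ = 1 := by
    linear_combination hrel - ε₁ * he₁ - ε₂ * he₂ + hsq₁ + hsq₂
  have hπ1 : ¬ ((π : ℤ) ∣ 1) := by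
    intro h
    have h2 : π ∣ 1 := by exact_mod_cast h
    exact hπ.one_lt.ne' (Nat.dvd_one.mp h2)
  have hπd₀ : (π : ℤ) ∣ ε₀ * d₀ := Dvd.dvd.mul_left (by exact_mod_cast hd₀) ε₀
  have hnot : ¬ (π ∣ e₁ ∧ π ∣ e₂) := by
    rintro ⟨h1, h2⟩
    apply hπ1
    rw [← key]
    refine dvd_add (dvd_add hπd₀ ?_) ?_
    · exact Dvd.dvd.mul_left (by exact_mod_cast h1) _
    · exact Dvd.dvd.mul_left (by exact_mod_cast h2) _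
  have hπ3 : (π : ℤ) ∣ 3 → π = 3 := by
    intro h
    have h2 : π ∣ 3 := by exact_mod_cast h
    exact (Nat.prime_dvd_prime_iff_eq hπ Nat.prime_three).mp h2
  by_cases h1 : π ∣ e₁
  · have h2 : ¬ π ∣ e₂ := fun h => hnot ⟨h1, h⟩
    have he2 := ka_pow_one π hπ e₂ ht₂ h2
    obtain ⟨hd2, hε2⟩ := ka_one d₂ e₂ ε₂ hε₂ hd₂ he₂ he2
    right
    refine ⟨hπ3 ?_, Or.inr hd2⟩
    have h3 : (3 : ℤ) = ε₀ * d₀ + 2 * ε₁ * e₁ := by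
      rw [he2, hε2] at key
      push_cast at key
      linarith
    rw [h3]
    exact dvd_add hπd₀ (Dvd.dvd.mul_left (by exact_mod_cast h1) _)
  · have he1 := ka_pow_one π hπ e₁ ht₁ h1
    obtain ⟨hd1, hε1⟩ := ka_one d₁ e₁ ε₁ hε₁ hd₁ he₁ he1
    by_cases h2 : π ∣ e₂
    · right
      refine ⟨hπ3 ?_, Or.inl hd1⟩
      have h3 : (3 : ℤ) = ε₀ * d₀ + 2 * ε₂ * e₂ := by
        rw [he1, hε1] at key
        push_cast at key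
        linarith
      rw [h3]
      exact dvd_add hπd₀ (Dvd.dvd.mul_left (by exact_mod_cast h2) _)
    · have he2 := ka_pow_one π hπ e₂ ht₂ h2
      obtain ⟨hd2, hε2⟩ := ka_one d₂ e₂ ε₂ hε₂ hd₂ he₂ he2
      left
      refine ⟨hd1, hd2, ?_⟩
      rw [he1, hε1, he2, hε2] at key
      push_cast at key
      rcases hε₀ with h | h <;> rw [h] at key <;> omega

/-- Two degrees divisible by `P` with `(d + ε)/2` a power of `Q`, one degree divisible by `Q`. -/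
theorem ka_two_one (P Q : ℕ) (hP : P.Prime) (hQ : Q.Prime) (hPQ : P ≠ Q)
    (d₀ d₁ d₂ e₁ e₂ : ℕ) (ε₀ ε₁ ε₂ : ℤ)
    (hε₀ : ε₀ = 1 ∨ ε₀ = -1) (hε₁ : ε₁ = 1 ∨ ε₁ = -1) (hε₂ : ε₂ = 1 ∨ ε₂ = -1)
    (hrel : (1 : ℤ) + ε₀ * d₀ + ε₁ * d₁ + ε₂ * d₂ = 0)
    (hd₀ : Q ∣ d₀) (hd₁ : 2 ≤ d₁) (hd₂ : 2 ≤ d₂) (hP₁ : P ∣ d₁) (hP₂ : P ∣ d₂)
    (he₁ : (d₁ : ℤ) + ε₁ = 2 * e₁) (he₂ : (d₂ : ℤ) + ε₂ = 2 * e₂)
    (ht₁ : ∃ t, e₁ = Q ^ t) (ht₂ : ∃ t, e₂ = Q ^ t) :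
    P = 3 ∧ Q = 5 ∧ d₁ = 3 ∧ d₀ = 5 := by
  have h5 : Nat.Prime 5 := by norm_num
  rcases ka_core Q hQ d₀ d₁ d₂ e₁ e₂ ε₀ ε₁ ε₂ hε₀ hε₁ hε₂ hrel hd₀ hd₁ hd₂ he₁ he₂ ht₁ ht₂ with
    ⟨h1, h2, h0⟩ | ⟨hQ3, h⟩
  · rw [h1] at hP₁
    rw [h0] at hd₀
    exact ⟨(Nat.prime_dvd_prime_iff_eq hP Nat.prime_three).mp hP₁,
      (Nat.prime_dvd_prime_iff_eq hQ h5).mp hd₀, h1, h0⟩
  · exfalso
    apply hPQ
    rw [hQ3]
    rcases h with h | h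
    · rw [h] at hP₁
      exact (Nat.prime_dvd_prime_iff_eq hP Nat.prime_three).mp hP₁
    · rw [h] at hP₂
      exact (Nat.prime_dvd_prime_iff_eq hP Nat.prime_three).mp hP₂

/-- The type of a degree: divisible by `p` with `(d + ε)/2` a power of `q`, or the reverse. -/
theorem ka_type (p q : ℕ) (hp : p.Prime) (hq : q.Prime) (d e : ℕ) (ε : ℤ)
    (hε : ε = 1 ∨ ε = -1) (hd : 2 ≤ d) (he : (d : ℤ) + ε = 2 * e)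
    (hdd : ∃ i j, d = p ^ i * q ^ j) (hee : ∃ u v, e = p ^ u * q ^ v) :
    (p ∣ d ∧ ∃ t, e = q ^ t) ∨ (q ∣ d ∧ ∃ t, e = p ^ t) := by
  obtain ⟨i, j, hdij⟩ := hdd
  obtain ⟨u, v, heuv⟩ := hee
  have hcop : ∀ r : ℕ, r.Prime → r ∣ d → ¬ r ∣ e := by
    intro r hr h1 h2
    have h3 : (r : ℤ) ∣ ε := by
      have : ε = 2 * (e : ℤ) - d := by linarith
      rw [this]
      exact dvd_sub (Dvd.dvd.mul_left (by exact_mod_cast h2) _) (by exact_mod_cast h1)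
    have h4 : (r : ℤ) ∣ 1 := by
      rcases hε with h | h
      · rwa [h] at h3
      · rw [h] at h3
        exact (dvd_neg.mp h3)
    have h5 : r ∣ 1 := by exact_mod_cast h4
    exact hr.one_lt.ne' (Nat.dvd_one.mp h5)
  rcases Nat.eq_zero_or_pos i with hi | hi
  · right
    have hj : j ≠ 0 := by
      rintro rfl
      rw [hdij, hi] at hd
      norm_num at hd
    have hqd : q ∣ d := by
      rw [hdij]
      exact Dvd.dvd.mul_left (dvd_pow_self q hj) _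
    refine ⟨hqd, u, ?_⟩
    have hv : v = 0 := by
      by_contra hv
      apply hcop q hq hqd
      rw [heuv]
      exact Dvd.dvd.mul_left (dvd_pow_self q hv) _
    rw [heuv, hv, pow_zero, mul_one]
  · left
    have hpd : p ∣ d := by
      rw [hdij]
      exact Dvd.dvd.mul_right (dvd_pow_self p hi.ne') _
    refine ⟨hpd, v, ?_⟩
    have hu : u = 0 := by
      by_contra hu
      apply hcop p hp hpd
      rw [heuv]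
      exact Dvd.dvd.mul_right (dvd_pow_self p hu) _
    rw [heuv, hu, pow_zero, one_mul]

/-- The arithmetic of the three degrees. -/
theorem ka_main (p q : ℕ) (hp : p.Prime) (hq : q.Prime) (hpq : p ≠ q)
    (d₂ d₃ d₄ e₂ e₃ e₄ : ℕ) (ε : ℤ) (hε : ε = 1 ∨ ε = -1)
    (hrel : (1 : ℤ) + d₂ + ε * d₃ - d₄ = 0)
    (h2 : 2 ≤ d₂) (h3 : 2 ≤ d₃) (h4 : 2 ≤ d₄)
    (he₂ : (d₂ : ℤ) + 1 = 2 * e₂) (he₃ : (d₃ : ℤ) + ε = 2 * e₃)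
    (he₄ : (d₄ : ℤ) + (-1) = 2 * e₄)
    (hdd₂ : ∃ i j, d₂ = p ^ i * q ^ j) (hdd₃ : ∃ i j, d₃ = p ^ i * q ^ j)
    (hdd₄ : ∃ i j, d₄ = p ^ i * q ^ j)
    (hee₂ : ∃ u v, e₂ = p ^ u * q ^ v) (hee₃ : ∃ u v, e₃ = p ^ u * q ^ v)
    (hee₄ : ∃ u v, e₄ = p ^ u * q ^ v) :
    ((p = 3 ∧ q = 5) ∨ (p = 5 ∧ q = 3)) ∧ (d₂ = 3 ∨ d₃ = 3 ∨ d₄ = 3) ∧
      (d₂ = 5 ∨ d₃ = 5 ∨ d₄ = 5) := by
  have hone : (1 : ℤ) = 1 ∨ (1 : ℤ) = -1 := Or.inl rfl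
  have hmone : (-1 : ℤ) = 1 ∨ (-1 : ℤ) = -1 := Or.inr rfl
  have hprime1 : ∀ r : ℕ, r.Prime → ¬ ((r : ℤ) ∣ 1) := by
    intro r hr h
    have h2 : r ∣ 1 := by exact_mod_cast h
    exact hr.one_lt.ne' (Nat.dvd_one.mp h2)
  have hall : ∀ r : ℕ, r.Prime → r ∣ d₂ → r ∣ d₃ → r ∣ d₄ → False := by
    intro r hr a2 a3 a4
    apply hprime1 r hr
    have : (1 : ℤ) = d₄ - d₂ - ε * d₃ := by linarith
    rw [this]
    exact dvd_sub (dvd_sub (by exact_mod_cast a4) (by exact_mod_cast a2))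
      (Dvd.dvd.mul_left (by exact_mod_cast a3) _)
  rcases ka_type p q hp hq d₂ e₂ 1 hone h2 he₂ hdd₂ hee₂ with ⟨a2, b2⟩ | ⟨a2, b2⟩ <;>
  rcases ka_type p q hp hq d₃ e₃ ε hε h3 he₃ hdd₃ hee₃ with ⟨a3, b3⟩ | ⟨a3, b3⟩ <;>
  rcases ka_type p q hp hq d₄ e₄ (-1) hmone h4 he₄ hdd₄ hee₄ with ⟨a4, b4⟩ | ⟨a4, b4⟩
  · exact absurd (hall p hp a2 a3 a4) id
  · -- L L R : special d₄
    obtain ⟨e1, e2, e3, e4⟩ := ka_two_one p q hp hq hpq d₄ d₂ d₃ e₂ e₃ (-1) 1 ε hmone hone hε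
      (by linarith) a4 h2 h3 a2 a3 he₂ he₃ b2 b3
    exact ⟨Or.inl ⟨e1, e2⟩, Or.inl e3, Or.inr (Or.inr e4)⟩
  · -- L R L : special d₃
    obtain ⟨e1, e2, e3, e4⟩ := ka_two_one p q hp hq hpq d₃ d₂ d₄ e₂ e₄ ε 1 (-1) hε hone hmone
      (by linarith) a3 h2 h4 a2 a4 he₂ he₄ b2 b4
    exact ⟨Or.inl ⟨e1, e2⟩, Or.inl e3, Or.inr (Or.inl e4)⟩
  · -- L R R : special d₂, roles swapped
    obtain ⟨e1, e2, e3, e4⟩ := ka_two_one q p hq hp hpq.symm d₂ d₃ d₄ e₃ e₄ 1 ε (-1) hone hε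
      hmone (by linarith) a2 h3 h4 a3 a4 he₃ he₄ b3 b4
    exact ⟨Or.inr ⟨e2, e1⟩, Or.inr (Or.inl e3), Or.inl e4⟩
  · -- R L L : special d₂
    obtain ⟨e1, e2, e3, e4⟩ := ka_two_one p q hp hq hpq d₂ d₃ d₄ e₃ e₄ 1 ε (-1) hone hε hmone
      (by linarith) a2 h3 h4 a3 a4 he₃ he₄ b3 b4
    exact ⟨Or.inl ⟨e1, e2⟩, Or.inr (Or.inl e3), Or.inl e4⟩
  · -- R L R : special d₃, roles swapped
    obtain ⟨e1, e2, e3, e4⟩ := ka_two_one q p hq hp hpq.symm d₃ d₂ d₄ e₂ e₄ ε 1 (-1) hε hone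
      hmone (by linarith) a3 h2 h4 a2 a4 he₂ he₄ b2 b4
    exact ⟨Or.inr ⟨e2, e1⟩, Or.inl e3, Or.inr (Or.inl e4)⟩
  · -- R R L : special d₄, roles swapped
    obtain ⟨e1, e2, e3, e4⟩ := ka_two_one q p hq hp hpq.symm d₄ d₂ d₃ e₂ e₃ (-1) 1 ε hmone hone
      hε (by linarith) a4 h2 h3 a2 a3 he₂ he₃ b2 b3
    exact ⟨Or.inr ⟨e2, e1⟩, Or.inl e3, Or.inr (Or.inr e4)⟩
  · exact absurd (hall q hq a2 a3 a4) id

end Cfsg.Agent.Helper82
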