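import Mathlib
import Cfsg.Agent.Helper79.PrimeDeg
import Cfsg.Agent.Helper79.Linear
import Cfsg.Agent.Helper79.Codegree
import Cfsg.Agent.Helper81.KleinFour
import Cfsg.Agent.Helper16.HeightZero
import Cfsg.Agent.Helper78.Counting
import Cfsg.Agent.Helper75.InnerLin

/-!
# Characters of prime-power degree in simple groups and Sylow subgroups (helper82)

* `sd_vanish_of_centralizes`: Burnside vanishing for elements centralizing a subgroup of index
  prime to the degree.
* `sd_card_dvd_degree_of_abelian`: an abelian subgroup of index prime to the degree of a nonlinear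
  irreducible character of a simple group has order dividing the degree.
* `sd_sylow_card_of_prime_degree`: a simple group with an irreducible character of prime degree `q`
  has Sylow `q`-subgroups of order `q`.
* `sd_ne_zero_of_prime_pow_order`: nonvanishing at elements of prime power order prime to the
  degree.
* `sd_not_normalizer_le_centralizer`: Burnside's transfer theorem for simple groups.
-/

set_option autoImplicit false
open Cfsg
open scoped ComplexConjugate commutatorElement

namespace Cfsg.Agent.Helper82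

universe u

variable {G : Type u} [Group G] [Finite G]

/-- A rational number that is an algebraic integer is an integer. -/
theorem sd_int_of_isIntegral_rat (q : ℚ) (h : IsIntegral ℤ (q : ℂ)) : ∃ m : ℤ, q = m := by
  have h1 : IsIntegral ℤ q := by
    have : ((q : ℂ)) = algebraMap ℚ ℂ q := rfl
    rw [this] at h
    exact (isIntegral_algebraMap_iff (algebraMap ℚ ℂ).injective).mp h
  obtain ⟨m, hm⟩ := IsIntegrallyClosed.isIntegral_iff.mp h1
  exact ⟨m, by rw [← hm]; simp⟩

/-- Burnside vanishing: in a nonabelian simple group a nonlinear irreducible character vanishes at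
every nonidentity element centralizing a subgroup whose index is prime to the degree. -/
theorem sd_vanish_of_centralizes [IsSimpleGroup G] (hnc : ¬ ∀ a b : G, a * b = b * a)
    (χ : IrrCharacter G) (h : charDegree (χ : G → ℂ) ≠ 1) (P : Subgroup G)
    (hcop : Nat.Coprime (charDegree (χ : G → ℂ)) P.index) (g : G) (hg : g ≠ 1)
    (hcent : ∀ y ∈ P, g * y = y * g) : (χ : G → ℂ) g = 0 := by
  apply Helper79.simple_irr_vanish_of_coprime hnc χ h g hg
  have hle : P ≤ Subgroup.centralizer ({g} : Set G) := by
    intro y hy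
    rw [Subgroup.mem_centralizer_iff]
    intro z hz
    rw [Set.mem_singleton_iff] at hz
    subst hz
    exact hcent y hy
  exact Nat.Coprime.coprime_dvd_right (Subgroup.index_dvd_of_le hle) hcop

/-- In a nonabelian simple group, an abelian subgroup whose index is prime to the degree of a
nonlinear irreducible character has order dividing that degree. -/
theorem sd_card_dvd_degree_of_abelian [IsSimpleGroup G] (hnc : ¬ ∀ a b : G, a * b = b * a)
    (χ : IrrCharacter G) (h : charDegree (χ : G → ℂ) ≠ 1) (P : Subgroup G)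
    (hab : ∀ a ∈ P, ∀ b ∈ P, a * b = b * a)
    (hcop : Nat.Coprime (charDegree (χ : G → ℂ)) P.index) :
    Nat.card P ∣ charDegree (χ : G → ℂ) := by
  classical
  have : Fintype P := Fintype.ofFinite _
  obtain ⟨m, hm⟩ := Helper81.exists_nat_sum_subgroup χ P
  have hsum : ∑ x : P, (χ : G → ℂ) x = (χ : G → ℂ) 1 := by
    rw [Finset.sum_eq_single (1 : P)]
    · rfl
    · intro x _ hx
      apply sd_vanish_of_centralizes hnc χ h P hcop (x : G)
      · intro h1
        exact hx (Subtype.ext h1)
      · intro y hy
        exact hab x x.2 y hy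
    · intro h1
      exact absurd (Finset.mem_univ _) h1
  rw [hsum, Helper81.irr_one_eq_charDegree] at hm
  have h2 : charDegree (χ : G → ℂ) = Nat.card P * m := by exact_mod_cast hm
  exact ⟨m, h2⟩

/-- A nonabelian simple group with an irreducible character of prime degree `q` has Sylow
`q`-subgroups of order `q`. -/
theorem sd_sylow_card_of_prime_degree [IsSimpleGroup G] (hnc : ¬ ∀ a b : G, a * b = b * a)
    (q : ℕ) [hq : Fact q.Prime] (ψ : IrrCharacter G) (hψ : charDegree (ψ : G → ℂ) = q)
    (Q : Sylow q G) : Nat.card (Q : Subgroup G) = q := by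
  classical
  have hqp : q.Prime := hq.out
  have : Fintype (Q : Subgroup G) := Fintype.ofFinite _
  have : Fintype (IrrCharacter (Q : Subgroup G)) := Fintype.ofFinite _
  have hnl : charDegree (ψ : G → ℂ) ≠ 1 := by rw [hψ]; exact hqp.one_lt.ne'
  have hcop : Nat.Coprime (charDegree (ψ : G → ℂ)) (Q : Subgroup G).index := by
    rw [hψ]
    exact (Nat.Prime.coprime_iff_not_dvd hqp).mpr Q.not_dvd_index
  have hdvdG : q ∣ Nat.card G := by
    rw [← hψ]; exact Helper79.irr_charDegree_dvd_card ψ
  have hqQ : q ∣ Nat.card (Q : Subgroup G) := Q.dvd_card_of_dvd_card hdvdG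
  have hfaith := Helper79.simple_irr_faithful ψ hnl
  -- the restriction
  obtain ⟨Φ, hΦdef⟩ : ∃ Φ : ↥(Q : Subgroup G) → ℂ, Φ = fun x : ↥(Q : Subgroup G) => (ψ : G → ℂ) (x : G) :=
    ⟨_, rfl⟩
  have hΦ : IsCharacter (Q : Subgroup G) Φ := by
    rw [hΦdef]
    exact Helper79.isCharacter_restrict (Helper79.irr_isCharacter ψ) (Q : Subgroup G)
  have hΦdeg : charDegree Φ = q := by
    rw [hΦdef]
    exact hψ
  have hPG : IsPGroup q (Q : Subgroup G) := Q.isPGroup'
  have key : ∀ φ : IrrCharacter (Q : Subgroup G), classInner Φ (φ : ↥(Q : Subgroup G) → ℂ) ≠ 0 →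
      charDegree (φ : ↥(Q : Subgroup G) → ℂ) = 1 := by
    intro φ hφ
    by_contra hne
    have hdvd : q ∣ charDegree (φ : ↥(Q : Subgroup G) → ℂ) :=
      (Helper79.irr_pgroup_dvd_degree_iff hPG φ).mpr hne
    have hle : charDegree Φ ≤ charDegree (φ : ↥(Q : Subgroup G) → ℂ) := by
      rw [hΦdeg]
      exact Nat.le_of_dvd (Helper81.charDegree_pos φ) hdvd
    have heq := Helper75.eq_irr_of_constituent_of_le hΦ φ hφ hle
    have hnt : Nontrivial (Q : Subgroup G) := by
      rw [← Finite.one_lt_card_iff_nontrivial]
      exact lt_of_lt_of_le hqp.one_lt (Nat.le_of_dvd Nat.card_pos hqQ)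
    have hcen : Nontrivial (Subgroup.center (Q : Subgroup G)) := hPG.center_nontrivial
    obtain ⟨z, hz⟩ := exists_ne (1 : Subgroup.center (Q : Subgroup G))
    have hz0 := Helper79.irr_center_ne_zero φ (c := (z : (Q : Subgroup G))) z.2
    apply hz0
    rw [← heq, hΦdef]
    show (ψ : G → ℂ) ((z : (Q : Subgroup G)) : G) = 0
    apply sd_vanish_of_centralizes hnc ψ hnl (Q : Subgroup G) hcop
    · intro h1
      apply hz
      apply Subtype.ext
      apply Subtype.ext
      exact h1
    · intro y hy
      have h2 := Subgroup.mem_center_iff.mp z.2 ⟨y, hy⟩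
      have h3 := congrArg (Subtype.val : ↥(Q : Subgroup G) → G) h2
      exact h3.symm
  -- the commutator subgroup is trivial
  obtain ⟨mm, hmm⟩ := Helper75.exists_nat_mult hΦ
  have hexp := Helper75.character_eq_sum_irr hΦ
  have hcomm1 : ∀ x ∈ commutator (Q : Subgroup G), x = 1 := by
    intro x hx
    have h1 : Φ x = Φ 1 := by
      rw [hexp]
      simp only [Finset.sum_apply, Pi.smul_apply, smul_eq_mul]
      apply Finset.sum_congr rfl
      intro φ _
      by_cases hφ : classInner Φ (φ : ↥(Q : Subgroup G) → ℂ) = 0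
      · rw [hφ, zero_mul, zero_mul]
      · rw [Helper79.irr_commutator_le_ker_of_linear φ (key φ hφ) x hx]
    rw [hΦdef] at h1
    have h2 := hfaith _ h1
    exact Subtype.ext h2
  have hab : ∀ a ∈ (Q : Subgroup G), ∀ b ∈ (Q : Subgroup G), a * b = b * a := by
    intro a ha b hb
    have h1 : ⁅(⟨a, ha⟩ : (Q : Subgroup G)), ⟨b, hb⟩⁆ ∈ commutator (Q : Subgroup G) :=
      Subgroup.commutator_mem_commutator (Subgroup.mem_top _) (Subgroup.mem_top _)
    have h2 := hcomm1 _ h1
    rw [commutatorElement_eq_one_iff_mul_comm] at h2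
    exact congrArg (Subtype.val : ↥(Q : Subgroup G) → G) h2
  have hdvd := sd_card_dvd_degree_of_abelian hnc ψ hnl (Q : Subgroup G) hab hcop
  rw [hψ] at hdvd
  exact Nat.dvd_antisymm hdvd hqQ

/-- An irreducible character does not vanish at an element of prime power order `r ^ k` when `r`
does not divide its degree. -/
theorem sd_ne_zero_of_prime_pow_order (χ : IrrCharacter G) (r : ℕ) (hr : r.Prime)
    (hdeg : ¬ r ∣ charDegree (χ : G → ℂ)) (g : G) (hg : ∃ k : ℕ, orderOf g = r ^ k) :
    (χ : G → ℂ) g ≠ 0 := by
  intro h0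
  obtain ⟨M, hM⟩ := Helper78.exists_isPModular r hr
  have h1 := Helper16.irr_mul_sub_memLocalIdeal hM χ (x := g) (y := 1) hg (Commute.one_right g)
  rw [mul_one, h0, zero_sub, Helper81.irr_one_eq_charDegree] at h1
  have h2 := Helper81.memLocalIdeal_neg h1
  rw [neg_neg] at h2
  exact hdeg ((Helper81.memLocalIdeal_natCast_iff hM).mp h2)

/-- Burnside's transfer theorem: in a simple group a Sylow subgroup that is neither trivial nor the
whole group is not central in its normalizer. -/
theorem sd_not_normalizer_le_centralizer [IsSimpleGroup G] {q : ℕ} [Fact q.Prime]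
    (Q : Sylow q G) (hQ1 : Nat.card (Q : Subgroup G) ≠ 1)
    (hQ2 : Nat.card (Q : Subgroup G) ≠ Nat.card G) :
    ¬ (Subgroup.normalizer ((Q : Subgroup G) : Set G) ≤
      Subgroup.centralizer ((Q : Subgroup G) : Set G)) := by
  intro hNC
  have hcomp := MonoidHom.ker_transferSylow_isComplement' Q hNC
  have hidx : (MonoidHom.transferSylow Q hNC).ker.index = Nat.card (Q : Subgroup G) :=
    hcomp.symm.index_eq_card
  rcases (MonoidHom.normal_ker (MonoidHom.transferSylow Q hNC)).eq_bot_or_eq_top with e | e
  · rw [e, Subgroup.index_bot] at hidx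
    exact hQ2 hidx.symm
  · rw [e, Subgroup.index_top] at hidx
    exact hQ1 hidx.symm

end Cfsg.Agent.Helper82
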