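import Cfsg.Agent.Helper82.KleinGroup

/-!
# Counting involutions in groups of order `4 * odd` without a normal `2`-complement (helper82)

The number of involutions `v` such that `J * v` has even order, for an involution `J`, is
`2 * (|C(J)| / |C(P)|) ^ 2`.
-/

set_option autoImplicit false

namespace Cfsg.Agent.Helper82

universe u

variable {G : Type u} [Group G]

/-- Sylow `2`-subgroups have centralizers of the same order. -/
theorem kleinCount_card_centralizer_sylow [Finite G] (P Q : Sylow 2 G) :
    Nat.card (Subgroup.centralizer ((Q : Subgroup G) : Set G))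
      = Nat.card (Subgroup.centralizer ((P : Subgroup G) : Set G)) := by
  have : Fact (Nat.Prime 2) := ⟨Nat.prime_two⟩
  obtain ⟨c, hc⟩ := MulAction.exists_smul_eq G P Q
  have h : ((Q : Subgroup G) : Set G) = (fun x => c * x * c⁻¹) '' ((P : Subgroup G) : Set G) := by
    ext x
    constructor
    · intro hx
      have huQ : x ∈ (Q : Subgroup G) := hx
      rw [← hc, Sylow.smul_def, Sylow.pointwise_smul_def,
        Subgroup.mem_pointwise_smul_iff_inv_smul_mem] at huQ
      have huP : c⁻¹ * x * c ∈ (P : Subgroup G) := by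
        simpa [MulAut.smul_def, MulAut.conj_inv_apply] using huQ
      refine ⟨c⁻¹ * x * c, huP, ?_⟩
      show c * (c⁻¹ * x * c) * c⁻¹ = x
      group
    · rintro ⟨y, hy, rfl⟩
      show c * y * c⁻¹ ∈ (Q : Subgroup G)
      rw [← hc, Sylow.smul_def, Sylow.pointwise_smul_def,
        Subgroup.mem_pointwise_smul_iff_inv_smul_mem]
      have e : (MulAut.conj c)⁻¹ • (c * y * c⁻¹) = y := by
        rw [MulAut.smul_def, MulAut.conj_inv_apply]; group
      rw [e]; exact hy
  rw [h, kleinGroup_card_centralizer_conj]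

/-- If the Sylow `2`-subgroups have exponent two, every `2`-element squares to `1`. -/
theorem kleinCount_sq_eq_one [Finite G] (P : Sylow 2 G) (hexp : ∀ x ∈ (P : Subgroup G), x * x = 1)
    (u : G) (k : ℕ) (hk : orderOf u = 2 ^ k) : u * u = 1 := by
  have hpg : IsPGroup 2 (Subgroup.zpowers u) :=
    IsPGroup.of_card (n := k) (by rw [Nat.card_zpowers, hk])
  obtain ⟨c, hc⟩ := kleinGroup_conj_le_sylow P _ hpg
  have h1 := hexp _ (hc u (Subgroup.mem_zpowers u))
  have h3' : u * u = c * (c⁻¹ * u * c * (c⁻¹ * u * c)) * c⁻¹ := by group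
  rw [h3', h1]; group

/-- The involutions `v` of the centralizer of an involution `z` lying in the coset `t * O(C(z))`,
for an involution `t ≠ z` commuting with `z`, are `|C(z)| / |C(P)|` in number. -/
theorem kleinCount_coset [Finite G] (g₀ : ℕ) (hg₀ : Odd g₀) (hG : Nat.card G = 4 * g₀)
    (hnc : ¬ ∃ N : Subgroup G, N.Normal ∧ Nat.card N = g₀) (P : Sylow 2 G) (z t : G)
    (hz : orderOf z = 2) (ht : orderOf t = 2) (hzt : z ≠ t) (hcomm : t * z = z * t) :
    Nat.card {v : G // v * v = 1 ∧ v * z = z * v ∧ ¬ 2 ∣ orderOf (t * v)}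
        * Nat.card (Subgroup.centralizer ((P : Subgroup G) : Set G))
      = Nat.card (Subgroup.centralizer ({z} : Set G)) := by
  classical
  have : Fact (Nat.Prime 2) := ⟨Nat.prime_two⟩
  have hz1 : z ≠ 1 := by
    rintro rfl
    rw [orderOf_one] at hz
    exact absurd hz (by norm_num)
  have ht1 : t ≠ 1 := by
    rintro rfl
    rw [orderOf_one] at ht
    exact absurd ht (by norm_num)
  have hzz : z * z = 1 := by rw [← pow_two, ← hz]; exact pow_orderOf_eq_one z
  have htt : t * t = 1 := by rw [← pow_two, ← ht]; exact pow_orderOf_eq_one t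
  have htinv : t⁻¹ = t := inv_eq_of_mul_eq_one_left htt
  have hzinv : z⁻¹ = z := inv_eq_of_mul_eq_one_left hzz
  -- a Sylow subgroup containing `z` and `t`
  have hR : IsPGroup 2 (Subgroup.zpowers z ⊔ Subgroup.zpowers t : Subgroup G) := by
    apply IsPGroup.to_sup_of_normal_right'
    · exact IsPGroup.of_card (n := 1) (by rw [Nat.card_zpowers, hz, pow_one])
    · exact IsPGroup.of_card (n := 1) (by rw [Nat.card_zpowers, ht, pow_one])
    · refine le_trans ?_ (Subgroup.centralizer_le_normalizer _)
      rw [Subgroup.zpowers_le, Subgroup.mem_centralizer_iff]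
      intro h hh
      obtain ⟨k, rfl⟩ := Subgroup.mem_zpowers_iff.mp hh
      exact ((Commute.zpow_right (show Commute z t from hcomm.symm) k).eq).symm
  obtain ⟨Q, hQ⟩ := hR.exists_le_sylow
  have hzQ : z ∈ (Q : Subgroup G) := hQ (Subgroup.mem_sup_left (Subgroup.mem_zpowers z))
  have htQ : t ∈ (Q : Subgroup G) := hQ (Subgroup.mem_sup_right (Subgroup.mem_zpowers t))
  have hcardQ := kleinGroup_card_sylow g₀ hg₀ hG Q
  have hexpQ := (kleinGroup_of_no_complement g₀ hg₀ hG hnc Q).1
  obtain ⟨Kz, hKz, hKzc, -⟩ := kleinGroup_exists_oddSub Q hcardQ hexpQ {z}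
    (by intro x hx; rw [Set.mem_singleton_iff] at hx; rw [hx]; exact hzQ) z rfl hz1
  obtain ⟨Kzt, hKzt, hKztc, -⟩ := kleinGroup_exists_oddSub Q hcardQ hexpQ {z, t}
    (by
      intro x hx
      rcases hx with hx | hx
      · rw [hx]; exact hzQ
      · rw [Set.mem_singleton_iff] at hx; rw [hx]; exact htQ) z (Or.inl rfl) hz1
  -- the centralizer of `{z, t}` is the centralizer of `Q`
  have hztQ : z * t ∈ (Q : Subgroup G) := (Q : Subgroup G).mul_mem hzQ htQ
  have h4 := kleinGroup_four_elts (Q : Subgroup G) hcardQ hzQ htQ hztQ hz1 ht1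
    (by
      intro h
      apply hzt
      have h2 := eq_inv_of_mul_eq_one_left h
      rw [htinv] at h2
      exact h2)
    hzt
    (by intro h; exact ht1 (by simpa using h.symm))
    (by intro h; exact hz1 (by simpa using h.symm))
  have hcent : Subgroup.centralizer ({z, t} : Set G)
      = Subgroup.centralizer ((Q : Subgroup G) : Set G) := by
    apply le_antisymm
    · intro x hx
      rw [Subgroup.mem_centralizer_iff] at hx ⊢
      have hxz := hx z (Or.inl rfl)
      have hxt := hx t (Or.inr rfl)
      intro q hq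
      rcases h4 q hq with h | h | h | h
      · rw [h, one_mul, mul_one]
      · rw [h]; exact hxz
      · rw [h]; exact hxt
      · rw [h, mul_assoc, hxt, ← mul_assoc, hxz, mul_assoc]
    · apply Subgroup.centralizer_le
      intro x hx
      rcases hx with hx | hx
      · rw [hx]; exact hzQ
      · rw [Set.mem_singleton_iff] at hx; rw [hx]; exact htQ
  rw [hcent, kleinCount_card_centralizer_sylow P Q] at hKztc
  -- the inverted elements
  have hinvc := kleinGroup_inverted_count Kz (fun k hk => ((hKz k).mp hk).2) t htt (by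
    intro k hk
    obtain ⟨hkc, hko⟩ := (hKz k).mp hk
    rw [Subgroup.mem_centralizer_iff] at hkc
    have hkz := hkc z rfl
    rw [hKz]
    refine ⟨?_, ?_⟩
    · rw [Subgroup.mem_centralizer_iff]
      intro h hh
      rw [Set.mem_singleton_iff] at hh
      rw [hh]
      calc z * (t * k * t) = (z * t) * k * t := by group
        _ = t * (z * k) * t := by rw [← hcomm]; group
        _ = t * k * (z * t) := by rw [hkz]; group
        _ = t * k * t * z := by rw [← hcomm]; group
    · have h1 : orderOf (t * k * t⁻¹) = orderOf k := (MulAut.conj t).orderOf_eq k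
      rw [htinv] at h1
      rw [h1]
      exact hko)
  have e1 : Nat.card {v : G // v * v = 1 ∧ v * z = z * v ∧ ¬ 2 ∣ orderOf (t * v)}
      = Nat.card {k : G // k ∈ Kz ∧ t * k * t = k⁻¹} := by
    refine Nat.card_congr (Equiv.subtypeEquiv (Equiv.mulLeft t) ?_)
    intro v
    rw [Equiv.coe_mulLeft, hKz, Subgroup.mem_centralizer_iff]
    constructor
    · rintro ⟨hvv, hvz, hodd⟩
      have hvinv : v⁻¹ = v := inv_eq_of_mul_eq_one_left hvv
      refine ⟨⟨?_, hodd⟩, ?_⟩
      · intro h hh
        rw [Set.mem_singleton_iff] at hh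
        rw [hh]
        calc z * (t * v) = (z * t) * v := by group
          _ = t * (z * v) := by rw [← hcomm]; group
          _ = t * v * z := by rw [← hvz]; group
      · rw [mul_inv_rev, hvinv, htinv]
        calc t * (t * v) * t = (t * t) * v * t := by group
          _ = v * t := by rw [htt, one_mul]
    · rintro ⟨⟨hc, hodd⟩, hinv⟩
      have hc' := hc z rfl
      refine ⟨?_, ?_, hodd⟩
      · rw [mul_inv_rev, htinv] at hinv
        have h1 : t * (t * v) * t = v * t := by
          calc t * (t * v) * t = (t * t) * v * t := by group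
            _ = v * t := by rw [htt, one_mul]
        rw [h1] at hinv
        have h2 : v = v⁻¹ := mul_right_cancel hinv
        calc v * v = v * v⁻¹ := by rw [← h2]
          _ = 1 := mul_inv_cancel v
      · calc v * z = t * (t * v * z) := by rw [← mul_assoc, ← mul_assoc, htt, one_mul]
          _ = t * (z * (t * v)) := by rw [hc']
          _ = (t * z) * (t * v) := by group
          _ = z * ((t * t) * v) := by rw [hcomm]; group
          _ = z * v := by rw [htt, one_mul]
  have e2 : Nat.card {k : G // k ∈ Kz ∧ t * k = k * t} = Nat.card Kzt := by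
    refine Nat.card_congr (Equiv.subtypeEquivRight ?_)
    intro k
    rw [hKz, hKzt, Subgroup.mem_centralizer_iff, Subgroup.mem_centralizer_iff]
    constructor
    · rintro ⟨⟨hc, hodd⟩, hkt⟩
      refine ⟨?_, hodd⟩
      intro h hh
      rcases hh with hh | hh
      · rw [hh]; exact hc z rfl
      · rw [Set.mem_singleton_iff] at hh; rw [hh]; exact hkt
    · rintro ⟨hc, hodd⟩
      refine ⟨⟨?_, hodd⟩, hc t (Or.inr rfl)⟩
      intro h hh
      rw [Set.mem_singleton_iff] at hh
      rw [hh]
      exact hc z (Or.inl rfl)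
  rw [e1]
  rw [e2] at hinvc
  calc Nat.card {k : G // k ∈ Kz ∧ t * k * t = k⁻¹}
        * Nat.card (Subgroup.centralizer ((P : Subgroup G) : Set G))
      = Nat.card {k : G // k ∈ Kz ∧ t * k * t = k⁻¹} * (4 * Nat.card Kzt) := by rw [hKztc]
    _ = 4 * (Nat.card {k : G // k ∈ Kz ∧ t * k * t = k⁻¹} * Nat.card Kzt) := by ring
    _ = 4 * Nat.card Kz := by rw [hinvc]
    _ = Nat.card (Subgroup.centralizer ({z} : Set G)) := hKzc

/-- The number of involutions of the centralizer of an involution `J`, other than `J`, is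
`2 * |C(J)| / |C(P)|`. -/
theorem kleinCount_involutions [Finite G] (g₀ : ℕ) (hg₀ : Odd g₀) (hG : Nat.card G = 4 * g₀)
    (hnc : ¬ ∃ N : Subgroup G, N.Normal ∧ Nat.card N = g₀) (P : Sylow 2 G) (J : G)
    (hJ : J ∈ (P : Subgroup G)) (hJ2 : orderOf J = 2) :
    Nat.card {v : G // orderOf v = 2 ∧ v * J = J * v ∧ v ≠ J}
        * Nat.card (Subgroup.centralizer ((P : Subgroup G) : Set G))
      = 2 * Nat.card (Subgroup.centralizer ({J} : Set G)) := by
  classical
  have := Fintype.ofFinite G
  have : Fact (Nat.Prime 2) := ⟨Nat.prime_two⟩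
  have hJ1 : J ≠ 1 := by
    rintro rfl
    rw [orderOf_one] at hJ2
    exact absurd hJ2 (by norm_num)
  have hJJ : J * J = 1 := by rw [← pow_two, ← hJ2]; exact pow_orderOf_eq_one J
  have hJinv : J⁻¹ = J := inv_eq_of_mul_eq_one_left hJJ
  obtain ⟨hexp, g, hgN, hgodd, hfpf⟩ := kleinGroup_of_no_complement g₀ hg₀ hG hnc P
  have hcard := kleinGroup_card_sylow g₀ hg₀ hG P
  have hinv : ∀ x ∈ (P : Subgroup G), x⁻¹ = x := fun x hx => inv_eq_of_mul_eq_one_left (hexp x hx)
  have hPcomm : ∀ x ∈ (P : Subgroup G), ∀ y ∈ (P : Subgroup G), x * y = y * x := by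
    intro x hx y hy
    have h1 := hinv (x * y) ((P : Subgroup G).mul_mem hx hy)
    rw [mul_inv_rev, hinv x hx, hinv y hy] at h1
    exact h1.symm
  obtain ⟨t, htdef⟩ : ∃ t : G, t = g * J * g⁻¹ := ⟨_, rfl⟩
  have htP : t ∈ (P : Subgroup G) := by
    rw [htdef]; exact (Subgroup.mem_normalizer_iff.mp hgN J).mp hJ
  have ht1 : t ≠ 1 := by
    rw [htdef]
    intro h
    apply hJ1
    have : J = g⁻¹ * (g * J * g⁻¹) * g := by group
    rw [this, h]; group
  have hJt : J ≠ t := by rw [htdef]; exact fun h => hfpf J hJ hJ1 h.symm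
  have htt : t * t = 1 := hexp t htP
  have ht2 : orderOf t = 2 := orderOf_eq_prime (by rw [pow_two]; exact htt) ht1
  have hcomm : t * J = J * t := hPcomm t htP J hJ
  have hJtP : J * t ∈ (P : Subgroup G) := (P : Subgroup G).mul_mem hJ htP
  have hJt1 : J * t ≠ 1 := by
    intro h
    have h2 := eq_inv_of_mul_eq_one_right h
    rw [hJinv] at h2
    exact hJt h2.symm
  have hJt2 : orderOf (J * t) = 2 :=
    orderOf_eq_prime (by rw [pow_two]; exact hexp _ hJtP) hJt1
  have h4 := kleinGroup_four_elts (P : Subgroup G) hcard hJ htP hJtP hJ1 ht1 hJt1 hJt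
    (by intro h; exact ht1 (by simpa using h.symm))
    (by intro h; exact hJ1 (by simpa using h.symm))
  obtain ⟨K, hK, hKc, hKd⟩ := kleinGroup_exists_oddSub P hcard hexp {J}
    (by intro x hx; rw [Set.mem_singleton_iff] at hx; rw [hx]; exact hJ) J rfl hJ1
  have hA1 := kleinCount_coset g₀ hg₀ hG hnc P J t hJ2 ht2 hJt hcomm
  have hA2 := kleinCount_coset g₀ hg₀ hG hnc P J (J * t) hJ2 hJt2
    (by intro h; exact ht1 (by simpa using h.symm))
    (by rw [mul_assoc, hcomm])
  have hconv : ∀ (p : G → Prop) [DecidablePred p],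
      Nat.card {v : G // p v} = (Finset.univ.filter p).card := by
    intro p _
    rw [Nat.card_eq_fintype_card, Fintype.card_subtype]
  rw [hconv] at hA1 hA2 ⊢
  have hJC : ∀ x : G, x * J = J * x → x ∈ Subgroup.centralizer ({J} : Set G) := by
    intro x hx
    rw [Subgroup.mem_centralizer_iff]
    intro h hh
    rw [Set.mem_singleton_iff] at hh
    rw [hh]; exact hx.symm
  have hunion : Finset.univ.filter (fun v : G => orderOf v = 2 ∧ v * J = J * v ∧ v ≠ J)
      = Finset.univ.filter (fun v : G => v * v = 1 ∧ v * J = J * v ∧ ¬ 2 ∣ orderOf (t * v))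
        ∪ Finset.univ.filter
          (fun v : G => v * v = 1 ∧ v * J = J * v ∧ ¬ 2 ∣ orderOf (J * t * v)) := by
    ext v
    simp only [Finset.mem_union, Finset.mem_filter, Finset.mem_univ, true_and]
    constructor
    · rintro ⟨hv2, hvJ, hvne⟩
      have hvv : v * v = 1 := by rw [← pow_two, ← hv2]; exact pow_orderOf_eq_one v
      obtain ⟨q, hq, hvq⟩ := hKd v (hJC v hvJ)
      obtain ⟨hvqC, hvqo⟩ := (hK _).mp hvq
      rcases h4 q hq with h | h | h | h
      · rw [h, mul_one, hv2] at hvqo
        exact absurd (dvd_refl 2) hvqo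
      · exfalso
        rw [h] at hvqo
        have h1 : (v * J) ^ 2 = 1 := by
          rw [pow_two]
          calc v * J * (v * J) = v * (J * v) * J := by group
            _ = v * (v * J) * J := by rw [hvJ]
            _ = (v * v) * (J * J) := by group
            _ = 1 := by rw [hvv, hJJ, one_mul]
        have h2 : orderOf (v * J) ∣ 2 := orderOf_dvd_of_pow_eq_one h1
        have h3 : orderOf (v * J) = 1 := by
          rcases (Nat.dvd_prime Nat.prime_two).mp h2 with h | h
          · exact h
          · rw [h] at hvqo; exact absurd (dvd_refl 2) hvqo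
        rw [orderOf_eq_one_iff] at h3
        apply hvne
        have h5 := eq_inv_of_mul_eq_one_left h3
        rw [hJinv] at h5
        exact h5
      · left
        refine ⟨hvv, hvJ, ?_⟩
        rw [h] at hvqo
        have h1 : orderOf (t * (v * t) * t⁻¹) = orderOf (v * t) := (MulAut.conj t).orderOf_eq _
        have h2 : t * (v * t) * t⁻¹ = t * v := by group
        rw [h2] at h1
        rw [h1]; exact hvqo
      · right
        refine ⟨hvv, hvJ, ?_⟩
        rw [h] at hvqo
        have h1 : orderOf (J * t * (v * (J * t)) * (J * t)⁻¹) = orderOf (v * (J * t)) :=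
          (MulAut.conj (J * t)).orderOf_eq _
        have h2 : J * t * (v * (J * t)) * (J * t)⁻¹ = J * t * v := by group
        rw [h2] at h1
        rw [h1]; exact hvqo
    · rintro (⟨hvv, hvJ, hodd⟩ | ⟨hvv, hvJ, hodd⟩)
      · have hv1 : v ≠ 1 := by
          intro h
          rw [h, mul_one, ht2] at hodd
          exact hodd (dvd_refl 2)
        refine ⟨orderOf_eq_prime (by rw [pow_two]; exact hvv) hv1, hvJ, ?_⟩
        intro h
        rw [h, hcomm, hJt2] at hodd
        exact hodd (dvd_refl 2)
      · have hv1 : v ≠ 1 := by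
          intro h
          rw [h, mul_one, hJt2] at hodd
          exact hodd (dvd_refl 2)
        refine ⟨orderOf_eq_prime (by rw [pow_two]; exact hvv) hv1, hvJ, ?_⟩
        intro h
        have e : J * t * J = t := by rw [mul_assoc, hcomm, ← mul_assoc, hJJ, one_mul]
        rw [h, e, ht2] at hodd
        exact hodd (dvd_refl 2)
  have hdisj : Disjoint
      (Finset.univ.filter (fun v : G => v * v = 1 ∧ v * J = J * v ∧ ¬ 2 ∣ orderOf (t * v)))
      (Finset.univ.filter
        (fun v : G => v * v = 1 ∧ v * J = J * v ∧ ¬ 2 ∣ orderOf (J * t * v))) := by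
    rw [Finset.disjoint_left]
    intro v hv1 hv2
    simp only [Finset.mem_filter, Finset.mem_univ, true_and] at hv1 hv2
    obtain ⟨hvv, hvJ, ho1⟩ := hv1
    obtain ⟨-, -, ho2⟩ := hv2
    have h1 : t * v ∈ K := (hK _).mpr ⟨hJC _ (by
      calc t * v * J = t * (v * J) := by group
        _ = (t * J) * v := by rw [hvJ]; group
        _ = J * (t * v) := by rw [hcomm]; group), ho1⟩
    have h2 : J * t * v ∈ K := (hK _).mpr ⟨hJC _ (by
      calc J * t * v * J = J * t * (v * J) := by group
        _ = J * (t * J) * v := by rw [hvJ]; group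
        _ = J * (J * t * v) := by rw [hcomm]; group), ho2⟩
    have h3 : J ∈ K := by
      have h := K.mul_mem h2 (K.inv_mem h1)
      have e : J * t * v * (t * v)⁻¹ = J := by group
      rwa [e] at h
    have h5 := ((hK J).mp h3).2
    rw [hJ2] at h5
    exact h5 (dvd_refl 2)
  rw [hunion, Finset.card_union_of_disjoint hdisj, add_mul, hA1, hA2, two_mul]

/-- **The involution count.** In a group of order `4 * odd` without a normal `2`-complement, with
Sylow `2`-subgroup `P` and an involution `J ∈ P`, the number `T` of involutions `v` such that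
`J * v` has even order satisfies `T * |C(P)|² = 2 * |C(J)|²`. -/
theorem kleinCount_main [Finite G] (g₀ : ℕ) (hg₀ : Odd g₀) (hG : Nat.card G = 4 * g₀)
    (hnc : ¬ ∃ N : Subgroup G, N.Normal ∧ Nat.card N = g₀) (P : Sylow 2 G) (J : G)
    (hJ : J ∈ (P : Subgroup G)) (hJ2 : orderOf J = 2) :
    Nat.card {v : G // orderOf v = 2 ∧ 2 ∣ orderOf (J * v)}
        * Nat.card (Subgroup.centralizer ((P : Subgroup G) : Set G)) ^ 2
      = 2 * Nat.card (Subgroup.centralizer ({J} : Set G)) ^ 2 := by
  classical
  have := Fintype.ofFinite G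
  have : Fact (Nat.Prime 2) := ⟨Nat.prime_two⟩
  have hJ1 : J ≠ 1 := by
    rintro rfl
    rw [orderOf_one] at hJ2
    exact absurd hJ2 (by norm_num)
  have hJJ : J * J = 1 := by rw [← pow_two, ← hJ2]; exact pow_orderOf_eq_one J
  have hJinv : J⁻¹ = J := inv_eq_of_mul_eq_one_left hJJ
  have hexp := (kleinGroup_of_no_complement g₀ hg₀ hG hnc P).1
  have hZ := kleinCount_involutions g₀ hg₀ hG hnc P J hJ hJ2
  have hconv : ∀ (p : G → Prop) [DecidablePred p],
      Nat.card {v : G // p v} = (Finset.univ.filter p).card := by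
    intro p _
    rw [Nat.card_eq_fintype_card, Fintype.card_subtype]
  rw [hconv] at hZ ⊢
  obtain ⟨pp, hpp⟩ : ∃ pp : G → G, ∀ v, Cfsg.IsPPart 2 (J * v) (pp v) :=
    ⟨fun v => Classical.choose (Helper16.exists_isPPart 2 (J * v) (orderOf_pos _)),
      fun v => Classical.choose_spec (Helper16.exists_isPPart 2 (J * v) (orderOf_pos _))⟩
  -- from `v` to its `2`-part
  have hF : ∀ v u : G, orderOf v = 2 → 2 ∣ orderOf (J * v) → Cfsg.IsPPart 2 (J * v) u →
      orderOf u = 2 ∧ u * J = J * u ∧ u ≠ J ∧ v * v = 1 ∧ v * u = u * v ∧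
        ¬ 2 ∣ orderOf (J * u * v) := by
    intro v u hv2 hev hu
    have hvv : v * v = 1 := by rw [← pow_two, ← hv2]; exact pow_orderOf_eq_one v
    have hvinv : v⁻¹ = v := inv_eq_of_mul_eq_one_left hvv
    obtain ⟨i, hi⟩ := Helper16.isPPart_eq_pow hu
    obtain ⟨w, huw, hcommuw, ⟨k, hk⟩, hw⟩ := hu
    have hu1 : u ≠ 1 := by
      intro h
      rw [h, one_mul] at huw
      rw [← huw] at hev
      exact hw hev
    have huu : u * u = 1 := kleinCount_sq_eq_one P hexp u k hk
    have huinv : u⁻¹ = u := inv_eq_of_mul_eq_one_left huu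
    have hu2 : orderOf u = 2 := orderOf_eq_prime (by rw [pow_two]; exact huu) hu1
    have hJu : J * u * J⁻¹ = u := by
      have h1 : J * (J * v) * J⁻¹ = (J * v)⁻¹ := by
        rw [mul_inv_rev, hvinv, hJinv]
        calc J * (J * v) * J = (J * J) * v * J := by group
          _ = v * J := by rw [hJJ, one_mul]
      rw [← hi, ← conj_pow, h1, inv_pow, hi, huinv]
    have hvu : v * u * v⁻¹ = u := by
      have h1 : v * (J * v) * v⁻¹ = (J * v)⁻¹ := by
        rw [mul_inv_rev, hvinv, hJinv]
        calc v * (J * v) * v = v * J * (v * v) := by group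
          _ = v * J := by rw [hvv, mul_one]
      rw [← hi, ← conj_pow, h1, inv_pow, hi, huinv]
    have hJu' : u * J = J * u := by
      calc u * J = J * u * J⁻¹ * J := by rw [hJu]
        _ = J * u := by group
    refine ⟨hu2, hJu', ?_, hvv, ?_, ?_⟩
    · intro h
      rw [h] at huw
      have h2 : w = v := mul_left_cancel huw
      rw [h2, hv2] at hw
      exact hw (dvd_refl 2)
    · calc v * u = v * u * v⁻¹ * v := by group
        _ = u * v := by rw [hvu]
    · have e : J * u * v = w := by
        calc J * u * v = u * (J * v) := by rw [← hJu']; group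
          _ = u * (u * w) := by rw [huw]
          _ = w := by rw [← mul_assoc, huu, one_mul]
      rw [e]; exact hw
  -- from the `2`-part to `v`
  have hB : ∀ v b : G, orderOf b = 2 → b * J = J * b → b ≠ J → v * v = 1 → v * b = b * v →
      ¬ 2 ∣ orderOf (J * b * v) →
      orderOf v = 2 ∧ 2 ∣ orderOf (J * v) ∧ Cfsg.IsPPart 2 (J * v) b := by
    intro v b hb2 hbJ hbne hvv hvb hodd
    have hbb : b * b = 1 := by rw [← pow_two, ← hb2]; exact pow_orderOf_eq_one b
    have hv1 : v ≠ 1 := by
      intro h
      rw [h, mul_one] at hodd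
      apply hodd
      have hJb1 : J * b ≠ 1 := by
        intro h'
        apply hbne
        have h2 := eq_inv_of_mul_eq_one_right h'
        rw [hJinv] at h2
        exact h2
      have hJb2 : (J * b) ^ 2 = 1 := by
        rw [pow_two]
        calc J * b * (J * b) = J * (b * J) * b := by group
          _ = J * (J * b) * b := by rw [hbJ]
          _ = (J * J) * (b * b) := by group
          _ = 1 := by rw [hJJ, hbb, one_mul]
      rw [orderOf_eq_prime hJb2 hJb1]
    have hv2 : orderOf v = 2 := orderOf_eq_prime (by rw [pow_two]; exact hvv) hv1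
    have hpart : Cfsg.IsPPart 2 (J * v) b := by
      refine ⟨J * b * v, ?_, ?_, ⟨1, by rw [hb2, pow_one]⟩, hodd⟩
      · calc b * (J * b * v) = (b * J) * b * v := by group
          _ = J * (b * b) * v := by rw [hbJ]; group
          _ = J * v := by rw [hbb, mul_one]
      · show b * (J * b * v) = J * b * v * b
        calc b * (J * b * v) = (b * J) * b * v := by group
          _ = J * b * (b * v) := by rw [hbJ]; group
          _ = J * b * v * b := by rw [← hvb]; group
    refine ⟨hv2, ?_, hpart⟩
    obtain ⟨i, hi⟩ := Helper16.isPPart_eq_pow hpart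
    have h := orderOf_pow_dvd (x := J * v) i
    rw [hi, hb2] at h
    exact h
  -- the fibres
  have hmaps : Set.MapsTo pp
      ↑(Finset.univ.filter (fun v : G => orderOf v = 2 ∧ 2 ∣ orderOf (J * v)))
      ↑(Finset.univ.filter (fun v : G => orderOf v = 2 ∧ v * J = J * v ∧ v ≠ J)) := by
    intro v hv
    simp only [Finset.coe_filter, Finset.mem_univ, true_and, Set.mem_ofPred_eq] at hv ⊢
    obtain ⟨h1, h2, h3, -⟩ := hF v (pp v) hv.1 hv.2 (hpp v)
    exact ⟨h1, h2, h3⟩
  have hfib : ∀ b ∈ Finset.univ.filter (fun v : G => orderOf v = 2 ∧ v * J = J * v ∧ v ≠ J),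
      ((Finset.univ.filter (fun v : G => orderOf v = 2 ∧ 2 ∣ orderOf (J * v))).filter
          (fun a => pp a = b)).card
        * Nat.card (Subgroup.centralizer ((P : Subgroup G) : Set G))
      = Nat.card (Subgroup.centralizer ({J} : Set G)) := by
    intro b hb
    simp only [Finset.mem_filter, Finset.mem_univ, true_and] at hb
    obtain ⟨hb2, hbJ, hbne⟩ := hb
    have hbb : b * b = 1 := by rw [← pow_two, ← hb2]; exact pow_orderOf_eq_one b
    have hJb1 : J * b ≠ 1 := by
      intro h'
      apply hbne
      have h2 := eq_inv_of_mul_eq_one_right h'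
      rw [hJinv] at h2
      exact h2
    have hJb2 : (J * b) ^ 2 = 1 := by
      rw [pow_two]
      calc J * b * (J * b) = J * (b * J) * b := by group
        _ = J * (J * b) * b := by rw [hbJ]
        _ = (J * J) * (b * b) := by group
        _ = 1 := by rw [hJJ, hbb, one_mul]
    have hc := kleinCount_coset g₀ hg₀ hG hnc P b (J * b) hb2 (orderOf_eq_prime hJb2 hJb1)
      (by intro h; exact hJ1 (by simpa using h.symm))
      (by rw [← mul_assoc b J b, hbJ])
    rw [hconv] at hc
    have hset : (Finset.univ.filter (fun v : G => orderOf v = 2 ∧ 2 ∣ orderOf (J * v))).filter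
        (fun a => pp a = b)
        = Finset.univ.filter
          (fun v : G => v * v = 1 ∧ v * b = b * v ∧ ¬ 2 ∣ orderOf (J * b * v)) := by
      ext v
      simp only [Finset.mem_filter, Finset.mem_univ, true_and]
      constructor
      · rintro ⟨⟨hv2, hev⟩, hppv⟩
        have h := hF v b hv2 hev (hppv ▸ hpp v)
        exact ⟨h.2.2.2.1, h.2.2.2.2.1, h.2.2.2.2.2⟩
      · rintro ⟨hvv, hvb, hodd⟩
        obtain ⟨h1, h2, h3⟩ := hB v b hb2 hbJ hbne hvv hvb hodd
        exact ⟨⟨h1, h2⟩, Helper16.isPPart_unique (hpp v) h3⟩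
    rw [hset, hc]
    obtain ⟨c, hc'⟩ := isConj_iff.mp (kleinGroup_one_class g₀ hg₀ hG hnc P J hJ hJ1 b hb2)
    have h := kleinGroup_card_centralizer_conj c ({b} : Set G)
    rw [Set.image_singleton, hc'] at h
    exact h.symm
  rw [Finset.card_eq_sum_card_fiberwise hmaps, pow_two, ← mul_assoc, Finset.sum_mul,
    Finset.sum_congr rfl hfib, Finset.sum_const, smul_eq_mul]
  calc (Finset.univ.filter (fun v : G => orderOf v = 2 ∧ v * J = J * v ∧ v ≠ J)).card
          * Nat.card (Subgroup.centralizer ({J} : Set G))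
          * Nat.card (Subgroup.centralizer ((P : Subgroup G) : Set G))
        = (Finset.univ.filter (fun v : G => orderOf v = 2 ∧ v * J = J * v ∧ v ≠ J)).card
          * Nat.card (Subgroup.centralizer ((P : Subgroup G) : Set G))
          * Nat.card (Subgroup.centralizer ({J} : Set G)) := by ring
    _ = 2 * Nat.card (Subgroup.centralizer ({J} : Set G)) ^ 2 := by rw [hZ]; ring

end Cfsg.Agent.Helper82
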