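import Cfsg.Agent.Helper82.KleinRank
import Cfsg.Agent.Helper82.SectionDecomp
import Cfsg.Agent.Helper16.SecondMain
import Cfsg.Agent.Helper77.BlockIdem
import Cfsg.Agent.Helper77.PRegular

/-!
# Character-theoretic involution count for a Klein four Sylow `2`-subgroup (helper82)

For a group with a Klein four Sylow `2`-subgroup and one class of involutions, the principal block
characters are constant on the `2`-singular elements, a quarter of the elements are `2`-singular,
and the number of involutions `v` with `J * v` of even order is given by the principal block.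
-/

set_option autoImplicit false
open Cfsg
open scoped ComplexConjugate

namespace Cfsg.Agent.Helper82

universe u

variable {G : Type u} [Group G] [Fintype G]

/-- Values of the principal `2`-block on `2`-singular elements and the number of `2`-singular
elements, for a Klein four Sylow `2`-subgroup with one class of involutions. -/
theorem kleinOrder_sing (M : Ideal Cfsg.AlgInt) (hM : Cfsg.IsPModular 2 M) (P : Sylow 2 G)
    (hPcard : Nat.card (P : Subgroup G) = 4) (hPexp : ∀ x ∈ (P : Subgroup G), x * x = 1)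
    (hone : ∀ s t : G, orderOf s = 2 → orderOf t = 2 → IsConj s t)
    (z : G) (hzP : z ∈ (P : Subgroup G)) (hz2 : orderOf z = 2) :
    (∀ χ ∈ Cfsg.principalBlock M G, ∀ g : G, 2 ∣ orderOf g → (χ : G → ℂ) g = (χ : G → ℂ) z) ∧
      (Nat.card G : ℂ) = 4 * ∑ g : G, if 2 ∣ orderOf g then (1 : ℂ) else 0 := by
  classical
  have hp2 : (2 : ℕ).Prime := hM.1
  have : Fact (Nat.Prime 2) := ⟨hp2⟩
  have := Fintype.ofFinite (Cfsg.IrrCharacter G)
  have hMp : M.IsPrime := Helper81.isPrime_of_isPModular hM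
  have hz1 : z ≠ 1 := by
    rintro rfl
    rw [orderOf_one] at hz2
    exact absurd hz2 (by norm_num)
  have hKlein : IsKleinFour (P : Subgroup G) := by
    refine ⟨hPcard, ?_⟩
    have hdvd : Monoid.exponent (P : Subgroup G) ∣ 2 := by
      apply Monoid.exponent_dvd_of_forall_pow_eq_one
      intro g
      rw [pow_two]
      exact Subtype.ext (hPexp g g.2)
    have hne : Monoid.exponent (P : Subgroup G) ≠ 1 := by
      intro h1
      rw [Monoid.exp_eq_one_iff] at h1
      have h2 : Nat.card (P : Subgroup G) ≤ 1 := Finite.card_le_one_iff_subsingleton.mpr h1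
      omega
    rcases (Nat.dvd_prime Nat.prime_two).mp hdvd with h | h
    · exact absurd h hne
    · exact h
  obtain ⟨ζ₂, ζ₃, ζ₄, ε, hε, h2, h3, h23, h24, h34, hBeq, hval, -, -, -, hrel⟩ :=
    Helper81.klein_four_principalBlock M hM P hKlein hone
  have hinv : ∀ x ∈ (P : Subgroup G), x⁻¹ = x := fun x hx => inv_eq_of_mul_eq_one_left (hPexp x hx)
  have hPcomm : ∀ x ∈ (P : Subgroup G), ∀ y ∈ (P : Subgroup G), x * y = y * x := by
    intro x hx y hy
    have h1 := hinv (x * y) ((P : Subgroup G).mul_mem hx hy)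
    rw [mul_inv_rev, hinv x hx, hinv y hy] at h1
    exact h1.symm
  have hPH : (P : Subgroup G) ≤ Subgroup.centralizer ({z} : Set G) := by
    intro x hx
    rw [Subgroup.mem_centralizer_iff]
    intro s hs
    rw [Set.mem_singleton_iff] at hs
    rw [hs]
    exact hPcomm z hzP x hx
  have : Fintype (Subgroup.centralizer ({z} : Set G)) := Fintype.ofFinite _
  have hzH : z ∈ Subgroup.centralizer ({z} : Set G) := hPH hzP
  -- the centralizer of `z` has a normal `2`-complement
  have hK : ∃ k : ℕ, (Cfsg.pPrimeCore 2 (Subgroup.centralizer ({z} : Set G))).index = 2 ^ k := by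
    apply Helper81.exists_index_pPrimeCore_of_normalizer_le (P.subtype hPH)
    apply Helper81.normalizer_le_centralizer_of_klein (P.subtype hPH) ?_ ?_ ⟨z, hzH⟩ ?_ ?_ ?_
    · rw [Sylow.coe_subtype, Nat.card_congr (Subgroup.subgroupOfEquivOfLe hPH).toEquiv, hPcard]
    · intro x hx
      rw [Sylow.coe_subtype, Subgroup.mem_subgroupOf] at hx
      exact Subtype.ext (hPexp x hx)
    · rw [Sylow.coe_subtype, Subgroup.mem_subgroupOf]; exact hzP
    · intro h; exact hz1 (congrArg Subtype.val h)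
    · intro g; exact Subtype.ext (Subgroup.mem_centralizer_iff.mp g.2 z rfl).symm
  -- membership
  have hmem1 : Helper81.trivIrr G ∈ Cfsg.principalBlock M G := Helper81.trivIrr_mem_principalBlock
  have hmem2 : ζ₂ ∈ Cfsg.principalBlock M G := by rw [hBeq]; exact Or.inr (Or.inl rfl)
  have hmem3 : ζ₃ ∈ Cfsg.principalBlock M G := by rw [hBeq]; exact Or.inr (Or.inr (Or.inl rfl))
  have hmem4 : ζ₄ ∈ Cfsg.principalBlock M G := by rw [hBeq]; exact Or.inr (Or.inr (Or.inr rfl))
  -- the values on the `2`-singular elements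
  have hsing : ∀ χ ∈ Cfsg.principalBlock M G, ∀ g : G, 2 ∣ orderOf g →
      (χ : G → ℂ) g = (χ : G → ℂ) z := by
    intro χ hχ g hg
    obtain ⟨u, hu⟩ := Helper16.exists_isPPart 2 g (orderOf_pos g)
    obtain ⟨w, huw, hcomm, ⟨k, hk⟩, hw⟩ := hu
    have hu1 : u ≠ 1 := by
      intro h
      rw [h, one_mul] at huw
      rw [← huw] at hg
      exact hw hg
    have hu2 : orderOf u = 2 := by
      have hpg : IsPGroup 2 (Subgroup.zpowers u) :=
        IsPGroup.of_card (n := k) (by rw [Nat.card_zpowers, hk])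
      obtain ⟨Q, hQ⟩ := hpg.exists_le_sylow
      obtain ⟨c, hc⟩ := MulAction.exists_smul_eq G P Q
      have huQ : u ∈ (Q : Subgroup G) := hQ (Subgroup.mem_zpowers u)
      rw [← hc, Sylow.smul_def, Sylow.pointwise_smul_def,
        Subgroup.mem_pointwise_smul_iff_inv_smul_mem] at huQ
      have huP : c⁻¹ * u * c ∈ (P : Subgroup G) := by
        simpa [MulAut.smul_def, MulAut.conj_inv_apply] using huQ
      have h1 := hPexp _ huP
      have h2' : u * u = 1 := by
        have h3' : u * u = c * (c⁻¹ * u * c * (c⁻¹ * u * c)) * c⁻¹ := by group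
        rw [h3', h1]; group
      exact orderOf_eq_prime (by rw [pow_two]; exact h2') hu1
    obtain ⟨c, hc⟩ := isConj_iff.mp (hone u z hu2 hz2)
    have hyC : c * w * c⁻¹ ∈ Subgroup.centralizer ({z} : Set G) := by
      rw [Subgroup.mem_centralizer_iff]
      intro s hs
      rw [Set.mem_singleton_iff] at hs
      rw [hs, ← hc]
      have h1 : u * w = w * u := hcomm
      calc c * u * c⁻¹ * (c * w * c⁻¹) = c * (u * w) * c⁻¹ := by group
        _ = c * (w * u) * c⁻¹ := by rw [h1]
        _ = c * w * c⁻¹ * (c * u * c⁻¹) := by group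
    have hyord : ¬ 2 ∣ orderOf (⟨c * w * c⁻¹, hyC⟩ : Subgroup.centralizer ({z} : Set G)) := by
      rw [← Subgroup.orderOf_coe]
      have h1 : orderOf (c * w * c⁻¹) = orderOf w := (MulAut.conj c).orderOf_eq w
      show ¬ 2 ∣ orderOf (c * w * c⁻¹)
      rw [h1]; exact hw
    have h1 := Helper82.principalBlock_section_const hM z ⟨1, by rw [hz2, pow_one]⟩ hK
      ⟨c * w * c⁻¹, hyC⟩ hyord χ hχ
    have h2' : c * g * c⁻¹ = z * (c * w * c⁻¹) := by rw [← huw, ← hc]; group
    rw [← Helper81.irr_conj χ g c, h2']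
    exact h1
  refine ⟨hsing, ?_⟩
  -- the number of `2`-singular elements
  obtain ⟨Ns, hNs⟩ : ∃ Ns : ℂ, Ns = ∑ g : G, if 2 ∣ orderOf g then (1 : ℂ) else 0 := ⟨_, rfl⟩
  rw [← hNs]
  have hsumsing : ∀ χ ∈ Cfsg.principalBlock M G,
      ∑ g : G, (if 2 ∣ orderOf g then (χ : G → ℂ) g else 0) = Ns * (χ : G → ℂ) z := by
    intro χ hχ
    rw [hNs, Finset.sum_mul]
    refine Finset.sum_congr rfl fun g _ => ?_
    by_cases hg : 2 ∣ orderOf g
    · rw [if_pos hg, if_pos hg, one_mul, hsing χ hχ g hg]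
    · rw [if_neg hg, if_neg hg, zero_mul]
  have hsplit : ∀ f : G → ℂ, ∑ g : G, (if ¬ 2 ∣ orderOf g then f g else 0)
      = ∑ g : G, f g - ∑ g : G, (if 2 ∣ orderOf g then f g else 0) := by
    intro f
    rw [← Finset.sum_sub_distrib]
    refine Finset.sum_congr rfl fun g _ => ?_
    by_cases hg : 2 ∣ orderOf g
    · rw [if_neg (not_not.mpr hg), if_pos hg, sub_self]
    · rw [if_pos hg, if_neg hg, sub_zero]
  -- the values at `z`
  have hv1 : (Helper81.trivIrr G : G → ℂ) z = 1 := rfl
  have hv2 := (hval z hz2).1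
  have hv3 := (hval z hz2).2.1
  have hv4 := (hval z hz2).2.2
  have hεsq : (ε : ℂ) * (ε : ℂ) = 1 := by
    rcases hε with h | h <;> rw [h] <;> push_cast <;> ring
  have h4 : (ζ₄ : G → ℂ) ≠ (fun _ => 1) := by
    intro h
    rw [h] at hv4
    norm_num at hv4
  have h14 : Helper81.trivIrr G ≠ ζ₄ := fun h => h4 (by rw [← h]; rfl)
  have h12 : Helper81.trivIrr G ≠ ζ₂ := fun h => h2 (by rw [← h]; rfl)
  have h13 : Helper81.trivIrr G ≠ ζ₃ := fun h => h3 (by rw [← h]; rfl)
  -- sums over the whole group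
  have hfull1 : ∑ g : G, (Helper81.trivIrr G : G → ℂ) g = (Nat.card G : ℂ) := by
    simp only [Helper81.trivIrr_apply]
    rw [Finset.sum_const, Finset.card_univ, nsmul_eq_mul, mul_one, Nat.card_eq_fintype_card]
  have hfull : ∀ χ : Cfsg.IrrCharacter G, χ ≠ Helper81.trivIrr G →
      ∑ g : G, (χ : G → ℂ) g = 0 := by
    intro χ hχ
    have h := Helper80.irr_orthogonality_conj χ (Helper81.trivIrr G)
    rw [if_neg hχ] at h
    rw [← h]
    refine Finset.sum_congr rfl fun g _ => ?_
    rw [Helper81.trivIrr_apply, map_one, mul_one]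
  -- the relation on the odd order elements, summed
  have h0 : ∑ g : G, (if ¬ 2 ∣ orderOf g then
      (1 + (ζ₂ : G → ℂ) g + (ε : ℂ) * (ζ₃ : G → ℂ) g - (ζ₄ : G → ℂ) g) else 0) = 0 := by
    apply Finset.sum_eq_zero
    intro g _
    by_cases hg : 2 ∣ orderOf g
    · rw [if_neg (not_not.mpr hg)]
    · rw [if_pos hg]
      exact hrel g (Nat.odd_iff.mpr (Nat.two_dvd_ne_zero.mp hg))
  have h1 : ∀ g : G, (if ¬ 2 ∣ orderOf g then
      (1 + (ζ₂ : G → ℂ) g + (ε : ℂ) * (ζ₃ : G → ℂ) g - (ζ₄ : G → ℂ) g) else 0)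
      = (if ¬ 2 ∣ orderOf g then (Helper81.trivIrr G : G → ℂ) g else 0)
        + (if ¬ 2 ∣ orderOf g then (ζ₂ : G → ℂ) g else 0)
        + (ε : ℂ) * (if ¬ 2 ∣ orderOf g then (ζ₃ : G → ℂ) g else 0)
        - (if ¬ 2 ∣ orderOf g then (ζ₄ : G → ℂ) g else 0) := by
    intro g
    by_cases hg : 2 ∣ orderOf g
    · simp only [if_neg (not_not.mpr hg)]; ring
    · simp only [if_pos hg, Helper81.trivIrr_apply]
  simp only [h1, Finset.sum_add_distrib, Finset.sum_sub_distrib, ← Finset.mul_sum] at h0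
  rw [hsplit, hsplit, hsplit, hsplit, hsumsing _ hmem1, hsumsing _ hmem2, hsumsing _ hmem3,
    hsumsing _ hmem4, hfull1, hfull ζ₂ h12.symm, hfull ζ₃ h13.symm, hfull ζ₄ h14.symm,
    hv1, hv2, hv3, hv4] at h0
  linear_combination h0 + Ns * hεsq

/-- **The character-theoretic involution count.** For a group with a Klein four Sylow
`2`-subgroup and one class of involutions, and an involution `J`: `|C(J)|` times the number of
involutions `v` with `J * v` of even order is `|G|/4` times the sum of `χ(J)³/χ(1)` over the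
principal `2`-block. -/
theorem kleinOrder_char_count (M : Ideal Cfsg.AlgInt) (hM : Cfsg.IsPModular 2 M) (P : Sylow 2 G)
    (hPcard : Nat.card (P : Subgroup G) = 4) (hPexp : ∀ x ∈ (P : Subgroup G), x * x = 1)
    (hone : ∀ s t : G, orderOf s = 2 → orderOf t = 2 → IsConj s t)
    (J : G) (hJP : J ∈ (P : Subgroup G)) (hJ2 : orderOf J = 2) :
    4 * (Nat.card (Subgroup.centralizer ({J} : Set G)) : ℂ)
        * (Nat.card {v : G // orderOf v = 2 ∧ 2 ∣ orderOf (J * v)} : ℂ)
      = (Nat.card G : ℂ)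
        * ∑ᶠ χ ∈ Cfsg.principalBlock M G, (χ : G → ℂ) J ^ 3 / (χ : G → ℂ) 1 := by
  classical
  have hp2 : (2 : ℕ).Prime := hM.1
  have : Fact (Nat.Prime 2) := ⟨hp2⟩
  have := Fintype.ofFinite (Cfsg.IrrCharacter G)
  have hMp : M.IsPrime := Helper81.isPrime_of_isPModular hM
  obtain ⟨hsing, hNs⟩ := kleinOrder_sing M hM P hPcard hPexp hone J hJP hJ2
  have hB₀ : Cfsg.IsPBlock M (Cfsg.principalBlock M G) := ⟨Helper81.trivIrr G, rfl⟩
  have hmem1 : Helper81.trivIrr G ∈ Cfsg.principalBlock M G := Helper81.trivIrr_mem_principalBlock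
  have hJJ : J * J = 1 := by rw [← pow_two, ← hJ2]; exact pow_orderOf_eq_one J
  have hJinv : J⁻¹ = J := inv_eq_of_mul_eq_one_left hJJ
  obtain ⟨u, hu⟩ : ∃ u : G → ℂ, u = fun g => if 2 ∣ orderOf g then (1 : ℂ) else 0 := ⟨_, rfl⟩
  have huc : Cfsg.IsClassFunction G u := by
    intro g h
    rw [hu]
    beta_reduce
    have h1 : orderOf (h * g * h⁻¹) = orderOf g := (MulAut.conj h).orderOf_eq g
    rw [h1]
  obtain ⟨Ns, hNsdef⟩ : ∃ Ns : ℂ, Ns = ∑ g : G, if 2 ∣ orderOf g then (1 : ℂ) else 0 := ⟨_, rfl⟩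
  rw [← hNsdef] at hNs
  -- the sums over the singular elements
  have hSg : ∀ ψ : Cfsg.IrrCharacter G, ∑ g : G, u g * (ψ : G → ℂ) g
      = if ψ ∈ Cfsg.principalBlock M G then Ns * (ψ : G → ℂ) J else 0 := by
    intro ψ
    have e : ∀ g : G, u g * (ψ : G → ℂ) g = if 2 ∣ orderOf g then (ψ : G → ℂ) g else 0 := by
      intro g
      rw [hu]
      beta_reduce
      by_cases hg : 2 ∣ orderOf g
      · rw [if_pos hg, if_pos hg, one_mul]
      · rw [if_neg hg, if_neg hg, zero_mul]
    simp only [e]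
    by_cases hψ : ψ ∈ Cfsg.principalBlock M G
    · rw [if_pos hψ, hNsdef, Finset.sum_mul]
      refine Finset.sum_congr rfl fun g _ => ?_
      by_cases hg : 2 ∣ orderOf g
      · rw [if_pos hg, if_pos hg, one_mul, hsing ψ hψ g hg]
      · rw [if_neg hg, if_neg hg, zero_mul]
    · rw [if_neg hψ]
      have hne : ψ ≠ Helper81.trivIrr G := fun h => hψ (h ▸ hmem1)
      have h1 : ∑ g : G, (ψ : G → ℂ) g = 0 := by
        have h := Helper80.irr_orthogonality_conj ψ (Helper81.trivIrr G)
        rw [if_neg hne] at h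
        rw [← h]
        refine Finset.sum_congr rfl fun g _ => ?_
        rw [Helper81.trivIrr_apply, map_one, mul_one]
      have h2 := Helper77.pregInner_eq_zero hM hB₀ hψ hmem1
      rw [Helper77.pregInner] at h2
      have h3 : ∑ g : G, (if 2 ∣ orderOf g then (ψ : G → ℂ) g else 0)
          = ∑ g : G, (ψ : G → ℂ) g - ∑ x : G, (if ¬ 2 ∣ orderOf x then
            (ψ : G → ℂ) x * conj ((Helper81.trivIrr G : G → ℂ) x) else 0) := by
        rw [← Finset.sum_sub_distrib]
        refine Finset.sum_congr rfl fun g _ => ?_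
        by_cases hg : 2 ∣ orderOf g
        · rw [if_pos hg, if_neg (not_not.mpr hg), sub_zero]
        · rw [if_neg hg, if_pos hg, Helper81.trivIrr_apply, map_one, mul_one, sub_self]
      rw [h3, h1, h2, sub_zero]
  -- the Fourier expansion
  have key := Helper16.sum_conj_eq_sum_irr u J J
  have hR : ∀ ψ : Cfsg.IrrCharacter G, (ψ : G → ℂ) J * ∑ x : G, u x * (ψ : G → ℂ) (J * x)
      = if ψ ∈ Cfsg.principalBlock M G then Ns * ((ψ : G → ℂ) J ^ 3 / (ψ : G → ℂ) 1) else 0 := by
    intro ψ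
    have e1 : ∑ x : G, u x * (ψ : G → ℂ) (J * x) = ∑ x : G, u x * (ψ : G → ℂ) (x * J) :=
      Finset.sum_congr rfl fun x _ => by rw [Helper81.irr_mul_comm]
    rw [e1, Helper77.sum_mul_irr_mul ψ huc J, Helper81.omega, hSg]
    by_cases hψ : ψ ∈ Cfsg.principalBlock M G
    · rw [if_pos hψ, if_pos hψ]; ring
    · rw [if_neg hψ, if_neg hψ, zero_div, zero_mul, mul_zero]
  rw [Finset.sum_congr rfl (fun ψ _ => hR ψ)] at key
  -- the left side
  have hL : ∑ γ : G, u (J⁻¹ * γ⁻¹ * J⁻¹ * γ)
      = (Nat.card (Subgroup.centralizer ({J} : Set G)) : ℂ)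
        * (Nat.card {v : G // orderOf v = 2 ∧ 2 ∣ orderOf (J * v)} : ℂ) := by
    have e1 : ∀ γ : G, u (J⁻¹ * γ⁻¹ * J⁻¹ * γ)
        = ∑ v : G, (if γ * v * γ⁻¹ = J then u (J * v) else 0) := by
      intro γ
      rw [Finset.sum_eq_single (γ⁻¹ * J * γ)]
      · rw [if_pos (by group), hJinv]
        congr 1
        group
      · intro v _ hv
        rw [if_neg]
        intro h
        apply hv
        rw [← h]; group
      · intro h; exact absurd (Finset.mem_univ _) h
    simp only [e1]
    rw [Finset.sum_comm]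
    have e2 : ∀ v : G, ∑ γ : G, (if γ * v * γ⁻¹ = J then u (J * v) else 0)
        = (Nat.card (Subgroup.centralizer ({J} : Set G)) : ℂ)
          * (if orderOf v = 2 ∧ 2 ∣ orderOf (J * v) then 1 else 0) := by
      intro v
      have h1 : ∀ γ : G, (if γ * v * γ⁻¹ = J then u (J * v) else 0)
          = (if γ * v * γ⁻¹ = J then (1 : ℂ) else 0) * u (J * v) := by
        intro γ
        by_cases h : γ * v * γ⁻¹ = J
        · rw [if_pos h, if_pos h, one_mul]
        · rw [if_neg h, if_neg h, zero_mul]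
      simp only [h1]
      rw [← Finset.sum_mul, Helper82.sum_conjugators J v]
      by_cases hv : orderOf v = 2
      · rw [if_pos (hone v J hv hJ2), hu]
        beta_reduce
        by_cases h2 : 2 ∣ orderOf (J * v)
        · rw [if_pos h2, if_pos ⟨hv, h2⟩]
        · rw [if_neg h2, if_neg (fun h => h2 h.2)]
      · have hnc : ¬ IsConj v J := by
          intro h
          obtain ⟨c, hc⟩ := isConj_iff.mp h
          apply hv
          rw [← hJ2, ← hc]
          exact ((MulAut.conj c).orderOf_eq v).symm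
        rw [if_neg hnc, if_neg (fun h => hv h.1), zero_mul, mul_zero]
    simp only [e2]
    rw [← Finset.mul_sum]
    congr 1
    rw [Nat.card_eq_fintype_card, Fintype.card_subtype, Finset.card_filter]
    push_cast
    rfl
  rw [hL] at key
  -- conclusion
  have hfs : ∑ᶠ χ ∈ Cfsg.principalBlock M G, (χ : G → ℂ) J ^ 3 / (χ : G → ℂ) 1
      = ∑ ψ : Cfsg.IrrCharacter G, if ψ ∈ Cfsg.principalBlock M G then
          (ψ : G → ℂ) J ^ 3 / (ψ : G → ℂ) 1 else 0 := by
    rw [finsum_mem_eq_finite_toFinset_sum _ (Set.toFinite _),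
      ← Finset.sum_filter (fun ψ : Cfsg.IrrCharacter G => ψ ∈ Cfsg.principalBlock M G)
        (fun ψ => (ψ : G → ℂ) J ^ 3 / (ψ : G → ℂ) 1)]
    refine Finset.sum_congr ?_ (fun _ _ => rfl)
    ext χ
    simp
  rw [hfs, hNs, mul_assoc 4, key, mul_assoc]
  congr 1
  rw [Finset.mul_sum]
  refine Finset.sum_congr rfl fun ψ _ => ?_
  by_cases hψ : ψ ∈ Cfsg.principalBlock M G
  · rw [if_pos hψ, if_pos hψ]
  · rw [if_neg hψ, if_neg hψ, mul_zero]

end Cfsg.Agent.Helper82
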