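import Mathlib
import Cfsg.Agent.S4479
import Cfsg.Agent.Helper82.KleinArith
import Cfsg.Agent.Helper82.SimpleDeg
import Cfsg.Agent.Helper3.Burnside2

/-!
# Simple groups of order `4 * p ^ a * q ^ b` (helper82)

`kpq_main`: a nonabelian simple group of order `4 * p ^ a * q ^ b` with `p ≠ q` odd primes has
order `60`.  The proof uses the principal `2`-block for a Klein four Sylow `2`-subgroup and the
order formula `|G| = 8 α c(J)³ / c(P)²`.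
-/

set_option autoImplicit false
open Cfsg

namespace Cfsg.Agent.Helper82

universe u

variable {G : Type u} [Group G] [Finite G]

/-- An odd number dividing `2 ^ k * m` divides `m`. -/
theorem kpq_odd_dvd (e k m : ℕ) (he : Odd e) (h : e ∣ 2 ^ k * m) : e ∣ m := by
  have hcop : Nat.Coprime e (2 ^ k) := Nat.Coprime.pow_right k (Nat.coprime_two_right.mpr he)
  exact hcop.dvd_of_dvd_mul_left h

/-- The half `(d + ε) / 2` of a degree `d ≡ ε (mod 4)`. -/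
theorem kpq_half (d : ℕ) (ε : ℤ) (hε : ε = 1 ∨ ε = -1) (hd : 2 ≤ d)
    (h4 : (4 : ℤ) ∣ (d : ℤ) - ε) :
    Odd d ∧ ∃ e : ℕ, Odd e ∧ (d : ℤ) + ε = 2 * e := by
  obtain ⟨w, hw⟩ := h4
  rcases hε with h | h <;> subst h
  · refine ⟨?_, (2 * w + 1).toNat, ?_, ?_⟩
    · rw [Nat.odd_iff]; omega
    · rw [Nat.odd_iff]; omega
    · have : (0 : ℤ) ≤ 2 * w + 1 := by omega
      rw [Int.toNat_of_nonneg this]
      omega
  · refine ⟨?_, (2 * w - 1).toNat, ?_, ?_⟩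
    · rw [Nat.odd_iff]; omega
    · rw [Nat.odd_iff]; omega
    · have : (0 : ℤ) ≤ 2 * w - 1 := by omega
      rw [Int.toNat_of_nonneg this]
      omega

/-- A nonabelian simple group of order `4 * p ^ a * q ^ b`, `p ≠ q` odd primes, has order `60`. -/
theorem kpq_main [IsSimpleGroup G] (hnc : ¬ ∀ a b : G, a * b = b * a) (p q a b : ℕ)
    (hp : p.Prime) (hq : q.Prime) (hpq : p ≠ q) (hp2 : p ≠ 2) (hq2 : q ≠ 2)
    (hG : Nat.card G = 4 * p ^ a * q ^ b) : Nat.card G = 60 := by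
  classical
  have := Fintype.ofFinite G
  have := Fintype.ofFinite (IrrCharacter G)
  have : Fact (Nat.Prime 2) := ⟨Nat.prime_two⟩
  have hpodd : Odd p := hp.odd_of_ne_two hp2
  have hqodd : Odd q := hq.odd_of_ne_two hq2
  obtain ⟨g₀, hg₀def⟩ : ∃ g₀ : ℕ, g₀ = p ^ a * q ^ b := ⟨_, rfl⟩
  have hg₀ : Odd g₀ := by
    rw [hg₀def]
    exact (hpodd.pow).mul (hqodd.pow)
  have hG' : Nat.card G = 4 * g₀ := by rw [hG, hg₀def, mul_assoc]
  have hg₀pos : 0 < g₀ := hg₀.pos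
  -- no normal `2`-complement
  have hncomp : ¬ ∃ N : Subgroup G, N.Normal ∧ Nat.card N = g₀ := by
    rintro ⟨N, hN, hNcard⟩
    rcases hN.eq_bot_or_eq_top with h | h
    · rw [h, Subgroup.card_bot] at hNcard
      have hsolv : Group.IsSolvable G :=
        Helper3.isSolvable_of_card_eq 2 3 2 0 Nat.prime_two Nat.prime_three
          (by rw [hG', ← hNcard]; norm_num)
      exact hnc (IsSimpleGroup.comm_iff_isSolvable.mpr hsolv)
    · rw [h, Subgroup.card_top, hG'] at hNcard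
      omega
  obtain ⟨M, hM⟩ := Helper78.exists_isPModular 2 Nat.prime_two
  obtain ⟨P⟩ : Nonempty (Sylow 2 G) := inferInstance
  have hPcard := kleinGroup_card_sylow g₀ hg₀ hG' P
  have hPexp := (kleinGroup_of_no_complement g₀ hg₀ hG' hncomp P).1
  obtain ⟨J, hJP, hJ1⟩ : ∃ z ∈ (P : Subgroup G), z ≠ 1 := by
    by_contra hcon
    push Not at hcon
    have h : (P : Subgroup G) = ⊥ := (Subgroup.eq_bot_iff_forall _).mpr hcon
    rw [h, Subgroup.card_bot] at hPcard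
    norm_num at hPcard
  have hJ2 : orderOf J = 2 := orderOf_eq_prime (by rw [pow_two]; exact hPexp J hJP) hJ1
  have hone : ∀ s t : G, orderOf s = 2 → orderOf t = 2 → IsConj s t := by
    intro s t hs ht
    exact (kleinGroup_one_class g₀ hg₀ hG' hncomp P J hJP hJ1 s hs).trans
      (kleinGroup_one_class g₀ hg₀ hG' hncomp P J hJP hJ1 t ht).symm
  have hKlein : IsKleinFour (P : Subgroup G) := by
    refine ⟨hPcard, ?_⟩
    have hdvd : Monoid.exponent (P : Subgroup G) ∣ 2 := by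
      apply Monoid.exponent_dvd_of_forall_pow_eq_one
      intro g
      rw [pow_two]
      exact Subtype.ext (hPexp g g.2)
    have hne : Monoid.exponent (P : Subgroup G) ≠ 1 := by
      intro h1
      rw [Monoid.exp_eq_one_iff] at h1
      have h2 : Nat.card (P : Subgroup G) ≤ 1 := Finite.card_le_one_iff_subsingleton.mpr h1
      omega
    rcases (Nat.dvd_prime Nat.prime_two).mp hdvd with h | h
    · exact absurd h hne
    · exact h
  obtain ⟨ζ₂, ζ₃, ζ₄, ε, hε, h2, h3, h23, h24, h34, hBeq, hval, hm2, hm3, hm4, hrel⟩ :=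
    Helper81.klein_four_principalBlock M hM P hKlein hone
  obtain ⟨hv2, hv3, hv4⟩ := hval J hJ2
  have h4 : (ζ₄ : G → ℂ) ≠ (fun _ => 1) := by
    intro h
    have h' := congrFun h J
    rw [hv4] at h'
    norm_num at h'
  have hform := Cfsg.Agent.S4479.result M hM g₀ hg₀ hG' hncomp P J hJP hJ2 ζ₂ ζ₃ ζ₄ 1 ε (-1) hBeq
    ⟨h2, h3, h4, h23, h24, h34⟩ ⟨Or.inl rfl, hε, Or.inr rfl⟩
    ⟨by rw [hv2]; norm_num, hv3, by rw [hv4]; norm_num⟩
  have hrel1 := hrel 1 (by rw [orderOf_one]; exact odd_one)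
  rw [Helper81.irr_one_eq_charDegree, Helper81.irr_one_eq_charDegree,
    Helper81.irr_one_eq_charDegree] at hrel1
  have hdeg : ∀ ζ : IrrCharacter G, (ζ : G → ℂ) ≠ (fun _ => 1) →
      2 ≤ charDegree (ζ : G → ℂ) := by
    intro ζ hζ
    have h1 := Helper81.charDegree_pos ζ
    by_contra hlt
    exact hζ (Helper79.simple_irr_linear_eq_one hnc ζ (by omega))
  have hd2 := hdeg ζ₂ h2
  have hd3 := hdeg ζ₃ h3
  have hd4 := hdeg ζ₄ h4
  have hdv2 := Helper79.irr_charDegree_dvd_card ζ₂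
  have hdv3 := Helper79.irr_charDegree_dvd_card ζ₃
  have hdv4 := Helper79.irr_charDegree_dvd_card ζ₄
  obtain ⟨d₂, hd₂⟩ : ∃ d : ℕ, d = charDegree (ζ₂ : G → ℂ) := ⟨_, rfl⟩
  obtain ⟨d₃, hd₃⟩ : ∃ d : ℕ, d = charDegree (ζ₃ : G → ℂ) := ⟨_, rfl⟩
  obtain ⟨d₄, hd₄⟩ : ∃ d : ℕ, d = charDegree (ζ₄ : G → ℂ) := ⟨_, rfl⟩
  obtain ⟨c, hc⟩ : ∃ c : ℕ, c = Nat.card (Subgroup.centralizer ({J} : Set G)) := ⟨_, rfl⟩
  obtain ⟨cP, hcP⟩ : ∃ cP : ℕ,
      cP = Nat.card (Subgroup.centralizer ((P : Subgroup G) : Set G)) := ⟨_, rfl⟩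
  have hcdvd : c ∣ Nat.card G := by
    rw [hc]
    exact Subgroup.card_subgroup_dvd_card _
  have hcP0 : cP ≠ 0 := by
    rw [hcP]
    exact Nat.card_pos.ne'
  rw [← hd₂, ← hd₃, ← hd₄, ← hc, ← hcP] at hform
  rw [← hd₂, ← hd₃, ← hd₄] at hrel1
  rw [← hd₂] at hm2 hd2 hdv2
  rw [← hd₃] at hm3 hd3 hdv3
  rw [← hd₄] at hm4 hd4 hdv4
  have hrelZ : (1 : ℤ) + d₂ + ε * d₃ - d₄ = 0 := by exact_mod_cast hrel1
  have hm4' : (4 : ℤ) ∣ (d₄ : ℤ) - (-1) := by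
    rw [sub_neg_eq_add]
    exact hm4
  obtain ⟨ho2, e₂, hoe2, he₂⟩ := kpq_half d₂ 1 (Or.inl rfl) hd2 hm2
  obtain ⟨ho3, e₃, hoe3, he₃⟩ := kpq_half d₃ ε hε hd3 hm3
  obtain ⟨ho4, e₄, hoe4, he₄⟩ := kpq_half d₄ (-1) (Or.inr rfl) hd4 hm4'
  -- the degrees divide `g₀`
  have hG2 : Nat.card G = 2 ^ 2 * g₀ := by rw [hG']; norm_num
  have hdg2 : d₂ ∣ g₀ := kpq_odd_dvd d₂ 2 g₀ ho2 (by rw [← hG2]; exact hdv2)
  have hdg3 : d₃ ∣ g₀ := kpq_odd_dvd d₃ 2 g₀ ho3 (by rw [← hG2]; exact hdv3)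
  have hdg4 : d₄ ∣ g₀ := kpq_odd_dvd d₄ 2 g₀ ho4 (by rw [← hG2]; exact hdv4)
  have hdd2 : ∃ i j, d₂ = p ^ i * q ^ j :=
    Helper3.eq_pow_mul_pow_of_dvd hp hq (by rw [← hg₀def]; exact hdg2)
  have hdd3 : ∃ i j, d₃ = p ^ i * q ^ j :=
    Helper3.eq_pow_mul_pow_of_dvd hp hq (by rw [← hg₀def]; exact hdg3)
  have hdd4 : ∃ i j, d₄ = p ^ i * q ^ j :=
    Helper3.eq_pow_mul_pow_of_dvd hp hq (by rw [← hg₀def]; exact hdg4)
  -- the order formula in `ℕ`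
  have he₂' : (d₂ : ℚ) + ((1 : ℤ) : ℚ) = 2 * e₂ := by exact_mod_cast he₂
  have he₃' : (d₃ : ℚ) + (ε : ℚ) = 2 * e₃ := by exact_mod_cast he₃
  have he₄' : (d₄ : ℚ) + ((-1 : ℤ) : ℚ) = 2 * e₄ := by exact_mod_cast he₄
  have he₂0 : (e₂ : ℚ) ≠ 0 := by
    have : e₂ ≠ 0 := by rintro rfl; exact absurd hoe2 (by decide)
    exact_mod_cast this
  have he₃0 : (e₃ : ℚ) ≠ 0 := by
    have : e₃ ≠ 0 := by rintro rfl; exact absurd hoe3 (by decide)
    exact_mod_cast this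
  have he₄0 : (e₄ : ℚ) ≠ 0 := by
    have : e₄ ≠ 0 := by rintro rfl; exact absurd hoe4 (by decide)
    exact_mod_cast this
  have hcP0' : (cP : ℚ) ≠ 0 := by exact_mod_cast hcP0
  have hqeq : (Nat.card G : ℚ) * ((e₂ : ℚ) * e₃ * e₄) * (cP : ℚ) ^ 2
      = (d₂ : ℚ) * d₃ * d₄ * (c : ℚ) ^ 3 := by
    rw [hform, he₂', he₃', he₄']
    field_simp
    ring
  have hnat : Nat.card G * (e₂ * e₃ * e₄) * cP ^ 2 = d₂ * d₃ * d₄ * c ^ 3 := by
    exact_mod_cast hqeq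
  have hbig : d₂ * d₃ * d₄ * c ^ 3 ∣ 2 ^ 6 * g₀ ^ 6 := by
    have h1 : d₂ * d₃ * d₄ ∣ g₀ * g₀ * g₀ := mul_dvd_mul (mul_dvd_mul hdg2 hdg3) hdg4
    have h2 : c ^ 3 ∣ (2 ^ 2 * g₀) ^ 3 := pow_dvd_pow_of_dvd (by rw [← hG2]; exact hcdvd) 3
    have h3 := mul_dvd_mul h1 h2
    have h4 : g₀ * g₀ * g₀ * (2 ^ 2 * g₀) ^ 3 = 2 ^ 6 * g₀ ^ 6 := by ring
    rwa [h4] at h3
  have hg6 : g₀ ^ 6 = p ^ (a * 6) * q ^ (b * 6) := by
    rw [hg₀def, mul_pow, ← pow_mul, ← pow_mul]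
  have hee : ∀ e : ℕ, Odd e → e ∣ e₂ * e₃ * e₄ → ∃ u v, e = p ^ u * q ^ v := by
    intro e hoe hdvd
    have h1 : e ∣ 2 ^ 6 * g₀ ^ 6 := by
      refine dvd_trans ?_ hbig
      rw [← hnat]
      exact Dvd.dvd.mul_right (Dvd.dvd.mul_left hdvd _) _
    have h2 := kpq_odd_dvd e 6 (g₀ ^ 6) hoe h1
    rw [hg6] at h2
    exact Helper3.eq_pow_mul_pow_of_dvd hp hq h2
  have hee2 := hee e₂ hoe2 (Dvd.dvd.mul_right (Dvd.intro _ rfl) _)
  have hee3 := hee e₃ hoe3 (Dvd.dvd.mul_right (Dvd.intro_left _ rfl) _)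
  have hee4 := hee e₄ hoe4 (Dvd.intro_left _ rfl)
  obtain ⟨hpqv, hthree, hfive⟩ := ka_main p q hp hq hpq d₂ d₃ d₄ e₂ e₃ e₄ ε hε hrelZ hd2 hd3 hd4
    he₂ he₃ he₄ hdd2 hdd3 hdd4 hee2 hee3 hee4
  -- characters of degrees `3` and `5`
  have hψ3 : ∃ ψ : IrrCharacter G, charDegree (ψ : G → ℂ) = 3 := by
    rcases hthree with h | h | h
    · exact ⟨ζ₂, by rw [← hd₂, h]⟩
    · exact ⟨ζ₃, by rw [← hd₃, h]⟩
    · exact ⟨ζ₄, by rw [← hd₄, h]⟩
  have hψ5 : ∃ ψ : IrrCharacter G, charDegree (ψ : G → ℂ) = 5 := by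
    rcases hfive with h | h | h
    · exact ⟨ζ₂, by rw [← hd₂, h]⟩
    · exact ⟨ζ₃, by rw [← hd₃, h]⟩
    · exact ⟨ζ₄, by rw [← hd₄, h]⟩
  obtain ⟨ψ3, hψ3⟩ := hψ3
  obtain ⟨ψ5, hψ5⟩ := hψ5
  have hp3 : Nat.Prime 3 := Nat.prime_three
  have hp5 : Nat.Prime 5 := by norm_num
  have : Fact (Nat.Prime 3) := ⟨hp3⟩
  have : Fact (Nat.Prime 5) := ⟨hp5⟩
  have hGne : Nat.card G ≠ 0 := Nat.card_pos.ne'
  have hS3 : ∀ k : ℕ, 3 ^ k ∣ Nat.card G → k ≤ 1 := by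
    intro k hk
    obtain ⟨Q⟩ : Nonempty (Sylow 3 G) := inferInstance
    have h1 := sd_sylow_card_of_prime_degree hnc 3 ψ3 hψ3 Q
    rw [Q.card_eq_multiplicity] at h1
    have h2 : (Nat.card G).factorization 3 = 1 := by
      have h3 : (3 : ℕ) ^ (Nat.card G).factorization 3 = 3 ^ 1 := by rw [h1, pow_one]
      exact Nat.pow_right_injective (by norm_num : 2 ≤ 3) h3
    rw [hp3.pow_dvd_iff_le_factorization hGne, h2] at hk
    exact hk
  have hS5 : ∀ k : ℕ, 5 ^ k ∣ Nat.card G → k ≤ 1 := by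
    intro k hk
    obtain ⟨Q⟩ : Nonempty (Sylow 5 G) := inferInstance
    have h1 := sd_sylow_card_of_prime_degree hnc 5 ψ5 hψ5 Q
    rw [Q.card_eq_multiplicity] at h1
    have h2 : (Nat.card G).factorization 5 = 1 := by
      have h3 : (5 : ℕ) ^ (Nat.card G).factorization 5 = 5 ^ 1 := by rw [h1, pow_one]
      exact Nat.pow_right_injective (by norm_num : 2 ≤ 5) h3
    rw [hp5.pow_dvd_iff_le_factorization hGne, h2] at hk
    exact hk
  have hnsolv : ∀ (r s i j : ℕ), r.Prime → s.Prime → Nat.card G = r ^ i * s ^ j → False := by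
    intro r s i j hr hs h
    exact hnc (IsSimpleGroup.comm_iff_isSolvable.mpr (Helper3.isSolvable_of_card_eq r s i j hr hs h))
  rcases hpqv with ⟨rfl, rfl⟩ | ⟨rfl, rfl⟩
  · have ha1 : a ≤ 1 := hS3 a (by rw [hG]; exact Dvd.dvd.mul_right (Dvd.intro_left _ rfl) _)
    have hb1 : b ≤ 1 := hS5 b (by rw [hG]; exact Dvd.intro_left _ rfl)
    have ha0 : a ≠ 0 := by
      rintro rfl
      exact hnsolv 2 5 2 b Nat.prime_two hp5 (by rw [hG]; norm_num)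
    have hb0 : b ≠ 0 := by
      rintro rfl
      exact hnsolv 2 3 2 a Nat.prime_two hp3 (by rw [hG]; norm_num)
    have ha : a = 1 := by omega
    have hb : b = 1 := by omega
    rw [hG, ha, hb]
    norm_num
  · have ha1 : a ≤ 1 := hS5 a (by rw [hG]; exact Dvd.dvd.mul_right (Dvd.intro_left _ rfl) _)
    have hb1 : b ≤ 1 := hS3 b (by rw [hG]; exact Dvd.intro_left _ rfl)
    have ha0 : a ≠ 0 := by
      rintro rfl
      exact hnsolv 2 3 2 b Nat.prime_two hp3 (by rw [hG]; norm_num)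
    have hb0 : b ≠ 0 := by
      rintro rfl
      exact hnsolv 2 5 2 a Nat.prime_two hp5 (by rw [hG]; norm_num)
    have ha : a = 1 := by omega
    have hb : b = 1 := by omega
    rw [hG, ha, hb]
    norm_num

end Cfsg.Agent.Helper82
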