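import Mathlib
import Cfsg.Agent.Helper77.BlockIdem
import Cfsg.Agent.Helper81.CharBasic
import Cfsg.Agent.Helper81.ClassAlgebra

/-!
# Counting products of two involutions (helper82)

* `ic_pair_count`: the number of ways to write `x` as a product of two involutions, in terms of the
  irreducible characters.
* `ic_card_inverting`: if `x` has order `3`, a centralizer of order `3` and is conjugate to its
  inverse, then `x` is a product of two involutions in exactly three ways.
* `ic_odd_involutions`: a group of even order has an odd number of involutions.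
-/

set_option autoImplicit false
open Cfsg
open scoped ComplexConjugate

namespace Cfsg.Agent.Helper82

universe u

variable {G : Type u} [Group G]

/-- The number of pairs of involutions with product `x`, via characters. -/
theorem ic_pair_count [Fintype G] [Fintype (IrrCharacter G)] (x : G) :
    (Nat.card {s : G // orderOf s = 2 ∧ orderOf (s⁻¹ * x) = 2} : ℂ) * (Nat.card G : ℂ)
      = ∑ χ : IrrCharacter G,
          (∑ s : G, (if orderOf s = 2 then (χ : G → ℂ) s else 0)) ^ 2 * (χ : G → ℂ) x⁻¹
            / (χ : G → ℂ) 1 := by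
  classical
  obtain ⟨u, hu⟩ : ∃ u : G → ℂ, u = fun g => if orderOf g = 2 then (1 : ℂ) else 0 := ⟨_, rfl⟩
  have huc : IsClassFunction G u := by
    intro g h
    rw [hu]
    beta_reduce
    have h1 : orderOf (h * g * h⁻¹) = orderOf g := (MulAut.conj h).orderOf_eq g
    rw [h1]
  have hS : ∀ χ : IrrCharacter G, ∑ s : G, (if orderOf s = 2 then (χ : G → ℂ) s else 0)
      = ∑ g : G, u g * (χ : G → ℂ) g := by
    intro χ
    refine Finset.sum_congr rfl fun g _ => ?_
    rw [hu]
    beta_reduce
    by_cases hg : orderOf g = 2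
    · rw [if_pos hg, if_pos hg, one_mul]
    · rw [if_neg hg, if_neg hg, zero_mul]
  -- the right side through `omega`
  have hR : ∀ χ : IrrCharacter G,
      (∑ s : G, (if orderOf s = 2 then (χ : G → ℂ) s else 0)) ^ 2 * (χ : G → ℂ) x⁻¹
        / (χ : G → ℂ) 1
      = (χ : G → ℂ) 1 * ∑ s : G, u s * ∑ t : G, u t * (χ : G → ℂ) (s * t * x⁻¹) := by
    intro χ
    have hne := Helper81.irr_one_ne_zero χ
    have h1 : ∀ s : G, ∑ t : G, u t * (χ : G → ℂ) (s * t * x⁻¹)
        = Helper81.omega (χ : G → ℂ) u * (χ : G → ℂ) (x⁻¹ * s) := by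
      intro s
      rw [← Helper77.sum_mul_irr_mul χ huc (x⁻¹ * s)]
      refine Finset.sum_congr rfl fun t _ => ?_
      have e : s * t * x⁻¹ = s * (t * x⁻¹) := by group
      rw [e, Helper81.irr_mul_comm χ s (t * x⁻¹)]
      congr 2
      group
    simp only [h1]
    have h2 : ∑ s : G, u s * (Helper81.omega (χ : G → ℂ) u * (χ : G → ℂ) (x⁻¹ * s))
        = Helper81.omega (χ : G → ℂ) u * (Helper81.omega (χ : G → ℂ) u * (χ : G → ℂ) x⁻¹) := by
      rw [← Helper77.sum_mul_irr_mul χ huc x⁻¹, Finset.mul_sum]
      refine Finset.sum_congr rfl fun s _ => ?_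
      rw [Helper81.irr_mul_comm χ x⁻¹ s]
      ring
    rw [h2, hS χ, Helper81.omega]
    field_simp
  rw [Finset.sum_congr rfl (fun χ _ => hR χ)]
  -- interchange and use the regular character
  have hreg : ∀ g : G, ∑ χ : IrrCharacter G, (χ : G → ℂ) 1 * (χ : G → ℂ) g
      = if g = 1 then (Nat.card G : ℂ) else 0 := fun g => Helper81.sum_irr_one_mul g
  have h3 : ∑ χ : IrrCharacter G,
      (χ : G → ℂ) 1 * ∑ s : G, u s * ∑ t : G, u t * (χ : G → ℂ) (s * t * x⁻¹)
      = ∑ s : G, ∑ t : G, u s * u t * (if s * t * x⁻¹ = 1 then (Nat.card G : ℂ) else 0) := by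
    simp only [Finset.mul_sum]
    rw [Finset.sum_comm]
    refine Finset.sum_congr rfl fun s _ => ?_
    rw [Finset.sum_comm]
    refine Finset.sum_congr rfl fun t _ => ?_
    rw [← hreg (s * t * x⁻¹), Finset.mul_sum]
    refine Finset.sum_congr rfl fun χ _ => ?_
    ring
  rw [h3]
  have h4 : ∀ s : G, ∑ t : G, u s * u t * (if s * t * x⁻¹ = 1 then (Nat.card G : ℂ) else 0)
      = (if orderOf s = 2 ∧ orderOf (s⁻¹ * x) = 2 then (1 : ℂ) else 0) * (Nat.card G : ℂ) := by
    intro s
    rw [Finset.sum_eq_single (s⁻¹ * x)]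
    · rw [if_pos (by group), hu]
      beta_reduce
      by_cases h1 : orderOf s = 2
      · by_cases h2 : orderOf (s⁻¹ * x) = 2
        · rw [if_pos h1, if_pos h2, if_pos ⟨h1, h2⟩]; ring
        · rw [if_pos h1, if_neg h2, if_neg (fun h => h2 h.2)]; ring
      · rw [if_neg h1, if_neg (fun h : orderOf s = 2 ∧ orderOf (s⁻¹ * x) = 2 => h1 h.1)]; ring
    · intro t _ ht
      rw [if_neg, mul_zero]
      intro h
      apply ht
      have : t = s⁻¹ * (s * t * x⁻¹) * x := by group
      rw [this, h]; group
    · intro h; exact absurd (Finset.mem_univ _) h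
  rw [Finset.sum_congr rfl (fun s _ => h4 s), ← Finset.sum_mul]
  congr 1
  rw [Nat.card_eq_fintype_card, Fintype.card_subtype, Finset.card_filter]
  push_cast
  rfl

/-- If `x` has order `3`, its centralizer has order `3` and `x` is conjugate to its inverse, then
there are exactly three involutions `s` with `s⁻¹ * x` an involution. -/
theorem ic_card_inverting [Finite G] (x : G) (hx : orderOf x = 3)
    (hC : Nat.card (Subgroup.centralizer ({x} : Set G)) = 3) (g : G) (hg : g * x * g⁻¹ = x⁻¹) :
    Nat.card {s : G // orderOf s = 2 ∧ orderOf (s⁻¹ * x) = 2} = 3 := by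
  classical
  have hx3 : x ^ 3 = 1 := by rw [← hx]; exact pow_orderOf_eq_one x
  have hx1 : x ≠ 1 := by
    rintro rfl
    rw [orderOf_one] at hx
    exact absurd hx (by norm_num)
  have hxx : x * x ≠ 1 := by
    intro h
    have h1 : orderOf x ∣ 2 := orderOf_dvd_of_pow_eq_one (by rw [pow_two]; exact h)
    rw [hx] at h1
    exact absurd h1 (by norm_num)
  -- the centralizer is generated by `x`
  have hle : Subgroup.zpowers x ≤ Subgroup.centralizer ({x} : Set G) := by
    rw [Subgroup.zpowers_le]
    rw [Subgroup.mem_centralizer_iff]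
    intro y hy
    rw [Set.mem_singleton_iff] at hy
    rw [hy]
  have heq : Subgroup.zpowers x = Subgroup.centralizer ({x} : Set G) := by
    apply Subgroup.eq_of_le_of_card_ge hle
    rw [hC, Nat.card_zpowers, hx]
  -- characterisation
  have hchar : ∀ s : G, (orderOf s = 2 ∧ orderOf (s⁻¹ * x) = 2) ↔ s * x * s⁻¹ = x⁻¹ := by
    intro s
    constructor
    · rintro ⟨h1, h2⟩
      have hs2 : s * s = 1 := by
        have := pow_orderOf_eq_one s
        rwa [h1, pow_two] at this
      have hsinv : s⁻¹ = s := inv_eq_of_mul_eq_one_left hs2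
      have ht2 : (s⁻¹ * x) * (s⁻¹ * x) = 1 := by
        have := pow_orderOf_eq_one (s⁻¹ * x)
        rwa [h2, pow_two] at this
      rw [hsinv] at ht2 ⊢
      have : s * x * s = x⁻¹ := by
        have e : s * x * s = (s * x * (s * x)) * x⁻¹ := by group
        rw [e, ht2, one_mul]
      exact this
    · intro h
      have hpow : ∀ k : ℤ, s * x ^ k * s⁻¹ = (x ^ k)⁻¹ := by
        intro k
        have e : s * x ^ k * s⁻¹ = (s * x * s⁻¹) ^ k := by
          rw [conj_zpow]
        rw [e, h, inv_zpow]
      have hc : s * s ∈ Subgroup.centralizer ({x} : Set G) := by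
        rw [Subgroup.mem_centralizer_iff]
        intro y hy
        rw [Set.mem_singleton_iff] at hy
        subst hy
        have e1 : s * y = y⁻¹ * s := by
          have : s * y = (s * y * s⁻¹) * s := by group
          rw [this, h]
        have e2 : s * y⁻¹ = y * s := by
          have h' : s * y⁻¹ * s⁻¹ = y := by
            have : s * y⁻¹ * s⁻¹ = (s * y * s⁻¹)⁻¹ := by group
            rw [this, h, inv_inv]
          have : s * y⁻¹ = (s * y⁻¹ * s⁻¹) * s := by group
          rw [this, h']
        calc y * (s * s) = (y * s) * s := by group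
          _ = (s * y⁻¹) * s := by rw [e2]
          _ = s * (y⁻¹ * s) := by group
          _ = s * (s * y) := by rw [e1]
          _ = s * s * y := by group
      rw [← heq] at hc
      obtain ⟨k, hk⟩ := Subgroup.mem_zpowers_iff.mp hc
      have h1 := hpow k
      rw [hk] at h1
      have h2 : s * (s * s) * s⁻¹ = s * s := by group
      rw [h2] at h1
      -- `c = c⁻¹` and `c ^ 3 = 1`
      have hc2 : (s * s) * (s * s) = 1 := by
        nth_rewrite 2 [h1]
        exact mul_inv_cancel _
      have hc3 : (s * s) ^ 3 = 1 := by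
        rw [← hk, ← zpow_natCast, ← zpow_mul, mul_comm, zpow_mul, zpow_natCast, hx3, one_zpow]
      have hss : s * s = 1 := by
        have : (s * s) ^ 3 = (s * s) * (s * s) * (s * s) := by rw [pow_succ, pow_two]
        rw [this, hc2, one_mul] at hc3
        exact hc3
      have hsinv : s⁻¹ = s := inv_eq_of_mul_eq_one_left hss
      have hs1 : s ≠ 1 := by
        rintro rfl
        rw [one_mul, inv_one, mul_one] at h
        apply hxx
        nth_rewrite 1 [h]
        exact inv_mul_cancel x
      refine ⟨orderOf_eq_prime (by rw [pow_two]; exact hss) hs1, ?_⟩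
      apply orderOf_eq_prime
      · rw [pow_two, hsinv]
        have e : s * x * (s * x) = (s * x * s⁻¹) * x := by rw [hsinv]; group
        rw [e, h, inv_mul_cancel]
      · intro h3
        have hxs : x = s := by
          have : x = s * (s⁻¹ * x) := by group
          rw [this, h3, mul_one]
        rw [hxs] at hx3
        have : s ^ 3 = s := by
          have : s ^ 3 = s * s * s := by rw [pow_succ, pow_two]
          rw [this, hss, one_mul]
        rw [this] at hx3
        exact hs1 hx3
  have e1 : {s : G // orderOf s = 2 ∧ orderOf (s⁻¹ * x) = 2} ≃ {s : G // s * x * s⁻¹ = x⁻¹} :=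
    Equiv.subtypeEquivRight hchar
  have e2 : {s : G // s * x * s⁻¹ = x⁻¹} ≃ Subgroup.centralizer ({x} : Set G) :=
    { toFun := fun s => ⟨g⁻¹ * s.1, by
        rw [Subgroup.mem_centralizer_iff]
        intro y hy
        rw [Set.mem_singleton_iff] at hy
        subst hy
        have h1 : g⁻¹ * y⁻¹ * g = y := by
          rw [← hg]; group
        have h2 : s.1 * y = y⁻¹ * s.1 := by
          have : s.1 * y = (s.1 * y * s.1⁻¹) * s.1 := by group
          rw [this, s.2]
        calc y * (g⁻¹ * s.1) = (g⁻¹ * y⁻¹ * g) * (g⁻¹ * s.1) := by rw [h1]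
          _ = g⁻¹ * (y⁻¹ * s.1) := by group
          _ = g⁻¹ * (s.1 * y) := by rw [h2]
          _ = g⁻¹ * s.1 * y := by group⟩
      invFun := fun c => ⟨g * c.1, by
        have hc := c.2
        rw [Subgroup.mem_centralizer_iff] at hc
        have h1 : x * c.1 = c.1 * x := hc x (Set.mem_singleton x)
        have h2 : c.1 * x * c.1⁻¹ = x := by
          rw [← h1]; group
        calc g * c.1 * x * (g * c.1)⁻¹ = g * (c.1 * x * c.1⁻¹) * g⁻¹ := by group
          _ = x⁻¹ := by rw [h2, hg]⟩
      left_inv := fun s => by
        apply Subtype.ext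
        show g * (g⁻¹ * s.1) = s.1
        group
      right_inv := fun c => by
        apply Subtype.ext
        show g⁻¹ * (g * c.1) = c.1
        group }
  rw [Nat.card_congr (e1.trans e2), hC]

/-- A finite group of even order has an odd number of involutions. -/
theorem ic_odd_involutions [Finite G] (heven : 2 ∣ Nat.card G) :
    Odd (Nat.card {t : G // orderOf t = 2}) := by
  classical
  have := Fintype.ofFinite G
  have hf : (id (fun g : G => g⁻¹) : Function.End G) ^ 2 ^ 1 = 1 := by
    rw [pow_one, pow_two]
    funext g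
    exact inv_inv g
  have h := @Equiv.Perm.card_fixedPoints_modEq G _ _ (fun g : G => g⁻¹) 2 1 ⟨Nat.prime_two⟩ hf
  have hS : Function.fixedPoints (fun g : G => g⁻¹) = insert 1 {t : G | orderOf t = 2} := by
    ext g
    simp only [Function.mem_fixedPoints, Function.IsFixedPt, Set.mem_insert_iff, Set.mem_ofPred_eq]
    constructor
    · intro hg
      by_cases h1 : g = 1
      · left; exact h1
      · right
        apply orderOf_eq_prime _ h1
        rw [pow_two]
        nth_rewrite 1 [← hg]; exact inv_mul_cancel g
    · rintro (rfl | h2)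
      · simp
      · have := pow_orderOf_eq_one g
        rw [h2, pow_two] at this
        exact inv_eq_of_mul_eq_one_left this
  have hnot : (1 : G) ∉ {t : G | orderOf t = 2} := by
    simp
  have key := Set.ncard_insert_of_notMem hnot (Set.toFinite _)
  rw [← hS] at key
  rw [← Nat.card_eq_fintype_card, ← Nat.card_eq_fintype_card, Nat.card_coe_set_eq, key] at h
  rw [← Nat.card_coe_set_eq] at h
  have h2 : Nat.card G % 2 = 0 := Nat.mod_eq_zero_of_dvd heven
  have h3 : (Nat.card {t : G | orderOf t = 2} + 1) % 2 = 0 := by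
    rw [← h2]; exact h.symm
  rw [Nat.odd_iff]
  have h4 : Nat.card {t : G // orderOf t = 2} = Nat.card {t : G | orderOf t = 2} := rfl
  omega

end Cfsg.Agent.Helper82
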