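import Mathlib
import Cfsg.Agent.Helper82.SimpleDeg
import Cfsg.Agent.Helper80.CharOrtho
import Cfsg.Agent.Helper81.Blocks

/-!
# Elements of order three with centralizer of order three (helper82)

* `tc_card_centralizer`: in a simple group of order `3 * m`, `3 ∤ m`, with an irreducible character
  of degree `3`, an element of order `3` has centralizer of order `3`.
* `tc_conj_inv`: such an element is conjugate to its inverse.
* `tc_three_chars`: if `x` has order `3`, `|C(x)| = 3` and `x ∼ x⁻¹`, exactly three irreducible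
  characters do not vanish at `x`: the principal one and `χ₊`, `χ₋` with `χ₊(x) = 1`,
  `χ₋(x) = -1`, and `1 + χ₊(y) - χ₋(y) = 0` off the class of `x`.
-/

set_option autoImplicit false
open Cfsg
open scoped ComplexConjugate

namespace Cfsg.Agent.Helper82

universe u

variable {G : Type u} [Group G] [Finite G]

/-- In a nonabelian simple group of order `3 * m` (`3 ∤ m`) having an irreducible character of
degree `3`, the centralizer of an element of order `3` has order `3`. -/
theorem tc_card_centralizer [IsSimpleGroup G] (hnc : ¬ ∀ a b : G, a * b = b * a) (m : ℕ)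
    (hG : Nat.card G = 3 * m) (hm : ¬ 3 ∣ m) (θ : IrrCharacter G)
    (hθ : charDegree (θ : G → ℂ) = 3) (x : G) (hx : orderOf x = 3) :
    Nat.card (Subgroup.centralizer ({x} : Set G)) = 3 := by
  classical
  have hθ1 : charDegree (θ : G → ℂ) ≠ 1 := by rw [hθ]; norm_num
  have key : ∀ r : ℕ, r.Prime → r ∣ Nat.card (Subgroup.centralizer ({x} : Set G)) → r = 3 := by
    intro r hr hdvd
    by_contra hr3
    have : Fact r.Prime := ⟨hr⟩
    obtain ⟨c, hc⟩ := exists_prime_orderOf_dvd_card' r hdvd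
    have hcG : orderOf (c : G) = r := by rw [Subgroup.orderOf_coe, hc]
    have hc1 : (c : G) ≠ 1 := by
      intro h
      rw [h, orderOf_one] at hcG
      exact hr.one_lt.ne hcG
    have hnd : ¬ r ∣ charDegree (θ : G → ℂ) := by
      rw [hθ]
      intro h
      exact hr3 ((Nat.prime_dvd_prime_iff_eq hr Nat.prime_three).mp h)
    have hne := sd_ne_zero_of_prime_pow_order θ r hr hnd (c : G) ⟨1, by rw [hcG, pow_one]⟩
    have hnot : ¬ Nat.Coprime (charDegree (θ : G → ℂ))
        (Subgroup.centralizer ({(c : G)} : Set G)).index := by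
      intro hcop
      exact hne (Helper79.simple_irr_vanish_of_coprime hnc θ hθ1 (c : G) hc1 hcop)
    rw [hθ, Nat.Prime.coprime_iff_not_dvd Nat.prime_three, not_not] at hnot
    -- `x` lies in the centralizer of `c`
    have hxc : x ∈ Subgroup.centralizer ({(c : G)} : Set G) := by
      rw [Subgroup.mem_centralizer_iff]
      intro y hy
      rw [Set.mem_singleton_iff] at hy
      subst hy
      have := c.2
      rw [Subgroup.mem_centralizer_iff] at this
      exact (this x (Set.mem_singleton x)).symm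
    have h3 : 3 ∣ Nat.card (Subgroup.centralizer ({(c : G)} : Set G)) := by
      have h := orderOf_dvd_natCard (⟨x, hxc⟩ : Subgroup.centralizer ({(c : G)} : Set G))
      rw [Subgroup.orderOf_mk, hx] at h
      exact h
    have hmul := Subgroup.card_mul_index (Subgroup.centralizer ({(c : G)} : Set G))
    rw [hG] at hmul
    obtain ⟨u, hu⟩ := h3
    obtain ⟨v, hv⟩ := hnot
    rw [hu, hv] at hmul
    apply hm
    exact ⟨u * v, by nlinarith⟩
  have hpos : Nat.card (Subgroup.centralizer ({x} : Set G)) ≠ 0 := Nat.card_pos.ne'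
  have hpow := Nat.eq_prime_pow_of_unique_prime_dvd hpos (fun {d} hd hdvd => key d hd hdvd)
  obtain ⟨k, hk⟩ : ∃ k : ℕ, Nat.card (Subgroup.centralizer ({x} : Set G)) = 3 ^ k := ⟨_, hpow⟩
  have hxC : x ∈ Subgroup.centralizer ({x} : Set G) := by
    rw [Subgroup.mem_centralizer_iff]
    intro y hy
    rw [Set.mem_singleton_iff] at hy
    rw [hy]
  have h3 : 3 ∣ Nat.card (Subgroup.centralizer ({x} : Set G)) := by
    have h := orderOf_dvd_natCard (⟨x, hxC⟩ : Subgroup.centralizer ({x} : Set G))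
    rw [Subgroup.orderOf_mk, hx] at h
    exact h
  have hdG : Nat.card (Subgroup.centralizer ({x} : Set G)) ∣ Nat.card G :=
    Subgroup.card_subgroup_dvd_card _
  rw [hk] at h3 hdG ⊢
  rw [hG] at hdG
  have hk1 : k ≠ 0 := by
    rintro rfl
    rw [pow_zero] at h3
    exact absurd h3 (by norm_num)
  have hk2 : k < 2 := by
    by_contra hk2
    push Not at hk2
    have h9 : 3 ^ 2 ∣ 3 * m := dvd_trans (pow_dvd_pow 3 hk2) hdG
    apply hm
    obtain ⟨w, hw⟩ := h9
    exact ⟨w, by omega⟩
  have hk' : k = 1 := by omega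
  rw [hk', pow_one]

/-- In a nonabelian simple group of order `3 * m` (`3 ∤ m`) an element of order `3` is conjugate to
its inverse. -/
theorem tc_conj_inv [IsSimpleGroup G] (hnc : ¬ ∀ a b : G, a * b = b * a) (m : ℕ)
    (hG : Nat.card G = 3 * m) (hm : ¬ 3 ∣ m) (x : G) (hx : orderOf x = 3) :
    ∃ g : G, g * x * g⁻¹ = x⁻¹ := by
  classical
  have : Fact (Nat.Prime 3) := ⟨Nat.prime_three⟩
  have hx3 : x ^ 3 = 1 := by rw [← hx]; exact pow_orderOf_eq_one x
  have hm0 : m ≠ 0 := by
    rintro rfl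
    rw [mul_zero] at hG
    exact Nat.card_pos.ne' hG
  have hfac : (Nat.card G).factorization 3 = 1 := by
    rw [hG, Nat.factorization_mul (by norm_num) hm0, Finsupp.add_apply,
      Nat.factorization_eq_zero_of_not_dvd hm, Nat.Prime.factorization_self Nat.prime_three]
  have hcardZ : Nat.card (Subgroup.zpowers x) = 3 ^ (Nat.card G).factorization 3 := by
    rw [hfac, pow_one, Nat.card_zpowers, hx]
  obtain ⟨Q, hQ⟩ : ∃ Q : Sylow 3 G, (Q : Subgroup G) = Subgroup.zpowers x :=
    ⟨Sylow.ofCard (Subgroup.zpowers x) hcardZ, rfl⟩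
  have hQ1 : Nat.card (Q : Subgroup G) ≠ 1 := by
    rw [hQ, Nat.card_zpowers, hx]; norm_num
  have hQ2 : Nat.card (Q : Subgroup G) ≠ Nat.card G := by
    rw [hQ, Nat.card_zpowers, hx]
    intro h
    apply hnc
    have hp : (Nat.card G).Prime := by rw [← h]; exact Nat.prime_three
    have : Fact (Nat.card G).Prime := ⟨hp⟩
    have hcyc : IsCyclic G := isCyclic_of_prime_card rfl
    intro a b
    obtain ⟨z, hz⟩ := hcyc.exists_generator
    obtain ⟨i, rfl⟩ := Subgroup.mem_zpowers_iff.mp (hz a)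
    obtain ⟨j, rfl⟩ := Subgroup.mem_zpowers_iff.mp (hz b)
    rw [← zpow_add, ← zpow_add, add_comm]
  have hnot := sd_not_normalizer_le_centralizer Q hQ1 hQ2
  rw [SetLike.not_le_iff_exists] at hnot
  obtain ⟨g, hgN, hgC⟩ := hnot
  rw [hQ] at hgN hgC
  have hgx : g * x * g⁻¹ ∈ Subgroup.zpowers x :=
    (Subgroup.mem_normalizer_iff.mp hgN x).mp (Subgroup.mem_zpowers x)
  obtain ⟨k, hk⟩ := Subgroup.mem_zpowers_iff.mp hgx
  have hne : g * x ≠ x * g := by
    intro hcomm
    apply hgC
    rw [Subgroup.mem_centralizer_iff]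
    intro y hy
    obtain ⟨j, rfl⟩ := Subgroup.mem_zpowers_iff.mp hy
    have hc : Commute g x := hcomm
    exact ((hc.zpow_right j).eq).symm
  have hmod : x ^ (k % 3) = x ^ k := by
    have := zpow_mod_orderOf x k
    rwa [hx] at this
  have hk0 : 0 ≤ k % 3 := Int.emod_nonneg k (by norm_num)
  have hk3 : k % 3 < 3 := Int.emod_lt_of_pos k (by norm_num)
  refine ⟨g, ?_⟩
  rw [← hk, ← hmod]
  have hcases : k % 3 = 0 ∨ k % 3 = 1 ∨ k % 3 = 2 := by omega
  rcases hcases with h | h | h
  · exfalso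
    rw [← hmod, h, zpow_zero] at hk
    have hx1 : x = 1 := by
      have : x = g⁻¹ * (g * x * g⁻¹) * g := by group
      rw [this, ← hk]; group
    rw [hx1, orderOf_one] at hx
    exact absurd hx (by norm_num)
  · exfalso
    rw [← hmod, h, zpow_one] at hk
    apply hne
    have : g * x = (g * x * g⁻¹) * g := by group
    rw [this, ← hk]
  · rw [h]
    have : x ^ (2 : ℤ) * x = 1 := by
      have e : x ^ (2 : ℤ) * x = x ^ 3 := by
        rw [← zpow_natCast x 3]
        have : ((3 : ℕ) : ℤ) = 2 + 1 := by norm_num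
        rw [this, zpow_add, zpow_one]
      rw [e, hx3]
    exact eq_inv_of_mul_eq_one_left this

/-- Sum of an irreducible character over the subgroup generated by an element of order `3` that
is conjugate to its inverse. -/
theorem tc_sum_zpowers (χ : IrrCharacter G) (x : G) (hx : orderOf x = 3) (g : G)
    (hg : g * x * g⁻¹ = x⁻¹) :
    ∃ m : ℕ, (χ : G → ℂ) 1 + 2 * (χ : G → ℂ) x = 3 * (m : ℂ) := by
  classical
  have : Fintype (Subgroup.zpowers x) := Fintype.ofFinite _
  obtain ⟨m, hm⟩ := Helper81.exists_nat_sum_subgroup χ (Subgroup.zpowers x)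
  have hcard : Nat.card (Subgroup.zpowers x) = 3 := by rw [Nat.card_zpowers, hx]
  have hx1 : x ≠ 1 := by
    rintro rfl
    rw [orderOf_one] at hx
    exact absurd hx (by norm_num)
  have hxx : x ≠ x⁻¹ := by
    intro h
    have h2 : x * x = 1 := by
      nth_rewrite 2 [h]
      exact mul_inv_cancel x
    have h1 : orderOf x ∣ 2 := orderOf_dvd_of_pow_eq_one (by rw [pow_two]; exact h2)
    rw [hx] at h1
    exact absurd h1 (by norm_num)
  have hinv : (χ : G → ℂ) x⁻¹ = (χ : G → ℂ) x := by
    rw [← hg, Helper81.irr_conj]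
  obtain ⟨x', hx'⟩ : ∃ x' : Subgroup.zpowers x, (x' : G) = x := ⟨⟨x, Subgroup.mem_zpowers x⟩, rfl⟩
  have hne1 : (1 : Subgroup.zpowers x) ≠ x' := by
    intro h
    apply hx1
    rw [← hx', ← h]
    rfl
  have hne2 : (1 : Subgroup.zpowers x) ≠ x'⁻¹ := by
    intro h
    apply hx1
    have h2 : x' = 1 := by
      rw [← inv_inv x', ← h, inv_one]
    rw [← hx', h2]
    rfl
  have hne3 : x' ≠ x'⁻¹ := by
    intro h
    apply hxx
    have := congrArg (Subtype.val : Subgroup.zpowers x → G) h
    rw [Subgroup.coe_inv, hx'] at this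
    exact this
  have huniv : ({1, x', x'⁻¹} : Finset (Subgroup.zpowers x)) = Finset.univ := by
    apply Finset.eq_univ_of_card
    rw [Finset.card_insert_of_notMem (by
      simp only [Finset.mem_insert, Finset.mem_singleton, not_or]
      exact ⟨hne1, hne2⟩), Finset.card_pair hne3, ← Nat.card_eq_fintype_card, hcard]
  have hsum : ∑ y : Subgroup.zpowers x, (χ : G → ℂ) y
      = (χ : G → ℂ) 1 + (χ : G → ℂ) x + (χ : G → ℂ) x⁻¹ := by
    rw [← huniv, Finset.sum_insert (by
      simp only [Finset.mem_insert, Finset.mem_singleton, not_or]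
      exact ⟨hne1, hne2⟩), Finset.sum_pair hne3, Subgroup.coe_inv, hx']
    simp only [Subgroup.coe_one]
    ring
  rw [hsum, hcard, hinv] at hm
  refine ⟨m, ?_⟩
  push_cast at hm
  linear_combination hm

/-- An irreducible character takes a rational integer value at an element of order `3` that is
conjugate to its inverse. -/
theorem tc_value_int (χ : IrrCharacter G) (x : G) (hx : orderOf x = 3) (g : G)
    (hg : g * x * g⁻¹ = x⁻¹) : ∃ k : ℤ, (χ : G → ℂ) x = k := by
  obtain ⟨m, hm⟩ := tc_sum_zpowers χ x hx g hg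
  have hint := Helper80.isCharacter_isIntegral (Helper80.isCharacter_of_irr χ.2) x
  have hval : (χ : G → ℂ) x
      = (((3 * (m : ℤ) - (charDegree (χ : G → ℂ) : ℤ) : ℤ) : ℚ) / 2 : ℚ) := by
    rw [Helper81.irr_one_eq_charDegree] at hm
    push_cast
    linear_combination hm / 2
  rw [hval] at hint
  obtain ⟨k, hk⟩ := sd_int_of_isIntegral_rat _ hint
  refine ⟨k, ?_⟩
  rw [hval, hk]
  push_cast
  rfl

/-- If `x` has order `3`, `|C(x)| = 3` and `x` is conjugate to its inverse, exactly three
irreducible characters do not vanish at `x`. -/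
theorem tc_three_chars (x : G) (hx : orderOf x = 3)
    (hC : Nat.card (Subgroup.centralizer ({x} : Set G)) = 3) (g : G) (hg : g * x * g⁻¹ = x⁻¹) :
    ∃ χp χm : IrrCharacter G, χp ≠ χm ∧ χp ≠ Helper81.trivIrr G ∧ χm ≠ Helper81.trivIrr G ∧
      (χp : G → ℂ) x = 1 ∧ (χm : G → ℂ) x = -1 ∧
      (∀ χ : IrrCharacter G, χ ≠ Helper81.trivIrr G → χ ≠ χp → χ ≠ χm → (χ : G → ℂ) x = 0) ∧
      ∀ y : G, ¬ IsConj y x → 1 + (χp : G → ℂ) y - (χm : G → ℂ) y = 0 := by
  classical
  have := Fintype.ofFinite G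
  have := Fintype.ofFinite (IrrCharacter G)
  have hx1 : x ≠ 1 := by
    rintro rfl
    rw [orderOf_one] at hx
    exact absurd hx (by norm_num)
  choose k hk using fun χ : IrrCharacter G => tc_value_int χ x hx g hg
  have hcol : ∑ χ : IrrCharacter G, (χ : G → ℂ) x * conj ((χ : G → ℂ) x) = 3 := by
    rw [Helper80.irr_column_orthogonality_of_isConj (IsConj.refl x), hC]
    norm_num
  have hsumZ : ∑ χ : IrrCharacter G, (k χ) ^ 2 = 3 := by
    have h : ((∑ χ : IrrCharacter G, (k χ) ^ 2 : ℤ) : ℂ) = 3 := by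
      rw [← hcol]
      push_cast
      refine Finset.sum_congr rfl fun χ _ => ?_
      rw [hk χ, map_intCast]
      ring
    exact_mod_cast h
  have ktriv : k (Helper81.trivIrr G) = 1 := by
    have h := hk (Helper81.trivIrr G)
    rw [Helper81.trivIrr_apply] at h
    exact_mod_cast h.symm
  obtain ⟨S, hSdef⟩ : ∃ S : Finset (IrrCharacter G),
      S = (Finset.univ.erase (Helper81.trivIrr G)).filter (fun χ => k χ ≠ 0) := ⟨_, rfl⟩
  have hS : ∑ χ ∈ S, (k χ) ^ 2 = 2 := by
    have h1 := Finset.add_sum_erase Finset.univ (fun χ : IrrCharacter G => (k χ) ^ 2)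
      (Finset.mem_univ (Helper81.trivIrr G))
    rw [hsumZ, ktriv] at h1
    have h2 : ∑ χ ∈ S, (k χ) ^ 2
        = ∑ χ ∈ Finset.univ.erase (Helper81.trivIrr G), (k χ) ^ 2 := by
      rw [hSdef]
      apply Finset.sum_filter_of_ne
      intro χ _ hne h0
      apply hne
      rw [h0]
      norm_num
    rw [h2]
    linarith
  have hmemS : ∀ χ : IrrCharacter G, χ ∈ S ↔ χ ≠ Helper81.trivIrr G ∧ k χ ≠ 0 := by
    intro χ
    rw [hSdef, Finset.mem_filter, Finset.mem_erase]
    simp
  have hone : ∀ χ ∈ S, k χ = 1 ∨ k χ = -1 := by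
    intro χ hχ
    have hle : (k χ) ^ 2 ≤ 2 := by
      rw [← hS]
      exact Finset.single_le_sum (f := fun χ => (k χ) ^ 2) (fun i _ => sq_nonneg _) hχ
    have hne := ((hmemS χ).mp hχ).2
    have h1 : k χ ≤ 1 := by nlinarith
    have h2 : -1 ≤ k χ := by nlinarith
    omega
  have hcard : S.card = 2 := by
    have h1 : ∑ χ ∈ S, (k χ) ^ 2 = ∑ χ ∈ S, (1 : ℤ) := by
      refine Finset.sum_congr rfl fun χ hχ => ?_
      rcases hone χ hχ with h | h <;> rw [h] <;> norm_num
    rw [hS, Finset.sum_const, nsmul_eq_mul, mul_one] at h1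
    exact_mod_cast h1.symm
  obtain ⟨χ₁, χ₂, h12, hS12⟩ := Finset.card_eq_two.mp hcard
  have hm1 : χ₁ ∈ S := by rw [hS12]; simp
  have hm2 : χ₂ ∈ S := by rw [hS12]; simp
  have h1t := ((hmemS χ₁).mp hm1).1
  have h2t := ((hmemS χ₂).mp hm2).1
  have hothers : ∀ χ : IrrCharacter G, χ ≠ Helper81.trivIrr G → χ ≠ χ₁ → χ ≠ χ₂ →
      (χ : G → ℂ) x = 0 := by
    intro χ ht hχ1 hχ2
    have hnS : χ ∉ S := by
      rw [hS12]
      simp only [Finset.mem_insert, Finset.mem_singleton, not_or]
      exact ⟨hχ1, hχ2⟩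
    rw [hmemS] at hnS
    push Not at hnS
    rw [hk χ, hnS ht]
    norm_num
  have hrel : ∀ y : G, ¬ IsConj y x →
      1 + (k χ₁ : ℂ) * (χ₁ : G → ℂ) y + (k χ₂ : ℂ) * (χ₂ : G → ℂ) y = 0 := by
    intro y hy
    have h := Helper80.irr_column_orthogonality_of_not_isConj hy
    have hsub : ∑ χ : IrrCharacter G, (χ : G → ℂ) y * conj ((χ : G → ℂ) x)
        = ∑ χ ∈ ({Helper81.trivIrr G, χ₁, χ₂} : Finset (IrrCharacter G)),
            (χ : G → ℂ) y * conj ((χ : G → ℂ) x) := by
      symm
      apply Finset.sum_subset (Finset.subset_univ _)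
      intro χ _ hχ
      simp only [Finset.mem_insert, Finset.mem_singleton, not_or] at hχ
      rw [hothers χ hχ.1 hχ.2.1 hχ.2.2, map_zero, mul_zero]
    rw [hsub, Finset.sum_insert (by
      simp only [Finset.mem_insert, Finset.mem_singleton, not_or]
      exact ⟨h1t.symm, h2t.symm⟩), Finset.sum_pair h12] at h
    rw [hk (Helper81.trivIrr G), hk χ₁, hk χ₂, Helper81.trivIrr_apply, ktriv] at h
    simp only [map_intCast] at h
    push_cast at h
    linear_combination h
  have h1x : ¬ IsConj (1 : G) x := by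
    intro h
    exact hx1 (isConj_one_right.mp h)
  have hdeg := hrel 1 h1x
  rw [Helper81.irr_one_eq_charDegree, Helper81.irr_one_eq_charDegree] at hdeg
  have hd1 := Helper81.charDegree_pos χ₁
  have hd2 := Helper81.charDegree_pos χ₂
  rcases hone χ₁ hm1 with e1 | e1 <;> rcases hone χ₂ hm2 with e2 | e2
  · exfalso
    rw [e1, e2] at hdeg
    have h : (1 : ℤ) + 1 * (charDegree (χ₁ : G → ℂ) : ℤ) + 1 * (charDegree (χ₂ : G → ℂ) : ℤ) = 0 := by
      exact_mod_cast hdeg
    omega
  · refine ⟨χ₁, χ₂, h12, h1t, h2t, ?_, ?_, hothers, ?_⟩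
    · rw [hk χ₁, e1]; norm_num
    · rw [hk χ₂, e2]; norm_num
    · intro y hy
      have h := hrel y hy
      rw [e1, e2] at h
      push_cast at h
      linear_combination h
  · refine ⟨χ₂, χ₁, h12.symm, h2t, h1t, ?_, ?_, ?_, ?_⟩
    · rw [hk χ₂, e2]; norm_num
    · rw [hk χ₁, e1]; norm_num
    · intro χ ht hχ2 hχ1
      exact hothers χ ht hχ1 hχ2
    · intro y hy
      have h := hrel y hy
      rw [e1, e2] at h
      push_cast at h
      linear_combination h
  · exfalso
    rw [e1, e2] at hdeg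
    have h : (1 : ℤ) + (-1) * (charDegree (χ₁ : G → ℂ) : ℤ)
        + (-1) * (charDegree (χ₂ : G → ℂ) : ℤ) = 0 := by
      exact_mod_cast hdeg
    omega

/-- The value of an irreducible character at an involution has the parity of the degree. -/
theorem tc_parity (χ : IrrCharacter G) {z : G} (hz : orderOf z = 2) :
    ∃ m : ℕ, (χ : G → ℂ) 1 + (χ : G → ℂ) z = 2 * m := by
  classical
  have : Fintype (Subgroup.zpowers z) := Fintype.ofFinite _
  obtain ⟨m, hm⟩ := Helper81.exists_nat_sum_subgroup χ (Subgroup.zpowers z)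
  have hcard : Nat.card (Subgroup.zpowers z) = 2 := by rw [Nat.card_zpowers, hz]
  have hsum : ∑ x : Subgroup.zpowers z, (χ : G → ℂ) x = (χ : G → ℂ) 1 + (χ : G → ℂ) z := by
    have hz1 : z ≠ 1 := by
      intro h
      rw [h, orderOf_one] at hz
      exact absurd hz (by norm_num)
    obtain ⟨z', hz'⟩ : ∃ z' : Subgroup.zpowers z, (z' : G) = z := ⟨⟨z, Subgroup.mem_zpowers z⟩, rfl⟩
    have hne : (1 : Subgroup.zpowers z) ≠ z' := by
      intro h
      apply hz1
      rw [← hz', ← h]
      rfl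
    have huniv : ({1, z'} : Finset (Subgroup.zpowers z)) = Finset.univ := by
      apply Finset.eq_univ_of_card
      rw [Finset.card_pair hne, ← Nat.card_eq_fintype_card, hcard]
    rw [← huniv, Finset.sum_pair hne, hz']
    rfl
  rw [hsum, hcard] at hm
  exact ⟨m, by rw [hm]; push_cast; ring⟩

/-- Newton's identity for the determinant of a `3 × 3` matrix. -/
theorem tc_det_three (A : Matrix (Fin 3) (Fin 3) ℂ) :
    6 * A.det = A.trace ^ 3 - 3 * A.trace * (A * A).trace + 2 * (A * A * A).trace := by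
  simp only [Matrix.det_fin_three, Matrix.trace_fin_three, Matrix.mul_apply, Fin.sum_univ_three]
  ring

/-- In a perfect group, an irreducible character of degree `3` takes the value `-1` or `3` at
every involution. -/
theorem tc_involution_value (hperf : commutator G = ⊤) (χ : IrrCharacter G)
    (hχ : charDegree (χ : G → ℂ) = 3) (s : G) (hs : orderOf s = 2) :
    (χ : G → ℂ) s = -1 ∨ (χ : G → ℂ) s = 3 := by
  classical
  have hss : s * s = 1 := by
    have := pow_orderOf_eq_one s
    rwa [hs, pow_two] at this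
  obtain ⟨m, hm⟩ := tc_parity χ hs
  obtain ⟨n, ρ, -, hρ⟩ := χ.2
  have hn : n = 3 := by rw [← hχ, ← hρ, Helper80.charDegree_rep_character]
  subst hn
  obtain ⟨f, hf⟩ : ∃ f : G →* ℂˣ, ∀ y : G, ((f y : ℂˣ) : ℂ) = LinearMap.det (ρ y) := by
    refine ⟨(Units.map (LinearMap.det : ((Fin 3 → ℂ) →ₗ[ℂ] (Fin 3 → ℂ)) →* ℂ)).comp
      ρ.asGroupHom, ?_⟩
    intro y
    simp [Representation.asGroupHom_apply]
  have hdet : LinearMap.det (ρ s) = 1 := by
    have h1 := Helper79.hom_apply_eq_one_of_mem_commutator f (g := s) (by rw [hperf]; trivial)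
    rw [← hf s, h1]
    rfl
  have hAA : LinearMap.toMatrix' (ρ s) * LinearMap.toMatrix' (ρ s) = 1 := by
    rw [← LinearMap.toMatrix'_mul, ← map_mul, hss, map_one, LinearMap.toMatrix'_one]
  have htr : (LinearMap.toMatrix' (ρ s)).trace = (χ : G → ℂ) s := by
    rw [← hρ]
    show _ = LinearMap.trace ℂ _ (ρ s)
    rw [LinearMap.trace_eq_matrix_trace ℂ (Pi.basisFun ℂ (Fin 3)), LinearMap.toMatrix_eq_toMatrix']
  have hdetA : (LinearMap.toMatrix' (ρ s)).det = 1 := by
    rw [LinearMap.det_toMatrix', hdet]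
  have h3 : (1 : Matrix (Fin 3) (Fin 3) ℂ).trace = 3 := by
    simp
  have key := tc_det_three (LinearMap.toMatrix' (ρ s))
  rw [hAA, one_mul, h3, hdetA, htr] at key
  have hfac : ((χ : G → ℂ) s + 1) * ((χ : G → ℂ) s - 3) * ((χ : G → ℂ) s + 2) = 0 := by
    linear_combination -key
  rcases mul_eq_zero.mp hfac with h | h
  · rcases mul_eq_zero.mp h with h | h
    · left; linear_combination h
    · right; linear_combination h
  · exfalso
    have hval : (χ : G → ℂ) s = -2 := by linear_combination h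
    rw [hval, Helper81.irr_one_eq_charDegree, hχ] at hm
    have h1 : ((1 : ℕ) : ℂ) = ((2 * m : ℕ) : ℂ) := by
      push_cast
      linear_combination hm
    have h2 : (1 : ℕ) = 2 * m := by exact_mod_cast h1
    omega

end Cfsg.Agent.Helper82
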