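import Mathlib
import Cfsg.Agent.Helper82.ThreeCent
import Cfsg.Agent.Helper82.InvCount
import Cfsg.Agent.Helper74.TriPrime

/-!
# Simple groups of order `3 * p ^ a * 2 ^ b`, `a ≤ 2` (helper82)

`tm_main`: a nonabelian simple group of order `3 * p ^ a * 2 ^ b` with `p ≠ 2, 3` prime and
`1 ≤ a ≤ 2` has order `60` or `168`.
-/

set_option autoImplicit false
open Cfsg
open scoped ComplexConjugate

namespace Cfsg.Agent.Helper82

universe u

variable {G : Type u} [Group G] [Finite G]

/-- Comparison of `2`-adic valuations. -/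
theorem tm_two_adic (c t b e : ℕ) (hc : Odd c) (ht : Odd t) (h : c * 2 ^ b = 2 ^ e * t) :
    b = e := by
  rcases lt_trichotomy b e with hlt | heq | hgt
  · exfalso
    obtain ⟨d, rfl⟩ := Nat.exists_eq_add_of_lt hlt
    have h2 : c = 2 ^ (d + 1) * t := by
      have h3 : 2 ^ b * c = 2 ^ b * (2 ^ (d + 1) * t) := by
        rw [← mul_assoc, ← pow_add, mul_comm (2 ^ b) c, h]
        congr 2
      exact Nat.eq_of_mul_eq_mul_left (pow_pos (by norm_num) b) h3
    rw [h2] at hc
    have hev : Even (2 ^ (d + 1) * t) := by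
      rw [pow_succ]
      exact ⟨2 ^ d * t, by ring⟩
    exact (Nat.not_odd_iff_even.mpr hev) hc
  · exact heq
  · exfalso
    obtain ⟨d, rfl⟩ := Nat.exists_eq_add_of_lt hgt
    have h2 : t = 2 ^ (d + 1) * c := by
      have h3 : 2 ^ e * t = 2 ^ e * (2 ^ (d + 1) * c) := by
        rw [← mul_assoc, ← pow_add, ← h, mul_comm]
        congr 2
      exact Nat.eq_of_mul_eq_mul_left (pow_pos (by norm_num) e) h3
    rw [h2] at ht
    have hev : Even (2 ^ (d + 1) * c) := by
      rw [pow_succ]
      exact ⟨2 ^ d * c, by ring⟩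
    exact (Nat.not_odd_iff_even.mpr hev) ht

theorem tm_arith7 (a b n : ℕ) (ha1 : 1 ≤ a) (ha : a ≤ 2) (hn : Odd n)
    (h : 21 * (3 * 7 ^ a * 2 ^ b) = 8 * n ^ 2) : 3 * 7 ^ a * 2 ^ b = 168 := by
  have hn2 : Odd (n ^ 2) := hn.pow
  interval_cases a
  · have hb : b = 3 := by
      apply tm_two_adic 441 (n ^ 2) b 3 (by decide) hn2
      linarith
    subst hb
    norm_num
  · exfalso
    have hb : b = 3 := by
      apply tm_two_adic 3087 (n ^ 2) b 3 (by decide) hn2
      linarith
    subst hb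
    have h1 : n ^ 2 = 3087 := by linarith
    rcases Nat.lt_or_ge n 56 with h2 | h2
    · have : n ≤ 55 := by omega
      nlinarith
    · nlinarith

theorem tm_arith5 (a b n : ℕ) (ha1 : 1 ≤ a) (ha : a ≤ 2) (hn : Odd n)
    (h : 15 * (3 * 5 ^ a * 2 ^ b) = 4 * n ^ 2) : 3 * 5 ^ a * 2 ^ b = 60 := by
  have hn2 : Odd (n ^ 2) := hn.pow
  interval_cases a
  · have hb : b = 2 := by
      apply tm_two_adic 225 (n ^ 2) b 2 (by decide) hn2
      linarith
    subst hb
    norm_num
  · exfalso
    have hb : b = 2 := by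
      apply tm_two_adic 1125 (n ^ 2) b 2 (by decide) hn2
      linarith
    subst hb
    have h1 : n ^ 2 = 1125 := by linarith
    rcases Nat.lt_or_ge n 34 with h2 | h2
    · have : n ≤ 33 := by omega
      nlinarith
    · nlinarith

/-- A nonabelian simple group of order `3 * p ^ a * 2 ^ b` with `p ≠ 2, 3` and `1 ≤ a ≤ 2` has order
`60` or `168`. -/
theorem tm_main [IsSimpleGroup G] (hnc : ¬ ∀ a b : G, a * b = b * a) (p a b : ℕ) (hp : p.Prime)
    (hp2 : p ≠ 2) (hp3 : p ≠ 3) (ha1 : 1 ≤ a) (ha : a ≤ 2)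
    (hG : Nat.card G = 3 * p ^ a * 2 ^ b) : Nat.card G = 60 ∨ Nat.card G = 168 := by
  classical
  have := Fintype.ofFinite G
  have := Fintype.ofFinite (IrrCharacter G)
  have : Fact (Nat.Prime 3) := ⟨Nat.prime_three⟩
  have hperf : commutator G = ⊤ := Helper79.simple_commutator_eq_top hnc
  have hnt : Nontrivial G := IsSimpleGroup.toNontrivial
  obtain ⟨m, hmdef⟩ : ∃ m : ℕ, m = p ^ a * 2 ^ b := ⟨_, rfl⟩
  have hG' : Nat.card G = 3 * m := by rw [hG, hmdef]; ring
  have hm : ¬ 3 ∣ m := by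
    rw [hmdef]
    intro h
    rcases (Nat.Prime.dvd_mul Nat.prime_three).mp h with h1 | h1
    · have h2 := Nat.prime_three.dvd_of_dvd_pow h1
      exact hp3 ((Nat.prime_dvd_prime_iff_eq Nat.prime_three hp).mp h2).symm
    · have h2 := Nat.prime_three.dvd_of_dvd_pow h1
      exact absurd h2 (by norm_num)
  -- the character of degree three
  obtain ⟨-, θ, hθne, k, hk⟩ := Helper74.tri_exists_both p 2 3 a b 1 hp Nat.prime_two
    Nat.prime_three hp2 hp3 ha (by rw [hG]; ring)
  have hθ : charDegree (θ : G → ℂ) = 3 := by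
    have hdvd := Helper79.irr_charDegree_dvd_card θ
    rw [hk, hG'] at hdvd
    have hk0 : k ≠ 0 := by
      rintro rfl
      apply hθne
      exact Helper79.simple_irr_linear_eq_one hnc θ (by rw [hk, pow_zero])
    have hk2 : k < 2 := by
      by_contra h
      push Not at h
      have h9 : 3 ^ 2 ∣ 3 * m := dvd_trans (pow_dvd_pow 3 h) hdvd
      apply hm
      obtain ⟨w, hw⟩ := h9
      exact ⟨w, by omega⟩
    have hk1 : k = 1 := by omega
    rw [hk, hk1, pow_one]
  have hθ1 : charDegree (θ : G → ℂ) ≠ 1 := by rw [hθ]; norm_num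
  have hθfaith := Helper79.simple_irr_faithful θ hθ1
  obtain ⟨x, hx⟩ := exists_prime_orderOf_dvd_card' 3
    (show 3 ∣ Nat.card G by rw [hG']; exact dvd_mul_right 3 m)
  have hC := tc_card_centralizer hnc m hG' hm θ hθ x hx
  obtain ⟨g, hg⟩ := tc_conj_inv hnc m hG' hm x hx
  obtain ⟨χp, χm, hpm, hpt, hmt, hpx, hmx, hothers, hrel⟩ := tc_three_chars x hx hC g hg
  have hx1 : x ≠ 1 := by
    rintro rfl
    rw [orderOf_one] at hx
    exact absurd hx (by norm_num)
  have h1x : ¬ IsConj (1 : G) x := fun h => hx1 (isConj_one_right.mp h)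
  -- degrees
  obtain ⟨dp, hdp⟩ : ∃ dp : ℕ, dp = charDegree (χp : G → ℂ) := ⟨_, rfl⟩
  obtain ⟨dm, hdm⟩ : ∃ dm : ℕ, dm = charDegree (χm : G → ℂ) := ⟨_, rfl⟩
  have hdeg : dm = dp + 1 := by
    have h := hrel 1 h1x
    rw [Helper81.irr_one_eq_charDegree, Helper81.irr_one_eq_charDegree, ← hdp, ← hdm] at h
    have h' : ((dm : ℕ) : ℂ) = ((dp + 1 : ℕ) : ℂ) := by push_cast; linear_combination -h
    exact_mod_cast h'
  have htriv_fun : (Helper81.trivIrr G : G → ℂ) = fun _ => 1 := by
    funext y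
    exact Helper81.trivIrr_apply y
  have hdp1 : dp ≠ 1 := by
    intro h
    apply hpt
    apply Subtype.ext
    rw [htriv_fun]
    exact Helper79.simple_irr_linear_eq_one hnc χp (by rw [← hdp, h])
  have hdp2 : dp ≠ 2 := by
    intro h
    exact Helper79.simple_no_degree_two hnc χp (by rw [← hdp, h])
  have hdp0 : 0 < dp := by rw [hdp]; exact Helper81.charDegree_pos χp
  have hdp3 : 3 ≤ dp := by omega
  -- the square of `θ`
  obtain ⟨Φ, hΦdef⟩ : ∃ Φ : G → ℂ, Φ = (θ : G → ℂ) * (fun y => conj ((θ : G → ℂ) y)) :=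
    ⟨_, rfl⟩
  have hΦ : IsCharacter G Φ := by
    rw [hΦdef]
    exact Helper79.isCharacter_mul (Helper79.irr_isCharacter θ)
      (Helper79.isCharacter_conj (Helper79.irr_isCharacter θ))
  obtain ⟨mu, hmu⟩ := Helper75.exists_nat_mult hΦ
  have hexp := Helper75.character_eq_sum_irr hΦ
  have hval : ∀ y : G, (θ : G → ℂ) y * conj ((θ : G → ℂ) y)
      = ∑ χ : IrrCharacter G, (mu χ : ℂ) * (χ : G → ℂ) y := by
    intro y
    have h := congrFun hexp y
    simp only [Finset.sum_apply, Pi.smul_apply, smul_eq_mul, hmu] at h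
    rw [← h, hΦdef]
    rfl
  have hmut : mu (Helper81.trivIrr G) = 1 := by
    have h1 : classInner Φ (Helper81.trivIrr G : G → ℂ)
        = classInner (θ : G → ℂ) (θ : G → ℂ) := by
      unfold classInner
      congr 1
      refine Finset.sum_congr rfl fun y _ => ?_
      rw [hΦdef, Helper81.trivIrr_apply, map_one, mul_one]
      rfl
    rw [hmu, Helper75.classInner_irr_self θ.2] at h1
    exact_mod_cast h1
  obtain ⟨T, hT⟩ : ∃ T : Finset (IrrCharacter G), T = {Helper81.trivIrr G, χp, χm} := ⟨_, rfl⟩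
  have hsplit : ∀ f : IrrCharacter G → ℂ, ∑ χ : IrrCharacter G, f χ
      = f (Helper81.trivIrr G) + f χp + f χm + ∑ χ ∈ Tᶜ, f χ := by
    intro f
    rw [← Finset.sum_add_sum_compl T f, hT, Finset.sum_insert (by
      simp only [Finset.mem_insert, Finset.mem_singleton, not_or]
      exact ⟨hpt.symm, hmt.symm⟩), Finset.sum_pair hpm]
    ring
  have hTc : ∀ χ ∈ Tᶜ, χ ≠ Helper81.trivIrr G ∧ χ ≠ χp ∧ χ ≠ χm := by
    intro χ hχ
    rw [Finset.mem_compl, hT] at hχ
    simp only [Finset.mem_insert, Finset.mem_singleton, not_or] at hχ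
    exact hχ
  have hTcx : ∀ χ ∈ Tᶜ, (χ : G → ℂ) x = 0 := fun χ hχ =>
    hothers χ (hTc χ hχ).1 (hTc χ hχ).2.1 (hTc χ hχ).2.2
  choose e he using fun χ : IrrCharacter G => tc_sum_zpowers χ x hx g hg
  have hθx : (θ : G → ℂ) x = 0 := by
    have h := he θ
    rw [Helper81.irr_one_eq_charDegree, hθ] at h
    by_cases h1 : θ = Helper81.trivIrr G
    · exfalso
      apply hθne
      rw [h1, htriv_fun]
    by_cases h2 : θ = χp
    · exfalso
      rw [h2, hpx] at h
      have h' : ((3 + 2 * 1 : ℕ) : ℂ) = ((3 * e χp : ℕ) : ℂ) := by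
        push_cast
        push_cast at h
        linear_combination h
      have h'' : 3 + 2 * 1 = 3 * e χp := by exact_mod_cast h'
      omega
    by_cases h3 : θ = χm
    · exfalso
      rw [h3, hmx] at h
      have h' : ((1 : ℕ) : ℂ) = ((3 * e χm : ℕ) : ℂ) := by
        push_cast
        push_cast at h
        linear_combination h
      have h'' : 1 = 3 * e χm := by exact_mod_cast h'
      omega
    exact hothers θ h1 h2 h3
  have hmux : mu χm = mu χp + 1 := by
    have h := hval x
    have h2 := hsplit (fun χ => (mu χ : ℂ) * (χ : G → ℂ) x)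
    beta_reduce at h2
    rw [hθx, zero_mul, h2, Helper81.trivIrr_apply, hpx, hmx, hmut,
      Finset.sum_eq_zero (fun χ hχ => by rw [hTcx χ hχ, mul_zero])] at h
    have h' : ((mu χm : ℕ) : ℂ) = ((mu χp + 1 : ℕ) : ℂ) := by
      push_cast
      push_cast at h
      linear_combination h
    exact_mod_cast h'
  have hdegs : ∀ χ ∈ Tᶜ, (χ : G → ℂ) 1 = 3 * (e χ : ℂ) := by
    intro χ hχ
    have h := he χ
    rw [hTcx χ hχ, mul_zero, add_zero] at h
    exact h
  have hepos : ∀ χ ∈ Tᶜ, e χ ≠ 0 := by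
    intro χ hχ h0
    have h := hdegs χ hχ
    rw [h0] at h
    apply Helper81.irr_one_ne_zero χ
    rw [h]
    norm_num
  obtain ⟨R, hR⟩ : ∃ R : ℕ, R = ∑ χ ∈ Tᶜ, mu χ * e χ := ⟨_, rfl⟩
  have hone : 8 = mu χp * dp + mu χm * dm + 3 * R := by
    have h := hval 1
    have h2 := hsplit (fun χ => (mu χ : ℂ) * (χ : G → ℂ) 1)
    beta_reduce at h2
    rw [h2, Helper81.trivIrr_apply, hmut] at h
    rw [Helper81.irr_one_eq_charDegree θ, hθ, Helper81.irr_one_eq_charDegree χp,
      Helper81.irr_one_eq_charDegree χm, ← hdp, ← hdm] at h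
    have h3 : ∑ χ ∈ Tᶜ, (mu χ : ℂ) * (χ : G → ℂ) 1 = 3 * (R : ℂ) := by
      rw [hR]
      push_cast
      rw [Finset.mul_sum]
      refine Finset.sum_congr rfl fun χ hχ => ?_
      rw [hdegs χ hχ]
      ring
    rw [h3] at h
    simp only [map_natCast] at h
    have h4 : ((8 : ℕ) : ℂ) = ((mu χp * dp + mu χm * dm + 3 * R : ℕ) : ℂ) := by
      push_cast
      push_cast at h
      linear_combination h
    exact_mod_cast h4
  have hmup : mu χp = 0 := by
    by_contra h0
    have h1 : 1 ≤ mu χp := Nat.pos_of_ne_zero h0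
    rw [hmux, hdeg] at hone
    nlinarith
  have hmum : mu χm = 1 := by rw [hmux, hmup]
  rw [hmup, hmum, zero_mul, zero_add, one_mul] at hone
  have hcases : (dp = 7 ∧ R = 0) ∨ (dp = 4 ∧ R = 1) := by omega
  -- values at involutions
  have hθs : ∀ s : G, orderOf s = 2 → (θ : G → ℂ) s = -1 := by
    intro s hs
    rcases tc_involution_value hperf θ hθ s hs with h | h
    · exact h
    · exfalso
      have h1 : (θ : G → ℂ) s = (θ : G → ℂ) 1 := by
        rw [h, Helper81.irr_one_eq_charDegree, hθ]; norm_num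
      have h2 := hθfaith s h1
      rw [h2, orderOf_one] at hs
      exact absurd hs (by norm_num)
  have hsx : ∀ s : G, orderOf s = 2 → ¬ IsConj s x := by
    intro s hs h
    obtain ⟨c, hc⟩ := isConj_iff.mp h
    have h1 : orderOf (c * s * c⁻¹) = orderOf s := (MulAut.conj c).orderOf_eq s
    rw [hc, hx, hs] at h1
    exact absurd h1 (by norm_num)
  have hΦs : ∀ s : G, orderOf s = 2 →
      (χm : G → ℂ) s + ∑ χ ∈ Tᶜ, (mu χ : ℂ) * (χ : G → ℂ) s = 0 := by
    intro s hs
    have h := hval s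
    have h2 := hsplit (fun χ => (mu χ : ℂ) * (χ : G → ℂ) s)
    beta_reduce at h2
    rw [h2, hθs s hs, Helper81.trivIrr_apply, hmut, hmup, hmum] at h
    simp only [map_neg, map_one] at h
    push_cast at h
    linear_combination -h
  have hvals : ∃ cp cm : ℂ, (∀ s : G, orderOf s = 2 → (χp : G → ℂ) s = cp) ∧
      (∀ s : G, orderOf s = 2 → (χm : G → ℂ) s = cm) ∧
      ((dp = 7 ∧ cp = -1 ∧ cm = 0) ∨ (dp = 4 ∧ cp = 0 ∧ cm = 1)) := by
    rcases hcases with ⟨h7, hR0⟩ | ⟨h4, hR1⟩
    · have hmu0 : ∀ χ ∈ Tᶜ, mu χ = 0 := by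
        intro χ hχ
        rw [hR0] at hR
        have h := (Finset.sum_eq_zero_iff.mp hR.symm) χ hχ
        rcases Nat.mul_eq_zero.mp h with h | h
        · exact h
        · exact absurd h (hepos χ hχ)
      have hm0 : ∀ s : G, orderOf s = 2 → (χm : G → ℂ) s = 0 := by
        intro s hs
        have h := hΦs s hs
        rw [Finset.sum_eq_zero (fun χ hχ => by rw [hmu0 χ hχ]; push_cast; ring), add_zero] at h
        exact h
      refine ⟨-1, 0, ?_, hm0, Or.inl ⟨h7, rfl, rfl⟩⟩
      intro s hs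
      have h := hrel s (hsx s hs)
      rw [hm0 s hs] at h
      linear_combination h
    · have hne : ∑ χ ∈ Tᶜ, mu χ * e χ ≠ 0 := by rw [← hR, hR1]; norm_num
      obtain ⟨θ', hθ'T, hθ'ne⟩ := Finset.exists_ne_zero_of_sum_ne_zero hne
      have hsum := Finset.add_sum_erase Tᶜ (fun χ => mu χ * e χ) hθ'T
      beta_reduce at hsum
      rw [← hR, hR1] at hsum
      have hθ'1 : mu θ' * e θ' = 1 := by
        have : 1 ≤ mu θ' * e θ' := Nat.pos_of_ne_zero hθ'ne
        omega
      have hrest : ∑ χ ∈ Tᶜ.erase θ', mu χ * e χ = 0 := by omega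
      have hmuθ' : mu θ' = 1 := Nat.eq_one_of_mul_eq_one_right hθ'1
      have heθ' : e θ' = 1 := Nat.eq_one_of_mul_eq_one_left hθ'1
      have hmu0 : ∀ χ ∈ Tᶜ.erase θ', mu χ = 0 := by
        intro χ hχ
        have h := (Finset.sum_eq_zero_iff.mp hrest) χ hχ
        rcases Nat.mul_eq_zero.mp h with h | h
        · exact h
        · exact absurd h (hepos χ (Finset.mem_of_mem_erase hχ))
      have hθ'deg : charDegree (θ' : G → ℂ) = 3 := by
        have h := hdegs θ' hθ'T
        rw [Helper81.irr_one_eq_charDegree, heθ'] at h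
        have h' : ((charDegree (θ' : G → ℂ) : ℕ) : ℂ) = ((3 : ℕ) : ℂ) := by
          push_cast
          linear_combination h
        exact_mod_cast h'
      have hθ'faith := Helper79.simple_irr_faithful θ' (by rw [hθ'deg]; norm_num)
      have hθ's : ∀ s : G, orderOf s = 2 → (θ' : G → ℂ) s = -1 := by
        intro s hs
        rcases tc_involution_value hperf θ' hθ'deg s hs with h | h
        · exact h
        · exfalso
          have h1 : (θ' : G → ℂ) s = (θ' : G → ℂ) 1 := by
            rw [h, Helper81.irr_one_eq_charDegree, hθ'deg]; norm_num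
          have h2 := hθ'faith s h1
          rw [h2, orderOf_one] at hs
          exact absurd hs (by norm_num)
      have hm1 : ∀ s : G, orderOf s = 2 → (χm : G → ℂ) s = 1 := by
        intro s hs
        have h := hΦs s hs
        have hsum2 := Finset.add_sum_erase Tᶜ (fun χ => (mu χ : ℂ) * (χ : G → ℂ) s) hθ'T
        beta_reduce at hsum2
        rw [← hsum2, hmuθ', hθ's s hs,
          Finset.sum_eq_zero (fun χ hχ => by rw [hmu0 χ hχ]; push_cast; ring)] at h
        push_cast at h
        linear_combination h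
      refine ⟨0, 1, ?_, hm1, Or.inr ⟨h4, rfl, rfl⟩⟩
      intro s hs
      have h := hrel s (hsx s hs)
      rw [hm1 s hs] at h
      linear_combination h
  obtain ⟨cp, cm, hcp, hcm, hcc⟩ := hvals
  -- the count
  obtain ⟨n, hn⟩ : ∃ n : ℕ, n = Nat.card {s : G // orderOf s = 2} := ⟨_, rfl⟩
  have hcount := ic_pair_count x
  rw [ic_card_inverting x hx hC g hg] at hcount
  have hxinv : ∀ χ : IrrCharacter G, (χ : G → ℂ) x⁻¹ = (χ : G → ℂ) x := by
    intro χ
    rw [← hg, Helper81.irr_conj]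
  have hboole : ∑ s : G, (if orderOf s = 2 then (1 : ℂ) else 0) = (n : ℂ) := by
    rw [Finset.sum_boole, hn, Nat.card_eq_fintype_card, Fintype.card_subtype]
  have hSconst : ∀ (χ : IrrCharacter G) (c : ℂ), (∀ s : G, orderOf s = 2 → (χ : G → ℂ) s = c) →
      ∑ s : G, (if orderOf s = 2 then (χ : G → ℂ) s else 0) = c * n := by
    intro χ c hc
    have h1 : ∀ s : G, (if orderOf s = 2 then (χ : G → ℂ) s else 0)
        = c * (if orderOf s = 2 then (1 : ℂ) else 0) := by
      intro s
      by_cases h : orderOf s = 2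
      · rw [if_pos h, if_pos h, hc s h, mul_one]
      · rw [if_neg h, if_neg h, mul_zero]
    simp only [h1]
    rw [← Finset.mul_sum, hboole]
  have h2 := hsplit (fun χ => (∑ s : G, (if orderOf s = 2 then (χ : G → ℂ) s else 0)) ^ 2
    * (χ : G → ℂ) x⁻¹ / (χ : G → ℂ) 1)
  beta_reduce at h2
  rw [h2] at hcount
  have hzero : ∑ χ ∈ Tᶜ, (∑ s : G, (if orderOf s = 2 then (χ : G → ℂ) s else 0)) ^ 2
      * (χ : G → ℂ) x⁻¹ / (χ : G → ℂ) 1 = 0 :=
    Finset.sum_eq_zero (fun χ hχ => by rw [hxinv, hTcx χ hχ, mul_zero, zero_div])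
  rw [hzero, hSconst (Helper81.trivIrr G) 1 (fun s _ => Helper81.trivIrr_apply s),
    hSconst χp cp hcp, hSconst χm cm hcm, hxinv, hxinv, hxinv, Helper81.trivIrr_apply,
    Helper81.trivIrr_apply, hpx, hmx, Helper81.irr_one_eq_charDegree χp,
    Helper81.irr_one_eq_charDegree χm, ← hdp, ← hdm, hdeg] at hcount
  have hcardpos : 0 < Nat.card G := Nat.card_pos
  have hodd : ∀ c : ℕ, 0 < c → c * Nat.card G = 8 * n ^ 2 ∨ c * Nat.card G = 4 * n ^ 2 → Odd n := by
    intro c hc hor
    have hn0 : n ≠ 0 := by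
      rintro rfl
      rcases hor with h | h <;> nlinarith
    rw [hn] at hn0 ⊢
    have hne : Nonempty {s : G // orderOf s = 2} := by
      by_contra hemp
      rw [not_nonempty_iff] at hemp
      exact hn0 Nat.card_of_isEmpty
    obtain ⟨s, hs⟩ := hne
    apply ic_odd_involutions
    rw [← hs]
    exact orderOf_dvd_natCard s
  rcases hcc with ⟨h7, rfl, rfl⟩ | ⟨h4, rfl, rfl⟩
  · right
    rw [h7] at hcount
    have hN : 21 * Nat.card G = 8 * n ^ 2 := by
      have h : ((21 * Nat.card G : ℕ) : ℂ) = ((8 * n ^ 2 : ℕ) : ℂ) := by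
        push_cast
        push_cast at hcount
        linear_combination 7 * hcount
      exact_mod_cast h
    have hoddn := hodd 21 (by norm_num) (Or.inl hN)
    have h7G : 7 ∣ Nat.card G := by
      have := Helper79.irr_charDegree_dvd_card χp
      rwa [← hdp, h7] at this
    have hp7 : p = 7 := by
      rw [hG] at h7G
      have h7p : Nat.Prime 7 := by norm_num
      rcases (Nat.Prime.dvd_mul h7p).mp h7G with h | h
      · rcases (Nat.Prime.dvd_mul h7p).mp h with h | h
        · exact absurd h (by norm_num)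
        · exact ((Nat.prime_dvd_prime_iff_eq h7p hp).mp (h7p.dvd_of_dvd_pow h)).symm
      · have := h7p.dvd_of_dvd_pow h
        exact absurd this (by norm_num)
    rw [hG, hp7] at hN ⊢
    exact tm_arith7 a b n ha1 ha hoddn hN
  · left
    rw [h4] at hcount
    have hN : 15 * Nat.card G = 4 * n ^ 2 := by
      have h : ((15 * Nat.card G : ℕ) : ℂ) = ((4 * n ^ 2 : ℕ) : ℂ) := by
        push_cast
        push_cast at hcount
        linear_combination 5 * hcount
      exact_mod_cast h
    have hoddn := hodd 15 (by norm_num) (Or.inr hN)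
    have h5G : 5 ∣ Nat.card G := by
      have := Helper79.irr_charDegree_dvd_card χm
      rwa [← hdm, hdeg, h4] at this
    have hp5 : p = 5 := by
      rw [hG] at h5G
      have h5p : Nat.Prime 5 := by norm_num
      rcases (Nat.Prime.dvd_mul h5p).mp h5G with h | h
      · rcases (Nat.Prime.dvd_mul h5p).mp h with h | h
        · exact absurd h (by norm_num)
        · exact ((Nat.prime_dvd_prime_iff_eq h5p hp).mp (h5p.dvd_of_dvd_pow h)).symm
      · have := h5p.dvd_of_dvd_pow h
        exact absurd this (by norm_num)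
    rw [hG, hp5] at hN ⊢
    exact tm_arith5 a b n ha1 ha hoddn hN

end Cfsg.Agent.Helper82
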