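import Mathlib
import Cfsg.Agent.Helper82.ThreeMain
import Cfsg.Agent.Helper82.KleinPQ

/-!
# Simple groups of order `4 * p ^ a * q ^ b` and `3 * p ^ a * q ^ b` (helper82)

* `sc_four`: a nonabelian simple group of order `4 * p ^ a * q ^ b` has order `60`.
* `sc_three`: a nonabelian simple group of order `3 * p ^ a * q ^ b` with `a ≤ 2` has order `60`
  or `168`.
-/

set_option autoImplicit false
open Cfsg

namespace Cfsg.Agent.Helper82

universe u

variable {G : Type u} [Group G] [Finite G]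

/-- Burnside's theorem for simple groups. -/
theorem sc_not_solv [IsSimpleGroup G] (hnc : ¬ ∀ a b : G, a * b = b * a) (r s i j : ℕ)
    (hr : r.Prime) (hs : s.Prime) (h : Nat.card G = r ^ i * s ^ j) : False :=
  hnc (IsSimpleGroup.comm_iff_isSolvable.mpr (Helper3.isSolvable_of_card_eq r s i j hr hs h))

/-- No nonabelian simple group has order twice an odd number. -/
theorem sc_two_odd [IsSimpleGroup G] (hnc : ¬ ∀ a b : G, a * b = b * a) (m : ℕ)
    (hG : Nat.card G = 2 * m) (hm : ¬ 2 ∣ m) : False := by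
  classical
  have : Fact (Nat.Prime 2) := ⟨Nat.prime_two⟩
  have hm0 : m ≠ 0 := by
    rintro rfl
    exact hm (dvd_zero 2)
  have hfac : (Nat.card G).factorization 2 = 1 := by
    rw [hG, Nat.factorization_mul (by norm_num) hm0, Finsupp.add_apply,
      Nat.factorization_eq_zero_of_not_dvd hm, Nat.Prime.factorization_self Nat.prime_two]
  obtain ⟨Q⟩ : Nonempty (Sylow 2 G) := inferInstance
  have hQ : Nat.card (Q : Subgroup G) = 2 := by rw [Q.card_eq_multiplicity, hfac, pow_one]
  have huniq := (Nat.card_eq_two_iff' (1 : (Q : Subgroup G))).mp hQ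
  have hne : Nat.card (Q : Subgroup G) ≠ Nat.card G := by
    rw [hQ]
    intro h
    exact sc_not_solv hnc 2 3 1 0 Nat.prime_two Nat.prime_three (by rw [← h]; norm_num)
  apply sd_not_normalizer_le_centralizer Q (by rw [hQ]; norm_num) hne
  intro g hg
  rw [Subgroup.mem_centralizer_iff]
  intro y hy
  by_cases hy1 : y = 1
  · rw [hy1, one_mul, mul_one]
  · have hgy : g * y * g⁻¹ ∈ (Q : Subgroup G) := (Subgroup.mem_normalizer_iff.mp hg y).mp hy
    have hgy1 : g * y * g⁻¹ ≠ 1 := by
      intro h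
      exact hy1 (conj_eq_one_iff.mp h)
    have h1 := huniq.unique (y₁ := ⟨g * y * g⁻¹, hgy⟩) (y₂ := ⟨y, hy⟩)
      (by intro h; exact hgy1 (congrArg Subtype.val h))
      (by intro h; exact hy1 (congrArg Subtype.val h))
    have h2 : g * y * g⁻¹ = y := congrArg Subtype.val h1
    exact (mul_inv_eq_iff_eq_mul.mp h2).symm

/-- No nonabelian simple group has odd order `3 * m` with `3 ∤ m`. -/
theorem sc_three_odd [IsSimpleGroup G] (hnc : ¬ ∀ a b : G, a * b = b * a) (m : ℕ)
    (hG : Nat.card G = 3 * m) (hm : ¬ 3 ∣ m) (hodd : Odd m) : False := by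
  classical
  have : Fact (Nat.Prime 3) := ⟨Nat.prime_three⟩
  obtain ⟨x, hx⟩ := exists_prime_orderOf_dvd_card' (G := G) 3 (by rw [hG]; exact Dvd.intro _ rfl)
  obtain ⟨g, hg⟩ := tc_conj_inv hnc m hG hm x hx
  have hoddG : Odd (Nat.card G) := by
    rw [hG]
    exact (by decide : Odd 3).mul hodd
  have hog : Odd (orderOf g) := Odd.of_dvd_nat hoddG (orderOf_dvd_natCard g)
  obtain ⟨k, hk⟩ := hog
  have h2 : g * x⁻¹ * g⁻¹ = x := by
    have h := congrArg (fun t => t⁻¹) hg
    simpa [mul_assoc] using h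
  have h1' : g * x = x⁻¹ * g := mul_inv_eq_iff_eq_mul.mp hg
  have h2' : g * x⁻¹ = x * g := mul_inv_eq_iff_eq_mul.mp h2
  have hc2 : Commute (g ^ 2) x := by
    show g ^ 2 * x = x * g ^ 2
    rw [pow_two, mul_assoc, h1', ← mul_assoc, h2', mul_assoc]
  have hcg : Commute g x := by
    have h3 : g = (g ^ 2) ^ (k + 1) := by
      rw [← pow_mul, show 2 * (k + 1) = orderOf g + 1 by omega, pow_succ, pow_orderOf_eq_one,
        one_mul]
    rw [h3]
    exact hc2.pow_left (k + 1)
  have h4 : x = x⁻¹ := by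
    rw [← hg, hcg.eq, mul_inv_cancel_right]
  have h5 : x ^ 2 = 1 := by
    rw [pow_two]
    nth_rewrite 2 [h4]
    exact mul_inv_cancel x
  have h6 := orderOf_dvd_of_pow_eq_one h5
  rw [hx] at h6
  exact absurd h6 (by decide)

/-- A nonabelian simple group of order `4 * p ^ a * q ^ b` has order `60`. -/
theorem sc_four [IsSimpleGroup G] (hnc : ¬ ∀ a b : G, a * b = b * a) (p q a b : ℕ)
    (hp : p.Prime) (hq : q.Prime) (hpq : p ≠ q) (hG : Nat.card G = 4 * p ^ a * q ^ b) :
    Nat.card G = 60 := by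
  by_cases hp2 : p = 2
  · subst hp2
    exact absurd (sc_not_solv hnc 2 q (a + 2) b Nat.prime_two hq (by rw [hG]; ring)) id
  by_cases hq2 : q = 2
  · subst hq2
    exact absurd (sc_not_solv hnc p 2 a (b + 2) hp Nat.prime_two (by rw [hG]; ring)) id
  exact kpq_main hnc p q a b hp hq hpq hp2 hq2 hG

/-- A nonabelian simple group of order `3 * p ^ a * q ^ b` with `a ≤ 2` has order `60` or
`168`. -/
theorem sc_three [IsSimpleGroup G] (hnc : ¬ ∀ a b : G, a * b = b * a) (p q a b : ℕ)
    (hp : p.Prime) (hq : q.Prime) (hpq : p ≠ q) (ha : a ≤ 2)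
    (hG : Nat.card G = 3 * p ^ a * q ^ b) : Nat.card G = 60 ∨ Nat.card G = 168 := by
  by_cases hp3 : p = 3
  · subst hp3
    exact absurd (sc_not_solv hnc 3 q (a + 1) b Nat.prime_three hq (by rw [hG]; ring)) id
  by_cases hq3 : q = 3
  · subst hq3
    exact absurd (sc_not_solv hnc p 3 a (b + 1) hp Nat.prime_three (by rw [hG]; ring)) id
  by_cases hp2 : p = 2
  · subst hp2
    have hq2 : q ≠ 2 := fun h => hpq h.symm
    have hqodd : Odd q := hq.odd_of_ne_two hq2
    rcases (by omega : a = 0 ∨ a = 1 ∨ a = 2) with rfl | rfl | rfl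
    · exact absurd (sc_not_solv hnc 3 q 1 b Nat.prime_three hq (by rw [hG]; ring)) id
    · refine absurd (sc_two_odd hnc (3 * q ^ b) (by rw [hG]; ring) ?_) id
      intro h
      have ho : Odd (3 * q ^ b) := (by decide : Odd 3).mul hqodd.pow
      rw [Nat.odd_iff] at ho
      omega
    · left
      exact kpq_main hnc 3 q 1 b Nat.prime_three hq (Ne.symm hq3) (by norm_num) hq2
        (by rw [hG]; ring)
  by_cases hq2 : q = 2
  · subst hq2
    rcases Nat.eq_zero_or_pos a with rfl | ha1
    · exact absurd (sc_not_solv hnc 3 2 1 b Nat.prime_three Nat.prime_two (by rw [hG]; ring)) id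
    · exact tm_main hnc p a b hp hp2 hp3 ha1 ha hG
  · exfalso
    have hpodd : Odd p := hp.odd_of_ne_two hp2
    have hqodd : Odd q := hq.odd_of_ne_two hq2
    refine sc_three_odd hnc (p ^ a * q ^ b) (by rw [hG, mul_assoc]) ?_ (hpodd.pow.mul hqodd.pow)
    intro h
    rcases (Nat.Prime.dvd_mul Nat.prime_three).mp h with h | h
    · exact hp3 ((Nat.prime_dvd_prime_iff_eq Nat.prime_three hp).mp
        (Nat.Prime.dvd_of_dvd_pow Nat.prime_three h)).symm
    · exact hq3 ((Nat.prime_dvd_prime_iff_eq Nat.prime_three hq).mp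
        (Nat.Prime.dvd_of_dvd_pow Nat.prime_three h)).symm

end Cfsg.Agent.Helper82
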