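import Cfsg.Agent.Helper55.N9Defs
import Cfsg.Prelude.Def_Solvable
import Cfsg.Prelude.Def_Transfer

/-!
# CALL S4409 (helper55), piece R2 (helper82, double)
-/

set_option autoImplicit false

namespace Cfsg.Agent.Helper82.N9

open Subgroup Cfsg.Agent.Helper55.N9

theorem n9r2_q8_sq : ∀ x : QuaternionGroup 2, x ^ 2 = 1 → x = 1 ∨ x = QuaternionGroup.a 2 := by
  decide

theorem n9r2_q8_noncomm : ∀ x : QuaternionGroup 2, x ^ 2 ≠ 1 → ∃ y, x * y ≠ y * x := by
  decide

theorem n9r2_q8_cent : ∀ x y : QuaternionGroup 2, x ^ 2 ≠ 1 → x * y = y * x →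
    y = 1 ∨ y = x ∨ y = x ^ 2 ∨ y = x ^ 3 := by
  decide

theorem n9r2_q8_gen : ∀ x y w : QuaternionGroup 2, x * y ≠ y * x →
    (w = 1 ∨ w = x ∨ w = x ^ 2 ∨ w = x ^ 3 ∨ w = y ∨ w = x * y ∨ w = x ^ 2 * y ∨
      w = x ^ 3 * y) := by
  decide

theorem n9r2_q8_inv : ∀ x y : QuaternionGroup 2, x * y ≠ y * x → y * x * y⁻¹ = x⁻¹ := by
  decide

theorem n9r2_q8_central : ∀ c : QuaternionGroup 2, (∀ y, c * y = y * c) → c ^ 2 = 1 := by
  decide

theorem n9r2_q8_pow4 : ∀ x : QuaternionGroup 2, x ^ 4 = 1 := by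
  decide

theorem n9r2_card_mul_relIndex {S : Type*} [Group S] {H K : Subgroup S} (h : H ≤ K) :
    Nat.card H * H.relIndex K = Nat.card K := by
  have := Subgroup.relIndex_mul_relIndex (⊥ : Subgroup S) H K bot_le h
  rwa [Subgroup.relIndex_bot_left, Subgroup.relIndex_bot_left] at this

/-- The facts about a quaternion subgroup `Q` and an element `i` of order 4 in it, stated in the
ambient group. -/
theorem n9r2_facts {S : Type*} [Group S] (Q : Subgroup S) (e : ↥Q ≃* QuaternionGroup 2)
    (i : S) (hiQ : i ∈ Q) (hi2 : i ^ 2 ≠ 1) :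
    i ^ 4 = 1 ∧ ∃ j ∈ Q, i * j ≠ j * i ∧ j * i * j⁻¹ = i⁻¹ ∧
      (∀ w ∈ Q, w = 1 ∨ w = i ∨ w = i ^ 2 ∨ w = i ^ 3 ∨ w = j ∨ w = i * j ∨ w = i ^ 2 * j ∨
        w = i ^ 3 * j) ∧
      (∀ y ∈ Q, i * y = y * i → y = 1 ∨ y = i ∨ y = i ^ 2 ∨ y = i ^ 3) ∧
      (∀ c ∈ Q, (∀ y ∈ Q, c * y = y * c) → c ^ 2 = 1) := by
  set iq : ↥Q := ⟨i, hiQ⟩ with hiq
  have key : ∀ u v : ↥Q, e u = e v → (u : S) = v := fun u v h => congrArg _ (e.injective h)
  have hi2' : (e iq) ^ 2 ≠ 1 := by
    intro h
    apply hi2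
    have h1 := key (iq ^ 2) 1 (by rw [map_pow, h, map_one])
    simpa [hiq] using h1
  refine ⟨?_, ?_⟩
  · have h := n9r2_q8_pow4 (e iq)
    have h1 := key (iq ^ 4) 1 (by rw [map_pow, h, map_one])
    simpa [hiq] using h1
  · obtain ⟨y, hy⟩ := n9r2_q8_noncomm _ hi2'
    set jq : ↥Q := e.symm y with hjq
    have hejq : e jq = y := by rw [hjq, e.apply_symm_apply]
    rw [← hejq] at hy
    refine ⟨(jq : S), jq.2, ?_, ?_, ?_, ?_, ?_⟩
    · intro h
      apply hy
      have h1 : iq * jq = jq * iq := Subtype.ext (by simpa [hiq] using h)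
      rw [← map_mul, ← map_mul, h1]
    · have h := n9r2_q8_inv _ _ hy
      have h1 := key (jq * iq * jq⁻¹) (iq⁻¹) (by rw [map_mul, map_mul, map_inv, map_inv, h])
      simpa [hiq] using h1
    · intro w hw
      have h := n9r2_q8_gen (e iq) (e jq) (e ⟨w, hw⟩) hy
      rcases h with h | h | h | h | h | h | h | h
      · left
        have h1 := key ⟨w, hw⟩ 1 (by rw [h, map_one])
        simpa using h1
      · right; left
        have h1 := key ⟨w, hw⟩ iq h
        simpa [hiq] using h1
      · right; right; left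
        have h1 := key ⟨w, hw⟩ (iq ^ 2) (by rw [h, map_pow])
        simpa [hiq] using h1
      · right; right; right; left
        have h1 := key ⟨w, hw⟩ (iq ^ 3) (by rw [h, map_pow])
        simpa [hiq] using h1
      · right; right; right; right; left
        have h1 := key ⟨w, hw⟩ jq h
        simpa using h1
      · right; right; right; right; right; left
        have h1 := key ⟨w, hw⟩ (iq * jq) (by rw [h, map_mul])
        simpa [hiq] using h1
      · right; right; right; right; right; right; left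
        have h1 := key ⟨w, hw⟩ (iq ^ 2 * jq) (by rw [h, map_mul, map_pow])
        simpa [hiq] using h1
      · right; right; right; right; right; right; right
        have h1 := key ⟨w, hw⟩ (iq ^ 3 * jq) (by rw [h, map_mul, map_pow])
        simpa [hiq] using h1
    · intro y hyQ hcomm
      have h1 : iq * ⟨y, hyQ⟩ = ⟨y, hyQ⟩ * iq := Subtype.ext (by simpa [hiq] using hcomm)
      have h := n9r2_q8_cent (e iq) (e ⟨y, hyQ⟩) hi2' (by rw [← map_mul, ← map_mul, h1])
      rcases h with h | h | h | h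
      · left
        have h1 := key ⟨y, hyQ⟩ 1 (by rw [h, map_one])
        simpa using h1
      · right; left
        have h1 := key ⟨y, hyQ⟩ iq h
        simpa [hiq] using h1
      · right; right; left
        have h1 := key ⟨y, hyQ⟩ (iq ^ 2) (by rw [h, map_pow])
        simpa [hiq] using h1
      · right; right; right
        have h1 := key ⟨y, hyQ⟩ (iq ^ 3) (by rw [h, map_pow])
        simpa [hiq] using h1
    · intro c hcQ hcen
      have h := n9r2_q8_central (e ⟨c, hcQ⟩) (by
        intro y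
        have h1 : (⟨c, hcQ⟩ : ↥Q) * e.symm y = e.symm y * ⟨c, hcQ⟩ :=
          Subtype.ext (by simpa using hcen _ (e.symm y).2)
        have h2 := congrArg e h1
        rwa [map_mul, map_mul, e.apply_symm_apply] at h2)
      have h1 := key ((⟨c, hcQ⟩ : ↥Q) ^ 2) 1 (by rw [map_pow, h, map_one])
      simpa using h1

/-- If `g` commutes with `i` and `j` then it centralizes `Q`. -/
theorem n9r2_cent_of_comm {S : Type*} [Group S] (Q : Subgroup S) (i j g : S)
    (hgen : ∀ w ∈ Q, w = 1 ∨ w = i ∨ w = i ^ 2 ∨ w = i ^ 3 ∨ w = j ∨ w = i * j ∨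
      w = i ^ 2 * j ∨ w = i ^ 3 * j)
    (hgi : Commute i g) (hgj : Commute j g) : g ∈ centralizer (Q : Set S) := by
  rw [mem_centralizer_iff]
  intro w hw
  rcases hgen w hw with h | h | h | h | h | h | h | h <;> subst h
  · exact (Commute.one_left g).eq
  · exact hgi.eq
  · exact (hgi.pow_left 2).eq
  · exact (hgi.pow_left 3).eq
  · exact hgj.eq
  · exact (hgi.mul_left hgj).eq
  · exact ((hgi.pow_left 2).mul_left hgj).eq
  · exact ((hgi.pow_left 3).mul_left hgj).eq

/-- If `b` commutes with `i` and `b j = j i² b`, then `i⁻¹ b` centralizes `Q`. -/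
theorem n9r2_twist {S : Type*} [Group S] (Q : Subgroup S) (i j b : S)
    (hgen : ∀ w ∈ Q, w = 1 ∨ w = i ∨ w = i ^ 2 ∨ w = i ^ 3 ∨ w = j ∨ w = i * j ∨
      w = i ^ 2 * j ∨ w = i ^ 3 * j)
    (hi4 : i ^ 4 = 1) (hinv : j * i * j⁻¹ = i⁻¹)
    (hbi : b * i = i * b) (hbj : b * j = j * i ^ 2 * b) :
    i⁻¹ * b ∈ centralizer (Q : Set S) := by
  apply n9r2_cent_of_comm Q i j _ hgen
  · show i * (i⁻¹ * b) = i⁻¹ * b * i
    rw [mul_assoc, hbi]; group
  · show j * (i⁻¹ * b) = i⁻¹ * b * j
    have h1 : j * i = i⁻¹ * j := by rw [← hinv]; group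
    have h3 : i ^ 3 = i⁻¹ := by
      apply eq_inv_of_mul_eq_one_left
      rw [← pow_succ]; exact hi4
    have h2 : i⁻¹ * j * i ^ 2 = j * i⁻¹ := by
      rw [← h1, ← h3]; group
    calc j * (i⁻¹ * b) = (j * i⁻¹) * b := by group
      _ = (i⁻¹ * j * i ^ 2) * b := by rw [h2]
      _ = i⁻¹ * (j * i ^ 2 * b) := by group
      _ = i⁻¹ * (b * j) := by rw [hbj]
      _ = i⁻¹ * b * j := by group

variable {S : Type*} [Group S] [Finite S]

-- R2
theorem n9_smallQ (T : Tools S) (Q : Subgroup S) (hQn : Q.Normal) (hQ : IsV4 Q ∨ IsQ8 Q)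
    (hc : centralizer (Q : Set S) ≤ Q) (A : Subgroup S) (hab : IsMulCommutative ↥A)
    (hnc : ¬ IsCyclic ↥A) (h8 : Nat.card ↥A = 8) : False := by
  have hA2 : IsPGroup 2 A := IsPGroup.of_card (n := 3) (by rw [h8]; norm_num)
  have habA : ∀ a ∈ A, ∀ b ∈ A, a * b = b * a := by
    intro a ha b hb
    have := hab.is_comm.comm (⟨a, ha⟩ : ↥A) ⟨b, hb⟩
    simpa [Subtype.ext_iff] using this
  have hn : ∀ N : Subgroup S, N ≤ normalizer (Q : Set S) := by
    intro N
    rw [normalizer_eq_top]; exact le_top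
  rcases hQ with hV | hQ8
  · have h1 := T.autV4 Q A hA2 hV (hn A)
    have h2 := n9r2_card_mul_relIndex (inf_le_left : A ⊓ centralizer (Q : Set S) ≤ A)
    have h3 : 4 ≤ Nat.card ↥(A ⊓ centralizer (Q : Set S)) := by
      rw [h8] at h2
      by_contra hlt
      push Not at hlt
      have : Nat.card ↥(A ⊓ centralizer (Q : Set S)) *
          (A ⊓ centralizer (Q : Set S)).relIndex A ≤ 3 * 2 := Nat.mul_le_mul (by omega) h1
      omega
    have h4 : A ⊓ centralizer (Q : Set S) ≤ Q := inf_le_right.trans hc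
    have h5 : A ⊓ centralizer (Q : Set S) = Q :=
      Subgroup.eq_of_le_of_card_ge h4 (by rw [hV.1]; exact h3)
    have h6 : Q ≤ A := h5 ▸ inf_le_left
    have h7 : A ≤ centralizer (Q : Set S) := by
      intro a ha
      rw [mem_centralizer_iff]
      intro q hq
      exact habA q (h6 hq) a ha
    have h9 : Nat.card A ≤ Nat.card Q := Subgroup.card_le_of_le (h7.trans hc)
    rw [h8, hV.1] at h9; omega
  · obtain ⟨e⟩ := hQ8
    have hQ8card : Nat.card Q = 8 := by
      rw [Nat.card_congr e.toEquiv, Nat.card_eq_fintype_card, QuaternionGroup.card]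
    have hQ2 : IsPGroup 2 Q := IsPGroup.of_card (n := 3) (by rw [hQ8card]; norm_num)
    have hN2 : IsPGroup 2 (Q ⊔ A : Subgroup S) := IsPGroup.to_sup_of_normal_left hQ2 hA2
    have h1 := T.autQ8 Q (Q ⊔ A) hN2 ⟨e⟩ le_sup_left (hn _) (inf_le_right.trans hc)
    rw [Subgroup.relIndex_sup_left, ← Subgroup.inf_relIndex_right] at h1
    have h2 := n9r2_card_mul_relIndex (inf_le_right : Q ⊓ A ≤ A)
    have h3 : 4 ≤ Nat.card ↥(Q ⊓ A) := by
      rw [h8] at h2
      by_contra hlt
      push Not at hlt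
      have : Nat.card ↥(Q ⊓ A) * (Q ⊓ A).relIndex A ≤ 3 * 2 := Nat.mul_le_mul (by omega) h1
      omega
    -- an element of order 4 in `Q ⊓ A`
    have hi : ∃ i ∈ Q ⊓ A, i ^ 2 ≠ 1 := by
      by_contra hcon
      push Not at hcon
      have hsub : ((Q ⊓ A : Subgroup S) : Set S) ⊆
          {1, ((e.symm (QuaternionGroup.a 2) : ↥Q) : S)} := by
        intro x hx
        have hxQ : x ∈ Q := hx.1
        have h2' := hcon x hx
        have h3' := n9r2_q8_sq (e ⟨x, hxQ⟩) (by
          rw [← map_pow]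
          have : (⟨x, hxQ⟩ : ↥Q) ^ 2 = 1 := Subtype.ext (by simpa using h2')
          rw [this, map_one])
        rcases h3' with h | h
        · left
          have : (⟨x, hxQ⟩ : ↥Q) = 1 := e.injective (by rw [h, map_one])
          simpa using congrArg Subtype.val this
        · right
          rw [Set.mem_singleton_iff, ← h, e.symm_apply_apply]
      have hle : Nat.card ↥(Q ⊓ A) ≤ 2 := by
        calc Nat.card ↥(Q ⊓ A) = Set.ncard ((Q ⊓ A : Subgroup S) : Set S) :=
              (Nat.card_coe_set_eq _)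
          _ ≤ Set.ncard ({1, ((e.symm (QuaternionGroup.a 2) : ↥Q) : S)} : Set S) :=
              Set.ncard_le_ncard hsub (Set.toFinite _)
          _ ≤ Set.ncard ({((e.symm (QuaternionGroup.a 2) : ↥Q) : S)} : Set S) + 1 :=
              Set.ncard_insert_le _ _
          _ = 2 := by rw [Set.ncard_singleton]
      omega
    obtain ⟨i, hiQA, hi2⟩ := hi
    have hiQ : i ∈ Q := hiQA.1
    have hiA : i ∈ A := hiQA.2
    obtain ⟨hi4, j, hjQ, hij, hinv, hgen, hcent, hcentral⟩ := n9r2_facts Q e i hiQ hi2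
    have s1 : SemiconjBy j i i⁻¹ := by
      show j * i = i⁻¹ * j
      rw [← hinv]; group
    -- every element of `A` lies in `Q`
    have hAQ : A ≤ Q := by
      intro b hbA
      have hbi : b * i = i * b := habA b hbA i hiA
      have s2 : SemiconjBy b i i := hbi
      have s3 : SemiconjBy b⁻¹ i i := s2.inv_symm_left
      have s4 : SemiconjBy b i⁻¹ i⁻¹ := s2.inv_right
      have s5 : SemiconjBy j⁻¹ i⁻¹ i := s1.inv_symm_left
      have s6 : SemiconjBy (j⁻¹ * (b * j * b⁻¹)) i i := s5.mul_left ((s4.mul_left s1).mul_left s3)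
      have hyQ : j⁻¹ * (b * j * b⁻¹) ∈ Q := Q.mul_mem (Q.inv_mem hjQ) (hQn.conj_mem j hjQ b)
      have hbj : ∀ y : S, j⁻¹ * (b * j * b⁻¹) = y → b * j = j * y * b := by
        intro y hy
        rw [← hy]; group
      rcases hcent _ hyQ s6.eq.symm with h | h | h | h
      · -- `b` commutes with `j`
        have h1 := hbj 1 h
        rw [mul_one] at h1
        exact hc (n9r2_cent_of_comm Q i j b hgen hbi.symm h1.symm)
      · -- `b j = j i b`: then `b` has order 8
        exfalso
        have h1 := hbj i h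
        have hb2i : b ^ 2 * i = i * b ^ 2 := (Commute.pow_left (show Commute b i from hbi) 2).eq
        have hb2j : b ^ 2 * j = j * i ^ 2 * b ^ 2 := by
          calc b ^ 2 * j = b * (b * j) := by rw [pow_two, mul_assoc]
            _ = b * (j * i * b) := by rw [h1]
            _ = (b * j) * (i * b) := by group
            _ = (j * i * b) * (i * b) := by rw [h1]
            _ = j * i * (b * i) * b := by group
            _ = j * i * (i * b) * b := by rw [hbi]
            _ = j * i ^ 2 * b ^ 2 := by rw [pow_two, pow_two]; simp only [mul_assoc]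
        have hcc := n9r2_twist Q i j (b ^ 2) hgen hi4 hinv hb2i hb2j
        have hcQ : i⁻¹ * b ^ 2 ∈ Q := hc hcc
        have hsq := hcentral _ hcQ (fun y hy => by
          rw [mem_centralizer_iff] at hcc
          exact (hcc y hy).symm)
        have hb4 : b ^ 4 = i ^ 2 := by
          have hcm : Commute i⁻¹ (b ^ 2) :=
            (Commute.pow_left (show Commute b i from hbi) 2).symm.inv_left
          rw [hcm.mul_pow, ← pow_mul, inv_pow] at hsq
          have : b ^ 4 = i ^ 2 * ((i ^ 2)⁻¹ * b ^ (2 * 2)) := by group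
          rw [this, hsq, mul_one]
        have hb8 : b ^ 2 ^ (2 + 1) = 1 := by
          have : b ^ 2 ^ (2 + 1) = (b ^ 4) ^ 2 := by rw [← pow_mul]; norm_num
          rw [this, hb4, ← pow_mul]; exact hi4
        have hb4' : ¬ b ^ 2 ^ 2 = 1 := by
          have : b ^ 2 ^ 2 = b ^ 4 := by norm_num
          rw [this, hb4]; exact hi2
        have hord : orderOf b = 2 ^ (2 + 1) := orderOf_eq_prime_pow hb4' hb8
        apply hnc
        apply isCyclic_of_orderOf_eq_card (⟨b, hbA⟩ : ↥A)
        rw [h8, Subgroup.orderOf_mk, hord]; norm_num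
      · -- `b j = j i² b`
        have h1 := hbj (i ^ 2) h
        have hcc := n9r2_twist Q i j b hgen hi4 hinv hbi h1
        have hcQ : i⁻¹ * b ∈ Q := hc hcc
        have : b = i * (i⁻¹ * b) := by group
        rw [this]
        exact Q.mul_mem hiQ hcQ
      · -- `b j = j i³ b`: then `b` has order 8
        exfalso
        have h1 := hbj (i ^ 3) h
        have hb2i : b ^ 2 * i = i * b ^ 2 := (Commute.pow_left (show Commute b i from hbi) 2).eq
        have hbi3 : b * i ^ 3 = i ^ 3 * b := (Commute.pow_right (show Commute b i from hbi) 3).eq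
        have hb2j : b ^ 2 * j = j * i ^ 2 * b ^ 2 := by
          calc b ^ 2 * j = b * (b * j) := by rw [pow_two, mul_assoc]
            _ = b * (j * i ^ 3 * b) := by rw [h1]
            _ = (b * j) * (i ^ 3 * b) := by group
            _ = (j * i ^ 3 * b) * (i ^ 3 * b) := by rw [h1]
            _ = j * i ^ 3 * (b * i ^ 3) * b := by group
            _ = j * i ^ 3 * (i ^ 3 * b) * b := by rw [hbi3]
            _ = j * (i ^ 4 * i ^ 2) * b ^ 2 := by
                rw [show i ^ 4 = i ^ 3 * i from pow_succ i 3, pow_two b,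
                  show i ^ 3 = i ^ 2 * i from pow_succ i 2]
                simp only [pow_two, mul_assoc]
            _ = j * i ^ 2 * b ^ 2 := by rw [hi4, one_mul]
        have hcc := n9r2_twist Q i j (b ^ 2) hgen hi4 hinv hb2i hb2j
        have hcQ : i⁻¹ * b ^ 2 ∈ Q := hc hcc
        have hsq := hcentral _ hcQ (fun y hy => by
          rw [mem_centralizer_iff] at hcc
          exact (hcc y hy).symm)
        have hb4 : b ^ 4 = i ^ 2 := by
          have hcm : Commute i⁻¹ (b ^ 2) :=
            (Commute.pow_left (show Commute b i from hbi) 2).symm.inv_left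
          rw [hcm.mul_pow, ← pow_mul, inv_pow] at hsq
          have : b ^ 4 = i ^ 2 * ((i ^ 2)⁻¹ * b ^ (2 * 2)) := by group
          rw [this, hsq, mul_one]
        have hb8 : b ^ 2 ^ (2 + 1) = 1 := by
          have : b ^ 2 ^ (2 + 1) = (b ^ 4) ^ 2 := by rw [← pow_mul]; norm_num
          rw [this, hb4, ← pow_mul]; exact hi4
        have hb4' : ¬ b ^ 2 ^ 2 = 1 := by
          have : b ^ 2 ^ 2 = b ^ 4 := by norm_num
          rw [this, hb4]; exact hi2
        have hord : orderOf b = 2 ^ (2 + 1) := orderOf_eq_prime_pow hb4' hb8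
        apply hnc
        apply isCyclic_of_orderOf_eq_card (⟨b, hbA⟩ : ↥A)
        rw [h8, Subgroup.orderOf_mk, hord]; norm_num
    have hAeq : A = Q := Subgroup.eq_of_le_of_card_ge hAQ (by rw [hQ8card, h8])
    exact hij (habA i hiA j (hAeq ▸ hjQ))

end Cfsg.Agent.Helper82.N9
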