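import Cfsg.Agent.Helper82.SubsectionCount

/-!
# Brauer's formula `k(B) = ∑ l(b)` over the subsections, and sets of representatives of the
classes of `p`-elements
-/

set_option autoImplicit false
open Cfsg

namespace Cfsg.Agent.Helper82

/-- Brauer's count of the irreducible characters in a block by subsections:
`k(B) = ∑_{x ∈ X} ∑_{b^G = B} l(b)`, `X` a set of representatives of the classes of
`p`-elements and `b` running over the blocks of `C_G(x)`. -/
theorem card_block_eq_sum_ranks {G : Type*} [Group G] [Finite G] (p : ℕ) (M : Ideal Cfsg.AlgInt) (hM : Cfsg.IsPModular p M)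
    (B : Set (Cfsg.IrrCharacter G)) (hB : Cfsg.IsPBlock M B) (X : Finset G)
    (hX : ∀ x ∈ X, ∃ k : ℕ, orderOf x = p ^ k)
    (hXrep : ∀ g : G, (∃ k : ℕ, orderOf g = p ^ k) → ∃! x, x ∈ X ∧ IsConj g x) :
    Nat.card B = ∑ x ∈ X, ∑ᶠ b ∈ {b : Set (Cfsg.IrrCharacter ↥(Subgroup.centralizer ({x} : Set G))) | Cfsg.IsInducedBlock M (Subgroup.centralizer ({x} : Set G)) b B},
      Cfsg.blockRank p b := by
  classical
  have hp : p.Prime := hM.1
  have : Fact p.Prime := ⟨hp⟩
  have := Fintype.ofFinite G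
  have := Fintype.ofFinite (Cfsg.IrrCharacter G)
  have hcardG : (Nat.card G : ℂ) ≠ 0 := by
    have : 0 < Nat.card G := Nat.card_pos
    exact_mod_cast this.ne'
  obtain ⟨F, hF⟩ : ∃ F : G → ℂ, ∀ g, F g = ∑ᶠ ζ ∈ B,
      (ζ : G → ℂ) g * (starRingEnd ℂ) ((ζ : G → ℂ) g) := ⟨_, fun _ => rfl⟩
  have hFcl : ∀ g c : G, F (c * g * c⁻¹) = F g := by
    intro g c
    rw [hF, hF]
    simp only [Helper81.irr_conj]
  have hsec := Helper82.sum_eq_sum_sections X hX hXrep hFcl
  -- the number of characters of `B`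
  have hk : (Nat.card B : ℂ) = (Nat.card G : ℂ)⁻¹ * ∑ g : G, F g := by
    have h1 : ∀ g : G, F g = ∑ ζ : Cfsg.IrrCharacter G,
        if ζ ∈ B then (ζ : G → ℂ) g * (starRingEnd ℂ) ((ζ : G → ℂ) g) else 0 := by
      intro g
      rw [hF, finsum_mem_def, finsum_eq_sum_of_fintype]
      refine Finset.sum_congr rfl fun ζ _ => ?_
      rw [Set.indicator_apply]
    simp only [h1]
    rw [Finset.sum_comm]
    have h2 : ∀ ζ : Cfsg.IrrCharacter G, ∑ g : G,
        (if ζ ∈ B then (ζ : G → ℂ) g * (starRingEnd ℂ) ((ζ : G → ℂ) g) else 0)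
        = if ζ ∈ B then (Nat.card G : ℂ) else 0 := by
      intro ζ
      by_cases hζ : ζ ∈ B
      · simp only [if_pos hζ]
        rw [Helper80.irr_orthogonality_conj, if_pos rfl, Nat.card_eq_fintype_card]
      · simp only [if_neg hζ, Finset.sum_const_zero]
    simp only [h2]
    have h3 : Nat.card B = (Finset.univ.filter (fun ζ : Cfsg.IrrCharacter G => ζ ∈ B)).card := by
      rw [← Fintype.card_subtype]
      exact Nat.card_eq_fintype_card
    rw [← Finset.sum_filter, Finset.sum_const, nsmul_eq_mul, ← h3, mul_comm, mul_assoc,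
      mul_inv_cancel₀ hcardG, mul_one]
  apply Nat.cast_injective (R := ℂ)
  rw [hk, hsec, Nat.cast_sum, ← mul_assoc, inv_mul_cancel₀ hcardG, one_mul]
  refine Finset.sum_congr rfl fun x hx => ?_
  rw [Helper82.section_rank hM x (hX x hx) hB]
  simp only [hF]


/-- A set of representatives of the conjugacy classes of `p`-elements containing a given
`p`-element. -/
theorem exists_pElement_reps {G : Type*} [Group G] [Finite G] (p : ℕ) (x : G)
    (hx : ∃ k : ℕ, orderOf x = p ^ k) :
    ∃ X : Finset G, x ∈ X ∧ (∀ u ∈ X, ∃ k : ℕ, orderOf u = p ^ k) ∧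
      ∀ g : G, (∃ k : ℕ, orderOf g = p ^ k) → ∃! u, u ∈ X ∧ IsConj g u := by
  classical
  have := Fintype.ofFinite G
  obtain ⟨r, hr⟩ : ∃ r : G → G, ∀ g, r g = if IsConj g x then x
      else Quotient.out (ConjClasses.mk g) := ⟨_, fun _ => rfl⟩
  have hrconj : ∀ g, IsConj g (r g) := by
    intro g
    rw [hr]
    by_cases h : IsConj g x
    · rw [if_pos h]; exact h
    · rw [if_neg h]
      have h1 : ConjClasses.mk (Quotient.out (ConjClasses.mk g)) = ConjClasses.mk g :=
        Quotient.out_eq _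
      exact (ConjClasses.mk_eq_mk_iff_isConj.mp h1).symm
  have hrclass : ∀ g g', IsConj g g' → r g = r g' := by
    intro g g' h
    rw [hr, hr]
    by_cases h1 : IsConj g x
    · rw [if_pos h1, if_pos (h.symm.trans h1)]
    · rw [if_neg h1, if_neg (fun h2 => h1 (h.trans h2)),
        ConjClasses.mk_eq_mk_iff_isConj.mpr h]
  have hord : ∀ g g' : G, IsConj g g' → orderOf g' = orderOf g := by
    intro g g' h
    obtain ⟨c, hc⟩ := isConj_iff.mp h
    rw [← hc]
    exact (MulAut.conj c).orderOf_eq g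
  refine ⟨(Finset.univ.filter (fun g : G => ∃ k : ℕ, orderOf g = p ^ k)).image r, ?_, ?_, ?_⟩
  · rw [Finset.mem_image]
    refine ⟨x, ?_, ?_⟩
    · rw [Finset.mem_filter]; exact ⟨Finset.mem_univ _, hx⟩
    · rw [hr, if_pos (IsConj.refl x)]
  · intro u hu
    obtain ⟨g, hg, rfl⟩ := Finset.mem_image.mp hu
    rw [Finset.mem_filter] at hg
    obtain ⟨k, hk⟩ := hg.2
    exact ⟨k, by rw [hord g (r g) (hrconj g), hk]⟩
  · intro g hg
    refine ⟨r g, ⟨?_, hrconj g⟩, ?_⟩
    · rw [Finset.mem_image]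
      refine ⟨g, ?_, rfl⟩
      rw [Finset.mem_filter]; exact ⟨Finset.mem_univ _, hg⟩
    · rintro u ⟨hu, hgu⟩
      obtain ⟨g', -, rfl⟩ := Finset.mem_image.mp hu
      exact (hrclass g g' (hgu.trans (hrconj g').symm)).symm

end Cfsg.Agent.Helper82
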