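import Mathlib
import Cfsg.Agent.Helper80.CharIrr
import Cfsg.Agent.Helper81.CharBasic
import Cfsg.Agent.Helper39.A7AVG0
import Cfsg.Agent.Helper99.A7NSUM
import Cfsg.Agent.Helper99.A7USUM
import Cfsg.Agent.Helper99.A7TSUM

/-!
# helper82: PIECE MAINL of CALL S0984 (the fixed-vector argument giving a subgroup of index 7)
-/

set_option autoImplicit false
set_option linter.style.haveILetI false
open Cfsg
open scoped ComplexConjugate

universe u

namespace Cfsg.Agent.Helper82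

/-- PIECE MAINL (uses NSUM, USUM, TSUM, MONO, FIXV) -/
theorem a7_mainline {G : Type u} [Group G] [Finite G]
    (P : Sylow 3 G) (hP9 : Nat.card (P : Subgroup G) = 9)
    (hN36 : Nat.card (Subgroup.normalizer ((P : Subgroup G) : Set G)) = 36)
    (hOV : ∀ H : Subgroup G, Subgroup.normalizer ((P : Subgroup G) : Set G) ≤ H →
      ¬ H ≤ Subgroup.normalizer ((P : Subgroup G) : Set G) → H ≠ ⊤ → H.index = 7)
    (χ : Cfsg.IrrCharacter G) (h6 : (χ : G → ℂ) 1 = 6)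
    (hPs : ∑ᶠ g ∈ ((P : Subgroup G) : Set G), (χ : G → ℂ) g = 18)
    (h2 : ∀ g : G, orderOf g = 2 → (χ : G → ℂ) g = 2)
    (u : G) (huN : u ∈ Subgroup.normalizer ((P : Subgroup G) : Set G)) (hu : orderOf u = 4)
    (huinv : ∀ y ∈ (P : Subgroup G), u * u * y * (u * u)⁻¹ = y⁻¹)
    (T : Subgroup G) (hT8 : Nat.card T = 8) (huT : u ∈ T)
    (hTinv : ∀ g ∈ T, g ∉ Subgroup.zpowers u → orderOf g = 2) :
    ∃ H : Subgroup G, H.index = 7 := by
  classical
  have hf : ∀ g h : G, (χ : G → ℂ) (h * g * h⁻¹) = (χ : G → ℂ) g :=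
    fun g h => Cfsg.Agent.Helper81.irr_isClassFunction χ g h
  have hfinv : ∀ g : G, (χ : G → ℂ) g⁻¹ = conj ((χ : G → ℂ) g) :=
    fun g => Cfsg.Agent.Helper80.isCharacter_inv (Cfsg.Agent.Helper80.isCharacter_of_irr χ.2) g
  have hNs := Cfsg.Agent.Helper99.a7_norm_sum P hP9 hN36 (χ : G → ℂ) hf hfinv hPs h2 u huN hu huinv
  have hUs := Cfsg.Agent.Helper99.a7_cyc_sum (χ : G → ℂ) hfinv h2 h6 u hu
  have hTs := Cfsg.Agent.Helper99.a7_syl2_sum (χ : G → ℂ) hfinv h2 h6 u hu T hT8 huT hTinv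
  have hU4 : Nat.card (Subgroup.zpowers u) = 4 := by rw [Nat.card_zpowers, hu]
  have hUT : Subgroup.zpowers u ≤ T := (Subgroup.zpowers_le).mpr huT
  have hUN : Subgroup.zpowers u ≤ Subgroup.normalizer ((P : Subgroup G) : Set G) :=
    (Subgroup.zpowers_le).mpr huN
  have hPN : (P : Subgroup G) ≤ Subgroup.normalizer ((P : Subgroup G) : Set G) :=
    Subgroup.le_normalizer
  obtain ⟨m, hm⟩ := Cfsg.Agent.Helper39.a7_mono χ (Subgroup.zpowers u) T hUT
  obtain ⟨m', hm'⟩ := Cfsg.Agent.Helper39.a7_mono χ (P : Subgroup G)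
    (Subgroup.normalizer ((P : Subgroup G) : Set G)) hPN
  rw [hUs, hTs, hT8, hU4] at hm
  rw [hPs, hNs, hN36, hP9] at hm'
  -- the real number `a = χ(u) + conj χ(u)`
  generalize (χ : G → ℂ) u + conj ((χ : G → ℂ) u) = a at hm hm' hNs hUs hTs
  have ha8 : a = 8 * (m : ℂ) := by
    push_cast at hm
    linear_combination (1 / 4 : ℂ) * hm
  have hnat : 2 * m + m' = 1 := by
    have h1 : (2 * (m : ℂ) + (m' : ℂ)) = 1 := by
      push_cast at hm'
      rw [ha8] at hm'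
      linear_combination (-1 / 324 : ℂ) * hm'
    exact_mod_cast h1
  have hm0 : m = 0 := by omega
  have ha0 : a = 0 := by rw [ha8, hm0]; simp
  have hsum : (Nat.card T : ℂ) * ∑ᶠ g ∈ ((Subgroup.zpowers u : Subgroup G) : Set G),
      (χ : G → ℂ) g =
      (Nat.card (Subgroup.zpowers u) : ℂ) * ∑ᶠ g ∈ (T : Set G), (χ : G → ℂ) g := by
    rw [hUs, hTs, hT8, hU4, ha0]; norm_num
  have hN0 : ∑ᶠ g ∈ ((Subgroup.normalizer ((P : Subgroup G) : Set G) : Subgroup G) : Set G),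
      (χ : G → ℂ) g ≠ 0 := by
    rw [hNs, ha0]; norm_num
  obtain ⟨S, hNS, hTS, hStop⟩ := Cfsg.Agent.Helper39.a7_fixvec χ (by rw [h6]; norm_num)
    (Subgroup.normalizer ((P : Subgroup G) : Set G)) T (Subgroup.zpowers u) hUN hUT hsum hN0
  refine ⟨S, hOV S hNS ?_ hStop⟩
  intro hSN
  have hdvd : Nat.card T ∣ Nat.card (Subgroup.normalizer ((P : Subgroup G) : Set G)) :=
    Subgroup.card_dvd_of_le (hTS.trans hSN)
  rw [hT8, hN36] at hdvd
  omega

end Cfsg.Agent.Helper82
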