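import Mathlib
import Cfsg.Prelude.Def_Characters
import Cfsg.Agent.Helper75.Galois

set_option autoImplicit false

namespace Cfsg.Agent.Helper82

open scoped ComplexConjugate

/-- First orthogonality relation for irreducible characters, in Hermitian form. -/
theorem irr_orth {G : Type*} [Group G] [Fintype G] (χ ψ : Cfsg.IrrCharacter G) :
    ∑ h : G, (χ : G → ℂ) h * conj ((ψ : G → ℂ) h) = if χ = ψ then (Nat.card G : ℂ) else 0 := by
  classical
  obtain ⟨χf, n, ρ, hρ, rfl⟩ := χ
  obtain ⟨ψf, m, σ, hσ, rfl⟩ := ψ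
  have hne : (Nat.card G : ℂ) ≠ 0 := Nat.cast_ne_zero.2 Nat.card_pos.ne'
  haveI : Invertible (Nat.card G : ℂ) := invertibleOfNonzero hne
  haveI := hρ
  haveI := hσ
  simp only
  have hconj : ∀ h : G, conj (σ.character h) = σ.character h⁻¹ := fun h =>
    (Cfsg.Agent.Helper75.character_inv_eq_conj σ h).symm
  simp only [hconj]
  by_cases hχψ : ρ.character = σ.character
  · have key := Representation.char_orthonormal ρ ρ
    rw [if_pos ⟨Representation.Equiv.refl ρ⟩] at key
    rw [if_pos (Subtype.ext hχψ), ← hχψ]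
    field_simp at key
    rw [key]
  · have key := Representation.char_orthonormal ρ σ
    have hno : ¬ Nonempty (σ.Equiv ρ) := fun ⟨e⟩ => hχψ (Representation.char_iso e).symm
    rw [if_neg hno] at key
    rw [if_neg (fun h => hχψ (congrArg Subtype.val h))]
    rcases mul_eq_zero.1 key with h | h
    · exact absurd (inv_eq_zero.1 h) hne
    · exact h

/-- The number of `y` with `y * g * y⁻¹ = h` is at most the order of the centralizer of `g`. -/
theorem card_fiber_le {G : Type*} [Group G] [Fintype G] [DecidableEq G] (g h : G) :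
    (Finset.univ.filter (fun y : G => y * g * y⁻¹ = h)).card ≤
      Nat.card (Subgroup.centralizer ({g} : Set G)) := by
  classical
  by_cases hne : (Finset.univ.filter (fun y : G => y * g * y⁻¹ = h)).Nonempty
  · obtain ⟨y₀, hy₀⟩ := hne
    rw [Finset.mem_filter] at hy₀
    rw [Nat.card_eq_fintype_card, Fintype.card_subtype]
    refine Finset.card_le_card_of_injOn (fun y => y₀⁻¹ * y) ?_ ?_
    · intro y hy
      have hy' : y * g * y⁻¹ = h := (Finset.mem_filter.1 (Finset.mem_coe.1 hy)).2
      refine Finset.mem_coe.2 (Finset.mem_filter.2 ⟨Finset.mem_univ _, ?_⟩)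
      rw [Subgroup.mem_centralizer_iff]
      intro k hk
      rw [Set.mem_singleton_iff] at hk
      subst hk
      have e : y * k * y⁻¹ = y₀ * k * y₀⁻¹ := hy'.trans hy₀.2.symm
      calc k * (y₀⁻¹ * y) = y₀⁻¹ * (y₀ * k * y₀⁻¹) * y := by group
        _ = y₀⁻¹ * (y * k * y⁻¹) * y := by rw [e]
        _ = y₀⁻¹ * y * k := by group
    · intro y _ y' _ hyy
      exact mul_left_cancel hyy
  · rw [Finset.not_nonempty_iff_eq_empty.1 hne]
    simp

/-- Bessel's inequality at an element: the squared absolute values at `g` of any finite set of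
irreducible characters sum to at most the order of the centralizer of `g`. -/
theorem sum_normSq_le {G : Type*} [Group G] [Finite G] (F : Finset (Cfsg.IrrCharacter G))
    (g : G) :
    ∑ χ ∈ F, ‖(χ : G → ℂ) g‖ ^ 2 ≤ (Nat.card (Subgroup.centralizer ({g} : Set G)) : ℝ) := by
  classical
  haveI := Fintype.ofFinite G
  set A : ℝ := ∑ χ ∈ F, ‖(χ : G → ℂ) g‖ ^ 2 with hA
  have hA0 : 0 ≤ A := Finset.sum_nonneg fun χ _ => sq_nonneg _
  set D : G → ℂ := fun h => ∑ χ ∈ F, (χ : G → ℂ) h * conj ((χ : G → ℂ) g) with hD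
  have hGpos : (0 : ℝ) < (Nat.card G : ℝ) := Nat.cast_pos.2 Nat.card_pos
  -- (a)
  have hc : ∑ h : G, D h * conj (D h) = (Nat.card G : ℂ) * (A : ℂ) := by
    calc ∑ h : G, D h * conj (D h)
        = ∑ h : G, ∑ χ ∈ F, ∑ ψ ∈ F, (conj ((χ : G → ℂ) g) * (ψ : G → ℂ) g) *
            ((χ : G → ℂ) h * conj ((ψ : G → ℂ) h)) := by
          refine Finset.sum_congr rfl fun h _ => ?_
          simp only [hD, map_sum, map_mul, Complex.conj_conj]
          rw [Finset.sum_mul_sum]
          refine Finset.sum_congr rfl fun χ _ => Finset.sum_congr rfl fun ψ _ => ?_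
          ring
      _ = ∑ χ ∈ F, ∑ ψ ∈ F, (conj ((χ : G → ℂ) g) * (ψ : G → ℂ) g) *
            ∑ h : G, ((χ : G → ℂ) h * conj ((ψ : G → ℂ) h)) := by
          rw [Finset.sum_comm]
          refine Finset.sum_congr rfl fun χ _ => ?_
          rw [Finset.sum_comm]
          refine Finset.sum_congr rfl fun ψ _ => ?_
          rw [Finset.mul_sum]
      _ = ∑ χ ∈ F, (conj ((χ : G → ℂ) g) * (χ : G → ℂ) g) * (Nat.card G : ℂ) := by
          refine Finset.sum_congr rfl fun χ hχ => ?_
          simp only [irr_orth]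
          rw [Finset.sum_eq_single χ]
          · rw [if_pos rfl]
          · intro ψ _ hψ
            rw [if_neg (Ne.symm hψ), mul_zero]
          · intro h; exact absurd hχ h
      _ = (Nat.card G : ℂ) * (A : ℂ) := by
          rw [hA, Complex.ofReal_sum, Finset.mul_sum]
          refine Finset.sum_congr rfl fun χ _ => ?_
          rw [Complex.conj_mul']
          push_cast
          ring
  have ha : ∑ h : G, ‖D h‖ ^ 2 = (Nat.card G : ℝ) * A := by
    apply Complex.ofReal_injective
    rw [Complex.ofReal_sum]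
    push_cast
    rw [← hc]
    refine Finset.sum_congr rfl fun h _ => ?_
    rw [Complex.mul_conj']
  -- (b)
  have hDconj : ∀ y : G, D (y * g * y⁻¹) = D g := by
    intro y
    simp only [hD]
    refine Finset.sum_congr rfl fun χ _ => ?_
    obtain ⟨χf, n, ρ, hρ, rfl⟩ := χ
    simp only
    rw [Representation.char_conj]
  have hDg : D g = (A : ℂ) := by
    simp only [hD]
    rw [hA, Complex.ofReal_sum]
    refine Finset.sum_congr rfl fun χ _ => ?_
    rw [Complex.mul_conj']
    push_cast
    ring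
  -- (c)
  have hcc : ∑ y : G, ‖D (y * g * y⁻¹)‖ ^ 2 ≤
      (Nat.card (Subgroup.centralizer ({g} : Set G)) : ℝ) * ∑ h : G, ‖D h‖ ^ 2 := by
    rw [← Finset.sum_fiberwise Finset.univ (fun y : G => y * g * y⁻¹)
      (fun y => ‖D (y * g * y⁻¹)‖ ^ 2), Finset.mul_sum]
    refine Finset.sum_le_sum fun h _ => ?_
    have : ∑ y ∈ Finset.univ.filter (fun y : G => y * g * y⁻¹ = h), ‖D (y * g * y⁻¹)‖ ^ 2 =
        ((Finset.univ.filter (fun y : G => y * g * y⁻¹ = h)).card : ℝ) * ‖D h‖ ^ 2 := by
      rw [Finset.sum_congr rfl (fun y hy => by rw [(Finset.mem_filter.1 hy).2]),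
        Finset.sum_const, nsmul_eq_mul]
    rw [this]
    exact mul_le_mul_of_nonneg_right (Nat.cast_le.2 (card_fiber_le g h)) (sq_nonneg _)
  have hl : ∑ y : G, ‖D (y * g * y⁻¹)‖ ^ 2 = (Nat.card G : ℝ) * A ^ 2 := by
    simp only [hDconj, hDg, Finset.sum_const, Finset.card_univ, nsmul_eq_mul,
      Complex.norm_real, Real.norm_eq_abs, sq_abs]
    rw [Nat.card_eq_fintype_card]
  rw [hl, ha] at hcc
  -- |G| A² ≤ |C| |G| A
  by_cases hA1 : A = 0
  · rw [hA1]; exact Nat.cast_nonneg _
  · have hApos : 0 < A := lt_of_le_of_ne hA0 (Ne.symm hA1)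
    have h2 : (Nat.card G : ℝ) * A * A ≤
        (Nat.card G : ℝ) * A * (Nat.card (Subgroup.centralizer ({g} : Set G)) : ℝ) := by
      nlinarith [hcc]
    exact le_of_mul_le_mul_left h2 (mul_pos hGpos hApos)

/-- A finite set of irreducible characters has at most as many members as there are conjugacy
classes. -/
theorem card_le_conjClasses {G : Type*} [Group G] [Finite G]
    (F : Finset (Cfsg.IrrCharacter G)) : F.card ≤ Nat.card (ConjClasses G) := by
  classical
  haveI := Fintype.ofFinite G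
  have hGpos : 0 < Nat.card G := Nat.card_pos
  -- Σ_g Σ_χ ‖χ g‖² ≤ Σ_g |C(g)|
  have h1 : ∑ g : G, ∑ χ ∈ F, ‖(χ : G → ℂ) g‖ ^ 2 ≤
      ∑ g : G, (Nat.card (Subgroup.centralizer ({g} : Set G)) : ℝ) :=
    Finset.sum_le_sum fun g _ => sum_normSq_le F g
  have h2 : ∑ g : G, ∑ χ ∈ F, ‖(χ : G → ℂ) g‖ ^ 2 = (F.card : ℝ) * (Nat.card G : ℝ) := by
    rw [Finset.sum_comm]
    have : ∀ χ ∈ F, ∑ g : G, ‖(χ : G → ℂ) g‖ ^ 2 = (Nat.card G : ℝ) := by
      intro χ _
      apply Complex.ofReal_injective
      rw [Complex.ofReal_sum]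
      push_cast
      have := irr_orth χ χ
      rw [if_pos rfl] at this
      rw [← this]
      refine Finset.sum_congr rfl fun h _ => ?_
      rw [Complex.mul_conj']
    rw [Finset.sum_congr rfl this, Finset.sum_const, nsmul_eq_mul]
  have h3 : ∑ g : G, (Nat.card (Subgroup.centralizer ({g} : Set G)) : ℝ) =
      (Nat.card (ConjClasses G) : ℝ) * (Nat.card G : ℝ) := by
    rw [← Nat.cast_sum, ← Nat.cast_mul, ← card_comm_eq_card_conjClasses_mul_card,
      Nat.card_congr (Equiv.subtypeProdEquivSigmaSubtype (fun g h : G => Commute g h)),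
      Nat.card_sigma]
    congr 1
    refine Finset.sum_congr rfl fun g _ => ?_
    refine Nat.card_congr (Equiv.subtypeEquivRight fun h => ?_)
    rw [Subgroup.mem_centralizer_iff]
    constructor
    · intro hh; exact hh g (Set.mem_singleton g)
    · intro hh k hk
      rw [Set.mem_singleton_iff] at hk
      subst hk
      exact hh
  rw [h2, h3] at h1
  have h4 : (F.card : ℝ) ≤ (Nat.card (ConjClasses G) : ℝ) :=
    le_of_mul_le_mul_right h1 (Nat.cast_pos.2 hGpos)
  exact_mod_cast h4

end Cfsg.Agent.Helper82
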