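import Mathlib

set_option autoImplicit false

namespace Cfsg.Agent.Helper82

open Polynomial in
/-- Auxiliary form of `sum_normSq_primitiveRoots_ge` over an abstract cyclotomic extension. -/
theorem sum_normSq_primitiveRoots_ge_aux (n : ℕ) [NeZero n] (K : Type) [Field K] [Algebra ℚ K]
    [IsCyclotomicExtension {n} ℚ K] (s : Multiset ℕ)
    (h : ∀ ξ ∈ primitiveRoots n ℂ, (s.map (fun e => ξ ^ e)).sum ≠ 0) :
    (Nat.totient n : ℝ) ≤ ∑ ξ ∈ primitiveRoots n ℂ, ‖(s.map (fun e => ξ ^ e)).sum‖ ^ 2 := by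
  classical
  have hζ : IsPrimitiveRoot (IsCyclotomicExtension.zeta n ℚ K) n :=
    IsCyclotomicExtension.zeta_spec n ℚ K
  set ζ := IsCyclotomicExtension.zeta n ℚ K with hζdef
  set α : K := (s.map (fun e => ζ ^ e)).sum with hα
  haveI : NumberField K := IsCyclotomicExtension.numberField {n} ℚ K
  have hαint : IsIntegral ℤ α := by
    apply IsIntegral.multiset_sum
    intro x hx
    obtain ⟨e, -, rfl⟩ := Multiset.mem_map.1 hx
    exact (hζ.isIntegral (NeZero.pos n)).pow e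
  have hirr : Irreducible (cyclotomic n ℚ) := cyclotomic.irreducible_rat (NeZero.pos n)
  have hnorm := Algebra.norm_eq_prod_embeddings ℚ ℂ α
  have hσ : ∀ σ : K →ₐ[ℚ] ℂ, σ α = (s.map (fun e => (σ ζ) ^ e)).sum := by
    intro σ
    simp only [hα, map_multiset_sum, Multiset.map_map, Function.comp_def, map_pow]
  have hprod : ∏ σ : K →ₐ[ℚ] ℂ, σ α =
      ∏ ξ ∈ primitiveRoots n ℂ, (s.map (fun e => ξ ^ e)).sum := by
    rw [← Finset.prod_coe_sort (primitiveRoots n ℂ)]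
    refine Fintype.prod_equiv (hζ.embeddingsEquivPrimitiveRoots ℂ hirr) _ _ (fun σ => ?_)
    rw [hσ]
    rfl
  have hNint : IsIntegral ℤ (Algebra.norm ℚ α) := Algebra.isIntegral_norm ℚ hαint
  obtain ⟨z, hz⟩ := IsIntegrallyClosed.isIntegral_iff.1 hNint
  rw [hprod, ← hz] at hnorm
  have hprod_ne : ∏ ξ ∈ primitiveRoots n ℂ, (s.map (fun e => ξ ^ e)).sum ≠ 0 :=
    Finset.prod_ne_zero_iff.2 h
  have hz0 : z ≠ 0 := by
    rintro rfl
    apply hprod_ne
    rw [← hnorm]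
    simp
  have hzabs : (1 : ℝ) ≤ |(z : ℝ)| := by
    have : (1 : ℤ) ≤ |z| := Int.one_le_abs hz0
    exact_mod_cast this
  have hprodnorm : (1 : ℝ) ≤ ∏ ξ ∈ primitiveRoots n ℂ, ‖(s.map (fun e => ξ ^ e)).sum‖ ^ 2 := by
    rw [Finset.prod_pow, ← norm_prod, ← hnorm]
    have : ‖(algebraMap ℚ ℂ) ((algebraMap ℤ ℚ) z)‖ = |(z : ℝ)| := by
      simp
    rw [this]
    nlinarith [abs_nonneg (z : ℝ)]
  have hpos : ∀ ξ ∈ primitiveRoots n ℂ, 0 < ‖(s.map (fun e => ξ ^ e)).sum‖ ^ 2 := by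
    intro ξ hξ
    exact pow_pos (norm_pos_iff.2 (h ξ hξ)) 2
  have hlog : ∀ ξ ∈ primitiveRoots n ℂ,
      1 + Real.log (‖(s.map (fun e => ξ ^ e)).sum‖ ^ 2) ≤ ‖(s.map (fun e => ξ ^ e)).sum‖ ^ 2 := by
    intro ξ hξ
    linarith [Real.log_le_sub_one_of_pos (hpos ξ hξ)]
  calc (Nat.totient n : ℝ) = ∑ ξ ∈ primitiveRoots n ℂ, (1 : ℝ) := by
        rw [Finset.sum_const, Complex.card_primitiveRoots]; simp
    _ ≤ ∑ ξ ∈ primitiveRoots n ℂ, (1 + Real.log (‖(s.map (fun e => ξ ^ e)).sum‖ ^ 2)) := by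
        rw [Finset.sum_add_distrib, ← Real.log_prod (fun ξ hξ => (hpos ξ hξ).ne')]
        have := Real.log_nonneg hprodnorm
        linarith
    _ ≤ ∑ ξ ∈ primitiveRoots n ℂ, ‖(s.map (fun e => ξ ^ e)).sum‖ ^ 2 := Finset.sum_le_sum hlog

/-- Norm argument: if a sum of `n`-th roots of unity (given by a multiset of exponents) does not
vanish at any primitive `n`-th root of unity, then the squared absolute values of these sums, over
the primitive `n`-th roots of unity, add up to at least `φ(n)`. -/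
theorem sum_normSq_primitiveRoots_ge (n : ℕ) [NeZero n] (s : Multiset ℕ)
    (h : ∀ ξ ∈ primitiveRoots n ℂ, (s.map (fun e => ξ ^ e)).sum ≠ 0) :
    (Nat.totient n : ℝ) ≤ ∑ ξ ∈ primitiveRoots n ℂ, ‖(s.map (fun e => ξ ^ e)).sum‖ ^ 2 :=
  @sum_normSq_primitiveRoots_ge_aux n _ (CyclotomicField n ℚ) _ (CyclotomicField.algebra n ℚ)
    inferInstance s h

end Cfsg.Agent.Helper82
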