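import Mathlib
import Cfsg.Prelude.Def_Characters
import Cfsg.Prelude.Def_Blocks
import Cfsg.Agent.Helper78.StructConst
import Cfsg.Agent.Helper78.NoTwoP
import Cfsg.Agent.Helper78.Counting
import Cfsg.Agent.Helper80.CharOrtho
import Cfsg.Agent.Helper81.LocalRing
import Cfsg.Agent.Helper81.ClassAlgebra
import Cfsg.Agent.Helper81.CharBasic
import Cfsg.Agent.Helper81.KleinFour
import Cfsg.Agent.Helper77.LocalRing

/-!
# Characters of even degree from real elements with odd centralizer (helper82)

* `evenDeg_card_conj_even`: the number of `u` with `u w u⁻¹ = z` is even when `z` is an involution.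
* `evenDeg_sq_sum`: `(∑ a_i)² ≡ ∑ a_i²` modulo a prime over `2`.
* `evenDeg_involution_value`: `χ(z) = 2m - χ(1)` at an involution.
* `evenDeg_main`: a group of even order with a real element whose centralizer has odd order has
  an irreducible character of even degree.
* `evenDeg_exists_central_involution`: a `2`-central involution.
* `evenDeg_exists_real`: without `p`-defect zero characters (and odd centralizers of `p`-elements)
  some nontrivial `p`-element is inverted.
-/

set_option autoImplicit false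

namespace Cfsg.Agent.Helper82

universe u

/-- The number of `u` with `u w u⁻¹ = z` is even when `z` is an involution. -/
theorem evenDeg_card_conj_even {G : Type u} [Group G] [Fintype G] {z : G} (hz : z * z = 1)
    (hz1 : z ≠ 1) (w : G) [DecidablePred (fun u : G => u * w * u⁻¹ = z)] :
    2 ∣ (Finset.univ.filter (fun u : G => u * w * u⁻¹ = z)).card := by
  have h : ∑ u ∈ Finset.univ.filter (fun u : G => u * w * u⁻¹ = z), (1 : ZMod 2) = 0 := by
    refine Finset.sum_involution (fun u _ => z * u) ?_ ?_ ?_ ?_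
    · intro u _
      decide
    · intro u _ _ h
      apply hz1
      have : z * u * u⁻¹ = u * u⁻¹ := by rw [h]
      rwa [mul_inv_cancel_right, mul_inv_cancel] at this
    · intro u hu
      rw [Finset.mem_filter] at hu ⊢
      refine ⟨Finset.mem_univ _, ?_⟩
      have e : z * u * w * (z * u)⁻¹ = z * (u * w * u⁻¹) * z⁻¹ := by group
      rw [e, hu.2, mul_inv_cancel_right]
    · intro u _
      show z * (z * u) = u
      rw [← mul_assoc, hz, one_mul]
  rw [Finset.sum_const, nsmul_eq_mul, mul_one] at h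
  exact (ZMod.natCast_eq_zero_iff _ _).mp h

/-- `(∑ a_i)² ≡ ∑ a_i²` modulo a prime over `2`. -/
theorem evenDeg_sq_sum {M : Ideal Cfsg.AlgInt} (hM : Cfsg.IsPModular 2 M) {ι : Type*}
    (s : Finset ι) (a : ι → ℂ) (ha : ∀ i ∈ s, Cfsg.MemLocalRing M (a i)) :
    Cfsg.MemLocalIdeal M ((∑ i ∈ s, a i) ^ 2 - ∑ i ∈ s, (a i) ^ 2) := by
  classical
  have hMp := Helper81.isPrime_of_isPModular hM
  have h2 : Cfsg.MemLocalIdeal M (2 : ℂ) := by
    have := Helper81.memLocalIdeal_natCast_of_dvd hM (dvd_refl 2)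
    exact_mod_cast this
  induction s using Finset.induction_on with
  | empty => simpa using Helper81.memLocalIdeal_zero hM.2.1.ne_top
  | insert b s hb ih =>
    rw [Finset.sum_insert hb, Finset.sum_insert hb]
    have h1 : (a b + ∑ i ∈ s, a i) ^ 2 - (a b ^ 2 + ∑ i ∈ s, a i ^ 2)
        = ((∑ i ∈ s, a i) ^ 2 - ∑ i ∈ s, a i ^ 2) + (2 : ℂ) * (a b * ∑ i ∈ s, a i) := by ring
    rw [h1]
    apply Helper81.memLocalIdeal_add (ih fun i hi => ha i (Finset.mem_insert_of_mem hi))
    apply Helper81.memLocalIdeal_mul_right h2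
    exact Helper81.memLocalRing_mul (ha b (Finset.mem_insert_self b s))
      (Helper81.memLocalRing_sum s a fun i hi => ha i (Finset.mem_insert_of_mem hi))

/-- The value of an irreducible character at an involution. -/
theorem evenDeg_involution_value {G : Type u} [Group G] [Finite G] (χ : Cfsg.IrrCharacter G)
    {z : G} (hz : orderOf z = 2) :
    ∃ m : ℕ, (χ : G → ℂ) z = 2 * (m : ℂ) - (Cfsg.charDegree (χ : G → ℂ) : ℂ) := by
  classical
  have : Fintype (Subgroup.zpowers z) := Fintype.ofFinite _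
  obtain ⟨m, hm⟩ := Helper81.exists_nat_sum_subgroup χ (Subgroup.zpowers z)
  have hcard : Nat.card (Subgroup.zpowers z) = 2 := by rw [Nat.card_zpowers, hz]
  have hsum : ∑ x : Subgroup.zpowers z, (χ : G → ℂ) x = (χ : G → ℂ) 1 + (χ : G → ℂ) z := by
    have hz1 : z ≠ 1 := by
      intro h
      rw [h, orderOf_one] at hz
      exact absurd hz (by norm_num)
    obtain ⟨z', hz'⟩ : ∃ z' : Subgroup.zpowers z, (z' : G) = z := ⟨⟨z, Subgroup.mem_zpowers z⟩, rfl⟩
    have hne : (1 : Subgroup.zpowers z) ≠ z' := by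
      intro h
      apply hz1
      rw [← hz', ← h]
      rfl
    have huniv : ({1, z'} : Finset (Subgroup.zpowers z)) = Finset.univ := by
      apply Finset.eq_univ_of_card
      rw [Finset.card_pair hne, ← Nat.card_eq_fintype_card, hcard]
    rw [← huniv, Finset.sum_pair hne, hz']
    rfl
  rw [hsum, hcard, Helper81.irr_one_eq_charDegree] at hm
  refine ⟨m, ?_⟩
  push_cast at hm
  linear_combination hm

/-- A finite group with a `2`-central involution `z` and a real element `x` whose centralizer has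
odd order has an irreducible character of even degree. -/
theorem evenDeg_main {G : Type u} [Group G] [Finite G] {z x : G} (hz : orderOf z = 2)
    (hzc : ¬ 2 ∣ (Subgroup.centralizer ({z} : Set G)).index)
    (hx : ∃ w : G, w * x * w⁻¹ = x⁻¹)
    (hxc : ¬ 2 ∣ Nat.card (Subgroup.centralizer ({x} : Set G))) :
    ∃ χ : Cfsg.IrrCharacter G, Even (Cfsg.charDegree (χ : G → ℂ)) := by
  classical
  by_contra hcon
  push Not at hcon
  have hFG := Fintype.ofFinite G
  have hFI := Fintype.ofFinite (Cfsg.IrrCharacter G)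
  obtain ⟨M, hM⟩ := Helper78.exists_isPModular 2 Nat.prime_two
  have hMp : M.IsPrime := Helper81.isPrime_of_isPModular hM
  have hMt : M ≠ ⊤ := Helper81.ne_top_of_isPModular hM
  have hzz : z * z = 1 := Helper78.mul_self_of_orderOf_two hz
  have hzi : z⁻¹ = z := Helper78.inv_eq_self_of_orderOf_two hz
  have hz1 : z ≠ 1 := by
    intro h
    rw [h, orderOf_one] at hz
    omega
  have h2 : Cfsg.MemLocalIdeal M (2 : ℂ) := by
    have := Helper81.memLocalIdeal_natCast_of_dvd hM (dvd_refl 2)
    exact_mod_cast this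
  obtain ⟨idx, hidx⟩ : ∃ idx : ℕ, idx = (Subgroup.centralizer ({z} : Set G)).index := ⟨_, rfl⟩
  rw [← hidx] at hzc
  have hidx0 : (idx : ℂ) ≠ 0 := by
    intro h0
    apply hzc
    have : idx = 0 := by exact_mod_cast h0
    rw [this]
    exact dvd_zero 2
  -- the structure constant identity
  have hid := Helper78.sum_irr_omega_mul_mul_inv (Helper81.classInd_isClassFunction z) x z
  simp only [Helper81.omega_classInd] at hid
  have hR : Cfsg.MemLocalIdeal M (∑ χ : Cfsg.IrrCharacter G,
      Cfsg.centralChar (χ : G → ℂ) z * (χ : G → ℂ) x * (χ : G → ℂ) z⁻¹) := by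
    rw [hid]
    apply Helper81.memLocalIdeal_sum
    intro g _
    apply Helper81.memLocalIdeal_mul_left
    · unfold Helper81.classInd
      split_ifs
      · have := Helper81.memLocalRing_natCast hMt 1
        exact_mod_cast this
      · have := Helper81.memLocalRing_natCast hMt 0
        exact_mod_cast this
    · exact Helper81.memLocalIdeal_natCast_of_dvd hM (evenDeg_card_conj_even hzz hz1 _)
  -- each term is congruent to `idx * χ x`
  have hterm : ∀ χ : Cfsg.IrrCharacter G, Cfsg.MemLocalIdeal M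
      (Cfsg.centralChar (χ : G → ℂ) z * (χ : G → ℂ) z⁻¹ - (idx : ℂ)) := by
    intro χ
    obtain ⟨m, hm⟩ := evenDeg_involution_value χ hz
    have hodd : ¬ 2 ∣ Cfsg.charDegree (χ : G → ℂ) := by
      rw [← even_iff_two_dvd]
      exact hcon χ
    obtain ⟨d, hd⟩ : ∃ d : ℕ, Cfsg.charDegree (χ : G → ℂ) = 2 * d + 1 := by
      refine ⟨Cfsg.charDegree (χ : G → ℂ) / 2, ?_⟩
      omega
    have hd0 : ((Cfsg.charDegree (χ : G → ℂ) : ℕ) : ℂ) ≠ 0 := by
      exact_mod_cast (Helper81.charDegree_pos χ).ne'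
    have e : Cfsg.centralChar (χ : G → ℂ) z * (χ : G → ℂ) z⁻¹ - (idx : ℂ)
        = (2 : ℂ) * ((idx : ℂ) * ((2 * (m : ℤ) * m - 2 * m * (2 * d + 1) + (2 * d + 1) * d : ℤ) : ℂ)
          * ((Cfsg.charDegree (χ : G → ℂ) : ℕ) : ℂ)⁻¹) := by
      unfold Cfsg.centralChar
      rw [hzi, Helper81.irr_one_eq_charDegree, hm, ← hidx]
      field_simp
      rw [hd]
      push_cast
      ring
    rw [e]
    apply Helper81.memLocalIdeal_mul_right h2
    exact Helper81.memLocalRing_mul
      (Helper81.memLocalRing_mul (Helper81.memLocalRing_natCast hMt idx)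
        (Helper81.memLocalRing_intCast hMt _))
      (Helper77.memLocalRing_natCast_inv hM hodd)
  have hint : ∀ χ : Cfsg.IrrCharacter G, Cfsg.MemLocalRing M ((χ : G → ℂ) x) := fun χ =>
    Helper81.memLocalRing_of_algInt hMt (Helper78.irr_mem_algInt χ x)
  have hB : Cfsg.MemLocalIdeal M ((idx : ℂ) * ∑ χ : Cfsg.IrrCharacter G, (χ : G → ℂ) x) := by
    have hdiff : Cfsg.MemLocalIdeal M (∑ χ : Cfsg.IrrCharacter G,
        (Cfsg.centralChar (χ : G → ℂ) z * (χ : G → ℂ) z⁻¹ - (idx : ℂ)) * (χ : G → ℂ) x) :=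
      Helper81.memLocalIdeal_sum _ _ fun χ _ => Helper81.memLocalIdeal_mul_right (hterm χ) (hint χ)
    have e : (idx : ℂ) * ∑ χ : Cfsg.IrrCharacter G, (χ : G → ℂ) x
        = ∑ χ : Cfsg.IrrCharacter G,
            Cfsg.centralChar (χ : G → ℂ) z * (χ : G → ℂ) x * (χ : G → ℂ) z⁻¹
          - ∑ χ : Cfsg.IrrCharacter G,
            (Cfsg.centralChar (χ : G → ℂ) z * (χ : G → ℂ) z⁻¹ - (idx : ℂ)) * (χ : G → ℂ) x := by
      rw [← Finset.sum_sub_distrib, Finset.mul_sum]
      apply Finset.sum_congr rfl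
      intro χ _
      ring
    rw [e]
    exact Helper81.memLocalIdeal_sub hR hdiff
  have hs : Cfsg.MemLocalIdeal M (∑ χ : Cfsg.IrrCharacter G, (χ : G → ℂ) x) := by
    have := Helper81.memLocalIdeal_mul_left (Helper77.memLocalRing_natCast_inv hM hzc) hB
    rwa [← mul_assoc, inv_mul_cancel₀ hidx0, one_mul] at this
  have hs2 : Cfsg.MemLocalIdeal M ((∑ χ : Cfsg.IrrCharacter G, (χ : G → ℂ) x) ^ 2) := by
    rw [sq]
    exact Helper81.memLocalIdeal_mul_left (Helper81.memLocalRing_of_memLocalIdeal hs) hs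
  have hsq := evenDeg_sq_sum hM Finset.univ (fun χ : Cfsg.IrrCharacter G => (χ : G → ℂ) x)
    (fun χ _ => hint χ)
  have hsum2 : Cfsg.MemLocalIdeal M (∑ χ : Cfsg.IrrCharacter G, ((χ : G → ℂ) x) ^ 2) := by
    have := Helper81.memLocalIdeal_sub hs2 hsq
    rwa [sub_sub_cancel] at this
  -- second orthogonality
  obtain ⟨w, hw⟩ := hx
  have horth := Helper80.irr_sum_mul_inv x x
  have e2 : ∑ χ : Cfsg.IrrCharacter G, ((χ : G → ℂ) x) ^ 2
      = ∑ χ : Cfsg.IrrCharacter G, (χ : G → ℂ) x * (χ : G → ℂ) x⁻¹ := by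
    apply Finset.sum_congr rfl
    intro χ _
    rw [← hw, Helper81.irr_conj χ x w, sq]
  rw [e2, horth] at hsum2
  have hcard : (Finset.univ.filter (fun u : G => u * x * u⁻¹ = x)).card
      = Nat.card (Subgroup.centralizer ({x} : Set G)) := by
    rw [Nat.card_eq_fintype_card, Fintype.card_subtype]
    congr 1
    ext u
    simp only [Finset.mem_filter, Finset.mem_univ, true_and, Subgroup.mem_centralizer_iff,
      Set.mem_singleton_iff, forall_eq]
    constructor
    · intro h
      have : u * x = x * u := by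
        have h' := congrArg (fun y => y * u) h
        simpa using h'
      exact this.symm
    · intro h
      rw [← h, mul_inv_cancel_right]
  rw [hcard] at hsum2
  exact hxc ((Helper81.memLocalIdeal_natCast_iff hM).mp hsum2)

/-- A group of even order has a `2`-central involution. -/
theorem evenDeg_exists_central_involution {G : Type u} [Group G] [Finite G]
    (h2 : 2 ∣ Nat.card G) :
    ∃ z : G, orderOf z = 2 ∧ ¬ 2 ∣ (Subgroup.centralizer ({z} : Set G)).index := by
  have hf : Fact (Nat.Prime 2) := ⟨Nat.prime_two⟩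
  obtain ⟨S⟩ : Nonempty (Sylow 2 G) := inferInstance
  have hS2 : 2 ∣ Nat.card (S : Subgroup G) := by
    rw [Sylow.card_eq_multiplicity]
    have : 1 ≤ (Nat.card G).factorization 2 :=
      (Nat.Prime.dvd_iff_one_le_factorization Nat.prime_two Nat.card_pos.ne').mp h2
    exact dvd_pow_self 2 (by omega)
  have hnt : Nontrivial (S : Subgroup G) := by
    rw [← Finite.one_lt_card_iff_nontrivial]
    have := Nat.le_of_dvd Nat.card_pos hS2
    omega
  have hc := IsPGroup.center_nontrivial S.isPGroup'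
  have hcp : IsPGroup 2 (Subgroup.center (S : Subgroup G)) := S.isPGroup'.to_subgroup _
  obtain ⟨n, hn⟩ := IsPGroup.iff_card.mp hcp
  have hn0 : n ≠ 0 := by
    intro h0
    rw [h0, pow_zero] at hn
    have := Finite.one_lt_card_iff_nontrivial.mpr hc
    omega
  have hdvd : 2 ∣ Nat.card (Subgroup.center (S : Subgroup G)) := by
    rw [hn]
    exact dvd_pow_self 2 hn0
  obtain ⟨c, hc2⟩ := exists_prime_orderOf_dvd_card' 2 hdvd
  refine ⟨((c : (S : Subgroup G)) : G), ?_, ?_⟩
  · rw [Subgroup.orderOf_coe, Subgroup.orderOf_coe, hc2]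
  · intro hd
    have hle : (S : Subgroup G) ≤ Subgroup.centralizer ({((c : (S : Subgroup G)) : G)} : Set G) := by
      intro s hs
      rw [Subgroup.mem_centralizer_iff]
      intro y hy
      rw [Set.mem_singleton_iff] at hy
      subst hy
      have hcc := Subgroup.mem_center_iff.mp c.2 ⟨s, hs⟩
      have h3 : ((⟨s, hs⟩ * (c : (S : Subgroup G)) : (S : Subgroup G)) : G)
          = (((c : (S : Subgroup G)) * ⟨s, hs⟩ : (S : Subgroup G)) : G) := by rw [hcc]
      rw [Subgroup.coe_mul, Subgroup.coe_mul] at h3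
      exact h3.symm
    exact S.not_dvd_index (dvd_trans hd (Subgroup.index_dvd_of_le hle))

/-- Without irreducible characters of `p`-defect zero, and with centralizers of nontrivial
`p`-elements of odd order, some nontrivial `p`-element is inverted (argument of `S4744`). -/
theorem evenDeg_exists_real {G : Type u} [Group G] [Finite G] (p : ℕ) [hpf : Fact p.Prime]
    (hp2 : p ≠ 2) (h2G : 2 ∣ Nat.card G)
    (hC : ∀ g : G, g ≠ 1 → (∃ k : ℕ, orderOf g = p ^ k) →
      Odd (Nat.card ↥(Subgroup.centralizer ({g} : Set G))))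
    (hdef : ∀ χ : Cfsg.IrrCharacter G,
      (Cfsg.charDegree (χ : G → ℂ)).factorization p ≠ (Nat.card G).factorization p) :
    ∃ x : G, x ≠ 1 ∧ (∃ k : ℕ, orderOf x = p ^ k) ∧ ∃ w : G, w * x * w⁻¹ = x⁻¹ := by
  classical
  let _ : Fintype G := Fintype.ofFinite G
  let _ : Fintype (Cfsg.IrrCharacter G) := Fintype.ofFinite _
  have hp := hpf.out
  -- no element of order `2p`
  have h2p : ∀ g : G, orderOf g ≠ 2 * p := by
    intro g hg
    have hg0 : 0 < orderOf g := by rw [hg]; exact Nat.mul_pos (by norm_num) hp.pos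
    have hz : orderOf (g ^ 2) = p := by
      rw [orderOf_pow' g (by norm_num : (2 : ℕ) ≠ 0), hg, Nat.gcd_mul_right_left,
        Nat.mul_div_cancel_left p (by norm_num : 0 < 2)]
    have ht : orderOf (g ^ p) = 2 := by
      rw [orderOf_pow' g hp.ne_zero, hg, Nat.gcd_mul_left_left, Nat.mul_div_cancel _ hp.pos]
    have hz1 : g ^ 2 ≠ 1 := by
      intro h1
      rw [h1, orderOf_one] at hz
      exact hp.one_lt.ne hz
    have hodd := hC (g ^ 2) hz1 ⟨1, by rw [hz, pow_one]⟩
    have hmem : g ^ p ∈ Subgroup.centralizer ({g ^ 2} : Set G) := by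
      rw [Subgroup.mem_centralizer_iff]
      intro h hh
      rw [Set.mem_singleton_iff] at hh
      rw [hh, ← pow_add, ← pow_add, add_comm]
    have hdvd : 2 ∣ Nat.card ↥(Subgroup.centralizer ({g ^ 2} : Set G)) := by
      have h3 := Subgroup.orderOf_dvd_natCard _ hmem
      rw [ht] at h3
      exact h3
    exact (Nat.not_even_iff_odd.mpr hodd) (even_iff_two_dvd.mpr hdvd)
  have hle : ∀ χ : Cfsg.IrrCharacter G,
      (Cfsg.charDegree (χ : G → ℂ)).factorization p ≤ (Nat.card G).factorization p := fun χ =>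
    (Nat.factorization_le_iff_dvd (Helper81.charDegree_pos χ).ne'
      Nat.card_pos.ne').mpr (Helper78.charDegree_dvd_card χ) p
  have hf2 : Fact (Nat.Prime 2) := ⟨Nat.prime_two⟩
  obtain ⟨t, ht⟩ := exists_prime_orderOf_dvd_card' 2 h2G
  obtain ⟨S⟩ : Nonempty (Sylow p G) := inferInstance
  have hex : ∃ g h : G, IsConj t g ∧ IsConj t h ∧ g * h⁻¹ ∈ (S : Subgroup G) ∧ g ≠ h := by
    by_contra hcon
    push Not at hcon
    obtain ⟨χ, hχ⟩ := Helper78.exists_irr_factorization_le p hp t (S : Subgroup G) hcon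
    apply hdef χ
    have hSidx : ((S : Subgroup G).index).factorization p = 0 :=
      Nat.factorization_eq_zero_of_not_dvd S.not_dvd_index
    have hpc : ¬ p ∣ Nat.card (Subgroup.centralizer ({t} : Set G)) := by
      intro hdvd
      obtain ⟨u, hu⟩ := exists_prime_orderOf_dvd_card' p hdvd
      have huG : orderOf (u : G) = p := by rw [Subgroup.orderOf_coe, hu]
      have hcomm : Commute t (u : G) := by
        have := u.2
        rw [Subgroup.mem_centralizer_iff] at this
        exact this t rfl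
      exact Helper78.not_commute_of_no_two_p hp2 h2p ht (by rw [huG]) hcomm
    have h1 : Nat.card (Subgroup.centralizer ({t} : Set G)) *
        (Subgroup.centralizer ({t} : Set G)).index = Nat.card G := Subgroup.card_mul_index _
    have hk0 : (Subgroup.centralizer ({t} : Set G)).index ≠ 0 := Subgroup.index_ne_zero_of_finite
    have hc0 : Nat.card (Subgroup.centralizer ({t} : Set G)) ≠ 0 := Nat.card_pos.ne'
    have e1 : ((Subgroup.centralizer ({t} : Set G)).index).factorization p =
        (Nat.card G).factorization p := by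
      rw [← h1, Nat.factorization_mul hc0 hk0, Finsupp.coe_add, Pi.add_apply,
        Nat.factorization_eq_zero_of_not_dvd hpc, zero_add]
    have := hle χ
    omega
  obtain ⟨g, h, hg, hh, hgh, hne⟩ := hex
  obtain ⟨a, ha⟩ := isConj_iff.mp hg
  obtain ⟨a', ha'⟩ := isConj_iff.mp hh
  have hgo : orderOf g = 2 := by
    have := (MulAut.conj a).orderOf_eq t
    rw [MulAut.conj_apply, ha] at this
    rw [this, ht]
  have hho : orderOf h = 2 := by
    have := (MulAut.conj a').orderOf_eq t
    rw [MulAut.conj_apply, ha'] at this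
    rw [this, ht]
  have hgg : g * g = 1 := Helper78.mul_self_of_orderOf_two hgo
  have hhi : h⁻¹ = h := Helper78.inv_eq_self_of_orderOf_two hho
  have hu1 : g * h⁻¹ ≠ 1 := fun h1 => hne (mul_inv_eq_one.mp h1)
  have hup : ∃ k : ℕ, orderOf (g * h⁻¹) = p ^ k := by
    obtain ⟨k, hk⟩ := (IsPGroup.iff_orderOf.mp S.isPGroup') ⟨g * h⁻¹, hgh⟩
    rw [Subgroup.orderOf_mk] at hk
    exact ⟨k, hk⟩
  have hginv : g * (g * h⁻¹) * g⁻¹ = (g * h⁻¹)⁻¹ := by
    rw [mul_inv_rev, inv_inv, ← mul_assoc, hgg, one_mul, hhi]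
  exact ⟨g * h⁻¹, hu1, hup, g, hginv⟩

/-- `S4746`: with centralizers of nontrivial `p`-elements of odd order (`p` odd, `|G|` even),
there is an irreducible character of `p`-defect zero or one of even degree. -/
theorem evenDeg_final {G : Type u} [Group G] [Finite G] (p : ℕ) [Fact p.Prime]
    (hp2 : p ≠ 2) (h2G : 2 ∣ Nat.card G)
    (hC : ∀ g : G, g ≠ 1 → (∃ k : ℕ, orderOf g = p ^ k) →
      Odd (Nat.card ↥(Subgroup.centralizer ({g} : Set G)))) :
    (∃ χ : Cfsg.IrrCharacter G,
      (Cfsg.charDegree (χ : G → ℂ)).factorization p = (Nat.card G).factorization p) ∨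
    ∃ χ : Cfsg.IrrCharacter G, Even (Cfsg.charDegree (χ : G → ℂ)) := by
  by_cases hdef : ∃ χ : Cfsg.IrrCharacter G,
      (Cfsg.charDegree (χ : G → ℂ)).factorization p = (Nat.card G).factorization p
  · exact Or.inl hdef
  right
  push Not at hdef
  obtain ⟨x, hx1, hxp, hxr⟩ := evenDeg_exists_real p hp2 h2G hC hdef
  obtain ⟨z, hz, hzc⟩ := evenDeg_exists_central_involution h2G
  have hodd := hC x hx1 hxp
  exact evenDeg_main hz hzc hxr (fun h => (Nat.not_even_iff_odd.mpr hodd) (even_iff_two_dvd.mpr h))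

end Cfsg.Agent.Helper82
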