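import Cfsg.Agent.Helper81.KleinFour
import Cfsg.Agent.Helper53.NPC
import Cfsg.Agent.Helper16.PPart

/-!
# Groups of order `4 * odd` without a normal `2`-complement (helper82)

The Sylow `2`-subgroups are Klein four-groups, all involutions are conjugate, and centralizers of
nontrivial `2`-subgroups have normal `2`-complements.
-/

set_option autoImplicit false

namespace Cfsg.Agent.Helper82

universe u

variable {G : Type u} [Group G]

/-- A subgroup of order four consists of `1` and any three of its distinct nontrivial elements. -/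
theorem kleinGroup_four_elts [Finite G] (Q : Subgroup G) (hcard : Nat.card Q = 4) {a b c : G}
    (ha : a ∈ Q) (hb : b ∈ Q) (hc : c ∈ Q) (h1a : a ≠ 1) (h1b : b ≠ 1) (h1c : c ≠ 1)
    (hab : a ≠ b) (hac : a ≠ c) (hbc : b ≠ c) : ∀ x ∈ Q, x = 1 ∨ x = a ∨ x = b ∨ x = c := by
  classical
  intro x hx
  by_contra hcon
  push Not at hcon
  obtain ⟨hx1, hxa, hxb, hxc⟩ := hcon
  have : Fintype Q := Fintype.ofFinite _
  have h5 : ({⟨1, Q.one_mem⟩, ⟨a, ha⟩, ⟨b, hb⟩, ⟨c, hc⟩, ⟨x, hx⟩} : Finset Q).card = 5 := by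
    rw [Finset.card_insert_of_notMem, Finset.card_insert_of_notMem, Finset.card_insert_of_notMem,
      Finset.card_insert_of_notMem, Finset.card_singleton]
    · simp only [Finset.mem_singleton, Subtype.mk.injEq]
      exact fun h => hxc h.symm
    · simp only [Finset.mem_insert, Finset.mem_singleton, Subtype.mk.injEq, not_or]
      exact ⟨hbc, fun h => hxb h.symm⟩
    · simp only [Finset.mem_insert, Finset.mem_singleton, Subtype.mk.injEq, not_or]
      exact ⟨hab, hac, fun h => hxa h.symm⟩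
    · simp only [Finset.mem_insert, Finset.mem_singleton, Subtype.mk.injEq, not_or]
      exact ⟨fun h => h1a h.symm, fun h => h1b h.symm, fun h => h1c h.symm, fun h => hx1 h.symm⟩
  have h6 := Finset.card_le_univ ({⟨1, Q.one_mem⟩, ⟨a, ha⟩, ⟨b, hb⟩, ⟨c, hc⟩, ⟨x, hx⟩} : Finset Q)
  rw [h5, ← Nat.card_eq_fintype_card, hcard] at h6
  omega

/-- In a group of order `4 * odd` the Sylow `2`-subgroups have order four. -/
theorem kleinGroup_card_sylow [Finite G] (g₀ : ℕ) (hg₀ : Odd g₀) (hG : Nat.card G = 4 * g₀)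
    (Q : Sylow 2 G) : Nat.card (Q : Subgroup G) = 4 := by
  have : Fact (Nat.Prime 2) := ⟨Nat.prime_two⟩
  have h := Q.card_eq_multiplicity
  rw [hG] at h
  have hg0 : g₀ ≠ 0 := by
    rintro rfl
    exact absurd hg₀ (by decide)
  have h2 : ¬ 2 ∣ g₀ := by
    rw [Nat.two_dvd_ne_zero]
    exact Nat.odd_iff.mp hg₀
  have h4 : (4 * g₀).factorization 2 = 2 := by
    rw [Nat.factorization_mul (by norm_num) hg0]
    have h44 : (4 : ℕ) = 2 ^ 2 := by norm_num
    rw [h44, Nat.Prime.factorization_pow Nat.prime_two, Finsupp.add_apply,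
      Nat.factorization_eq_zero_of_not_dvd h2]
    simp
  rw [h, h4]
  norm_num

/-- In a group of order `4 * odd` without a normal `2`-complement, a Sylow `2`-subgroup has exponent
two and is normalized by an element of odd order acting on it without nontrivial fixed points. -/
theorem kleinGroup_of_no_complement [Finite G] (g₀ : ℕ) (hg₀ : Odd g₀) (hG : Nat.card G = 4 * g₀)
    (hnc : ¬ ∃ N : Subgroup G, N.Normal ∧ Nat.card N = g₀) (P : Sylow 2 G) :
    (∀ x ∈ (P : Subgroup G), x * x = 1) ∧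
      ∃ g : G, g ∈ Subgroup.normalizer ((P : Subgroup G) : Set G) ∧ Odd (orderOf g) ∧
        ∀ y ∈ (P : Subgroup G), y ≠ 1 → g * y * g⁻¹ ≠ y := by
  classical
  have : Fact (Nat.Prime 2) := ⟨Nat.prime_two⟩
  have hcard := kleinGroup_card_sylow g₀ hg₀ hG P
  have hab : ∀ x ∈ (P : Subgroup G), ∀ y ∈ (P : Subgroup G), x * y = y * x := by
    intro x hx y hy
    have h := IsPGroup.commutative_of_card_eq_prime_sq (p := 2) (G := (P : Subgroup G))
      (by rw [hcard]; norm_num) ⟨x, hx⟩ ⟨y, hy⟩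
    exact congrArg Subtype.val h
  -- an odd order element of the normalizer not centralizing `P`
  obtain ⟨g, hgN, hgodd, x, hxP, hgx⟩ : ∃ g : G, g ∈ Subgroup.normalizer ((P : Subgroup G) : Set G) ∧
      Odd (orderOf g) ∧ ∃ x ∈ (P : Subgroup G), g * x ≠ x * g := by
    by_contra hcon
    push Not at hcon
    obtain ⟨N, hN, hc⟩ := Helper53.exists_normal_complement_of_odd_centralize P hab hcon
    apply hnc
    refine ⟨N, hN, ?_⟩
    have h1 := hc.card_mul_card
    rw [hcard, hG] at h1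
    omega
  have hexp : ∀ x ∈ (P : Subgroup G), x * x = 1 := by
    intro y hy
    by_contra hyy
    have ho : orderOf (⟨y, hy⟩ : (P : Subgroup G)) = 4 := by
      have hd : orderOf (⟨y, hy⟩ : (P : Subgroup G)) ∣ 2 ^ 2 := by
        have := orderOf_dvd_natCard (⟨y, hy⟩ : (P : Subgroup G))
        rw [hcard] at this
        exact this
      obtain ⟨k, hk, hk2⟩ := (Nat.dvd_prime_pow Nat.prime_two).mp hd
      have hk' : k ≠ 0 ∧ k ≠ 1 := by
        constructor
        · rintro rfl
          rw [pow_zero, orderOf_eq_one_iff] at hk2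
          apply hyy
          have : y = 1 := congrArg Subtype.val hk2
          rw [this, one_mul]
        · rintro rfl
          rw [pow_one] at hk2
          apply hyy
          have h1 := pow_orderOf_eq_one (⟨y, hy⟩ : (P : Subgroup G))
          rw [hk2] at h1
          have h2 : y ^ 2 = 1 := congrArg Subtype.val h1
          rw [← pow_two]; exact h2
      have hk3 : k = 2 := by omega
      rw [hk2, hk3]
      norm_num
    have hcyc : IsCyclic (P : Subgroup G) := isCyclic_of_orderOf_eq_card _ (by rw [ho, hcard])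
    exact hgx (Helper53.commute_of_odd_of_mem_normalizer_cyclic (P : Subgroup G) 2
      (by rw [hcard]; norm_num) g hgN hgodd x hxP)
  refine ⟨hexp, g, hgN, hgodd, ?_⟩
  intro y hy hy1 hfix
  have hinv : ∀ x ∈ (P : Subgroup G), x⁻¹ = x := fun x hx => inv_eq_of_mul_eq_one_left (hexp x hx)
  have hx1 : x ≠ 1 := by
    rintro rfl
    exact hgx (by rw [mul_one, one_mul])
  have hxy : y ≠ x := by
    rintro rfl
    apply hgx
    calc g * y = g * y * g⁻¹ * g := by group
      _ = y * g := by rw [hfix]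
  have hyx : y * x ∈ (P : Subgroup G) := (P : Subgroup G).mul_mem hy hxP
  have h4 := kleinGroup_four_elts (P : Subgroup G) hcard hy hxP hyx hy1 hx1
    (by
      intro h
      apply hxy
      rw [← hinv y hy]
      exact (eq_inv_of_mul_eq_one_right h).symm ▸ rfl)
    hxy
    (by
      intro h
      exact hx1 (by simpa using h.symm))
    (by
      intro h
      exact hy1 (by simpa using h.symm))
  have hc : g * x * g⁻¹ ∈ (P : Subgroup G) := (Subgroup.mem_normalizer_iff.mp hgN x).mp hxP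
  rcases h4 _ hc with h | h | h | h
  · apply hx1
    have : x = g⁻¹ * (g * x * g⁻¹) * g := by group
    rw [this, h]; group
  · have h' : g * x * g⁻¹ = g * y * g⁻¹ := by rw [h, hfix]
    exact hxy (mul_left_cancel (mul_right_cancel h')).symm
  · apply hgx
    calc g * x = g * x * g⁻¹ * g := by group
      _ = x * g := by rw [h]
  · apply hy1
    exact Helper53.odd_trick g x y (orderOf g) hgodd (pow_orderOf_eq_one g) h hfix
      (by rw [pow_two]; exact hexp y hy)

/-- Every `2`-subgroup is conjugate into a given Sylow `2`-subgroup (elementwise form). -/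
theorem kleinGroup_conj_le_sylow [Finite G] (P : Sylow 2 G) (R : Subgroup G) (hR : IsPGroup 2 R) :
    ∃ c : G, ∀ x ∈ R, c⁻¹ * x * c ∈ (P : Subgroup G) := by
  have : Fact (Nat.Prime 2) := ⟨Nat.prime_two⟩
  obtain ⟨Q, hQ⟩ := hR.exists_le_sylow
  obtain ⟨c, hc⟩ := MulAction.exists_smul_eq G P Q
  refine ⟨c, fun x hx => ?_⟩
  have huQ : x ∈ (Q : Subgroup G) := hQ hx
  rw [← hc, Sylow.smul_def, Sylow.pointwise_smul_def,
    Subgroup.mem_pointwise_smul_iff_inv_smul_mem] at huQ
  simpa [MulAut.smul_def, MulAut.conj_inv_apply] using huQ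

/-- Every involution is conjugate into a given Sylow `2`-subgroup. -/
theorem kleinGroup_conj_mem_sylow [Finite G] (P : Sylow 2 G) (s : G) (hs : orderOf s = 2) :
    ∃ c : G, c⁻¹ * s * c ∈ (P : Subgroup G) := by
  have hpg : IsPGroup 2 (Subgroup.zpowers s) :=
    IsPGroup.of_card (n := 1) (by rw [Nat.card_zpowers, hs, pow_one])
  obtain ⟨c, hc⟩ := kleinGroup_conj_le_sylow P _ hpg
  exact ⟨c, hc s (Subgroup.mem_zpowers s)⟩

/-- In a group of order `4 * odd` without a normal `2`-complement, every involution is conjugate to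
any given involution of a Sylow `2`-subgroup. -/
theorem kleinGroup_one_class [Finite G] (g₀ : ℕ) (hg₀ : Odd g₀) (hG : Nat.card G = 4 * g₀)
    (hnc : ¬ ∃ N : Subgroup G, N.Normal ∧ Nat.card N = g₀) (P : Sylow 2 G) (J : G)
    (hJ : J ∈ (P : Subgroup G)) (hJ1 : J ≠ 1) (s : G) (hs : orderOf s = 2) : IsConj s J := by
  obtain ⟨hexp, g, hgN, hgodd, hfpf⟩ := kleinGroup_of_no_complement g₀ hg₀ hG hnc P
  have hcard := kleinGroup_card_sylow g₀ hg₀ hG P
  have hinv : ∀ x ∈ (P : Subgroup G), x⁻¹ = x := fun x hx => inv_eq_of_mul_eq_one_left (hexp x hx)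
  have hPcomm : ∀ x ∈ (P : Subgroup G), ∀ y ∈ (P : Subgroup G), x * y = y * x := by
    intro x hx y hy
    have h1 := hinv (x * y) ((P : Subgroup G).mul_mem hx hy)
    rw [mul_inv_rev, hinv x hx, hinv y hy] at h1
    exact h1.symm
  have hconj : ∀ x ∈ (P : Subgroup G), g * x * g⁻¹ ∈ (P : Subgroup G) := fun x hx =>
    (Subgroup.mem_normalizer_iff.mp hgN x).mp hx
  have hconj1 : ∀ x : G, x ≠ 1 → g * x * g⁻¹ ≠ 1 := by
    intro x hx h
    apply hx
    have : x = g⁻¹ * (g * x * g⁻¹) * g := by group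
    rw [this, h]; group
  have ha := hconj J hJ
  have hb := hconj _ ha
  have ha1 := hconj1 J hJ1
  have hb1 := hconj1 _ ha1
  have hJa : J ≠ g * J * g⁻¹ := fun h => hfpf J hJ hJ1 h.symm
  have hab : g * J * g⁻¹ ≠ g * (g * J * g⁻¹) * g⁻¹ := fun h => hfpf _ ha ha1 h.symm
  have hJb : J ≠ g * (g * J * g⁻¹) * g⁻¹ := by
    intro h
    have hy : J * (g * J * g⁻¹) ∈ (P : Subgroup G) := (P : Subgroup G).mul_mem hJ ha
    have hy1 : J * (g * J * g⁻¹) ≠ 1 := by
      intro h1
      have h2 := eq_inv_of_mul_eq_one_right h1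
      rw [hinv J hJ] at h2
      exact hJa h2.symm
    apply hfpf _ hy hy1
    calc g * (J * (g * J * g⁻¹)) * g⁻¹ = g * J * g⁻¹ * (g * (g * J * g⁻¹) * g⁻¹) := by group
      _ = g * J * g⁻¹ * J := by rw [← h]
      _ = J * (g * J * g⁻¹) := hPcomm _ ha _ hJ
  have h4 := kleinGroup_four_elts (P : Subgroup G) hcard hJ ha hb hJ1 ha1 hb1 hJa hJb hab
  obtain ⟨c, hc⟩ := kleinGroup_conj_mem_sylow P s hs
  have hs1 : c⁻¹ * s * c ≠ 1 := by
    intro h
    have : s = 1 := by
      have h' : s = c * (c⁻¹ * s * c) * c⁻¹ := by group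
      rw [h', h]; group
    rw [this, orderOf_one] at hs
    exact absurd hs (by norm_num)
  rw [isConj_iff]
  rcases h4 _ hc with h | h | h | h
  · exact absurd h hs1
  · exact ⟨c⁻¹, by rw [inv_inv]; exact h⟩
  · refine ⟨g⁻¹ * c⁻¹, ?_⟩
    have : g⁻¹ * c⁻¹ * s * (g⁻¹ * c⁻¹)⁻¹ = g⁻¹ * (c⁻¹ * s * c) * g := by group
    rw [this, h]; group
  · refine ⟨g⁻¹ * g⁻¹ * c⁻¹, ?_⟩
    have : g⁻¹ * g⁻¹ * c⁻¹ * s * (g⁻¹ * g⁻¹ * c⁻¹)⁻¹ = g⁻¹ * (g⁻¹ * (c⁻¹ * s * c) * g) * g := by
      simp only [mul_inv_rev, inv_inv, mul_assoc]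
    rw [this, h]
    simp only [mul_assoc, inv_mul_cancel_left, inv_mul_cancel, mul_one]

/-- Conjugate sets have centralizers of the same order. -/
theorem kleinGroup_card_centralizer_conj (c : G) (S : Set G) :
    Nat.card (Subgroup.centralizer ((fun x => c * x * c⁻¹) '' S))
      = Nat.card (Subgroup.centralizer S) := by
  refine Nat.card_congr ⟨fun y => ⟨c⁻¹ * y * c, ?_⟩, fun x => ⟨c * x * c⁻¹, ?_⟩, ?_, ?_⟩
  · rw [Subgroup.mem_centralizer_iff]
    intro s hs
    have h := Subgroup.mem_centralizer_iff.mp y.2 (c * s * c⁻¹) ⟨s, hs, rfl⟩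
    calc s * (c⁻¹ * y * c) = c⁻¹ * (c * s * c⁻¹ * y) * c := by group
      _ = c⁻¹ * (y * (c * s * c⁻¹)) * c := by rw [h]
      _ = c⁻¹ * y * c * s := by group
  · rw [Subgroup.mem_centralizer_iff]
    rintro _ ⟨s, hs, rfl⟩
    have h := Subgroup.mem_centralizer_iff.mp x.2 s hs
    calc c * s * c⁻¹ * (c * x * c⁻¹) = c * (s * x) * c⁻¹ := by group
      _ = c * (x * s) * c⁻¹ := by rw [h]
      _ = c * x * c⁻¹ * (c * s * c⁻¹) := by group
  · intro y
    apply Subtype.ext
    show c * (c⁻¹ * y * c) * c⁻¹ = y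
    group
  · intro x
    apply Subtype.ext
    show c⁻¹ * (c * x * c⁻¹) * c = x
    group

/-- For a nonempty-with-involution subset `S` of a Klein four Sylow `2`-subgroup `Q`, the elements
of odd order of the centralizer of `S` form a subgroup `K` of index four, and the centralizer is
`K * Q`. -/
theorem kleinGroup_exists_oddSub [Finite G] (Q : Sylow 2 G)
    (hcard : Nat.card (Q : Subgroup G) = 4) (hexp : ∀ x ∈ (Q : Subgroup G), x * x = 1)
    (S : Set G) (hS : S ⊆ ((Q : Subgroup G) : Set G)) (z : G) (hz : z ∈ S) (hz1 : z ≠ 1) :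
    ∃ K : Subgroup G, (∀ w, w ∈ K ↔ w ∈ Subgroup.centralizer S ∧ ¬ 2 ∣ orderOf w) ∧
      4 * Nat.card K = Nat.card (Subgroup.centralizer S) ∧
      ∀ h ∈ Subgroup.centralizer S, ∃ q ∈ (Q : Subgroup G), h * q ∈ K := by
  classical
  have : Fact (Nat.Prime 2) := ⟨Nat.prime_two⟩
  have hinv : ∀ x ∈ (Q : Subgroup G), x⁻¹ = x := fun x hx => inv_eq_of_mul_eq_one_left (hexp x hx)
  have hQcomm : ∀ x ∈ (Q : Subgroup G), ∀ y ∈ (Q : Subgroup G), x * y = y * x := by
    intro x hx y hy
    have h1 := hinv (x * y) ((Q : Subgroup G).mul_mem hx hy)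
    rw [mul_inv_rev, hinv x hx, hinv y hy] at h1
    exact h1.symm
  have hQH : (Q : Subgroup G) ≤ Subgroup.centralizer S := by
    intro x hx
    rw [Subgroup.mem_centralizer_iff]
    intro s hs
    exact hQcomm s (hS hs) x hx
  have hzH : z ∈ Subgroup.centralizer S := hQH (hS hz)
  have hcardQ : Nat.card ((Q.subtype hQH : Sylow 2 (Subgroup.centralizer S)) :
      Subgroup (Subgroup.centralizer S)) = 4 := by
    rw [Sylow.coe_subtype, Nat.card_congr (Subgroup.subgroupOfEquivOfLe hQH).toEquiv, hcard]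
  have hNC : Subgroup.normalizer (((Q.subtype hQH : Sylow 2 (Subgroup.centralizer S)) :
      Subgroup (Subgroup.centralizer S)) : Set (Subgroup.centralizer S))
      ≤ Subgroup.centralizer (((Q.subtype hQH : Sylow 2 (Subgroup.centralizer S)) :
      Subgroup (Subgroup.centralizer S)) : Set (Subgroup.centralizer S)) := by
    apply Helper81.normalizer_le_centralizer_of_klein (Q.subtype hQH) hcardQ ?_ ⟨z, hzH⟩ ?_ ?_ ?_
    · intro x hx
      rw [Sylow.coe_subtype, Subgroup.mem_subgroupOf] at hx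
      exact Subtype.ext (hexp x hx)
    · rw [Sylow.coe_subtype, Subgroup.mem_subgroupOf]; exact hS hz
    · intro h; exact hz1 (congrArg Subtype.val h)
    · intro g; exact Subtype.ext (Subgroup.mem_centralizer_iff.mp g.2 z hz).symm
  have hc := MonoidHom.ker_transferSylow_isComplement' (Q.subtype hQH) hNC
  obtain ⟨N, hNdef⟩ : ∃ N : Subgroup (Subgroup.centralizer S),
      N = (MonoidHom.transferSylow (Q.subtype hQH) hNC).ker := ⟨_, rfl⟩
  have hNn : N.Normal := by rw [hNdef]; infer_instance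
  rw [← hNdef] at hc
  refine ⟨N.map (Subgroup.centralizer S).subtype, ?_, ?_, ?_⟩
  · intro w
    constructor
    · rintro ⟨n, hn, rfl⟩
      refine ⟨n.2, ?_⟩
      have h1 := Helper53.coprime_of_mem_normal_complement (Q.subtype hQH) N hc n hn
      rw [← Subgroup.orderOf_coe] at h1
      exact (Nat.Prime.coprime_iff_not_dvd Nat.prime_two).mp h1.symm
    · rintro ⟨hw, hodd⟩
      refine ⟨⟨w, hw⟩, ?_, rfl⟩
      apply Helper53.mem_normal_complement_of_coprime (Q.subtype hQH) N hc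
      rw [← Subgroup.orderOf_coe]
      exact ((Nat.Prime.coprime_iff_not_dvd Nat.prime_two).mpr hodd).symm
  · rw [Subgroup.card_map_of_injective (Subgroup.subtype_injective _)]
    have h1 := hc.card_mul_card
    rw [hcardQ] at h1
    omega
  · intro h hh
    obtain ⟨⟨⟨n, hn⟩, ⟨q, hq0⟩⟩, hnq⟩ := hc.2 ⟨h, hh⟩
    have hq : (q : G) ∈ (Q : Subgroup G) := by
      have h1 : q ∈ ((Q.subtype hQH : Sylow 2 (Subgroup.centralizer S)) :
          Subgroup (Subgroup.centralizer S)) := hq0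
      rw [Sylow.coe_subtype, Subgroup.mem_subgroupOf] at h1
      exact h1
    have hnq' : (n : G) * (q : G) = h := congrArg Subtype.val hnq
    refine ⟨(q : G)⁻¹, (Q : Subgroup G).inv_mem hq, ?_⟩
    refine ⟨n, hn, ?_⟩
    rw [← hnq']
    simp

/-- Counting via fibres of `k ↦ k⁻¹ * (t * k * t)`: for an involution `t` normalizing a subgroup `K`
of odd order, the number of elements of `K` inverted by `t` is the index of the centralizer of `t`
in `K`. -/
theorem kleinGroup_inverted_count [Finite G] (K : Subgroup G) (hK : ∀ k ∈ K, ¬ 2 ∣ orderOf k)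
    (t : G) (ht : t * t = 1) (hn : ∀ k ∈ K, t * k * t ∈ K) :
    Nat.card {k : G // k ∈ K ∧ t * k * t = k⁻¹} * Nat.card {k : G // k ∈ K ∧ t * k = k * t}
      = Nat.card K := by
  classical
  have := Fintype.ofFinite G
  have htinv : t⁻¹ = t := inv_eq_of_mul_eq_one_left ht
  obtain ⟨s, hsdef⟩ : ∃ s : G → G, s = fun w => w ^ ((orderOf w + 1) / 2) := ⟨_, rfl⟩
  have hs1 : ∀ w ∈ K, s w ∈ K := by
    intro w hw
    rw [hsdef]
    exact K.pow_mem hw _
  have hs2 : ∀ w ∈ K, s w * s w = w := by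
    intro w hw
    have hodd : Odd (orderOf w) := Nat.odd_iff.mpr (Nat.two_dvd_ne_zero.mp (hK w hw))
    obtain ⟨m, hm⟩ := hodd
    rw [hsdef]
    beta_reduce
    rw [← pow_add]
    have : (orderOf w + 1) / 2 + (orderOf w + 1) / 2 = orderOf w + 1 := by omega
    rw [this, pow_succ, pow_orderOf_eq_one, one_mul]
  have hs3 : ∀ w : G, t * w * t = w⁻¹ → t * s w * t = (s w)⁻¹ := by
    intro w h
    rw [hsdef]
    beta_reduce
    have h1 := conj_pow (a := t) (b := w) (i := (orderOf w + 1) / 2)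
    rw [htinv] at h1
    rw [← h1, h, inv_pow]
  have hconv : ∀ (p : G → Prop) [DecidablePred p],
      Nat.card {v : G // p v} = (Finset.univ.filter p).card := by
    intro p _
    rw [Nat.card_eq_fintype_card, Fintype.card_subtype]
  rw [hconv, hconv, ← Finset.card_product]
  have hK' : Nat.card K = (Finset.univ.filter (fun k : G => k ∈ K)).card := hconv _
  rw [hK']
  apply Finset.card_nbij' (fun a : G × G => a.2 * (s a.1)⁻¹)
    (fun k : G => (k⁻¹ * (t * k * t), k * s (k⁻¹ * (t * k * t))))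
  · intro a ha
    simp only [Finset.coe_product, Finset.coe_filter, Finset.mem_univ, true_and, Set.mem_prod,
      Set.mem_ofPred_eq] at ha ⊢
    exact K.mul_mem ha.2.1 (K.inv_mem (hs1 _ ha.1.1))
  · intro k hk
    simp only [Finset.coe_product, Finset.coe_filter, Finset.mem_univ, true_and, Set.mem_prod,
      Set.mem_ofPred_eq] at hk ⊢
    have hw : k⁻¹ * (t * k * t) ∈ K := K.mul_mem (K.inv_mem hk) (hn k hk)
    have hwinv : t * (k⁻¹ * (t * k * t)) * t = (k⁻¹ * (t * k * t))⁻¹ := by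
      have e1 : (k⁻¹ * (t * k * t))⁻¹ = t⁻¹ * k⁻¹ * t⁻¹ * k := by group
      rw [e1, htinv]
      calc t * (k⁻¹ * (t * k * t)) * t = t * k⁻¹ * t * k * (t * t) := by group
        _ = t * k⁻¹ * t * k := by rw [ht, mul_one]
    refine ⟨⟨hw, hwinv⟩, K.mul_mem hk (hs1 _ hw), ?_⟩
    have e2 := hs3 _ hwinv
    have e3 := hs2 _ hw
    obtain ⟨σ, hσ⟩ : ∃ σ : G, σ = s (k⁻¹ * (t * k * t)) := ⟨_, rfl⟩
    rw [← hσ] at e2 e3 ⊢
    symm
    calc k * σ * t = k * (σ * σ) * (σ⁻¹ * t) := by group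
      _ = k * (k⁻¹ * (t * k * t)) * (t * σ * t * t) := by rw [e3, e2]
      _ = t * k * (t * t) * σ * (t * t) := by group
      _ = t * (k * σ) := by rw [ht]; group
  · intro a ha
    simp only [Finset.coe_product, Finset.coe_filter, Finset.mem_univ, true_and, Set.mem_prod,
      Set.mem_ofPred_eq] at ha
    obtain ⟨⟨hw, hwinv⟩, hc, hct⟩ := ha
    obtain ⟨w, c⟩ := a
    simp only at hw hwinv hc hct ⊢
    have e2 := hs3 _ hwinv
    have e3 := hs2 _ hw
    obtain ⟨σ, hσ⟩ : ∃ σ : G, σ = s w := ⟨_, rfl⟩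
    rw [← hσ] at e2 e3 ⊢
    have e4 : (c * σ⁻¹)⁻¹ * (t * (c * σ⁻¹) * t) = w := by
      calc (c * σ⁻¹)⁻¹ * (t * (c * σ⁻¹) * t) = σ * c⁻¹ * (t * c) * σ⁻¹ * t := by group
        _ = σ * c⁻¹ * (c * t) * σ⁻¹ * t := by rw [hct]
        _ = σ * (t * σ * t)⁻¹ := by rw [show (t * σ * t)⁻¹ = t⁻¹ * σ⁻¹ * t⁻¹ by group, htinv]; group
        _ = σ * σ := by rw [e2, inv_inv]
        _ = w := e3
    rw [e4, ← hσ]
    refine Prod.ext rfl ?_
    show c * σ⁻¹ * σ = c
    group
  · intro k hk
    show k * s (k⁻¹ * (t * k * t)) * (s (k⁻¹ * (t * k * t)))⁻¹ = k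
    group

end Cfsg.Agent.Helper82
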