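import Mathlib
import Cfsg.Agent.Helper60.NCDefs

/-!
# S4135 (CALL of helper60), piece SMALLGOOD (helper82)
-/

set_option autoImplicit false
open Subgroup

namespace Cfsg.Agent.Helper82.NCSMALLGOOD
open Cfsg.Agent.Helper60.NC

variable {G : Type*} [Group G] [Finite G] {r : ℕ} [Fact r.Prime] {N : Subgroup G} {m : ℕ}

/-- SMALLGOOD -/
theorem small_good (hc : Ctx G r N m) {y w : G} (hM : Mix G r N y w) (R' : Sylow r G)
    (hcard : Nat.card ↥((R' : Subgroup G) ⊓ centralizer ({y} : Set G)) =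
      r ^ (Nat.card (centralizer ({y} : Set G))).factorization r)
    (hsmall : Nat.card ↥((R' : Subgroup G) ⊓ centralizer ({y} : Set G)) ≤
      r * Nat.card ↥((R' : Subgroup G) ⊓ center G)) :
    ∀ u s : G, (∃ k : ℕ, u ^ r ^ k = 1) → u ∉ center G → (∃ k : ℕ, s ^ r ^ k = 1) →
      Commute u s → centralizer ({u} : Set G) ≤ centralizer ({s} : Set G) := by
  intro u s hu huZ hs hus
  have hr : r.Prime := Fact.out
  obtain ⟨Z1, hZ1⟩ : ∃ Z1 : Subgroup G, Z1 = (R' : Subgroup G) ⊓ center G := ⟨_, rfl⟩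
  rw [← hZ1] at hsmall
  have hZ1c : Z1 ≤ center G := by rw [hZ1]; exact inf_le_right
  have hZ1n : Z1.Normal := ⟨fun n hn g => by
    have h1 := hZ1c hn
    rw [mem_center_iff] at h1
    have h2 : g * n * g⁻¹ = n := by rw [h1 g]; group
    rw [h2]; exact hn⟩
  have hZ1p : IsPGroup r Z1 := by rw [hZ1]; exact R'.isPGroup'.to_le inf_le_left
  have hzp : ∀ v : G, (∃ k : ℕ, v ^ r ^ k = 1) → IsPGroup r (zpowers v) := by
    rintro v ⟨k, hk⟩
    obtain ⟨j, -, hj⟩ := (Nat.dvd_prime_pow hr).mp (orderOf_dvd_of_pow_eq_one hk)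
    exact IsPGroup.of_card (n := j) (by rw [Nat.card_zpowers, hj])
  have hUp : IsPGroup r (zpowers u ⊔ Z1 : Subgroup G) :=
    IsPGroup.to_sup_of_normal_right (hzp u hu) hZ1p
  have hUs : zpowers u ⊔ Z1 ≤ centralizer ({s} : Set G) := by
    apply sup_le
    · rw [zpowers_le]
      exact mem_centralizer_singleton_iff.mpr hus.eq
    · exact hZ1c.trans (center_le_centralizer _)
  have hTp : IsPGroup r (zpowers s ⊔ (zpowers u ⊔ Z1) : Subgroup G) := by
    apply IsPGroup.to_sup_of_normal_right' (hzp s hs) hUp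
    rw [zpowers_le, mem_normalizer_iff]
    intro h
    constructor
    · intro hh
      have h1 := mem_centralizer_singleton_iff.mp (hUs hh)
      have h2 : s * h * s⁻¹ = h := by rw [← h1]; group
      rw [h2]; exact hh
    · intro hh
      have h1 := mem_centralizer_singleton_iff.mp (hUs hh)
      have h2 : s * h = s * (s * h * s⁻¹) := by rw [← h1]; group
      have h3 : h = s * h * s⁻¹ := mul_left_cancel h2
      rw [h3]; exact hh
  have hTu : zpowers s ⊔ (zpowers u ⊔ Z1) ≤ centralizer ({u} : Set G) := by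
    apply sup_le
    · rw [zpowers_le]
      exact mem_centralizer_singleton_iff.mpr hus.eq.symm
    · apply sup_le
      · rw [zpowers_le]
        exact mem_centralizer_singleton_iff.mpr rfl
      · exact hZ1c.trans (center_le_centralizer _)
  have huN : u ∈ N := hc.hr u hu
  -- `|T| ≤ r |Z1|`
  have hT : Nat.card ↥(zpowers s ⊔ (zpowers u ⊔ Z1) : Subgroup G) ≤ r * Nat.card Z1 := by
    obtain ⟨n, hn⟩ := IsPGroup.iff_card.mp hTp
    have h1 : r ^ n ∣ Nat.card (centralizer ({u} : Set G)) := by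
      rw [← hn]; exact Subgroup.card_dvd_of_le hTu
    have h2 : n ≤ (Nat.card (centralizer ({u} : Set G))).factorization r :=
      (Nat.Prime.pow_dvd_iff_le_factorization hr Nat.card_pos.ne').mp h1
    rw [hc.card_eq huN hM.yN huZ hM.yZ] at h2
    calc Nat.card ↥(zpowers s ⊔ (zpowers u ⊔ Z1) : Subgroup G) = r ^ n := hn
      _ ≤ r ^ (Nat.card (centralizer ({y} : Set G))).factorization r :=
          Nat.pow_le_pow_right hr.pos h2
      _ = Nat.card ↥((R' : Subgroup G) ⊓ centralizer ({y} : Set G)) := hcard.symm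
      _ ≤ r * Nat.card Z1 := hsmall
  -- `r |Z1| ≤ |U|`
  have hU : r * Nat.card Z1 ≤ Nat.card ↥(zpowers u ⊔ Z1 : Subgroup G) := by
    obtain ⟨a, ha⟩ := IsPGroup.iff_card.mp hUp
    obtain ⟨b, hb⟩ := IsPGroup.iff_card.mp hZ1p
    have hle : Z1 ≤ zpowers u ⊔ Z1 := le_sup_right
    have h1 : r ^ b ∣ r ^ a := by rw [← ha, ← hb]; exact Subgroup.card_dvd_of_le hle
    have h2 : b ≤ a := (Nat.pow_dvd_pow_iff_le_right hr.one_lt).mp h1
    have h3 : b ≠ a := by
      intro hba
      have h4 : Z1 = zpowers u ⊔ Z1 :=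
        Subgroup.eq_of_le_of_card_ge hle (by rw [ha, hb, hba])
      apply huZ
      apply hZ1c
      rw [h4]
      exact le_sup_left (a := zpowers u) (mem_zpowers u)
    have h5 : b + 1 ≤ a := by omega
    rw [ha, hb, ← pow_succ']
    exact Nat.pow_le_pow_right hr.pos h5
  have hUT : zpowers u ⊔ Z1 = zpowers s ⊔ (zpowers u ⊔ Z1) :=
    Subgroup.eq_of_le_of_card_ge le_sup_right (hT.trans hU)
  have hsU : s ∈ zpowers u ⊔ Z1 := by
    rw [hUT]
    exact le_sup_left (a := zpowers s) (mem_zpowers s)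
  have hsU' : s ∈ ((zpowers u ⊔ Z1 : Subgroup G) : Set G) := hsU
  rw [mul_normal, Set.mem_mul] at hsU'
  obtain ⟨a, ha, z, hz, rfl⟩ := hsU'
  intro d hd
  rw [mem_centralizer_singleton_iff] at hd ⊢
  obtain ⟨k, rfl⟩ := mem_zpowers_iff.mp ha
  have h1 : Commute d (u ^ k) := Commute.zpow_right hd k
  have h2 : z * d = d * z := by
    have h3 := hZ1c hz
    rw [mem_center_iff] at h3
    exact (h3 d).symm
  calc d * (u ^ k * z) = (d * u ^ k) * z := by group
    _ = (u ^ k * d) * z := by rw [h1.eq]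
    _ = u ^ k * (d * z) := by group
    _ = u ^ k * (z * d) := by rw [h2]
    _ = u ^ k * z * d := by group

end Cfsg.Agent.Helper82.NCSMALLGOOD
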