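import Cfsg.Agent.Helper72.O983N3696
import Cfsg.Agent.Helper72.O983N3780
import Cfsg.Agent.Helper72.O983N4620
import Cfsg.Agent.Helper20.O983N5148
import Cfsg.Agent.Helper20.O983N5600
import Cfsg.Agent.Helper20.O983N5880
import Cfsg.Agent.Helper20.O983N5940
import Cfsg.Agent.Helper61.O983A3960
import Cfsg.Agent.Helper61.O983B3960
import Cfsg.Agent.Helper10.O983A4200
import Cfsg.Agent.Helper85.O983B4200
import Cfsg.Agent.Helper78.O983A4680
import Cfsg.Agent.Helper85.O983B4680
import Cfsg.Agent.Helper78.O983C4680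
import Cfsg.Agent.Helper55.O983A5400
import Cfsg.Agent.Helper55.O983B5400
import Cfsg.Agent.Helper10.O983C5400
import Cfsg.Agent.Helper74.O983D5400
import Cfsg.Agent.Helper85.O983A5460
import Cfsg.Agent.Helper55.O983INV
import Cfsg.Agent.Helper66.O983B5460

/-!
# S0983: the twelve ad hoc orders (helper82; pieces of CALL S0983 by helpers 10, 20, 55, 61, 66,
72, 74, 78, 85)

No simple group has order 3696, 3780, 3960, 4200, 4620, 4680, 5148, 5400, 5460, 5600, 5880 or
5940.
-/

set_option autoImplicit false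

namespace Cfsg.Agent.Helper82

open Subgroup

variable {G : Type*} [Group G] [Finite G] [IsSimpleGroup G]

theorem o3696 : Nat.card G ≠ 3696 := Cfsg.Agent.Helper72.o3696

theorem o3780 : Nat.card G ≠ 3780 := Cfsg.Agent.Helper72.o3780

theorem o4620 : Nat.card G ≠ 4620 := Cfsg.Agent.Helper72.o4620

theorem o5148 : Nat.card G ≠ 5148 := Cfsg.Agent.Helper20.o5148

theorem o5600 : Nat.card G ≠ 5600 := Cfsg.Agent.Helper20.o5600

theorem o5880 : Nat.card G ≠ 5880 := Cfsg.Agent.Helper20.o5880

theorem o5940 : Nat.card G ≠ 5940 := Cfsg.Agent.Helper20.o5940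

theorem o3960 : Nat.card G ≠ 3960 := by
  intro h
  have : Fact (Nat.Prime 11) := ⟨by norm_num⟩
  obtain ⟨P⟩ : Nonempty (Sylow 11 G) := inferInstance
  obtain ⟨hN, hC, hfix, h4⟩ := Cfsg.Agent.Helper61.o3960_a h P
  exact Cfsg.Agent.Helper61.o3960_b h P hN hC hfix h4

theorem o4200 : Nat.card G ≠ 4200 := by
  intro h
  obtain ⟨H, hH⟩ := Cfsg.Agent.Helper10.o4200_a h
  exact Cfsg.Agent.Helper85.o4200_b h H hH

theorem o4680 : Nat.card G ≠ 4680 := by
  intro h
  obtain ⟨x, y, hx, hy, hxy⟩ := Cfsg.Agent.Helper85.o4680_b h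
  exact Cfsg.Agent.Helper78.o4680_c h (fun P => Cfsg.Agent.Helper78.o4680_a h P) x y hx hy hxy

theorem o5400 : Nat.card G ≠ 5400 := by
  intro h
  obtain ⟨D, P, R, hPR, hD, hDP, hDR⟩ := Cfsg.Agent.Helper55.o5400_a h
  have hC := Cfsg.Agent.Helper55.o5400_b h D P R hPR hD hDP hDR
  exact Cfsg.Agent.Helper74.o5400_d h D hD hC (fun P => Cfsg.Agent.Helper10.o5400_c h D hD hC P)

theorem o5460 : Nat.card G ≠ 5460 := by
  intro h
  have hG : ¬ IsMulCommutative G := by
    intro hc
    have hp : (Nat.card G).Prime := Group.is_simple_iff_prime_card.mp inferInstance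
    rw [h] at hp
    norm_num at hp
  obtain ⟨t, ht, htc⟩ := Cfsg.Agent.Helper85.o5460_a h
  refine Cfsg.Agent.Helper66.o5460_b h (fun s hs => ?_)
  have hconj : IsConj t s :=
    Cfsg.Agent.Helper55.invol_conj_of_not_eight_dvd hG (by rw [h]; decide) (by rw [h]; decide) t s ht hs
  obtain ⟨c, hc⟩ := isConj_iff.mp hconj
  rw [← htc]
  have hmap : (centralizer ({t} : Set G)).map (MulAut.conj c).toMonoidHom =
      centralizer ({s} : Set G) := by
    ext g
    simp only [Subgroup.mem_map, Subgroup.mem_centralizer_iff, Set.mem_singleton_iff,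
      forall_eq, MulEquiv.coe_toMonoidHom, MulAut.conj_apply]
    constructor
    · rintro ⟨a, ha, rfl⟩
      rw [← hc]
      simp only [mul_assoc, inv_mul_cancel_left]
      rw [← mul_assoc t a, ha]
      simp [mul_assoc]
    · intro hg
      refine ⟨c⁻¹ * g * c, ?_, by simp [mul_assoc]⟩
      rw [← hc] at hg
      have := congrArg (fun z => c⁻¹ * z * c) hg
      simp only [mul_assoc, inv_mul_cancel_left] at this
      simpa [mul_assoc] using this
  rw [← hmap]
  exact Nat.card_congr ((centralizer ({t} : Set G)).equivMapOfInjective _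
    (MulAut.conj c).injective).toEquiv.symm

end Cfsg.Agent.Helper82
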