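import Mathlib
import Cfsg.Agent.Helper19.O983EG
import Cfsg.Agent.Helper51.O983EC3
import Cfsg.Agent.Helper51.O983EC4
import Cfsg.Agent.Helper51.O983ER0
import Cfsg.Agent.Helper51.O983ER4
import Cfsg.Agent.Helper51.O983ET3
import Cfsg.Agent.Helper53.O983ES
import Cfsg.Agent.Helper61.O983EAR
import Cfsg.Agent.Helper61.O983ET
import Cfsg.Agent.Helper67.O983EA

/-!
# S0983: the generic engine (helper82; pieces of CALL S0983 part E by helpers 19, 51, 53, 61, 67)

* `eng_two_primes`, `eng_two_mod_four`, `eng_big_prime`, `eng_four`, `eng_three`: orders killed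
  by Burnside's two-prime theorem, a cyclic Sylow 2-subgroup, S0999 and S4501;
* Boolean checkers `sylBasic`, `sylOne`, `sylSq` for the number of Sylow `p`-subgroups and their
  soundness `kill_basic`, `kill_one`, `kill_three`, `kill_sq`: if no `d ≤ m` is admissible, no
  non-abelian simple group has that order.
-/

set_option autoImplicit false

namespace Cfsg.Agent.Helper82

variable {G : Type*} [Group G] [Finite G] [IsSimpleGroup G]

/-- piece ER0 (Burnside `p^a q^b`: `Cfsg.Agent.Helper3.isSolvable_of_card_eq`). -/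
theorem eng_two_primes (hG : ¬ IsMulCommutative G) (p q a b : ℕ) (hp : p.Prime) (hq : q.Prime)
    (h : Nat.card G = p ^ a * q ^ b) : False :=
  Cfsg.Agent.Helper51.eng_two_primes hG p q a b hp hq h

/-- piece ER4 (cyclic Sylow 2: `Cfsg.Agent.Helper41.not_isCyclic_sylow_minFac`). -/
theorem eng_two_mod_four (hG : ¬ IsMulCommutative G) (h : Nat.card G % 4 = 2) : False :=
  Cfsg.Agent.Helper51.eng_two_mod_four hG h

/-- piece EA (`Cfsg.Agent.S0999.result` and `Cfsg.Agent.Helper5.card_PSL2_mul_gcd`). -/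
theorem eng_big_prime (hG : ¬ IsMulCommutative G) (p : ℕ) (hp : p.Prime)
    (hdvd : p ∣ Nat.card G) (hbig : Nat.card G < p ^ 3)
    (h1 : 2 * Nat.card G ≠ p * (p ^ 2 - 1))
    (h2 : Nat.card G ≠ (p - 1) * ((p - 1) ^ 2 - 1)) : False :=
  Cfsg.Agent.Helper67.eng_big_prime hG p hp hdvd hbig h1 h2

/-- piece EC4 (`Cfsg.Agent.S4501.result`). -/
theorem eng_four (hG : ¬ IsMulCommutative G) (p q a b : ℕ) (hp : p.Prime) (hq : q.Prime)
    (hpq : p ≠ q) (ha : a ≤ 2) (h : Nat.card G = 4 * p ^ a * q ^ b) : Nat.card G = 60 :=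
  Cfsg.Agent.Helper51.eng_four hG p q a b hp hq hpq ha h

/-- piece EC3 (`Cfsg.Agent.S4501.result`). -/
theorem eng_three (hG : ¬ IsMulCommutative G) (p q a b : ℕ) (hp : p.Prime) (hq : q.Prime)
    (hpq : p ≠ q) (ha : a ≤ 2) (h : Nat.card G = 3 * p ^ a * q ^ b) :
    Nat.card G = 60 ∨ Nat.card G = 168 :=
  Cfsg.Agent.Helper51.eng_three hG p q a b hp hq hpq ha h

/-- piece ES (Sylow arithmetic: `Helper9.OrdTools.sylow_card`, `sylow_num`, `alt_index`). -/
theorem eng_syl (hG : ¬ IsMulCommutative G) (p a m : ℕ) (hp : p.Prime)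
    (hcard : Nat.card G = p ^ a * m) (hpm : ¬ p ∣ m) (ha : 0 < a) (hm : 1 < m)
    (h24 : 24 < Nat.card G) :
    Nat.card (Sylow p G) ∣ m ∧ Nat.card (Sylow p G) % p = 1 ∧ Nat.card (Sylow p G) ≠ 1 ∧
      2 * Nat.card G ∣ (Nat.card (Sylow p G)).factorial :=
  Cfsg.Agent.Helper53.eng_syl hG p a m hp hcard hpm ha hm h24

/-- piece ET (Sylow of prime order: `Helper9.OrdTools.normalizer_centralizer_prime`, Cauchy,
`Helper82.prime_mul_lt_card_sylow`). -/
theorem eng_syl_one (hG : ¬ IsMulCommutative G) (p m : ℕ) (hp : p.Prime)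
    (hcard : Nat.card G = p * m) (hpm : ¬ p ∣ m) (hm : 1 < m) :
    ∃ e c : ℕ, e ∣ p - 1 ∧ 1 < e ∧ Nat.card (Sylow p G) * e * c = m ∧
      ∀ r : ℕ, r.Prime → r ∣ c → r * p + 1 ≤ Nat.card (Sylow p G) :=
  Cfsg.Agent.Helper61.eng_syl_one hG p m hp hcard hpm hm

/-- piece ET3 (three primes: `Cfsg.Agent.S0904.result`, `normalizer_centralizer_prime`). -/
theorem eng_syl_three (hG : ¬ IsMulCommutative G) (p q₁ q₂ a₁ a₂ : ℕ) (hp : p.Prime)
    (hq₁ : q₁.Prime) (hq₂ : q₂.Prime) (h12 : q₁ ≠ q₂) (h1p : q₁ ≠ p) (h2p : q₂ ≠ p)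
    (hcard : Nat.card G = q₁ ^ a₁ * q₂ ^ a₂ * p) :
    ∃ e : ℕ, e ∣ p - 1 ∧ 1 < e ∧ Nat.card (Sylow p G) * e * p = Nat.card G :=
  Cfsg.Agent.Helper51.eng_syl_three hG p q₁ q₂ a₁ a₂ hp hq₁ hq₂ h12 h1p h2p hcard

/-- piece EG (`Cfsg.Agent.S0985.result` with `k = 2`; the normalizer of `P ⊓ R`). -/
theorem eng_syl_sq (hG : ¬ IsMulCommutative G) (p a m : ℕ) (hp : p.Prime)
    (hcard : Nat.card G = p ^ a * m) (hpm : ¬ p ∣ m) (ha : 2 ≤ a) (h24 : 24 < Nat.card G)
    (hd : Nat.card (Sylow p G) % (p * p) ≠ 1) :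
    ∃ k d' : ℕ, k ∣ m ∧ k ≠ m ∧ 2 * Nat.card G ∣ (m / k).factorial ∧
      d' ∣ k ∧ d' % p = 1 ∧ d' ≠ 1 :=
  Cfsg.Agent.Helper19.eng_syl_sq hG p a m hp hcard hpm ha h24 hd

/-- piece EAR (arithmetic). -/
theorem eng_dvd_factorial_pow (c t : ℕ) (hc0 : 0 < c) (hc : c < 2 ^ 13)
    (h : ∀ r : ℕ, r.Prime → r ∣ c → r ≤ t) : c ∣ t.factorial ^ 13 :=
  Cfsg.Agent.Helper61.eng_dvd_factorial_pow c t hc0 hc h

/-! ## the checkers -/
/-- basic admissibility of `d` as the number of Sylow `p`-subgroups (`n = p ^ a * m`). -/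
def sylBasic (n p m d : ℕ) : Bool :=
  m % d == 0 && (d % p == 1 && (d != 1 && (decide (24 < d) || d.factorial % (2 * n) == 0)))

/-- admissibility of `d` when the Sylow `p`-subgroup has order `p` (`n = p * m`). -/
def sylOne (three : Bool) (n p m d : ℕ) : Bool :=
  sylBasic n p m d &&
    (List.range p).any fun e =>
      decide (1 < e) && ((p - 1) % e == 0 && ((m / d) % e == 0 &&
        (if three then m / d / e == 1
         else (decide (m / d / e ≤ (d - 1) / p) ||
           ((d - 1) / p).factorial ^ 13 % (m / d / e) == 0))))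

/-- admissibility of `d` when `p ^ 2` divides the order (`n = p ^ a * m`, `2 ≤ a`). -/
def sylSq (n p m d : ℕ) : Bool :=
  sylBasic n p m d &&
    (d % (p * p) == 1 ||
      (List.range (m + 1)).any fun k =>
        m % k == 0 && (k != m && ((decide (24 < m / k) || (m / k).factorial % (2 * n) == 0) &&
          (List.range (k + 1)).any fun d' => k % d' == 0 && (d' % p == 1 && d' != 1))))

theorem sylBasic_true (hG : ¬ IsMulCommutative G) (n p a m : ℕ) (hcard : Nat.card G = n)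
    (hp : p.Prime) (hn : n = p ^ a * m) (hpm : ¬ p ∣ m) (ha : 0 < a) (hm : 1 < m)
    (h24 : 24 < n) :
    Nat.card (Sylow p G) ∈ List.range (m + 1) ∧
      sylBasic n p m (Nat.card (Sylow p G)) = true := by
  obtain ⟨h1, h2, h3, h4⟩ := eng_syl hG p a m hp (hcard.trans hn) hpm ha hm (hcard ▸ h24)
  refine ⟨?_, ?_⟩
  · rw [List.mem_range]
    exact Nat.lt_succ_of_le (Nat.le_of_dvd (by omega) h1)
  · rw [hcard] at h4
    simp only [sylBasic, Bool.and_eq_true, beq_iff_eq, bne_iff_ne, ne_eq, Bool.or_eq_true,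
      decide_eq_true_eq]
    exact ⟨Nat.mod_eq_zero_of_dvd h1, h2, h3, Or.inr (Nat.mod_eq_zero_of_dvd h4)⟩

theorem kill_basic (hG : ¬ IsMulCommutative G) (n p a m : ℕ) (hcard : Nat.card G = n)
    (hp : p.Prime) (hn : n = p ^ a * m) (hpm : ¬ p ∣ m) (ha : 0 < a) (hm : 1 < m)
    (h24 : 24 < n)
    (hck : (List.range (m + 1)).all (fun d => !sylBasic n p m d) = true) : False := by
  obtain ⟨hmem, htrue⟩ := sylBasic_true hG n p a m hcard hp hn hpm ha hm h24
  have := List.all_eq_true.mp hck _ hmem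
  simp [htrue] at this

theorem kill_one (hG : ¬ IsMulCommutative G) (n p m : ℕ) (hcard : Nat.card G = n)
    (hp : p.Prime) (hn : n = p * m) (hpm : ¬ p ∣ m) (hm : 1 < m) (h24 : 24 < n)
    (h13 : n < 2 ^ 13)
    (hck : (List.range (m + 1)).all (fun d => !sylOne false n p m d) = true) : False := by
  obtain ⟨hmem, htrue⟩ := sylBasic_true hG n p 1 m hcard hp (by rw [pow_one]; exact hn) hpm
    Nat.one_pos hm h24
  obtain ⟨e, c, he, he1, hec, hr⟩ := eng_syl_one hG p m hp (hcard.trans hn) hpm hm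
  have := List.all_eq_true.mp hck _ hmem
  set d := Nat.card (Sylow p G) with hd
  have hd0 : 0 < d := by
    rcases Nat.eq_zero_or_pos d with h0 | h0
    · rw [h0] at hec; simp at hec; omega
    · exact h0
  have hc0 : 0 < c := by
    rcases Nat.eq_zero_or_pos c with h0 | h0
    · rw [h0] at hec; simp at hec; omega
    · exact h0
  have hmd : m / d = e * c := by
    apply Nat.div_eq_of_eq_mul_right hd0
    rw [← hec]; ring
  have hmde : m / d / e = c := by
    rw [hmd]; exact Nat.mul_div_cancel_left c (by omega)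
  have hp1 : 0 < p - 1 := by have := hp.two_le; omega
  have hep : e ∈ List.range p := by
    rw [List.mem_range]
    have := Nat.le_of_dvd hp1 he
    omega
  have hcm : c ≤ m := by
    rw [← hec]
    exact Nat.le_mul_of_pos_left c (Nat.mul_pos hd0 (by omega))
  have hdvd : c ∣ ((d - 1) / p).factorial ^ 13 := by
    apply eng_dvd_factorial_pow c _ hc0
    · have : m ≤ n := by rw [hn]; exact Nat.le_mul_of_pos_left m hp.pos
      omega
    · intro r hrp hrc
      have := hr r hrp hrc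
      rw [Nat.le_div_iff_mul_le hp.pos]
      omega
  have hone : sylOne false n p m d = true := by
    simp only [sylOne, Bool.and_eq_true, htrue, true_and, List.any_eq_true, decide_eq_true_eq,
      beq_iff_eq, Bool.false_eq_true, if_false, Bool.or_eq_true]
    refine ⟨e, hep, he1, Nat.mod_eq_zero_of_dvd he, ?_, ?_⟩
    · rw [hmd]; exact Nat.mul_mod_right e c
    · rw [hmde]; exact Or.inr (Nat.mod_eq_zero_of_dvd hdvd)
  simp [hone] at this

theorem kill_three (hG : ¬ IsMulCommutative G) (n p m q₁ q₂ a₁ a₂ : ℕ)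
    (hcard : Nat.card G = n) (hp : p.Prime) (hq₁ : q₁.Prime) (hq₂ : q₂.Prime) (h12 : q₁ ≠ q₂)
    (h1p : q₁ ≠ p) (h2p : q₂ ≠ p) (h3 : n = q₁ ^ a₁ * q₂ ^ a₂ * p) (hn : n = p * m)
    (hpm : ¬ p ∣ m) (hm : 1 < m) (h24 : 24 < n)
    (hck : (List.range (m + 1)).all (fun d => !sylOne true n p m d) = true) : False := by
  obtain ⟨hmem, htrue⟩ := sylBasic_true hG n p 1 m hcard hp (by rw [pow_one]; exact hn) hpm
    Nat.one_pos hm h24
  obtain ⟨e, he, he1, hec⟩ := eng_syl_three hG p q₁ q₂ a₁ a₂ hp hq₁ hq₂ h12 h1p h2p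
    (hcard.trans h3)
  have := List.all_eq_true.mp hck _ hmem
  set d := Nat.card (Sylow p G) with hd
  have hde : d * e = m := by
    rw [hcard, hn] at hec
    have h' : p * (d * e) = p * m := by rw [← hec]; ring
    exact Nat.eq_of_mul_eq_mul_left hp.pos h'
  have hd0 : 0 < d := by
    rcases Nat.eq_zero_or_pos d with h0 | h0
    · rw [h0] at hde; simp at hde; omega
    · exact h0
  have hmd : m / d = e := by
    apply Nat.div_eq_of_eq_mul_right hd0
    rw [← hde]
  have hp1 : 0 < p - 1 := by have := hp.two_le; omega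
  have hep : e ∈ List.range p := by
    rw [List.mem_range]
    have := Nat.le_of_dvd hp1 he
    omega
  have hone : sylOne true n p m d = true := by
    simp only [sylOne, Bool.and_eq_true, htrue, true_and, List.any_eq_true, decide_eq_true_eq,
      beq_iff_eq, if_true]
    refine ⟨e, hep, he1, Nat.mod_eq_zero_of_dvd he, ?_, ?_⟩
    · rw [hmd]; exact Nat.mod_self e
    · rw [hmd]; exact Nat.div_self (by omega)
  simp [hone] at this

theorem kill_sq (hG : ¬ IsMulCommutative G) (n p a m : ℕ) (hcard : Nat.card G = n)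
    (hp : p.Prime) (hn : n = p ^ a * m) (hpm : ¬ p ∣ m) (ha : 2 ≤ a) (hm : 1 < m)
    (h24 : 24 < n)
    (hck : (List.range (m + 1)).all (fun d => !sylSq n p m d) = true) : False := by
  obtain ⟨hmem, htrue⟩ := sylBasic_true hG n p a m hcard hp hn hpm (by omega) hm h24
  have := List.all_eq_true.mp hck _ hmem
  set d := Nat.card (Sylow p G) with hd
  have hsq : sylSq n p m d = true := by
    simp only [sylSq, Bool.and_eq_true, htrue, true_and, Bool.or_eq_true, beq_iff_eq,
      List.any_eq_true, bne_iff_ne, ne_eq, decide_eq_true_eq]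
    by_cases hdd : d % (p * p) = 1
    · exact Or.inl hdd
    · right
      obtain ⟨k, d', hk, hkm, hfac, hd'k, hd'p, hd'1⟩ :=
        eng_syl_sq hG p a m hp (hcard.trans hn) hpm ha (hcard ▸ h24) hdd
      have hk0 : 0 < k := Nat.pos_of_dvd_of_pos hk (by omega)
      rw [hcard] at hfac
      refine ⟨k, ?_, Nat.mod_eq_zero_of_dvd hk, hkm, Or.inr (Nat.mod_eq_zero_of_dvd hfac), d', ?_,
        Nat.mod_eq_zero_of_dvd hd'k, hd'p, hd'1⟩
      · rw [List.mem_range]
        exact Nat.lt_succ_of_le (Nat.le_of_dvd (by omega) hk)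
      · rw [List.mem_range]
        exact Nat.lt_succ_of_le (Nat.le_of_dvd hk0 hd'k)
  simp [hsq] at this

end Cfsg.Agent.Helper82
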