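import Cfsg.Agent.Helper75.ThirdMain
import Cfsg.Agent.Helper73.PRegular
import Cfsg.Agent.Helper80.CharOrtho
import Cfsg.Agent.Helper15.CharInner
import Cfsg.Agent.Helper16.DefectGroup
import Cfsg.Agent.Helper77.Defect
import Cfsg.Agent.Helper81.BlockDefect

/-!
# Membership in the principal block (helper82)

* `sum_mem_of_involution`: a sum over a finite set stable under an involution lies in an additive
  submonoid as soon as the fixed points contribute elements of it and the two-element orbits
  contribute pairs with sum in it.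
* `even_index_centralizer_of_isConj_inv`: a real class of nontrivial elements of odd order has
  even size.
* `mem_principalBlock_of_twist`: for the prime `2`, an irreducible character `ψ` of odd degree
  lying in the same block as a character `ψ'` with `ψ'(g) = ψ(g⁻¹)` on the elements of odd order
  lies in the principal `2`-block.
* `card_le_of_subset_principalBlock`: a set of irreducible characters inside the principal
  `p`-block has at most `p ^ (2 a)` members, `p ^ a` the `p`-part of the group order.
* `exists_odd_degree_of_blockDefect`: a `2`-block of full defect has a character of odd degree.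

Everything is in `namespace Cfsg.Agent.Helper82`.
-/

set_option autoImplicit false

namespace Cfsg.Agent.Helper82

open scoped ComplexConjugate

universe u

/-- A sum over a finite set stable under an involution `τ` lies in an additive submonoid `S`
provided `f x ∈ S` at the fixed points and `f x + f (τ x) ∈ S` elsewhere. -/
theorem sum_mem_of_involution {α A : Type*} [DecidableEq α] [AddCommMonoid A] (S : AddSubmonoid A)
    (τ : α → α) (hτ : ∀ x, τ (τ x) = x) (f : α → A) :
    ∀ (n : ℕ) (s : Finset α), s.card = n → (∀ x ∈ s, τ x ∈ s) → (∀ x ∈ s, τ x = x → f x ∈ S) →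
      (∀ x ∈ s, τ x ≠ x → f x + f (τ x) ∈ S) → ∑ x ∈ s, f x ∈ S := by
  intro n
  induction n using Nat.strong_induction_on with
  | _ n ih =>
    intro s hs hst hfix hpair
    rcases s.eq_empty_or_nonempty with rfl | ⟨x, hx⟩
    · simp
    by_cases hxx : τ x = x
    · rw [← Finset.add_sum_erase s f hx]
      refine S.add_mem (hfix x hx hxx) (ih (s.erase x).card ?_ _ rfl ?_ ?_ ?_)
      · rw [← hs]
        exact Finset.card_erase_lt_of_mem hx
      · intro y hy
        rw [Finset.mem_erase] at hy ⊢
        refine ⟨fun h => hy.1 ?_, hst y hy.2⟩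
        rw [← hτ y, h, hxx]
      · intro y hy
        exact hfix y (Finset.mem_of_mem_erase hy)
      · intro y hy
        exact hpair y (Finset.mem_of_mem_erase hy)
    · have hx' : τ x ∈ s.erase x := Finset.mem_erase.mpr ⟨hxx, hst x hx⟩
      rw [← Finset.add_sum_erase s f hx, ← Finset.add_sum_erase (s.erase x) f hx', ← add_assoc]
      refine S.add_mem (hpair x hx hxx) (ih ((s.erase x).erase (τ x)).card ?_ _ rfl ?_ ?_ ?_)
      · rw [← hs]
        exact (Finset.card_erase_lt_of_mem hx').trans (Finset.card_erase_lt_of_mem hx)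
      · intro y hy
        rw [Finset.mem_erase, Finset.mem_erase] at hy ⊢
        refine ⟨fun h => hy.2.1 ?_, fun h => hy.1 ?_, hst y hy.2.2⟩
        · rw [← hτ y, h, hτ]
        · rw [← hτ y, h]
      · intro y hy
        exact hfix y (Finset.mem_of_mem_erase (Finset.mem_of_mem_erase hy))
      · intro y hy
        exact hpair y (Finset.mem_of_mem_erase (Finset.mem_of_mem_erase hy))

/-- The local ideal at a maximal ideal, as an additive submonoid of `ℂ`. -/
def localIdealAdd (M : Ideal Cfsg.AlgInt) (hM : M.IsMaximal) : AddSubmonoid ℂ where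
  carrier := {z | Cfsg.MemLocalIdeal M z}
  add_mem' := fun ha hb => Helper77.memLocalIdeal_add hM ha hb
  zero_mem' := Helper77.memLocalIdeal_zero hM

theorem mem_localIdealAdd {M : Ideal Cfsg.AlgInt} (hM : M.IsMaximal) {z : ℂ} :
    z ∈ localIdealAdd M hM ↔ Cfsg.MemLocalIdeal M z := Iff.rfl

theorem isConj_inv_inv {G : Type*} [Group G] {a b : G} (h : IsConj a b) : IsConj a⁻¹ b⁻¹ := by
  obtain ⟨c, hc⟩ := isConj_iff.mp h
  exact isConj_iff.mpr ⟨c, by rw [← hc]; group⟩

/-- A conjugacy class of nontrivial elements of odd order that is closed under inversion has even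
size. -/
theorem even_index_centralizer_of_isConj_inv {G : Type*} [Group G] [Fintype G] {g : G}
    (hodd : Odd (orderOf g)) (hg1 : g ≠ 1) (hconj : IsConj g g⁻¹) :
    Even (Subgroup.centralizer ({g} : Set G)).index := by
  classical
  rw [← Helper81.card_classFinset]
  have h : ∑ _y ∈ Helper81.classFinset g, (1 : ZMod 2) = 0 := by
    refine Finset.sum_involution (fun y _ => y⁻¹) ?_ ?_ ?_ ?_
    · intro y _
      decide
    · intro y hy _ hyy
      rw [Helper81.mem_classFinset] at hy
      have hord : orderOf y = orderOf g := by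
        obtain ⟨c, hc⟩ := isConj_iff.mp hy
        rw [← hc]
        have := (MulAut.conj c).orderOf_eq g
        rwa [MulAut.conj_apply] at this
      have hy2 : y ^ 2 = 1 := by
        rw [sq]
        nth_rewrite 1 [← hyy]
        exact inv_mul_cancel y
      have hdvd : orderOf y ∣ 2 := orderOf_dvd_of_pow_eq_one hy2
      rw [hord] at hdvd
      have h1 : orderOf g = 1 := by
        rcases (Nat.dvd_prime Nat.prime_two).mp hdvd with h | h
        · exact h
        · rw [h] at hodd
          exact absurd hodd (by decide)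
      exact hg1 (orderOf_eq_one_iff.mp h1)
    · intro y hy
      rw [Helper81.mem_classFinset] at hy ⊢
      exact hconj.trans (isConj_inv_inv hy)
    · intro y _
      exact inv_inv y
  rw [Finset.sum_const, nsmul_eq_mul, mul_one] at h
  exact ZMod.natCast_eq_zero_iff_even.mp h

theorem centralizer_singleton_inv {G : Type*} [Group G] (g : G) :
    Subgroup.centralizer ({g⁻¹} : Set G) = Subgroup.centralizer ({g} : Set G) := by
  ext k
  rw [Helper77.mem_centralizer_singleton, Helper77.mem_centralizer_singleton]
  exact Commute.inv_right_iff (a := k) (b := g)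

section Twist

variable {G : Type u} [Group G] [Fintype G]

/-- For the prime `2`: an irreducible character `ψ` of odd degree lying in the same block as a
character `ψ'` with `ψ'(g) = ψ(g⁻¹)` on the elements of odd order lies in the principal block. -/
theorem mem_principalBlock_of_twist {M : Ideal Cfsg.AlgInt} (hM : Cfsg.IsPModular 2 M)
    (ψ ψ' : Cfsg.IrrCharacter G) (hodd : Odd (Cfsg.charDegree (ψ : G → ℂ)))
    (hsame : Cfsg.SameBlock M (ψ : G → ℂ) (ψ' : G → ℂ))
    (h : ∀ g : G, Odd (orderOf g) → (ψ' : G → ℂ) g = (ψ : G → ℂ) g⁻¹) :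
    ψ ∈ Cfsg.principalBlock M G := by
  classical
  have : Fact (Nat.Prime 2) := ⟨Nat.prime_two⟩
  have hMm := hM.2.1
  have : Fintype (ConjClasses G) := Fintype.ofFinite _
  rw [Helper75.mem_principalBlock_iff_omega hM ψ]
  let d : G → ℂ := fun g => if g = 1 then 1 else 0
  let S' : G → ℂ := fun g => if g ≠ 1 ∧ ¬ 2 ∣ orderOf g then 1 else 0
  have hdec : Helper75.pregInd 2 G = d + S' := by
    funext g
    simp only [Helper75.pregInd, Pi.add_apply, d, S']
    by_cases hg : g = 1
    · subst hg
      simp
    · simp [hg]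
  have h1 : Helper81.omega (ψ : G → ℂ) d = 1 := by
    unfold Helper81.omega
    simp only [d, ite_mul, one_mul, zero_mul, Finset.sum_ite_eq', Finset.mem_univ, if_true]
    exact div_self (Helper81.irr_one_ne_zero ψ)
  have hS'c : Cfsg.IsClassFunction G S' := by
    intro g x
    simp only [S', ne_eq, Helper75.orderOf_conj', conj_eq_one_iff]
  have hS'inv : ∀ g : G, S' g⁻¹ = S' g := by
    intro g
    simp only [S', ne_eq, orderOf_inv, inv_eq_one]
  have hdeg : (ψ : G → ℂ) 1 = (Cfsg.charDegree (ψ : G → ℂ) : ℂ) := Helper81.irr_one_eq_charDegree ψ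
  have hdeg2 : ¬ 2 ∣ Cfsg.charDegree (ψ : G → ℂ) := by
    intro h2
    exact (Nat.not_even_iff_odd.mpr hodd) (even_iff_two_dvd.mpr h2)
  have hψ'1 : (ψ' : G → ℂ) 1 = (ψ : G → ℂ) 1 := by
    have := h 1 (by rw [orderOf_one]; exact odd_one)
    rwa [inv_one] at this
  have h2 : Cfsg.MemLocalIdeal M (Helper81.omega (ψ : G → ℂ) S') := by
    rw [Helper77.omega_eq_sum_conjClasses ψ hS'c]
    let τ : ConjClasses G → ConjClasses G := fun c => ConjClasses.mk (Quotient.out c)⁻¹
    have hout : ∀ c : ConjClasses G, ConjClasses.mk (Quotient.out c) = c := fun c =>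
      Quotient.out_eq c
    have hmk : ∀ g : G, τ (ConjClasses.mk g) = ConjClasses.mk g⁻¹ := by
      intro g
      simp only [τ]
      rw [ConjClasses.mk_eq_mk_iff_isConj]
      apply isConj_inv_inv
      rw [← ConjClasses.mk_eq_mk_iff_isConj, hout]
    have hτ : ∀ c, τ (τ c) = c := by
      intro c
      have : τ c = ConjClasses.mk (Quotient.out c)⁻¹ := rfl
      rw [this, hmk, inv_inv, hout]
    rw [← mem_localIdealAdd hMm]
    refine sum_mem_of_involution (localIdealAdd M hMm) τ hτ _ _ Finset.univ rfl
      (fun _ _ => Finset.mem_univ _) ?_ ?_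
    · intro c _ hc
      rw [mem_localIdealAdd]
      set g := Quotient.out c with hg
      by_cases hS : g ≠ 1 ∧ ¬ 2 ∣ orderOf g
      · have hconj : IsConj g g⁻¹ := by
          rw [← ConjClasses.mk_eq_mk_iff_isConj, hout]
          exact hc.symm
        have hgodd : Odd (orderOf g) := by
          rw [← Nat.not_even_iff_odd, even_iff_two_dvd]
          exact hS.2
        obtain ⟨m, hm⟩ := even_index_centralizer_of_isConj_inv hgodd hS.1 hconj
        have hval : S' g * Cfsg.centralChar (ψ : G → ℂ) g =
            (2 : ℂ) * ((m : ℂ) * (ψ : G → ℂ) g * (Cfsg.charDegree (ψ : G → ℂ) : ℂ)⁻¹) := by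
          simp only [S', if_pos hS, Cfsg.centralChar, hm, hdeg]
          push_cast
          ring
        rw [hval]
        have h2' : Cfsg.MemLocalIdeal M ((2 : ℕ) : ℂ) := Helper77.memLocalIdeal_prime hM
        rw [Nat.cast_ofNat] at h2'
        exact Helper77.memLocalIdeal_mul' hMm h2'
          (Helper77.memLocalRing_mul hMm (Helper77.memLocalRing_mul hMm
            (Helper77.memLocalRing_of_isIntegral hMm (isIntegral_natCast m))
            (Helper77.memLocalRing_of_isIntegral hMm (Helper77.irr_isIntegral ψ g)))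
            (Helper77.memLocalRing_natCast_inv hM hdeg2))
      · have : S' g = 0 := by simp only [S', if_neg hS]
        rw [this, zero_mul]
        exact Helper77.memLocalIdeal_zero hMm
    · intro c _ hc
      rw [mem_localIdealAdd]
      set g := Quotient.out c with hg
      set g' := Quotient.out (τ c) with hg'
      have hconj : IsConj g⁻¹ g' := by
        rw [← ConjClasses.mk_eq_mk_iff_isConj, hout]
      have hS'g' : S' g' = S' g := by
        rw [Helper77.isClassFunction_isConj hS'c hconj, hS'inv]
      rw [hS'g']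
      by_cases hS : g ≠ 1 ∧ ¬ 2 ∣ orderOf g
      · have hgodd : Odd (orderOf g) := by
          rw [← Nat.not_even_iff_odd, even_iff_two_dvd]
          exact hS.2
        have hcc : Cfsg.centralChar (ψ : G → ℂ) g' = Cfsg.centralChar (ψ' : G → ℂ) g := by
          obtain ⟨x, hx⟩ := isConj_iff.mp hconj
          rw [← hx, Helper16.centralChar_conj]
          simp only [Cfsg.centralChar]
          rw [centralizer_singleton_inv, h g hgodd, hψ'1]
        have hS1 : S' g = 1 := by simp only [S', if_pos hS]
        rw [hS1, one_mul, one_mul, hcc]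
        have e : Cfsg.centralChar (ψ : G → ℂ) g + Cfsg.centralChar (ψ' : G → ℂ) g =
            (Cfsg.centralChar (ψ : G → ℂ) g - Cfsg.centralChar (ψ' : G → ℂ) g) +
              2 * Cfsg.centralChar (ψ' : G → ℂ) g := by ring
        rw [e]
        have h2' : Cfsg.MemLocalIdeal M ((2 : ℕ) : ℂ) := Helper77.memLocalIdeal_prime hM
        rw [Nat.cast_ofNat] at h2'
        exact Helper77.memLocalIdeal_add hMm (hsame g)
          (Helper77.memLocalIdeal_mul' hMm h2' (Helper16.centralChar_memLocalRing hMm ψ' g))
      · have : S' g = 0 := by simp only [S', if_neg hS]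
        rw [this, zero_mul, zero_mul, add_zero]
        exact Helper77.memLocalIdeal_zero hMm
  rw [hdec, Helper81.omega_add, h1]
  intro hcontra
  have := Helper77.memLocalIdeal_sub hMm hcontra h2
  rw [add_sub_cancel_right] at this
  exact Helper77.not_memLocalIdeal_one hMm this

end Twist

section Count

/-- A set of irreducible characters inside the principal `p`-block has at most `p ^ (2 a)` members,
where `p ^ a` is the order of a Sylow `p`-subgroup: the function `p ^ a · 1_{p-regular}` is a
generalized character whose multiplicities at the characters of the principal block do not vanish,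
and its norm is at most `p ^ (2 a)`. -/
theorem card_le_of_subset_principalBlock (p : ℕ) [Fact p.Prime] (G : Type u) [Group G] [Fintype G]
    [Fintype (Cfsg.IrrCharacter G)] (M : Ideal Cfsg.AlgInt) (hM : Cfsg.IsPModular p M)
    (T : Finset (Cfsg.IrrCharacter G)) (hT : ∀ χ ∈ T, χ ∈ Cfsg.principalBlock M G) :
    T.card ≤ p ^ (2 * (Nat.card G).factorization p) := by
  classical
  have hp : p.Prime := Fact.out
  set a := (Nat.card G).factorization p with ha
  let Θ : G → ℂ := fun x => ((p ^ a : ℕ) : ℂ) * Helper75.pregInd p G x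
  have hΘ : Θ ∈ Helper73.genSpanZ G := by
    apply Helper73.pRegular_mem_genSpanZ hp
      (Helper73.isCharacter_mem_genSpanZ (Helper79.isCharacter_one (G := G))) Θ
    · intro x hx
      simp only [Θ, Helper75.pregInd, if_pos hx, ← ha]
    · intro x hx
      simp only [Θ, Helper75.pregInd, if_neg (not_not.mpr hx), mul_zero]
  have hΘc : Cfsg.IsClassFunction G Θ := Helper73.isClassFunction_of_mem_genSpanZ hΘ
  choose m hm using Helper73.classInner_int_of_mem_genSpanZ hΘ
  have hpreg_conj : ∀ g : G, conj (Helper75.pregInd p G g) = Helper75.pregInd p G g := by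
    intro g
    unfold Helper75.pregInd
    split_ifs <;> simp
  have hGC : (Nat.card G : ℂ) ≠ 0 := by
    exact_mod_cast (Nat.card_pos (α := G)).ne'
  have hpa : ((p ^ a : ℕ) : ℂ) ≠ 0 := by
    exact_mod_cast (pow_pos hp.pos a).ne'
  have hm0 : ∀ χ ∈ T, m χ ≠ 0 := by
    intro χ hχT h0
    have h1 := (Helper75.mem_principalBlock_iff_omega hM χ).mp (hT χ hχT)
    apply h1
    have h2 := hm χ
    rw [h0, Int.cast_zero] at h2
    unfold Cfsg.classInner at h2
    have h3 : ∑ g : G, Θ g * conj ((χ : G → ℂ) g) = 0 := by
      rcases mul_eq_zero.mp h2 with h | h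
      · exact absurd (inv_eq_zero.mp h) hGC
      · exact h
    have h4 : ∑ g : G, Helper75.pregInd p G g * (χ : G → ℂ) g = 0 := by
      have h5 : conj (∑ g : G, Helper75.pregInd p G g * (χ : G → ℂ) g) = 0 := by
        rw [map_sum]
        have h6 : ∑ g : G, Θ g * conj ((χ : G → ℂ) g) =
            ((p ^ a : ℕ) : ℂ) * ∑ g : G, conj (Helper75.pregInd p G g * (χ : G → ℂ) g) := by
          rw [Finset.mul_sum]
          refine Finset.sum_congr rfl fun g _ => ?_
          rw [map_mul, hpreg_conj]
          simp only [Θ]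
          ring
        rw [h6] at h3
        rcases mul_eq_zero.mp h3 with h | h
        · exact absurd h hpa
        · exact h
      exact (map_eq_zero (starRingEnd ℂ)).mp h5
    unfold Helper81.omega
    rw [h4, zero_div]
    exact Helper77.memLocalIdeal_zero hM.2.1
  have hpars := Helper15.classInner_eq_sum (θ := Θ) (θ' := Θ) hΘc
  have hsum : (∑ χ : Cfsg.IrrCharacter G, Cfsg.classInner Θ χ * conj (Cfsg.classInner Θ χ)) =
      ((∑ χ : Cfsg.IrrCharacter G, m χ ^ 2 : ℤ) : ℂ) := by
    push_cast
    refine Finset.sum_congr rfl fun χ _ => ?_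
    rw [hm χ]
    simp [sq]
  have hnorm : Cfsg.classInner Θ Θ =
      (Nat.card G : ℂ)⁻¹ * ((p ^ (2 * a) * Helper75.pregCard p G : ℕ) : ℂ) := by
    unfold Cfsg.classInner
    congr 1
    push_cast
    rw [← Helper75.sum_ite_pRegular, Finset.mul_sum]
    refine Finset.sum_congr rfl fun g _ => ?_
    simp only [Θ, Helper75.pregInd]
    split_ifs <;> simp
    ring
  have hZ : (∑ χ : Cfsg.IrrCharacter G, m χ ^ 2 : ℤ) * (Nat.card G : ℤ) =
      ((p ^ (2 * a) * Helper75.pregCard p G : ℕ) : ℤ) := by
    have h1 : ((∑ χ : Cfsg.IrrCharacter G, m χ ^ 2 : ℤ) : ℂ) * (Nat.card G : ℂ) =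
        ((p ^ (2 * a) * Helper75.pregCard p G : ℕ) : ℂ) := by
      rw [← hsum, ← hpars, hnorm]
      field_simp
    exact_mod_cast h1
  have hcount : (T.card : ℤ) ≤ ∑ χ : Cfsg.IrrCharacter G, m χ ^ 2 := by
    have h1 : ∑ _χ ∈ T, (1 : ℤ) ≤ ∑ χ ∈ T, m χ ^ 2 := by
      apply Finset.sum_le_sum
      intro χ hχ
      have := hm0 χ hχ
      have h2 : 0 < m χ ^ 2 := by positivity
      omega
    have h2 : ∑ χ ∈ T, m χ ^ 2 ≤ ∑ χ : Cfsg.IrrCharacter G, m χ ^ 2 :=
      Finset.sum_le_sum_of_subset_of_nonneg (Finset.subset_univ T) (fun _ _ _ => sq_nonneg _)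
    have h3 : ∑ _χ ∈ T, (1 : ℤ) = (T.card : ℤ) := by simp
    rw [← h3]
    exact h1.trans h2
  have hpreg : Helper75.pregCard p G ≤ Nat.card G := by
    unfold Helper75.pregCard
    exact Nat.card_le_card_of_injective Subtype.val Subtype.val_injective
  have hGpos : 0 < Nat.card G := Nat.card_pos
  have hfin : T.card * Nat.card G ≤ p ^ (2 * a) * Nat.card G := by
    have h1 : (T.card : ℤ) * (Nat.card G : ℤ) ≤
        ((p ^ (2 * a) * Helper75.pregCard p G : ℕ) : ℤ) := by
      rw [← hZ]
      exact mul_le_mul_of_nonneg_right hcount (by positivity)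
    have h2 : T.card * Nat.card G ≤ p ^ (2 * a) * Helper75.pregCard p G := by exact_mod_cast h1
    exact h2.trans (Nat.mul_le_mul_left _ hpreg)
  exact Nat.le_of_mul_le_mul_right hfin hGpos

/-- A block of full defect (for the prime `p`) contains a character of degree prime to `p`. -/
theorem exists_not_dvd_degree_of_blockDefect {G : Type u} [Group G] [Finite G] {p : ℕ}
    [Fact p.Prime] {M : Ideal Cfsg.AlgInt} (hM : M.IsMaximal) {B : Set (Cfsg.IrrCharacter G)}
    (hB : Cfsg.IsPBlock M B)
    (hdef : Cfsg.blockDefect p B = (Nat.card G).factorization p) :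
    ∃ ψ ∈ B, ¬ p ∣ Cfsg.charDegree (ψ : G → ℂ) := by
  have hp : p.Prime := Fact.out
  obtain ⟨χ₀, hχ₀⟩ := Helper16.exists_mem_of_isPBlock hM hB
  have hne : ((fun χ : Cfsg.IrrCharacter G => (Cfsg.charDegree (χ : G → ℂ)).factorization p) ''
      B).Nonempty := ⟨_, χ₀, hχ₀, rfl⟩
  obtain ⟨ψ, hψ, hψm⟩ := Nat.sInf_mem hne
  refine ⟨ψ, hψ, ?_⟩
  unfold Cfsg.blockDefect at hdef
  rw [← hψm] at hdef
  simp only at hdef
  have hdvd := Helper81.charDegree_dvd_card ψ
  have hpos : 0 < Cfsg.charDegree (ψ : G → ℂ) := Helper81.charDegree_pos ψ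
  have hle : (Cfsg.charDegree (ψ : G → ℂ)).factorization p ≤ (Nat.card G).factorization p :=
    (Nat.factorization_le_iff_dvd hpos.ne' Nat.card_pos.ne').mpr hdvd p
  have h0 : (Cfsg.charDegree (ψ : G → ℂ)).factorization p = 0 := by omega
  rcases (Nat.factorization_eq_zero_iff _ _).mp h0 with h | h | h
  · exact absurd hp h
  · exact h
  · exact absurd h hpos.ne'

end Count

end Cfsg.Agent.Helper82
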