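import Mathlib
import Cfsg.Agent.Helper4.CliffordExt
import Cfsg.Agent.Helper4.IndicatorSub
import Cfsg.Agent.Helper4.InvolInvert
import Cfsg.Agent.Helper75.Ito

/-!
# A real-valued induced irreducible character (helper82)

`realInd_exists`: `G = N ⋊ H` (`N` normal, `N ⊓ H = ⊥`, `N ⊔ H = ⊤`), `lam : N →* ℂˣ` a linear
character of `N` and `s : G` with `lam (s n s⁻¹) = (lam n)⁻¹`.  Then `G` has a real-valued
irreducible character of degree the index of the stabilizer of `lam`.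
-/

set_option autoImplicit false

namespace Cfsg.Agent.Helper82

open Cfsg
open scoped ComplexConjugate

theorem realInd_exists {G : Type*} [Group G] [Finite G] (N H : Subgroup G) [hN : N.Normal]
    (hdisj : N ⊓ H = ⊥) (hprod : N ⊔ H = ⊤) (lam : N →* ℂˣ) (s : G)
    (hinv : ∀ n : N, lam ⟨s * n * s⁻¹, hN.conj_mem n n.2 s⟩ = (lam n)⁻¹) :
    ∃ (χ : IrrCharacter G) (I : Subgroup G), (∀ g : G, ((χ : G → ℂ) g).im = 0) ∧
      (∀ g : G, g ∈ I ↔ ∀ n : N, lam ⟨g * n * g⁻¹, hN.conj_mem n n.2 g⟩ = lam n) ∧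
      charDegree (χ : G → ℂ) = I.index := by
  classical
  let _ : Fintype G := Fintype.ofFinite G
  let _ : Fintype ↥N := Fintype.ofFinite _
  have hdec : ∀ x : G, ∃ n ∈ N, ∃ p ∈ H, n * p = x := by
    intro x
    have hx : x ∈ ((N ⊔ H : Subgroup G) : Set G) := by rw [hprod]; trivial
    rw [Subgroup.normal_mul] at hx
    exact Set.mem_mul.1 hx
  -- replace `s` by its `H`-component `z`
  obtain ⟨n₀, hn₀, z, hzH, hs⟩ := hdec s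
  have hzinv : ∀ n : N, lam ⟨z * n * z⁻¹, hN.conj_mem n n.2 z⟩ = (lam n)⁻¹ := by
    intro n
    rw [← hinv n]
    have e : (⟨s * n * s⁻¹, hN.conj_mem n n.2 s⟩ : N)
        = ⟨n₀, hn₀⟩ * ⟨z * n * z⁻¹, hN.conj_mem n n.2 z⟩ * (⟨n₀, hn₀⟩ : N)⁻¹ := by
      apply Subtype.ext
      show s * n * s⁻¹ = n₀ * (z * n * z⁻¹) * n₀⁻¹
      rw [← hs]; group
    rw [e, map_mul, map_mul, map_inv, mul_comm, inv_mul_cancel_left]
  have hkey : ∀ w : G, (∀ n : N, lam ⟨w * n * w⁻¹, hN.conj_mem n n.2 w⟩ = (lam n)⁻¹) →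
      (∀ n : N, lam ⟨w⁻¹ * n * w⁻¹⁻¹, hN.conj_mem n n.2 w⁻¹⟩ = (lam n)⁻¹) := by
    intro w hw n
    have h1 := hw ⟨w⁻¹ * n * w⁻¹⁻¹, hN.conj_mem n n.2 w⁻¹⟩
    have e : lam ⟨w * (w⁻¹ * n * w⁻¹⁻¹) * w⁻¹,
        hN.conj_mem _ (hN.conj_mem n n.2 w⁻¹) w⟩ = lam n := by
      congr 1
      apply Subtype.ext
      show w * (w⁻¹ * n * w⁻¹⁻¹) * w⁻¹ = n
      group
    have h2 : lam n = (lam ⟨w⁻¹ * n * w⁻¹⁻¹, hN.conj_mem n n.2 w⁻¹⟩)⁻¹ := e.symm.trans h1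
    rw [h2]
    exact (inv_inv _).symm
  have hzinv2 := hkey z hzinv
  let φ : IrrCharacter ↥N := Helper80.homIrr lam
  have hφcl : IsClassFunction ↥N (φ : ↥N → ℂ) :=
    Helper75.isCharacter_isClassFunction' (Helper79.isCharacter_of_irr φ.2)
  let I : Subgroup G := Helper75.inertia N (φ : ↥N → ℂ)
  have hNI : N ≤ I := Helper75.le_inertia N _ hφcl
  have hT : ∀ g : G, g ∈ I ↔ Helper75.conjFun N g (φ : ↥N → ℂ) = (φ : ↥N → ℂ) :=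
    fun g => Helper75.mem_inertia N _ g
  let _ : Fintype ↥I := Fintype.ofFinite _
  have hIlam : ∀ g ∈ I, ∀ n : ↥N, lam ⟨g * n * g⁻¹, hN.conj_mem n n.2 g⟩ = lam n := by
    intro g hg n
    have h1 := congrFun ((hT g).1 hg) n
    rw [Helper75.conjFun_apply] at h1
    exact Units.ext h1
  have hIlam' : ∀ g : G, (∀ n : ↥N, lam ⟨g * n * g⁻¹, hN.conj_mem n n.2 g⟩ = lam n) → g ∈ I := by
    intro g h
    rw [hT]
    funext n
    rw [Helper75.conjFun_apply]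
    show ((lam _ : ℂˣ) : ℂ) = ((lam n : ℂˣ) : ℂ)
    rw [h n]
  -- an element inverting `lam` normalizes `I`
  have hnorm : ∀ w : G, (∀ n : N, lam ⟨w * n * w⁻¹, hN.conj_mem n n.2 w⟩ = (lam n)⁻¹) →
      ∀ y : G, y ∈ I → w * y * w⁻¹ ∈ I := by
    intro w hw y hy
    have hw2 := hkey w hw
    apply hIlam'
    intro n
    have e : lam ⟨(w * y * w⁻¹) * (n : G) * (w * y * w⁻¹)⁻¹, hN.conj_mem n n.2 _⟩
        = lam ⟨w * (y * (w⁻¹ * n * w⁻¹⁻¹) * y⁻¹) * w⁻¹,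
            hN.conj_mem _ (hN.conj_mem _ (hN.conj_mem n n.2 w⁻¹) y) w⟩ := by
      congr 1
      apply Subtype.ext
      show (w * y * w⁻¹) * (n : G) * (w * y * w⁻¹)⁻¹ = w * (y * (w⁻¹ * n * w⁻¹⁻¹) * y⁻¹) * w⁻¹
      group
    rw [e]
    have h1 := hw ⟨y * (w⁻¹ * n * w⁻¹⁻¹) * y⁻¹, hN.conj_mem _ (hN.conj_mem n n.2 w⁻¹) y⟩
    have h2 := hIlam y hy ⟨w⁻¹ * n * w⁻¹⁻¹, hN.conj_mem n n.2 w⁻¹⟩
    have h3 := hw2 n
    calc lam ⟨w * (y * (w⁻¹ * n * w⁻¹⁻¹) * y⁻¹) * w⁻¹, _⟩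
        = (lam ⟨y * (w⁻¹ * n * w⁻¹⁻¹) * y⁻¹, hN.conj_mem _ (hN.conj_mem n n.2 w⁻¹) y⟩)⁻¹ := h1
      _ = (lam ⟨w⁻¹ * n * w⁻¹⁻¹, hN.conj_mem n n.2 w⁻¹⟩)⁻¹ := by rw [← h2]
      _ = lam n := by rw [h3]; exact inv_inv _
  have hzI1 : ∀ y : G, y ∈ I → z * y * z⁻¹ ∈ I := hnorm z hzinv
  have hzI2 : ∀ y : G, z * y * z⁻¹ ∈ I → y ∈ I := by
    intro y hy
    have := hnorm z⁻¹ hzinv2 _ hy
    have e : z⁻¹ * (z * y * z⁻¹) * z⁻¹⁻¹ = y := by group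
    rwa [e] at this
  -- the extension of `lam` to `I`
  obtain ⟨mu, hmu⟩ := Helper4.exists_hom_extension_of_complement N H I hdisj hprod hNI lam hIlam
  let ψ : IrrCharacter ↥I := Helper80.homIrr mu
  have hψext : ∀ n : ↥N, (ψ : ↥I → ℂ) (Subgroup.inclusion hNI n) = (φ : ↥N → ℂ) n := by
    intro n
    show ((mu (Subgroup.inclusion hNI n) : ℂˣ) : ℂ) = ((lam n : ℂˣ) : ℂ)
    have hmem : (n : G) * 1 ∈ I := by rw [mul_one]; exact hNI n.2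
    have h1 := hmu n 1 H.one_mem hmem
    have e : (⟨(n : G) * 1, hmem⟩ : ↥I) = Subgroup.inclusion hNI n := Subtype.ext (mul_one _)
    rw [e] at h1
    rw [h1]
  have hψz : ∀ (y : ↥I) (hy : z * (y : G) * z⁻¹ ∈ I),
      conj ((ψ : ↥I → ℂ) y) = (ψ : ↥I → ℂ) ⟨z * y * z⁻¹, hy⟩ := by
    intro y hy
    obtain ⟨n, hn, t, ht, hnt⟩ := hdec (y : G)
    have hy1 : ((⟨n, hn⟩ : ↥N) : G) * t ∈ I := by
      show n * t ∈ I
      rw [hnt]; exact y.2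
    have e1 : y = ⟨((⟨n, hn⟩ : ↥N) : G) * t, hy1⟩ := Subtype.ext hnt.symm
    have hconj : z * (y : G) * z⁻¹ = (z * n * z⁻¹) * (z * t * z⁻¹) := by
      rw [← hnt]; group
    have hy2 : ((⟨z * n * z⁻¹, hN.conj_mem n hn z⟩ : ↥N) : G) * (z * t * z⁻¹) ∈ I := by
      show (z * n * z⁻¹) * (z * t * z⁻¹) ∈ I
      rw [← hconj]; exact hy
    have e2 : (⟨z * (y : G) * z⁻¹, hy⟩ : ↥I)
        = ⟨((⟨z * n * z⁻¹, hN.conj_mem n hn z⟩ : ↥N) : G) * (z * t * z⁻¹), hy2⟩ :=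
      Subtype.ext hconj
    have hmy : mu y = lam ⟨n, hn⟩ := by
      rw [e1]
      exact hmu _ t ht hy1
    show conj (((mu y : ℂˣ) : ℂ)) = ((mu ⟨z * y * z⁻¹, hy⟩ : ℂˣ) : ℂ)
    rw [e2, hmu _ (z * t * z⁻¹) (H.mul_mem (H.mul_mem hzH ht) (H.inv_mem hzH)) hy2, hmy,
      hzinv ⟨n, hn⟩, Units.val_inv_eq_inv_val]
    exact (Complex.inv_eq_conj (Helper79.norm_hom_apply lam _)).symm
  have hres : Helper75.resTo hNI (ψ : ↥I → ℂ) = (φ : ↥N → ℂ) := funext hψext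
  have hne : classInner (Helper75.resTo hNI (ψ : ↥I → ℂ)) (φ : ↥N → ℂ) ≠ 0 := by
    rw [hres, Helper75.classInner_irr_self φ.2]
    exact one_ne_zero
  have hχirr : IsIrrCharacter G (indFun I (ψ : ↥I → ℂ)) :=
    (Helper4.ind_inertia_irr hNI φ.2 hT ψ.2 hne).1
  have hχreal : ∀ g : G, conj (indFun I (ψ : ↥I → ℂ) g) = indFun I (ψ : ↥I → ℂ) g := by
    intro g
    rw [Helper4.conj_indFun]
    exact congrFun (Helper4.indFun_conj_eq I (ψ : ↥I → ℂ) (fun h => conj ((ψ : ↥I → ℂ) h)) z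
      hzI1 hzI2 hψz) g
  refine ⟨⟨indFun I (ψ : ↥I → ℂ), hχirr⟩, I, ?_, ?_, ?_⟩
  · intro g
    exact Complex.conj_eq_iff_im.mp (hχreal g)
  · intro g
    exact ⟨hIlam g, hIlam' g⟩
  · have h1 : indFun I (ψ : ↥I → ℂ) 1 = ((I.index : ℕ) : ℂ) := by
      rw [Helper75.indFun_one]
      have hψ1 : (ψ : ↥I → ℂ) 1 = 1 := by
        show ((mu 1 : ℂˣ) : ℂ) = 1
        rw [map_one]; rfl
      rw [hψ1, ← Subgroup.index_mul_card I]
      have h3 : (Nat.card ↥I : ℂ) ≠ 0 := by exact_mod_cast Nat.card_pos.ne'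
      push_cast
      field_simp
    show charDegree (indFun I (ψ : ↥I → ℂ)) = I.index
    unfold charDegree
    rw [h1]
    simp

end Cfsg.Agent.Helper82
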