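import Mathlib
import Cfsg.Agent.Helper82.RealInd
import Cfsg.Agent.Helper79.ItoMichler
import Cfsg.Agent.Helper79.Quotient

/-!
# Real characters of `p'`-degree and normal Sylow subgroups of the odd residual (helper82)

If the subgroup generated by the `p`-elements of `G` is solvable and every real-valued irreducible
character of `G` has degree prime to `p`, then the subgroup `K` generated by the `2`-elements has a
normal Sylow `p`-subgroup (`rns_final`).
-/

set_option autoImplicit false

namespace Cfsg.Agent.Helper82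

open Cfsg

universe u

/-- The subgroup generated by the `q`-elements. -/
abbrev rnsK (q : ℕ) (G : Type*) [Group G] : Subgroup G :=
  Subgroup.closure {g : G | ∃ k : ℕ, orderOf g = q ^ k}

theorem rns_normal (q : ℕ) (G : Type*) [Group G] : (rnsK q G).Normal := by
  constructor
  intro n hn g
  induction hn using Subgroup.closure_induction with
  | mem x hx =>
    apply Subgroup.subset_closure
    obtain ⟨k, hk⟩ := hx
    refine ⟨k, ?_⟩
    rw [← hk]
    exact (MulAut.conj g).orderOf_eq x
  | one => simp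
  | mul x y _ _ hx hy =>
    have : g * (x * y) * g⁻¹ = (g * x * g⁻¹) * (g * y * g⁻¹) := by group
    rw [this]
    exact Subgroup.mul_mem _ hx hy
  | inv x _ hx =>
    have : g * x⁻¹ * g⁻¹ = (g * x * g⁻¹)⁻¹ := by group
    rw [this]
    exact Subgroup.inv_mem _ hx

theorem rns_le_of_index {G : Type*} [Group G] [Finite G] (q : ℕ) [hq : Fact q.Prime]
    (M : Subgroup G) [M.Normal] (hM : ¬ q ∣ M.index) : rnsK q G ≤ M := by
  rw [Subgroup.closure_le]
  rintro g ⟨k, hk⟩
  have h1 : orderOf (QuotientGroup.mk' M g) ∣ q ^ k := by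
    rw [← hk]
    exact orderOf_map_dvd _ g
  have h2 : orderOf (QuotientGroup.mk' M g) ∣ M.index := by
    rw [Subgroup.index_eq_card]
    exact orderOf_dvd_natCard _
  have hcop : Nat.Coprime (q ^ k) M.index :=
    Nat.Coprime.pow_left k ((Nat.Prime.coprime_iff_not_dvd hq.out).2 hM)
  have h3 : orderOf (QuotientGroup.mk' M g) = 1 := Nat.eq_one_of_dvd_coprimes hcop h1 h2
  rw [orderOf_eq_one_iff] at h3
  exact (QuotientGroup.eq_one_iff g).1 h3

theorem rns_index {G : Type*} [Group G] [Finite G] (q : ℕ) [hq : Fact q.Prime] :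
    ¬ q ∣ (rnsK q G).index := by
  obtain ⟨P⟩ := (inferInstance : Nonempty (Sylow q G))
  have hP : (P : Subgroup G) ≤ rnsK q G := by
    intro g hg
    apply Subgroup.subset_closure
    obtain ⟨k, hk⟩ := (IsPGroup.iff_orderOf.1 P.2) ⟨g, hg⟩
    refine ⟨k, ?_⟩
    rw [← hk]
    exact (Subgroup.orderOf_mk g hg).symm
  intro h
  exact P.not_dvd_index (h.trans (Subgroup.index_dvd_of_le hP))

theorem rns_map_quotient {G : Type*} [Group G] [Finite G] (q : ℕ) [hq : Fact q.Prime]
    (N : Subgroup G) [N.Normal] :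
    rnsK q (G ⧸ N) = (rnsK q G).map (QuotientGroup.mk' N) := by
  apply le_antisymm
  · have : ((rnsK q G).map (QuotientGroup.mk' N)).Normal :=
      (rns_normal q G).map _ (QuotientGroup.mk'_surjective N)
    apply rns_le_of_index
    intro h
    exact rns_index (G := G) q
      (h.trans (Subgroup.index_map_dvd (rnsK q G) (QuotientGroup.mk'_surjective N)))
  · rw [Subgroup.map_le_iff_le_comap, Subgroup.closure_le]
    rintro g ⟨k, hk⟩
    show QuotientGroup.mk' N g ∈ rnsK q (G ⧸ N)
    apply Subgroup.subset_closure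
    have h1 : orderOf (QuotientGroup.mk' N g) ∣ q ^ k := by
      rw [← hk]
      exact orderOf_map_dvd _ g
    obtain ⟨j, -, hj⟩ := (Nat.dvd_prime_pow hq.out).1 h1
    exact ⟨j, hj⟩

theorem rns_comm_lt {G : Type*} [Group G] (H : Subgroup G) [hs : Group.IsSolvable H]
    (hH : H ≠ ⊥) : ⁅H, H⁆ < H := by
  rw [← Subgroup.nontrivial_iff_ne_bot] at hH
  rw [← H.range_subtype, MonoidHom.range_eq_map, ← Subgroup.map_commutator,
    Subgroup.map_subtype_lt_map_subtype]
  exact Group.IsSolvable.commutator_lt_top_of_nontrivial H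

theorem rns_exists_min_normal {G : Type*} [Group G] [Finite G] (K : Subgroup G) (hKn : K.Normal)
    (hK : K ≠ ⊥) :
    ∃ N : Subgroup G, N.Normal ∧ N ≠ ⊥ ∧ N ≤ K ∧
      ∀ M : Subgroup G, M.Normal → M ≤ N → M = ⊥ ∨ M = N := by
  obtain ⟨N, ⟨hNn, hN1, hNK⟩, hmin⟩ := exists_minimal_of_wellFoundedLT
    (fun N : Subgroup G => N.Normal ∧ N ≠ ⊥ ∧ N ≤ K) ⟨K, hKn, hK, le_rfl⟩
  refine ⟨N, hNn, hN1, hNK, ?_⟩
  intro M hMn hMN
  by_cases hM : M = ⊥
  · exact Or.inl hM
  · exact Or.inr (le_antisymm hMN (hmin ⟨hMn, hM, hMN.trans hNK⟩ hMN))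

theorem rns_normal_of_inv {G : Type*} [Group G] (N H M : Subgroup G) [hN : N.Normal]
    (hprod : N ⊔ H = ⊤) (hNab : ∀ a ∈ N, ∀ b ∈ N, a * b = b * a) (hMN : M ≤ N)
    (hH : ∀ h ∈ H, ∀ x ∈ M, h * x * h⁻¹ ∈ M) : M.Normal := by
  constructor
  intro x hx g
  have hg : g ∈ ((N ⊔ H : Subgroup G) : Set G) := by rw [hprod]; trivial
  rw [Subgroup.normal_mul] at hg
  obtain ⟨n, hn, h, hh, rfl⟩ := Set.mem_mul.1 hg
  have e : (n * h) * x * (n * h)⁻¹ = n * (h * x * h⁻¹) * n⁻¹ := by group
  rw [e]
  have hy := hH h hh x hx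
  have e2 : n * (h * x * h⁻¹) * n⁻¹ = h * x * h⁻¹ := by
    rw [hNab n hn _ (hMN hy), mul_inv_cancel_right]
  rw [e2]
  exact hy

theorem rns_main (p : ℕ) [hp : Fact p.Prime] : ∀ (n : ℕ) (G : Type u) [Group G] [Finite G],
    Nat.card G = n → Group.IsSolvable ↥(rnsK p G) →
    (∀ χ : IrrCharacter G, (∀ g : G, ((χ : G → ℂ) g).im = 0) → ¬ p ∣ charDegree (χ : G → ℂ)) →
    ∃ R : Subgroup G, R.Normal ∧ IsPGroup p R ∧ R ≤ rnsK 2 G ∧ ¬ p ∣ R.relIndex (rnsK 2 G) := by
  intro n
  induction n using Nat.strong_induction_on with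
  | _ n ih =>
  intro G _ _ hcard hsolv hreal
  classical
  have : Fact (Nat.Prime 2) := ⟨Nat.prime_two⟩
  have hKpn : (rnsK p G).Normal := rns_normal p G
  have hK2n : (rnsK 2 G).Normal := rns_normal 2 G
  by_cases hbot : rnsK p G = ⊥
  · refine ⟨⊥, Subgroup.normal_bot, IsPGroup.of_bot, bot_le, ?_⟩
    rw [Subgroup.relIndex_bot_left]
    intro hdvd
    obtain ⟨x, hx⟩ := exists_prime_orderOf_dvd_card' (G := ↥(rnsK 2 G)) p hdvd
    have hmem : (x : G) ∈ rnsK p G := by
      apply Subgroup.subset_closure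
      refine ⟨1, ?_⟩
      rw [pow_one, ← hx, Subgroup.orderOf_coe]
    rw [hbot, Subgroup.mem_bot] at hmem
    have h1 : orderOf (x : G) = 1 := by rw [hmem, orderOf_one]
    rw [Subgroup.orderOf_coe, hx] at h1
    exact hp.out.one_lt.ne' h1
  · obtain ⟨N, hNn, hN1, hNK, hNmin⟩ := rns_exists_min_normal (rnsK p G) hKpn hbot
    have := hNn
    have := hsolv
    have : Group.IsSolvable ↥N :=
      Group.isSolvable_of_isSolvable_injective (Subgroup.inclusion_injective hNK)
    have hcomm : ⁅N, N⁆ = ⊥ := by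
      have hlt := rns_comm_lt N hN1
      rcases hNmin ⁅N, N⁆ (Subgroup.commutator_normal N N) hlt.le with h | h
      · exact h
      · exact absurd h hlt.ne
    have hNab : ∀ a ∈ N, ∀ b ∈ N, a * b = b * a := by
      intro a ha b hb
      have := (Subgroup.commutator_eq_bot_iff_le_centralizer.1 hcomm) ha
      rw [Subgroup.mem_centralizer_iff] at this
      exact (this b hb).symm
    set π := QuotientGroup.mk' N with hπ
    have hπs : Function.Surjective π := QuotientGroup.mk'_surjective N
    -- hypotheses for the quotient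
    have hsolvQ : Group.IsSolvable ↥(rnsK p (G ⧸ N)) := by
      have : Group.IsSolvable ↥((rnsK p G).map π) :=
        Group.isSolvable_of_surjective (MonoidHom.subgroupMap_surjective π (rnsK p G))
      exact Group.isSolvable_of_isSolvable_injective
        (Subgroup.inclusion_injective (rns_map_quotient p N).le)
    have hrealQ : ∀ χ : IrrCharacter (G ⧸ N), (∀ g : G ⧸ N, ((χ : G ⧸ N → ℂ) g).im = 0) →
        ¬ p ∣ charDegree (χ : G ⧸ N → ℂ) := by
      intro χ hχ
      have h1 := hreal ⟨fun x => (χ : G ⧸ N → ℂ) (π x),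
        Helper79.isIrrCharacter_comp π hπs χ.2⟩ (fun g => hχ (π g))
      have e : charDegree (fun x => (χ : G ⧸ N → ℂ) (π x)) = charDegree (χ : G ⧸ N → ℂ) := by
        show ⌊((χ : G ⧸ N → ℂ) (π 1)).re⌋₊ = ⌊((χ : G ⧸ N → ℂ) 1).re⌋₊
        rw [map_one]
      rw [← e]
      exact h1
    obtain ⟨Rbar, hRn, hRp, hRK, hRi⟩ := ih (Nat.card (G ⧸ N))
      (by rw [← hcard]; exact Helper79.card_quotient_lt N hN1) (G ⧸ N) rfl hsolvQ hrealQ
    rw [rns_map_quotient 2 N] at hRK hRi
    set K := rnsK 2 G with hK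
    let R₁ : Subgroup G := Rbar.comap π ⊓ K
    have hR1n : R₁.Normal := by
      have := hRn.comap π
      exact Subgroup.normal_inf_normal _ _
    have hR1K : R₁ ≤ K := inf_le_right
    have hR1i : ¬ p ∣ R₁.relIndex K := by
      rw [Subgroup.inf_relIndex_right, Subgroup.relIndex_comap]
      exact hRi
    have hR1π : ∀ x ∈ R₁, π x ∈ Rbar := fun x hx => hx.1
    have hR1pow : ∀ x ∈ R₁, ∃ k : ℕ, x ^ p ^ k ∈ N := by
      intro x hx
      obtain ⟨k, hk⟩ := hRp ⟨π x, hR1π x hx⟩
      refine ⟨k, ?_⟩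
      have h1 : π (x ^ p ^ k) = 1 := by
        rw [map_pow]
        exact congrArg Subtype.val hk
      exact (QuotientGroup.eq_one_iff _).1 h1
    rcases hNmin (N ⊓ K) (Subgroup.normal_inf_normal N K) inf_le_left with hNK0 | hNK1
    · -- `R₁` is a `p`-group
      refine ⟨R₁, hR1n, ?_, hR1K, hR1i⟩
      rintro ⟨x, hx⟩
      obtain ⟨k, hk⟩ := hR1pow x hx
      refine ⟨k, ?_⟩
      apply Subtype.ext
      have h1 : x ^ p ^ k ∈ N ⊓ K := ⟨hk, K.pow_mem (hR1K hx) _⟩
      rw [hNK0, Subgroup.mem_bot] at h1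
      exact h1
    · have hNleK : N ≤ K := inf_eq_left.1 hNK1
      have hNR1 : N ≤ R₁ := by
        intro x hx
        refine ⟨?_, hNleK hx⟩
        show π x ∈ Rbar
        have h1 : π x = 1 := (QuotientGroup.eq_one_iff x).2 hx
        rw [h1]
        exact Rbar.one_mem
      obtain ⟨P⟩ := (inferInstance : Nonempty (Sylow p ↥R₁))
      set Q₀ : Subgroup G := (P : Subgroup ↥R₁).map R₁.subtype with hQ₀
      have hQp : IsPGroup p ↥Q₀ := P.2.map _
      have hQR : Q₀ ≤ R₁ := Subgroup.map_subtype_le _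
      have hQi : ¬ p ∣ Q₀.relIndex R₁ := by
        have e : Q₀.subgroupOf R₁ = (P : Subgroup ↥R₁) :=
          Subgroup.comap_map_eq_self_of_injective (Subgroup.subtype_injective _) _
        rw [Subgroup.relIndex, e]
        exact P.not_dvd_index
      by_cases hQn : Q₀.Normal
      · refine ⟨Q₀, hQn, hQp, hQR.trans hR1K, ?_⟩
        rw [← Subgroup.relIndex_mul_relIndex Q₀ R₁ K hQR hR1K]
        exact Nat.Prime.not_dvd_mul hp.out hQi hR1i
      · exfalso
        set H : Subgroup G := Subgroup.normalizer (Q₀ : Set G) with hH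
        have hfrat : H ⊔ R₁ = ⊤ := by
          have := hR1n
          exact Sylow.normalizer_sup_eq_top P
        have hQH : Q₀ ≤ H := Subgroup.le_normalizer
        have hR1le : R₁ ≤ N ⊔ Q₀ := by
          rw [← Subgroup.relIndex_eq_one]
          have h1 : (N ⊔ Q₀).relIndex R₁ ∣ Q₀.relIndex R₁ :=
            Subgroup.relIndex_dvd_of_le_left R₁ le_sup_right
          have h2 : (N ⊔ Q₀).relIndex R₁ ∣ N.relIndex R₁ :=
            Subgroup.relIndex_dvd_of_le_left R₁ le_sup_left
          have h3 : N.relIndex R₁ = Nat.card ↥(R₁.map π) := by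
            rw [← Subgroup.relIndex_ker, QuotientGroup.ker_mk']
          have h4 : IsPGroup p ↥(R₁.map π) := hRp.to_le (by
            rintro y ⟨x, hx, rfl⟩
            exact hR1π x hx)
          obtain ⟨k, hk⟩ := IsPGroup.iff_card.1 h4
          rw [h3, hk] at h2
          obtain ⟨j, -, hj⟩ := (Nat.dvd_prime_pow hp.out).1 h2
          rcases Nat.eq_zero_or_pos j with h0 | hpos
          · rw [hj, h0, pow_zero]
          · exfalso
            apply hQi
            refine dvd_trans ?_ h1
            rw [hj]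
            exact dvd_pow_self p hpos.ne'
        have hprod : N ⊔ H = ⊤ := by
          rw [eq_top_iff, ← hfrat]
          refine sup_le le_sup_right ?_
          exact hR1le.trans (sup_le le_sup_left (hQH.trans le_sup_right))
        have hDn : (N ⊓ H).Normal := by
          apply rns_normal_of_inv N H (N ⊓ H) hprod hNab inf_le_left
          intro h hh x hx
          exact ⟨hNn.conj_mem x hx.1 h, H.mul_mem (H.mul_mem hh hx.2) (H.inv_mem hh)⟩
        have hdisj : N ⊓ H = ⊥ := by
          rcases hNmin (N ⊓ H) hDn inf_le_left with h | h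
          · exact h
          · exfalso
            apply hQn
            rw [← Subgroup.normalizer_eq_top_iff]
            have hNH : N ≤ H := inf_eq_left.1 h
            rw [eq_top_iff, ← hprod]
            exact sup_le hNH le_rfl
        -- if `Q₀` centralizes `N`, contradiction
        have hcentr : (∀ q ∈ Q₀, ∀ m ∈ N, q * m = m * q) → False := by
          intro hc
          apply hN1
          rw [eq_bot_iff, ← hdisj]
          refine le_inf le_rfl ?_
          intro m hm
          show m ∈ Subgroup.normalizer (Q₀ : Set G)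
          rw [Subgroup.mem_set_normalizer_iff]
          intro q
          constructor
          · intro hq
            have e : m * q * m⁻¹ = q := by rw [← hc q hq m hm, mul_inv_cancel_right]
            rw [e]; exact hq
          · intro hq
            have h1 := hc _ hq m⁻¹ (N.inv_mem hm)
            have e : q = m * q * m⁻¹ := by
              have h2 : m⁻¹ * (m * q * m⁻¹) = q * m⁻¹ := by group
              rw [h2] at h1
              exact (mul_right_cancel h1).symm
            rw [e]; exact hq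
        -- `Q₀`-invariant linear characters of `N` are trivial
        have hV : ∀ f : ↥N →* ℂˣ,
            (∀ q ∈ Q₀, ∀ m : ↥N, f ⟨q * m * q⁻¹, hNn.conj_mem m m.2 q⟩ = f m) →
            ∀ m : ↥N, f m = 1 := by
          let N₁' : Subgroup ↥N := ⨅ (f : ↥N →* ℂˣ)
            (_ : ∀ q ∈ Q₀, ∀ m : ↥N, f ⟨q * m * q⁻¹, hNn.conj_mem m m.2 q⟩ = f m), f.ker
          have hN₁' : ∀ y : ↥N, y ∈ N₁' ↔ ∀ f : ↥N →* ℂˣ,
              (∀ q ∈ Q₀, ∀ m : ↥N, f ⟨q * m * q⁻¹, hNn.conj_mem m m.2 q⟩ = f m) → f y = 1 := by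
            intro y
            simp only [N₁', Subgroup.mem_iInf, MonoidHom.mem_ker]
          let N₁ : Subgroup G := N₁'.map N.subtype
          have hN₁le : N₁ ≤ N := Subgroup.map_subtype_le _
          have hN₁n : N₁.Normal := by
            apply rns_normal_of_inv N H N₁ hprod hNab hN₁le
            rintro h hh x ⟨y, hy, rfl⟩
            refine ⟨⟨h * y * h⁻¹, hNn.conj_mem y y.2 h⟩, ?_, rfl⟩
            rw [SetLike.mem_coe, hN₁']
            intro f hf
            let f' : ↥N →* ℂˣ := f.comp (MulAut.conjNormal h : ↥N ≃* ↥N).toMonoidHom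
            have hf'app : ∀ m : ↥N, f' m = f ⟨h * m * h⁻¹, hNn.conj_mem m m.2 h⟩ := by
              intro m; rfl
            have h3 := (hN₁' y).1 hy f' (by
              intro q hq m
              rw [hf'app, hf'app]
              have hq' : h * q * h⁻¹ ∈ Q₀ := ((Subgroup.mem_set_normalizer_iff.1 hh) q).1 hq
              have h4 := hf (h * q * h⁻¹) hq' ⟨h * m * h⁻¹, hNn.conj_mem m m.2 h⟩
              rw [← h4]
              congr 1
              apply Subtype.ext
              show h * (q * m * q⁻¹) * h⁻¹ = (h * q * h⁻¹) * (h * m * h⁻¹) * (h * q * h⁻¹)⁻¹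
              group)
            rw [hf'app] at h3
            exact h3
          intro f hf m
          rcases hNmin N₁ hN₁n hN₁le with h | h
          · exfalso
            apply hcentr
            intro q hq m hm
            have hc : (⟨q * m * q⁻¹, hNn.conj_mem m hm q⟩ * (⟨m, hm⟩ : ↥N)⁻¹ : ↥N) ∈ N₁' := by
              rw [hN₁']
              intro f hf
              rw [map_mul, map_inv, hf q hq ⟨m, hm⟩, mul_inv_cancel]
            have h1 : (q * m * q⁻¹ * m⁻¹ : G) ∈ N₁ := ⟨_, hc, rfl⟩
            rw [h, Subgroup.mem_bot] at h1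
            have h2 : q * m * q⁻¹ = m := mul_inv_eq_one.1 h1
            calc q * m = q * m * q⁻¹ * q := by group
              _ = m * q := by rw [h2]
          · have hm : (m : G) ∈ N₁ := by rw [h]; exact m.2
            obtain ⟨y, hy, hym⟩ := hm
            have e : y = m := Subtype.ext hym
            rw [← e]
            exact (hN₁' y).1 hy f hf
        -- a `2`-element not centralizing `N`
        have hex : ∃ t : G, (∃ j : ℕ, orderOf t = 2 ^ j) ∧
            t ∉ Subgroup.centralizer (N : Set G) := by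
          by_contra hcon
          push Not at hcon
          have hKC : K ≤ Subgroup.centralizer (N : Set G) := by
            rw [hK, Subgroup.closure_le]
            intro t ht
            exact hcon t ht
          apply hcentr
          intro q hq m hm
          have h1 := hKC (hR1K (hQR hq))
          rw [Subgroup.mem_centralizer_iff] at h1
          exact (h1 m hm).symm
        obtain ⟨t, ⟨j, hj⟩, htC⟩ := hex
        set C := Subgroup.centralizer (N : Set G) with hC
        have hexi : ∃ i : ℕ, t ^ 2 ^ i ∈ C :=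
          ⟨j, by rw [← hj, pow_orderOf_eq_one]; exact C.one_mem⟩
        set i := Nat.find hexi with hi
        have hi0 : i ≠ 0 := by
          intro h0
          have h1 := Nat.find_spec hexi
          rw [← hi, h0, pow_zero, pow_one] at h1
          exact htC h1
        set s := t ^ 2 ^ (i - 1) with hs
        have hsC : s ∉ C := Nat.find_min hexi (by omega : i - 1 < i)
        have hs2 : s * s ∈ C := by
          have h1 := Nat.find_spec hexi
          rw [← hi] at h1
          have e : s * s = t ^ 2 ^ i := by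
            rw [hs, ← pow_add, ← two_mul, ← pow_succ']
            congr 2
            omega
          rw [e]; exact h1
        obtain ⟨m₀, hm₀, hne⟩ : ∃ m₀ ∈ N, m₀ * s ≠ s * m₀ := by
          by_contra hcon
          push Not at hcon
          exact hsC (Subgroup.mem_centralizer_iff.2 hcon)
        have hs2c : ∀ m ∈ N, s * (s * m * s⁻¹) * s⁻¹ = m := by
          intro m hm
          have h1 := Subgroup.mem_centralizer_iff.1 hs2 m hm
          calc s * (s * m * s⁻¹) * s⁻¹ = ((s * s) * m) * (s * s)⁻¹ := by group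
            _ = m := by rw [← h1, mul_inv_cancel_right]
        have hc₀ : (⟨s * m₀ * s⁻¹, hNn.conj_mem m₀ hm₀ s⟩ * (⟨m₀, hm₀⟩ : ↥N)⁻¹ : ↥N) ≠ 1 := by
          intro h
          apply hne
          have h1 : s * m₀ * s⁻¹ * m₀⁻¹ = 1 := congrArg Subtype.val h
          have h2 : s * m₀ * s⁻¹ = m₀ := mul_inv_eq_one.1 h1
          calc m₀ * s = s * m₀ * s⁻¹ * s := by rw [h2]
            _ = s * m₀ := by group
        obtain ⟨f₀, hf₀⟩ := Helper4.exists_hom_ne_one_of_comm (H := ↥N)
          (fun a b => Subtype.ext (hNab a a.2 b b.2)) hc₀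
        let f : ↥N →* ℂˣ :=
          { toFun := fun n => f₀ n * (f₀ ⟨s * n * s⁻¹, hNn.conj_mem n n.2 s⟩)⁻¹
            map_one' := by
              have e : (⟨s * ((1 : ↥N) : G) * s⁻¹, hNn.conj_mem _ (1 : ↥N).2 s⟩ : ↥N) = 1 := by
                apply Subtype.ext
                simp
              rw [e, map_one, inv_one, mul_one]
            map_mul' := by
              intro a b
              have e : (⟨s * ((a * b : ↥N) : G) * s⁻¹, hNn.conj_mem _ (a * b).2 s⟩ : ↥N)
                  = ⟨s * a * s⁻¹, hNn.conj_mem a a.2 s⟩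
                    * ⟨s * b * s⁻¹, hNn.conj_mem b b.2 s⟩ := by
                apply Subtype.ext
                show s * ((a : G) * b) * s⁻¹ = (s * a * s⁻¹) * (s * b * s⁻¹)
                group
              rw [e, map_mul, map_mul, mul_inv, mul_mul_mul_comm] }
        have hfapp : ∀ n : ↥N,
            f n = f₀ n * (f₀ ⟨s * n * s⁻¹, hNn.conj_mem n n.2 s⟩)⁻¹ := fun n => rfl
        have hinv : ∀ n : ↥N, f ⟨s * n * s⁻¹, hNn.conj_mem n n.2 s⟩ = (f n)⁻¹ := by
          intro n
          rw [hfapp, hfapp]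
          have e : f₀ ⟨s * (s * n * s⁻¹) * s⁻¹,
              hNn.conj_mem _ (hNn.conj_mem n n.2 s) s⟩ = f₀ n :=
            congrArg f₀ (Subtype.ext (hs2c n n.2))
          rw [mul_inv_rev, inv_inv]
          exact congrArg (fun u => f₀ ⟨s * n * s⁻¹, hNn.conj_mem n n.2 s⟩ * u⁻¹) e
        have hf1 : f ⟨m₀, hm₀⟩ ≠ 1 := by
          intro h
          apply hf₀
          rw [map_mul, map_inv]
          rw [hfapp] at h
          have h2 : f₀ ⟨m₀, hm₀⟩ = f₀ ⟨s * m₀ * s⁻¹, hNn.conj_mem m₀ hm₀ s⟩ :=
            mul_inv_eq_one.1 h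
          rw [← h2, mul_inv_cancel]
        obtain ⟨χ, I, hχreal, hI, hdeg⟩ := realInd_exists N H hdisj hprod f s hinv
        have hnd : ¬ p ∣ Nat.card (G ⧸ I) := by
          rw [← Subgroup.index_eq_card, ← hdeg]
          exact hreal χ hχreal
        obtain ⟨x, hx⟩ := hQp.nonempty_fixed_point_of_prime_not_dvd_card (G ⧸ I) hnd
        obtain ⟨g, rfl⟩ := QuotientGroup.mk_surjective x
        have hgI : ∀ q ∈ Q₀, g⁻¹ * q * g ∈ I := by
          intro q hq
          have h1 := hx ⟨q⁻¹, Q₀.inv_mem hq⟩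
          have h2 : ((q⁻¹ * g : G) : G ⧸ I) = (g : G ⧸ I) := h1
          rw [QuotientGroup.eq] at h2
          have e : (q⁻¹ * g)⁻¹ * g = g⁻¹ * q * g := by group
          rwa [e] at h2
        let f' : ↥N →* ℂˣ := f.comp (MulAut.conjNormal g⁻¹ : ↥N ≃* ↥N).toMonoidHom
        have hf'app : ∀ m : ↥N, f' m = f ⟨g⁻¹ * m * g⁻¹⁻¹, hNn.conj_mem m m.2 g⁻¹⟩ :=
          fun m => rfl
        have hf'1 := hV f' (by
          intro q hq m
          rw [hf'app, hf'app]
          have h1 := (hI _).1 (hgI q hq) ⟨g⁻¹ * m * g⁻¹⁻¹, hNn.conj_mem m m.2 g⁻¹⟩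
          rw [← h1]
          congr 1
          apply Subtype.ext
          show g⁻¹ * (q * m * q⁻¹) * g⁻¹⁻¹
            = (g⁻¹ * q * g) * (g⁻¹ * m * g⁻¹⁻¹) * (g⁻¹ * q * g)⁻¹
          group)
        apply hf1
        have h2 := hf'1 ⟨g * m₀ * g⁻¹, hNn.conj_mem m₀ hm₀ g⟩
        rw [hf'app] at h2
        rw [← h2]
        congr 1
        apply Subtype.ext
        show m₀ = g⁻¹ * (g * m₀ * g⁻¹) * g⁻¹⁻¹
        group

theorem rns_final {G : Type u} [Group G] [Finite G] (p : ℕ) [Fact p.Prime]
    (hsolv : Group.IsSolvable ↥(Subgroup.closure {g : G | ∃ k : ℕ, orderOf g = p ^ k}))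
    (hreal : ∀ χ : Cfsg.IrrCharacter G, (∀ g : G, ((χ : G → ℂ) g).im = 0) →
      ¬ p ∣ Cfsg.charDegree (χ : G → ℂ))
    (Q : Sylow p ↥(Subgroup.closure {g : G | ∃ k : ℕ, orderOf g = 2 ^ k})) :
    (Q : Subgroup ↥(Subgroup.closure {g : G | ∃ k : ℕ, orderOf g = 2 ^ k})).Normal := by
  obtain ⟨R, hRn, hRp, hRK, hRi⟩ := rns_main p (Nat.card G) G rfl hsolv hreal
  have hS : (Q : Subgroup ↥(rnsK 2 G)) = R.subgroupOf (rnsK 2 G) :=
    Helper79.sylow_coe_eq_of_normal Q (R.subgroupOf (rnsK 2 G)) (hRn.subgroupOf _)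
      (hRp.comap_subtype) hRi
  rw [hS]
  exact hRn.subgroupOf _

end Cfsg.Agent.Helper82
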