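import Mathlib
import Cfsg.Agent.Helper82.RNSylow

/-!
# Real characters of `p'`-degree: the normal Sylow `p`-subgroup of `U = O_p(G mod O^{2'}(G))`
(helper82)

Factored pieces of the argument of `rns_main` (`rns_struct`, `rns_inverting`, `rns_contra`,
`rns_exp_two`) and the extension `rns2_main`, `rns2_final`: if `O^{p'}(G)` is solvable and every
real-valued irreducible character of `G` has degree prime to `p`, then every normal subgroup `U`
containing `K = O^{2'}(G)` with `[U : K]` a power of `p` has a normal Sylow `p`-subgroup.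
-/

set_option autoImplicit false

namespace Cfsg.Agent.Helper82

open Cfsg

universe u

/-- The Frattini structure: `N` abelian minimal normal, `R₁` normal with `R₁ N / N` a `p`-group,
`Q₀` a Sylow `p`-subgroup of `R₁` not normal in `G`.  Then `G = N ⋊ N_G(Q₀)`, `Q₀` does not
centralize `N` and fixes no nontrivial linear character of `N`. -/
theorem rns_struct {G : Type*} [Group G] [Finite G] (p : ℕ) [hp : Fact p.Prime]
    (N : Subgroup G) [hNn : N.Normal] (hN1 : N ≠ ⊥)
    (hNab : ∀ a ∈ N, ∀ b ∈ N, a * b = b * a)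
    (hNmin : ∀ M : Subgroup G, M.Normal → M ≤ N → M = ⊥ ∨ M = N)
    (R₁ : Subgroup G) (hR1n : R₁.Normal)
    (hR1p : IsPGroup p ↥(R₁.map (QuotientGroup.mk' N)))
    (P : Sylow p ↥R₁) (hQn : ¬ ((P : Subgroup ↥R₁).map R₁.subtype).Normal) :
    ∃ H : Subgroup G, N ⊓ H = ⊥ ∧ N ⊔ H = ⊤ ∧
      ((∀ q ∈ (P : Subgroup ↥R₁).map R₁.subtype, ∀ m ∈ N, q * m = m * q) → False) ∧
      (∀ f : ↥N →* ℂˣ, (∀ q ∈ (P : Subgroup ↥R₁).map R₁.subtype, ∀ m : ↥N,
          f ⟨q * m * q⁻¹, hNn.conj_mem m m.2 q⟩ = f m) → ∀ m : ↥N, f m = 1) := by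
  classical
  set π := QuotientGroup.mk' N with hπ
  set Q₀ : Subgroup G := (P : Subgroup ↥R₁).map R₁.subtype with hQ₀
  have hQR : Q₀ ≤ R₁ := Subgroup.map_subtype_le _
  have hQi : ¬ p ∣ Q₀.relIndex R₁ := by
    have e : Q₀.subgroupOf R₁ = (P : Subgroup ↥R₁) :=
      Subgroup.comap_map_eq_self_of_injective (Subgroup.subtype_injective _) _
    rw [Subgroup.relIndex, e]
    exact P.not_dvd_index
  set H : Subgroup G := Subgroup.normalizer (Q₀ : Set G) with hH
  have hfrat : H ⊔ R₁ = ⊤ := by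
    have := hR1n
    exact Sylow.normalizer_sup_eq_top P
  have hQH : Q₀ ≤ H := Subgroup.le_normalizer
  have hR1le : R₁ ≤ N ⊔ Q₀ := by
    rw [← Subgroup.relIndex_eq_one]
    have h1 : (N ⊔ Q₀).relIndex R₁ ∣ Q₀.relIndex R₁ :=
      Subgroup.relIndex_dvd_of_le_left R₁ le_sup_right
    have h2 : (N ⊔ Q₀).relIndex R₁ ∣ N.relIndex R₁ :=
      Subgroup.relIndex_dvd_of_le_left R₁ le_sup_left
    have h3 : N.relIndex R₁ = Nat.card ↥(R₁.map π) := by
      rw [← Subgroup.relIndex_ker, QuotientGroup.ker_mk']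
    obtain ⟨k, hk⟩ := IsPGroup.iff_card.1 hR1p
    rw [h3, hk] at h2
    obtain ⟨j, -, hj⟩ := (Nat.dvd_prime_pow hp.out).1 h2
    rcases Nat.eq_zero_or_pos j with h0 | hpos
    · rw [hj, h0, pow_zero]
    · exfalso
      apply hQi
      refine dvd_trans ?_ h1
      rw [hj]
      exact dvd_pow_self p hpos.ne'
  have hprod : N ⊔ H = ⊤ := by
    rw [eq_top_iff, ← hfrat]
    refine sup_le le_sup_right ?_
    exact hR1le.trans (sup_le le_sup_left (hQH.trans le_sup_right))
  have hDn : (N ⊓ H).Normal := by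
    apply rns_normal_of_inv N H (N ⊓ H) hprod hNab inf_le_left
    intro h hh x hx
    exact ⟨hNn.conj_mem x hx.1 h, H.mul_mem (H.mul_mem hh hx.2) (H.inv_mem hh)⟩
  have hdisj : N ⊓ H = ⊥ := by
    rcases hNmin (N ⊓ H) hDn inf_le_left with h | h
    · exact h
    · exfalso
      apply hQn
      rw [← Subgroup.normalizer_eq_top_iff]
      have hNH : N ≤ H := inf_eq_left.1 h
      rw [eq_top_iff, ← hprod]
      exact sup_le hNH le_rfl
  have hcentr : (∀ q ∈ Q₀, ∀ m ∈ N, q * m = m * q) → False := by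
    intro hc
    apply hN1
    rw [eq_bot_iff, ← hdisj]
    refine le_inf le_rfl ?_
    intro m hm
    show m ∈ Subgroup.normalizer (Q₀ : Set G)
    rw [Subgroup.mem_set_normalizer_iff]
    intro q
    constructor
    · intro hq
      have e : m * q * m⁻¹ = q := by rw [← hc q hq m hm, mul_inv_cancel_right]
      rw [e]; exact hq
    · intro hq
      have h1 := hc _ hq m⁻¹ (N.inv_mem hm)
      have e : q = m * q * m⁻¹ := by
        have h2 : m⁻¹ * (m * q * m⁻¹) = q * m⁻¹ := by group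
        rw [h2] at h1
        exact (mul_right_cancel h1).symm
      rw [e]; exact hq
  refine ⟨H, hdisj, hprod, hcentr, ?_⟩
  let N₁' : Subgroup ↥N := ⨅ (f : ↥N →* ℂˣ)
    (_ : ∀ q ∈ Q₀, ∀ m : ↥N, f ⟨q * m * q⁻¹, hNn.conj_mem m m.2 q⟩ = f m), f.ker
  have hN₁' : ∀ y : ↥N, y ∈ N₁' ↔ ∀ f : ↥N →* ℂˣ,
      (∀ q ∈ Q₀, ∀ m : ↥N, f ⟨q * m * q⁻¹, hNn.conj_mem m m.2 q⟩ = f m) → f y = 1 := by
    intro y
    simp only [N₁', Subgroup.mem_iInf, MonoidHom.mem_ker]
  let N₁ : Subgroup G := N₁'.map N.subtype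
  have hN₁le : N₁ ≤ N := Subgroup.map_subtype_le _
  have hN₁n : N₁.Normal := by
    apply rns_normal_of_inv N H N₁ hprod hNab hN₁le
    rintro h hh x ⟨y, hy, rfl⟩
    refine ⟨⟨h * y * h⁻¹, hNn.conj_mem y y.2 h⟩, ?_, rfl⟩
    rw [SetLike.mem_coe, hN₁']
    intro f hf
    let f' : ↥N →* ℂˣ := f.comp (MulAut.conjNormal h : ↥N ≃* ↥N).toMonoidHom
    have hf'app : ∀ m : ↥N, f' m = f ⟨h * m * h⁻¹, hNn.conj_mem m m.2 h⟩ := by
      intro m; rfl
    have h3 := (hN₁' y).1 hy f' (by
      intro q hq m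
      rw [hf'app, hf'app]
      have hq' : h * q * h⁻¹ ∈ Q₀ := ((Subgroup.mem_set_normalizer_iff.1 hh) q).1 hq
      have h4 := hf (h * q * h⁻¹) hq' ⟨h * m * h⁻¹, hNn.conj_mem m m.2 h⟩
      rw [← h4]
      congr 1
      apply Subtype.ext
      show h * (q * m * q⁻¹) * h⁻¹ = (h * q * h⁻¹) * (h * m * h⁻¹) * (h * q * h⁻¹)⁻¹
      group)
    rw [hf'app] at h3
    exact h3
  intro f hf m
  rcases hNmin N₁ hN₁n hN₁le with h | h
  · exfalso
    apply hcentr
    intro q hq m hm
    have hc : (⟨q * m * q⁻¹, hNn.conj_mem m hm q⟩ * (⟨m, hm⟩ : ↥N)⁻¹ : ↥N) ∈ N₁' := by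
      rw [hN₁']
      intro f hf
      rw [map_mul, map_inv, hf q hq ⟨m, hm⟩, mul_inv_cancel]
    have h1 : (q * m * q⁻¹ * m⁻¹ : G) ∈ N₁ := ⟨_, hc, rfl⟩
    rw [h, Subgroup.mem_bot] at h1
    have h2 : q * m * q⁻¹ = m := mul_inv_eq_one.1 h1
    calc q * m = q * m * q⁻¹ * q := by group
      _ = m * q := by rw [h2]
  · have hm : (m : G) ∈ N₁ := by rw [h]; exact m.2
    obtain ⟨y, hy, hym⟩ := hm
    have e : y = m := Subtype.ext hym
    rw [← e]
    exact (hN₁' y).1 hy f hf

/-- A `2`-element not centralizing the abelian normal subgroup `N` yields an element `s` and a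
nontrivial linear character `f` of `N` with `f^s = f⁻¹`. -/
theorem rns_inverting {G : Type*} [Group G] [Finite G] (N : Subgroup G) [hNn : N.Normal]
    (hNab : ∀ a ∈ N, ∀ b ∈ N, a * b = b * a) (t : G) (j : ℕ) (hj : orderOf t = 2 ^ j)
    (htC : t ∉ Subgroup.centralizer (N : Set G)) :
    ∃ (s : G) (f : ↥N →* ℂˣ) (m₀ : ↥N), f m₀ ≠ 1 ∧
      ∀ n : ↥N, f ⟨s * n * s⁻¹, hNn.conj_mem n n.2 s⟩ = (f n)⁻¹ := by
  classical
  set C := Subgroup.centralizer (N : Set G) with hC
  have hexi : ∃ i : ℕ, t ^ 2 ^ i ∈ C :=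
    ⟨j, by rw [← hj, pow_orderOf_eq_one]; exact C.one_mem⟩
  set i := Nat.find hexi with hi
  have hi0 : i ≠ 0 := by
    intro h0
    have h1 := Nat.find_spec hexi
    rw [← hi, h0, pow_zero, pow_one] at h1
    exact htC h1
  set s := t ^ 2 ^ (i - 1) with hs
  have hsC : s ∉ C := Nat.find_min hexi (by omega : i - 1 < i)
  have hs2 : s * s ∈ C := by
    have h1 := Nat.find_spec hexi
    rw [← hi] at h1
    have e : s * s = t ^ 2 ^ i := by
      rw [hs, ← pow_add, ← two_mul, ← pow_succ']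
      congr 2
      omega
    rw [e]; exact h1
  obtain ⟨m₀, hm₀, hne⟩ : ∃ m₀ ∈ N, m₀ * s ≠ s * m₀ := by
    by_contra hcon
    push Not at hcon
    exact hsC (Subgroup.mem_centralizer_iff.2 hcon)
  have hs2c : ∀ m ∈ N, s * (s * m * s⁻¹) * s⁻¹ = m := by
    intro m hm
    have h1 := Subgroup.mem_centralizer_iff.1 hs2 m hm
    calc s * (s * m * s⁻¹) * s⁻¹ = ((s * s) * m) * (s * s)⁻¹ := by group
      _ = m := by rw [← h1, mul_inv_cancel_right]
  have hc₀ : (⟨s * m₀ * s⁻¹, hNn.conj_mem m₀ hm₀ s⟩ * (⟨m₀, hm₀⟩ : ↥N)⁻¹ : ↥N) ≠ 1 := by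
    intro h
    apply hne
    have h1 : s * m₀ * s⁻¹ * m₀⁻¹ = 1 := congrArg Subtype.val h
    have h2 : s * m₀ * s⁻¹ = m₀ := mul_inv_eq_one.1 h1
    calc m₀ * s = s * m₀ * s⁻¹ * s := by rw [h2]
      _ = s * m₀ := by group
  obtain ⟨f₀, hf₀⟩ := Helper4.exists_hom_ne_one_of_comm (H := ↥N)
    (fun a b => Subtype.ext (hNab a a.2 b b.2)) hc₀
  let f : ↥N →* ℂˣ :=
    { toFun := fun n => f₀ n * (f₀ ⟨s * n * s⁻¹, hNn.conj_mem n n.2 s⟩)⁻¹
      map_one' := by
        have e : (⟨s * ((1 : ↥N) : G) * s⁻¹, hNn.conj_mem _ (1 : ↥N).2 s⟩ : ↥N) = 1 := by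
          apply Subtype.ext
          simp
        rw [e, map_one, inv_one, mul_one]
      map_mul' := by
        intro a b
        have e : (⟨s * ((a * b : ↥N) : G) * s⁻¹, hNn.conj_mem _ (a * b).2 s⟩ : ↥N)
            = ⟨s * a * s⁻¹, hNn.conj_mem a a.2 s⟩
              * ⟨s * b * s⁻¹, hNn.conj_mem b b.2 s⟩ := by
          apply Subtype.ext
          show s * ((a : G) * b) * s⁻¹ = (s * a * s⁻¹) * (s * b * s⁻¹)
          group
        rw [e, map_mul, map_mul, mul_inv, mul_mul_mul_comm] }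
  have hfapp : ∀ n : ↥N,
      f n = f₀ n * (f₀ ⟨s * n * s⁻¹, hNn.conj_mem n n.2 s⟩)⁻¹ := fun n => rfl
  refine ⟨s, f, ⟨m₀, hm₀⟩, ?_, ?_⟩
  · intro h
    apply hf₀
    rw [map_mul, map_inv]
    rw [hfapp] at h
    have h2 : f₀ ⟨m₀, hm₀⟩ = f₀ ⟨s * m₀ * s⁻¹, hNn.conj_mem m₀ hm₀ s⟩ :=
      mul_inv_eq_one.1 h
    rw [← h2, mul_inv_cancel]
  · intro n
    rw [hfapp, hfapp]
    have e : f₀ ⟨s * (s * n * s⁻¹) * s⁻¹,
        hNn.conj_mem _ (hNn.conj_mem n n.2 s) s⟩ = f₀ n :=
      congrArg f₀ (Subtype.ext (hs2c n n.2))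
    rw [mul_inv_rev, inv_inv]
    exact congrArg (fun u => f₀ ⟨s * n * s⁻¹, hNn.conj_mem n n.2 s⟩ * u⁻¹) e

/-- The contradiction: `G = N ⋊ H`, a `p`-subgroup `Q₀` fixing no nontrivial linear character
of `N`, and a nontrivial linear character `f` of `N` inverted by some element: a real-valued
irreducible character of degree divisible by `p`. -/
theorem rns_contra {G : Type*} [Group G] [Finite G] (p : ℕ) [hp : Fact p.Prime]
    (hreal : ∀ χ : IrrCharacter G, (∀ g : G, ((χ : G → ℂ) g).im = 0) →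
      ¬ p ∣ charDegree (χ : G → ℂ))
    (N H : Subgroup G) [hNn : N.Normal] (hdisj : N ⊓ H = ⊥) (hprod : N ⊔ H = ⊤)
    (Q₀ : Subgroup G) (hQp : IsPGroup p ↥Q₀)
    (hV : ∀ f : ↥N →* ℂˣ, (∀ q ∈ Q₀, ∀ m : ↥N,
      f ⟨q * m * q⁻¹, hNn.conj_mem m m.2 q⟩ = f m) → ∀ m : ↥N, f m = 1)
    (f : ↥N →* ℂˣ) (m₀ : ↥N) (hf1 : f m₀ ≠ 1) (s : G)
    (hinv : ∀ n : ↥N, f ⟨s * n * s⁻¹, hNn.conj_mem n n.2 s⟩ = (f n)⁻¹) : False := by
  classical
  obtain ⟨χ, I, hχreal, hI, hdeg⟩ := realInd_exists N H hdisj hprod f s hinv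
  have hnd : ¬ p ∣ Nat.card (G ⧸ I) := by
    rw [← Subgroup.index_eq_card, ← hdeg]
    exact hreal χ hχreal
  obtain ⟨x, hx⟩ := hQp.nonempty_fixed_point_of_prime_not_dvd_card (G ⧸ I) hnd
  obtain ⟨g, rfl⟩ := QuotientGroup.mk_surjective x
  have hgI : ∀ q ∈ Q₀, g⁻¹ * q * g ∈ I := by
    intro q hq
    have h1 := hx ⟨q⁻¹, Q₀.inv_mem hq⟩
    have h2 : ((q⁻¹ * g : G) : G ⧸ I) = (g : G ⧸ I) := h1
    rw [QuotientGroup.eq] at h2
    have e : (q⁻¹ * g)⁻¹ * g = g⁻¹ * q * g := by group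
    rwa [e] at h2
  let f' : ↥N →* ℂˣ := f.comp (MulAut.conjNormal g⁻¹ : ↥N ≃* ↥N).toMonoidHom
  have hf'app : ∀ m : ↥N, f' m = f ⟨g⁻¹ * m * g⁻¹⁻¹, hNn.conj_mem m m.2 g⁻¹⟩ :=
    fun m => rfl
  have hf'1 := hV f' (by
    intro q hq m
    rw [hf'app, hf'app]
    have h1 := (hI _).1 (hgI q hq) ⟨g⁻¹ * m * g⁻¹⁻¹, hNn.conj_mem m m.2 g⁻¹⟩
    rw [← h1]
    congr 1
    apply Subtype.ext
    show g⁻¹ * (q * m * q⁻¹) * g⁻¹⁻¹
      = (g⁻¹ * q * g) * (g⁻¹ * m * g⁻¹⁻¹) * (g⁻¹ * q * g)⁻¹
    group)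
  apply hf1
  have h2 := hf'1 ⟨g * m₀ * g⁻¹, hNn.conj_mem m₀ m₀.2 g⟩
  rw [hf'app] at h2
  rw [← h2]
  congr 1
  apply Subtype.ext
  show (m₀ : G) = g⁻¹ * (g * m₀ * g⁻¹) * g⁻¹⁻¹
  group

/-- An abelian minimal normal subgroup of even order has exponent two. -/
theorem rns_exp_two {G : Type*} [Group G] [Finite G] (N : Subgroup G) [hNn : N.Normal]
    (hNab : ∀ a ∈ N, ∀ b ∈ N, a * b = b * a)
    (hNmin : ∀ M : Subgroup G, M.Normal → M ≤ N → M = ⊥ ∨ M = N) (heven : 2 ∣ Nat.card N) :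
    ∀ n ∈ N, n * n = 1 := by
  have : Fact (Nat.Prime 2) := ⟨Nat.prime_two⟩
  let N₂ : Subgroup G :=
    { carrier := {n | n ∈ N ∧ n * n = 1}
      mul_mem' := by
        rintro a b ⟨ha, ha2⟩ ⟨hb, hb2⟩
        refine ⟨N.mul_mem ha hb, ?_⟩
        calc a * b * (a * b) = a * (b * a) * b := by group
          _ = a * (a * b) * b := by rw [hNab b hb a ha]
          _ = (a * a) * (b * b) := by group
          _ = 1 := by rw [ha2, hb2, one_mul]
      one_mem' := ⟨N.one_mem, one_mul 1⟩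
      inv_mem' := by
        rintro a ⟨ha, ha2⟩
        refine ⟨N.inv_mem ha, ?_⟩
        rw [← mul_inv_rev, ha2, inv_one] }
  have hN₂n : N₂.Normal := by
    constructor
    rintro n ⟨hn, hn2⟩ g
    refine ⟨hNn.conj_mem n hn g, ?_⟩
    calc g * n * g⁻¹ * (g * n * g⁻¹) = g * (n * n) * g⁻¹ := by group
      _ = 1 := by rw [hn2]; group
  have hN₂le : N₂ ≤ N := fun n hn => hn.1
  rcases hNmin N₂ hN₂n hN₂le with h | h
  · exfalso
    obtain ⟨x, hx⟩ := exists_prime_orderOf_dvd_card' (G := ↥N) 2 heven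
    have hx2 : (x : G) * (x : G) = 1 := by
      have h2 : x ^ 2 = 1 := by rw [← hx]; exact pow_orderOf_eq_one x
      have h3 : ((x ^ 2 : ↥N) : G) = 1 := by rw [h2]; rfl
      rw [← h3, pow_two]; rfl
    have hmem : (x : G) ∈ N₂ := ⟨x.2, hx2⟩
    rw [h, Subgroup.mem_bot] at hmem
    have h4 : x = 1 := Subtype.ext hmem
    rw [h4, orderOf_one] at hx
    omega
  · intro n hn
    have h5 : n ∈ N₂ := by rw [h]; exact hn
    exact h5.2

theorem rns2_main (p : ℕ) [hp : Fact p.Prime] : ∀ (n : ℕ) (G : Type u) [Group G] [Finite G],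
    Nat.card G = n → Group.IsSolvable ↥(rnsK p G) →
    (∀ χ : IrrCharacter G, (∀ g : G, ((χ : G → ℂ) g).im = 0) → ¬ p ∣ charDegree (χ : G → ℂ)) →
    ∀ U : Subgroup G, U.Normal → rnsK 2 G ≤ U → (∃ a : ℕ, (rnsK 2 G).relIndex U = p ^ a) →
    ∃ S : Subgroup G, S.Normal ∧ IsPGroup p S ∧ S ≤ U ∧ ¬ p ∣ S.relIndex U := by
  intro n
  induction n using Nat.strong_induction_on with
  | _ n ih =>
  intro G _ _ hcard hsolv hreal U hUn hKU hUp
  classical
  have : Fact (Nat.Prime 2) := ⟨Nat.prime_two⟩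
  have hKpn : (rnsK p G).Normal := rns_normal p G
  have hK2n : (rnsK 2 G).Normal := rns_normal 2 G
  have hsolv' := hsolv
  -- the induction hypothesis for quotients by normal subgroups inside `K`
  have hquot : ∀ (N : Subgroup G) [hNn : N.Normal], N ≠ ⊥ → N ≤ rnsK 2 G →
      ∃ Sbar : Subgroup (G ⧸ N), Sbar.Normal ∧ IsPGroup p Sbar ∧
        Sbar ≤ U.map (QuotientGroup.mk' N) ∧
        ¬ p ∣ Sbar.relIndex (U.map (QuotientGroup.mk' N)) := by
    intro N hNn hN1 hNK
    have hπs : Function.Surjective (QuotientGroup.mk' N) := QuotientGroup.mk'_surjective N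
    have hsolvQ : Group.IsSolvable ↥(rnsK p (G ⧸ N)) := by
      have : Group.IsSolvable ↥((rnsK p G).map (QuotientGroup.mk' N)) :=
        Group.isSolvable_of_surjective
          (MonoidHom.subgroupMap_surjective (QuotientGroup.mk' N) (rnsK p G))
      exact Group.isSolvable_of_isSolvable_injective
        (Subgroup.inclusion_injective (rns_map_quotient p N).le)
    have hrealQ : ∀ χ : IrrCharacter (G ⧸ N), (∀ g : G ⧸ N, ((χ : G ⧸ N → ℂ) g).im = 0) →
        ¬ p ∣ charDegree (χ : G ⧸ N → ℂ) := by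
      intro χ hχ
      have h1 := hreal ⟨fun x => (χ : G ⧸ N → ℂ) (QuotientGroup.mk' N x),
        Helper79.isIrrCharacter_comp (QuotientGroup.mk' N) hπs χ.2⟩
        (fun g => hχ (QuotientGroup.mk' N g))
      have e : charDegree (fun x => (χ : G ⧸ N → ℂ) (QuotientGroup.mk' N x))
          = charDegree (χ : G ⧸ N → ℂ) := by
        show ⌊((χ : G ⧸ N → ℂ) (QuotientGroup.mk' N 1)).re⌋₊ = ⌊((χ : G ⧸ N → ℂ) 1).re⌋₊
        rw [map_one]
      rw [← e]
      exact h1
    apply ih (Nat.card (G ⧸ N)) (by rw [← hcard]; exact Helper79.card_quotient_lt N hN1)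
      (G ⧸ N) rfl hsolvQ hrealQ (U.map (QuotientGroup.mk' N)) (hUn.map _ hπs)
    · rw [rns_map_quotient 2 N]
      exact Subgroup.map_mono hKU
    · obtain ⟨a, ha⟩ := hUp
      refine ⟨a, ?_⟩
      rw [rns_map_quotient 2 N, Subgroup.relIndex_map_map, QuotientGroup.ker_mk',
        sup_eq_left.2 hNK, sup_eq_left.2 (hNK.trans hKU)]
      exact ha
  have hpull : ∀ (N : Subgroup G) [hNn : N.Normal], N ≤ U → ∀ Sbar : Subgroup (G ⧸ N),
      Sbar ≤ U.map (QuotientGroup.mk' N) → Sbar.comap (QuotientGroup.mk' N) ≤ U := by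
    intro N hNn hNU Sbar hS x hx
    obtain ⟨u, hu, hux⟩ := hS hx
    have h1 : u⁻¹ * x ∈ N := QuotientGroup.eq.1 hux
    have e : x = u * (u⁻¹ * x) := by group
    rw [e]
    exact U.mul_mem hu (hNU h1)
  obtain ⟨R, hRn, hRp, hRK, hRi⟩ := rns_main p n G hcard hsolv hreal
  set K := rnsK 2 G with hK
  by_cases hR1 : R = ⊥
  swap
  · have := hRn
    obtain ⟨Sbar, hSn, hSp, hSU, hSi⟩ := hquot R hR1 hRK
    refine ⟨Sbar.comap (QuotientGroup.mk' R), hSn.comap _, ?_,
      hpull R (hRK.trans hKU) Sbar hSU, ?_⟩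
    · apply hSp.comap_of_ker_isPGroup
      rw [QuotientGroup.ker_mk']
      exact hRp
    · rw [Subgroup.relIndex_comap]
      exact hSi
  · have hKp' : ¬ p ∣ Nat.card K := by
      rw [hR1, Subgroup.relIndex_bot_left] at hRi
      exact hRi
    set A := rnsK p G ⊓ K with hA
    have hAn : A.Normal := Subgroup.normal_inf_normal _ _
    by_cases hA1 : A = ⊥
    · obtain ⟨P⟩ := (inferInstance : Nonempty (Sylow p ↥U))
      set Q₀ : Subgroup G := (P : Subgroup ↥U).map U.subtype with hQ₀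
      have hQp : IsPGroup p ↥Q₀ := P.2.map _
      have hQU : Q₀ ≤ U := Subgroup.map_subtype_le _
      have hQi : ¬ p ∣ Q₀.relIndex U := by
        have e : Q₀.subgroupOf U = (P : Subgroup ↥U) :=
          Subgroup.comap_map_eq_self_of_injective (Subgroup.subtype_injective _) _
        rw [Subgroup.relIndex, e]
        exact P.not_dvd_index
      have hUle : U ≤ K ⊔ Q₀ := by
        rw [← Subgroup.relIndex_eq_one]
        have h1 : (K ⊔ Q₀).relIndex U ∣ Q₀.relIndex U :=
          Subgroup.relIndex_dvd_of_le_left U le_sup_right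
        have h2 : (K ⊔ Q₀).relIndex U ∣ K.relIndex U :=
          Subgroup.relIndex_dvd_of_le_left U le_sup_left
        obtain ⟨a, ha⟩ := hUp
        rw [ha] at h2
        obtain ⟨j, -, hj⟩ := (Nat.dvd_prime_pow hp.out).1 h2
        rcases Nat.eq_zero_or_pos j with h0 | hpos
        · rw [hj, h0, pow_zero]
        · exfalso
          apply hQi
          refine dvd_trans ?_ h1
          rw [hj]
          exact dvd_pow_self p hpos.ne'
      have hKQ : ∀ k ∈ K, ∀ q ∈ Q₀, k * q * k⁻¹ = q := by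
        intro k hk q hq
        have hc : k * q * k⁻¹ * q⁻¹ ∈ A := by
          refine ⟨?_, ?_⟩
          · have hqp : q ∈ rnsK p G := by
              apply Subgroup.subset_closure
              obtain ⟨j, hj⟩ := (IsPGroup.iff_orderOf.1 hQp) ⟨q, hq⟩
              exact ⟨j, by rw [← hj]; exact (Subgroup.orderOf_mk q hq).symm⟩
            exact (rnsK p G).mul_mem (hKpn.conj_mem q hqp k) ((rnsK p G).inv_mem hqp)
          · have e : k * q * k⁻¹ * q⁻¹ = k * (q * k⁻¹ * q⁻¹) := by group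
            rw [e]
            exact K.mul_mem hk (hK2n.conj_mem _ (K.inv_mem hk) q)
        rw [hA1, Subgroup.mem_bot] at hc
        exact mul_inv_eq_one.1 hc
      have hQn : Q₀.Normal := by
        rw [← Subgroup.normalizer_eq_top_iff]
        have hfrat : Subgroup.normalizer (Q₀ : Set G) ⊔ U = ⊤ := by
          have := hUn
          exact Sylow.normalizer_sup_eq_top P
        rw [eq_top_iff, ← hfrat]
        refine sup_le le_rfl (hUle.trans (sup_le ?_ Subgroup.le_normalizer))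
        intro k hk
        rw [Subgroup.mem_set_normalizer_iff]
        intro q
        constructor
        · intro hq
          rw [hKQ k hk q hq]
          exact hq
        · intro hq
          have h1 := hKQ k⁻¹ (K.inv_mem hk) _ hq
          have e : k⁻¹ * (k * q * k⁻¹) * k⁻¹⁻¹ = q := by group
          rw [e] at h1
          rw [h1]
          exact hq
      exact ⟨Q₀, hQn, hQp, hQU, hQi⟩
    · obtain ⟨N, hNn, hN1, hNA, hNmin⟩ := rns_exists_min_normal A hAn hA1
      have := hNn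
      have hNKp : N ≤ rnsK p G := hNA.trans inf_le_left
      have hNK : N ≤ K := hNA.trans inf_le_right
      have : Group.IsSolvable ↥N :=
        Group.isSolvable_of_isSolvable_injective (Subgroup.inclusion_injective hNKp)
      have hcomm : ⁅N, N⁆ = ⊥ := by
        have hlt := rns_comm_lt N hN1
        rcases hNmin ⁅N, N⁆ (Subgroup.commutator_normal N N) hlt.le with h | h
        · exact h
        · exact absurd h hlt.ne
      have hNab : ∀ a ∈ N, ∀ b ∈ N, a * b = b * a := by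
        intro a ha b hb
        have h1 := (Subgroup.commutator_eq_bot_iff_le_centralizer.1 hcomm) ha
        rw [Subgroup.mem_centralizer_iff] at h1
        exact (h1 b hb).symm
      obtain ⟨Sbar, hSn, hSp, hSU, hSi⟩ := hquot N hN1 hNK
      set π := QuotientGroup.mk' N with hπ
      set R₁ : Subgroup G := Sbar.comap π with hR₁
      have hR1n : R₁.Normal := hSn.comap π
      have hR1U : R₁ ≤ U := hpull N (hNK.trans hKU) Sbar hSU
      have hR1i : ¬ p ∣ R₁.relIndex U := by
        rw [hR₁, Subgroup.relIndex_comap]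
        exact hSi
      have hR1p : IsPGroup p ↥(R₁.map π) := hSp.to_le (Subgroup.map_comap_le π Sbar)
      obtain ⟨P⟩ := (inferInstance : Nonempty (Sylow p ↥R₁))
      set Q₀ : Subgroup G := (P : Subgroup ↥R₁).map R₁.subtype with hQ₀
      have hQp : IsPGroup p ↥Q₀ := P.2.map _
      have hQR : Q₀ ≤ R₁ := Subgroup.map_subtype_le _
      have hQi : ¬ p ∣ Q₀.relIndex R₁ := by
        have e : Q₀.subgroupOf R₁ = (P : Subgroup ↥R₁) :=
          Subgroup.comap_map_eq_self_of_injective (Subgroup.subtype_injective _) _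
        rw [Subgroup.relIndex, e]
        exact P.not_dvd_index
      by_cases hQn : Q₀.Normal
      · refine ⟨Q₀, hQn, hQp, hQR.trans hR1U, ?_⟩
        rw [← Subgroup.relIndex_mul_relIndex Q₀ R₁ U hQR hR1U]
        exact Nat.Prime.not_dvd_mul hp.out hQi hR1i
      · exfalso
        obtain ⟨H, hdisj, hprod, hcentr, hV⟩ :=
          rns_struct p N hN1 hNab hNmin R₁ hR1n hR1p P hQn
        by_cases hex : ∃ t : G, (∃ j : ℕ, orderOf t = 2 ^ j) ∧
            t ∉ Subgroup.centralizer (N : Set G)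
        · obtain ⟨t, ⟨j, hj⟩, htC⟩ := hex
          obtain ⟨s, f, m₀, hf1, hinv⟩ := rns_inverting N hNab t j hj htC
          exact rns_contra p hreal N H hdisj hprod Q₀ hQp hV f m₀ hf1 s hinv
        · push Not at hex
          by_cases heven : 2 ∣ Nat.card N
          · have hexp := rns_exp_two N hNab hNmin heven
            obtain ⟨m₀, hm₀'⟩ := (Subgroup.ne_bot_iff_exists_ne_one).1 hN1
            obtain ⟨f, hf⟩ := Helper4.exists_hom_ne_one_of_comm (H := ↥N)
              (fun a b => Subtype.ext (hNab a a.2 b b.2)) hm₀'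
            refine rns_contra p hreal N H hdisj hprod Q₀ hQp hV f m₀ hf 1 ?_
            intro n
            have e : (⟨1 * (n : G) * 1⁻¹, hNn.conj_mem n n.2 1⟩ : ↥N) = n := by
              apply Subtype.ext
              simp
            rw [e]
            have h2 : f n * f n = 1 := by
              rw [← map_mul]
              have h3 : n * n = 1 := Subtype.ext (hexp n n.2)
              rw [h3, map_one]
            exact eq_inv_of_mul_eq_one_left h2
          · have hKR : ∀ x ∈ K, x ∈ R₁ → x ∈ N := by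
              intro x hxK hxR
              obtain ⟨k, hk⟩ := hSp ⟨π x, hxR⟩
              have h1 : x ^ p ^ k ∈ N := by
                apply (QuotientGroup.eq_one_iff _).1
                have h2 : π (x ^ p ^ k) = 1 := by
                  rw [map_pow]
                  exact congrArg Subtype.val hk
                exact h2
              have hcop : Nat.Coprime (p ^ k) (orderOf x) := by
                apply Nat.Coprime.pow_left
                rw [Nat.Prime.coprime_iff_not_dvd hp.out]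
                intro hdvd
                apply hKp'
                have h2 : orderOf x ∣ Nat.card K := by
                  have h3 := orderOf_dvd_natCard (⟨x, hxK⟩ : ↥K)
                  rwa [Subgroup.orderOf_mk] at h3
                exact hdvd.trans h2
              obtain ⟨m, hm⟩ := exists_pow_eq_self_of_coprime hcop
              rw [← hm]
              exact N.pow_mem h1 m
            apply hcentr
            intro q hq m hm
            have hKq : K ≤ Subgroup.centralizer ({q} : Set G) := by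
              rw [hK, Subgroup.closure_le]
              rintro t ⟨j, hj⟩
              have htK : t ∈ K := Subgroup.subset_closure ⟨j, hj⟩
              have htN := hex t ⟨j, hj⟩
              have hcN : q * t * q⁻¹ * t⁻¹ ∈ N := by
                have hcK : q * t * q⁻¹ * t⁻¹ ∈ K :=
                  K.mul_mem (hK2n.conj_mem t htK q) (K.inv_mem htK)
                have hcR : q * t * q⁻¹ * t⁻¹ ∈ R₁ := by
                  have e : q * t * q⁻¹ * t⁻¹ = q * (t * q⁻¹ * t⁻¹) := by group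
                  rw [e]
                  exact R₁.mul_mem (hQR hq) (hR1n.conj_mem _ (R₁.inv_mem (hQR hq)) t)
                exact hKR _ hcK hcR
              have hct : Commute (q * t * q⁻¹ * t⁻¹) t :=
                Subgroup.mem_centralizer_iff.1 htN _ hcN
              have hqt : q * t * q⁻¹ = (q * t * q⁻¹ * t⁻¹) * t := by group
              have h1 : ((q * t * q⁻¹ * t⁻¹) * t) ^ orderOf t = 1 := by
                rw [← hqt, conj_pow, pow_orderOf_eq_one]
                group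
              rw [hct.mul_pow, pow_orderOf_eq_one, mul_one] at h1
              have hd1 : orderOf (q * t * q⁻¹ * t⁻¹) ∣ 2 ^ j := by
                rw [← hj]
                exact orderOf_dvd_of_pow_eq_one h1
              have hd2 : orderOf (q * t * q⁻¹ * t⁻¹) ∣ Nat.card N := by
                have h3 := orderOf_dvd_natCard (⟨q * t * q⁻¹ * t⁻¹, hcN⟩ : ↥N)
                rwa [Subgroup.orderOf_mk] at h3
              have hc1 : orderOf (q * t * q⁻¹ * t⁻¹) = 1 := by
                have hcop : Nat.Coprime (2 ^ j) (Nat.card N) :=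
                  Nat.Coprime.pow_left j ((Nat.Prime.coprime_iff_not_dvd Nat.prime_two).2 heven)
                exact Nat.eq_one_of_dvd_coprimes hcop hd1 hd2
              rw [orderOf_eq_one_iff] at hc1
              show t ∈ Subgroup.centralizer ({q} : Set G)
              rw [Subgroup.mem_centralizer_iff]
              intro y hy
              rw [Set.mem_singleton_iff] at hy
              rw [hy]
              have h5 : q * t * q⁻¹ = t := by rw [hqt, hc1, one_mul]
              calc q * t = q * t * q⁻¹ * q := by group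
                _ = t * q := by rw [h5]
            have h6 := hKq (hNK hm)
            rw [Subgroup.mem_centralizer_iff] at h6
            exact h6 q rfl

theorem rns2_final {G : Type u} [Group G] [Finite G] (p : ℕ) [Fact p.Prime]
    (hsolv : Group.IsSolvable ↥(Subgroup.closure {g : G | ∃ k : ℕ, orderOf g = p ^ k}))
    (hreal : ∀ χ : Cfsg.IrrCharacter G, (∀ g : G, ((χ : G → ℂ) g).im = 0) →
      ¬ p ∣ Cfsg.charDegree (χ : G → ℂ))
    (U : Subgroup G) (hU : U.Normal)
    (hKU : (Subgroup.closure {g : G | ∃ k : ℕ, orderOf g = 2 ^ k}) ≤ U)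
    (hUp : ∃ a : ℕ, (Subgroup.closure {g : G | ∃ k : ℕ, orderOf g = 2 ^ k}).relIndex U = p ^ a)
    (Q : Sylow p ↥U) : (Q : Subgroup ↥U).Normal := by
  obtain ⟨S, hSn, hSp, hSU, hSi⟩ := rns2_main p (Nat.card G) G rfl hsolv hreal U hU hKU hUp
  have hS : (Q : Subgroup ↥U) = S.subgroupOf U :=
    Helper79.sylow_coe_eq_of_normal Q (S.subgroupOf U) (hSn.subgroupOf _)
      (hSp.comap_subtype) hSi
  rw [hS]
  exact hSn.subgroupOf _

end Cfsg.Agent.Helper82
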