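import Mathlib
import Cfsg.Agent.Helper3.BrauerPerm2
import Cfsg.Agent.Helper76.PPrimeKer
import Cfsg.Agent.Helper79.Quotient

/-!
# Real elements in normal subgroups inside `P'` (helper82)

* `realLift_exists`: real elements lift modulo a normal subgroup of odd order.
* `realCentral_no_real`: `p` odd, every real-valued irreducible character of `p'`-degree, `M` normal
  in `G` and contained in `P'` for a Sylow `p`-subgroup `P`: no nontrivial element of `M` is real
  in `G`.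
* `realCentral_final`: then every `2`-element centralizes `M`.
-/

set_option autoImplicit false

namespace Cfsg.Agent.Helper82

open Cfsg

universe u

theorem realLift_conj_odd_pow {H : Type*} [Group H] (g x : H) (h : g * x * g⁻¹ = x⁻¹) (k : ℕ) :
    g ^ (2 * k + 1) * x * (g ^ (2 * k + 1))⁻¹ = x⁻¹ := by
  have h2 : Commute (g * g) x := by
    show g * g * x = x * (g * g)
    have e : g * g * x = g * (g * x * g⁻¹) * g⁻¹ * (g * g) := by group
    rw [e, h]
    have e2 : g * x⁻¹ * g⁻¹ = (g * x * g⁻¹)⁻¹ := by group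
    rw [e2, h, inv_inv]
  have h3 : Commute ((g * g) ^ k) x := h2.pow_left k
  have e : g ^ (2 * k + 1) = g * (g * g) ^ k := by
    rw [pow_succ', ← pow_two, ← pow_mul]
  rw [e]
  calc g * (g * g) ^ k * x * (g * (g * g) ^ k)⁻¹
      = g * ((g * g) ^ k * x) * ((g * g) ^ k)⁻¹ * g⁻¹ := by group
    _ = g * (x * (g * g) ^ k) * ((g * g) ^ k)⁻¹ * g⁻¹ := by rw [h3.eq]
    _ = g * x * g⁻¹ := by group
    _ = x⁻¹ := h

theorem realLift_exists {G : Type*} [Group G] [Finite G] (M : Subgroup G) [hM : M.Normal]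
    (hodd : Odd (Nat.card M)) (x : G)
    (hx : IsConj (QuotientGroup.mk' M x) (QuotientGroup.mk' M x)⁻¹) :
    ∃ y : G, QuotientGroup.mk' M y = QuotientGroup.mk' M x ∧ IsConj y y⁻¹ := by
  classical
  have : Fact (Nat.Prime 2) := ⟨Nat.prime_two⟩
  obtain ⟨c, hc⟩ := isConj_iff.1 hx
  obtain ⟨g₀, rfl⟩ := QuotientGroup.mk'_surjective M c
  obtain ⟨a, r, hr, hord⟩ := Nat.exists_eq_two_pow_mul_odd (orderOf_pos g₀).ne'
  obtain ⟨k, rfl⟩ := hr
  set g := g₀ ^ (2 * k + 1) with hg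
  have hg2 : g ^ 2 ^ a = 1 := by
    rw [hg, ← pow_mul, mul_comm, ← hord, pow_orderOf_eq_one]
  have hgx : g * x * g⁻¹ * x ∈ M := by
    have h1 := realLift_conj_odd_pow _ _ hc k
    rw [← map_pow, ← hg] at h1
    apply (QuotientGroup.eq_one_iff _).1
    have h2 : ((g * x * g⁻¹ * x : G) : G ⧸ M)
        = QuotientGroup.mk' M g * QuotientGroup.mk' M x * (QuotientGroup.mk' M g)⁻¹
          * QuotientGroup.mk' M x := rfl
    rw [h2, h1, inv_mul_cancel]
  let α : Type _ := {y : G // x⁻¹ * y ∈ M}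
  let _ : Fintype α := Fintype.ofFinite α
  have hmem : ∀ y : α, x⁻¹ * (g * (y : G)⁻¹ * g⁻¹) ∈ M := by
    intro y
    have e : x⁻¹ * (g * (y : G)⁻¹ * g⁻¹)
        = (x⁻¹ * (g * (x⁻¹ * (y : G))⁻¹ * g⁻¹) * x) * (g * x * g⁻¹ * x)⁻¹ := by group
    rw [e]
    exact M.mul_mem (hM.conj_mem' _ (hM.conj_mem _ (M.inv_mem y.2) g) x) (M.inv_mem hgx)
  let τ : Function.End α := fun y => ⟨g * (y : G)⁻¹ * g⁻¹, hmem y⟩
  have key : ∀ (n : ℕ) (y : α), ((((τ * τ) ^ n : Function.End α) y : α) : G)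
      = (g * g) ^ n * (y : G) * ((g * g) ^ n)⁻¹ := by
    intro n
    induction n with
    | zero =>
      intro y
      rw [pow_zero, pow_zero]
      show (y : G) = 1 * (y : G) * 1⁻¹
      group
    | succ n ih =>
      intro y
      rw [pow_succ]
      show ((((τ * τ) ^ n : Function.End α) (τ (τ y)) : α) : G) = _
      rw [ih]
      show (g * g) ^ n * (g * (g * (y : G)⁻¹ * g⁻¹)⁻¹ * g⁻¹) * ((g * g) ^ n)⁻¹ = _
      rw [pow_succ]
      group
  have hτ : τ ^ 2 ^ (a + 1) = 1 := by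
    funext y
    apply Subtype.ext
    rw [pow_succ, mul_comm, pow_mul, pow_two, key]
    have e : (g * g) ^ 2 ^ a = 1 := by
      rw [← pow_two, ← pow_mul, mul_comm, pow_mul, hg2, one_pow]
    rw [e]
    show 1 * (y : G) * 1⁻¹ = (y : G)
    group
  have hmod := Equiv.Perm.card_fixedPoints_modEq (f := τ) (p := 2) (n := a + 1) hτ
  have hcard : Fintype.card α = Nat.card M := by
    rw [← Nat.card_eq_fintype_card]
    apply Nat.card_congr
    exact
      { toFun := fun y => ⟨x⁻¹ * (y : G), y.2⟩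
        invFun := fun m => ⟨x * (m : G), by simp⟩
        left_inv := fun y => by apply Subtype.ext; simp
        right_inv := fun m => by apply Subtype.ext; simp }
  have hne : Fintype.card (Function.fixedPoints τ) ≠ 0 := by
    intro h0
    rw [h0, hcard] at hmod
    have h1 : Nat.card M % 2 = 1 := Nat.odd_iff.1 hodd
    have h2 : Nat.card M % 2 = 0 % 2 := hmod
    omega
  obtain ⟨⟨y, hy⟩⟩ := Fintype.card_pos_iff.1 (Nat.pos_of_ne_zero hne)
  refine ⟨(y : G), ?_, ?_⟩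
  · have h1 : ((x⁻¹ * (y : G) : G) : G ⧸ M) = 1 := (QuotientGroup.eq_one_iff _).2 y.2
    have h2 : ((x⁻¹ * (y : G) : G) : G ⧸ M)
        = (QuotientGroup.mk' M x)⁻¹ * QuotientGroup.mk' M (y : G) := rfl
    rw [h2] at h1
    exact (inv_mul_eq_one.1 h1).symm
  · have h1 : g * (y : G)⁻¹ * g⁻¹ = (y : G) := congrArg Subtype.val hy
    exact (isConj_iff.2 ⟨g, h1⟩).symm

theorem realCentral_real_iff {H : Type*} [Group H] (g : H) :
    (∀ g' : H, ConjClasses.mk g' = ConjClasses.mk g → IsConj g' g'⁻¹) ↔ IsConj g g⁻¹ := by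
  constructor
  · intro h
    exact h g rfl
  · intro hg g' hg'
    rw [ConjClasses.mk_eq_mk_iff_isConj] at hg'
    obtain ⟨c, hc⟩ := isConj_iff.mp hg'
    have h1 : IsConj g'⁻¹ g⁻¹ := isConj_iff.mpr ⟨c, by rw [← hc]; group⟩
    exact (hg'.trans hg).trans h1.symm

theorem realCentral_no_real {G : Type u} [Group G] [Finite G] (p : ℕ) [hpp : Fact p.Prime]
    (hp : p ≠ 2)
    (hreal : ∀ χ : IrrCharacter G, (∀ g : G, ((χ : G → ℂ) g).im = 0) →
      ¬ p ∣ charDegree (χ : G → ℂ))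
    (P : Sylow p G) (M : Subgroup G) (hM : M.Normal)
    (hMP : M ≤ ⁅(P : Subgroup G), (P : Subgroup G)⁆) :
    ∀ m ∈ M, IsConj m m⁻¹ → m = 1 := by
  classical
  have := hM
  -- `M` has odd order
  have hMP' : M ≤ (P : Subgroup G) := hMP.trans (Subgroup.commutator_le_self _)
  have hMp : IsPGroup p ↥M := P.2.to_le hMP'
  obtain ⟨k, hk⟩ := IsPGroup.iff_card.1 hMp
  have hodd : Odd (Nat.card M) := by
    rw [hk]
    exact (hpp.out.odd_of_ne_two hp).pow
  -- real characters have `M` in the kernel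
  have hker : ∀ χ : IrrCharacter G, (∀ g : G, ((χ : G → ℂ) g).im = 0) →
      ∀ m ∈ M, (χ : G → ℂ) m = (χ : G → ℂ) 1 := by
    intro χ hχ
    exact Helper76.irr_apply_eq_of_le_sup_commutator (P : Subgroup G) P.2 χ (hreal χ hχ) ⊥
      (by
        intro n hn
        rw [Subgroup.mem_bot] at hn
        rw [hn]) M (hMP.trans le_sup_right)
  set π := QuotientGroup.mk' M with hπ
  -- the real characters of `G` and of `G ⧸ M`
  have hcardIrr : Nat.card {ψ : IrrCharacter (G ⧸ M) // ∀ q : G ⧸ M, ((ψ : G ⧸ M → ℂ) q).im = 0}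
      = Nat.card {χ : IrrCharacter G // ∀ g : G, ((χ : G → ℂ) g).im = 0} := by
    let F : {ψ : IrrCharacter (G ⧸ M) // ∀ q : G ⧸ M, ((ψ : G ⧸ M → ℂ) q).im = 0} →
        {χ : IrrCharacter G // ∀ g : G, ((χ : G → ℂ) g).im = 0} :=
      fun ψ => ⟨(Helper79.irrQuotientEquiv M ψ.1).1, fun g => ψ.2 (g : G ⧸ M)⟩
    apply Nat.card_eq_of_bijective F
    constructor
    · intro ψ₁ ψ₂ h
      apply Subtype.ext
      apply (Helper79.irrQuotientEquiv M).injective
      apply Subtype.ext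
      have h' : ((Helper79.irrQuotientEquiv M ψ₁.1).1 : IrrCharacter G)
          = (Helper79.irrQuotientEquiv M ψ₂.1).1 :=
        congrArg (fun z : {χ : IrrCharacter G // ∀ g : G, ((χ : G → ℂ) g).im = 0} =>
          (z.1 : IrrCharacter G)) h
      exact h'
    · intro χ
      have h1 := hker χ.1 χ.2
      refine ⟨⟨(Helper79.irrQuotientEquiv M).symm ⟨χ.1, h1⟩, ?_⟩, ?_⟩
      · intro q
        obtain ⟨g, rfl⟩ := QuotientGroup.mk_surjective q
        rw [Helper79.irrQuotientEquiv_symm_apply]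
        exact χ.2 g
      · apply Subtype.ext
        show ((Helper79.irrQuotientEquiv M) ((Helper79.irrQuotientEquiv M).symm ⟨χ.1, h1⟩)).1
          = χ.1
        rw [Equiv.apply_symm_apply]
  have hcardCl : Nat.card {C : ConjClasses G // ∀ g : G, ConjClasses.mk g = C → IsConj g g⁻¹}
      = Nat.card {C : ConjClasses (G ⧸ M) //
          ∀ g : G ⧸ M, ConjClasses.mk g = C → IsConj g g⁻¹} := by
    rw [← Helper3.card_real_irr_eq, ← Helper3.card_real_irr_eq, hcardIrr]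
  -- the map on real classes
  have hwd : ∀ C : {C : ConjClasses G // ∀ g : G, ConjClasses.mk g = C → IsConj g g⁻¹},
      ∀ q : G ⧸ M, ConjClasses.mk q = ConjClasses.map π C.1 → IsConj q q⁻¹ := by
    rintro ⟨C, hC⟩
    obtain ⟨g, rfl⟩ := ConjClasses.exists_rep C
    have hg : IsConj g g⁻¹ := hC g rfl
    have hπg : IsConj (π g) (π g)⁻¹ := by
      have := π.map_isConj hg
      rwa [map_inv] at this
    exact (realCentral_real_iff (π g)).2 hπg
  let Φ : {C : ConjClasses G // ∀ g : G, ConjClasses.mk g = C → IsConj g g⁻¹} →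
      {C : ConjClasses (G ⧸ M) // ∀ g : G ⧸ M, ConjClasses.mk g = C → IsConj g g⁻¹} :=
    fun C => ⟨ConjClasses.map π C.1, hwd C⟩
  have hsurj : Function.Surjective Φ := by
    rintro ⟨D, hD⟩
    obtain ⟨q, rfl⟩ := ConjClasses.exists_rep D
    obtain ⟨x, rfl⟩ := QuotientGroup.mk'_surjective M q
    obtain ⟨y, hy1, hy2⟩ := realLift_exists M hodd x (hD _ rfl)
    refine ⟨⟨ConjClasses.mk y, (realCentral_real_iff y).2 hy2⟩, ?_⟩
    apply Subtype.ext
    show ConjClasses.mk (π y) = ConjClasses.mk (QuotientGroup.mk' M x)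
    rw [hπ, hy1]
  have hinj : Function.Injective Φ :=
    ((Nat.bijective_iff_surjective_and_card Φ).2 ⟨hsurj, hcardCl⟩).1
  intro m hm hreal'
  have h1 : IsConj (1 : G) (1 : G)⁻¹ := by rw [inv_one]
  have h2 : Φ ⟨ConjClasses.mk m, (realCentral_real_iff m).2 hreal'⟩
      = Φ ⟨ConjClasses.mk 1, (realCentral_real_iff 1).2 h1⟩ := by
    apply Subtype.ext
    show ConjClasses.mk (π m) = ConjClasses.mk (π 1)
    have e1 : π m = 1 := (QuotientGroup.eq_one_iff m).2 hm
    rw [e1, map_one]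
  have h3 := congrArg Subtype.val (hinj h2)
  rw [ConjClasses.mk_eq_mk_iff_isConj] at h3
  exact isConj_one_left.1 h3

theorem realCentral_final {G : Type u} [Group G] [Finite G] (p : ℕ) [hpp : Fact p.Prime]
    (hp : p ≠ 2)
    (hreal : ∀ χ : IrrCharacter G, (∀ g : G, ((χ : G → ℂ) g).im = 0) →
      ¬ p ∣ charDegree (χ : G → ℂ))
    (P : Sylow p G) (M : Subgroup G) (hM : M.Normal)
    (hMP : M ≤ ⁅(P : Subgroup G), (P : Subgroup G)⁆) :
    Subgroup.closure {g : G | ∃ k : ℕ, orderOf g = 2 ^ k} ≤ Subgroup.centralizer (M : Set G) := by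
  have hno := realCentral_no_real p hp hreal P M hM hMP
  rw [Subgroup.closure_le]
  rintro t ⟨j, hj⟩
  by_contra htC
  set C := Subgroup.centralizer (M : Set G) with hC
  have htC' : t ∉ C := htC
  have hexi : ∃ i : ℕ, t ^ 2 ^ i ∈ C :=
    ⟨j, by rw [← hj, pow_orderOf_eq_one]; exact C.one_mem⟩
  classical
  set i := Nat.find hexi with hi
  have hi0 : i ≠ 0 := by
    intro h0
    have h1 := Nat.find_spec hexi
    rw [← hi, h0, pow_zero, pow_one] at h1
    exact htC' h1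
  set s := t ^ 2 ^ (i - 1) with hs
  have hsC : s ∉ C := Nat.find_min hexi (by omega : i - 1 < i)
  have hs2 : s * s ∈ C := by
    have h1 := Nat.find_spec hexi
    rw [← hi] at h1
    have e : s * s = t ^ 2 ^ i := by
      rw [hs, ← pow_add, ← two_mul, ← pow_succ']
      congr 2
      omega
    rw [e]; exact h1
  obtain ⟨m₀, hm₀, hne⟩ : ∃ m₀ ∈ M, m₀ * s ≠ s * m₀ := by
    by_contra hcon
    push Not at hcon
    exact hsC (Subgroup.mem_centralizer_iff.2 hcon)
  have hs2c : s * (s * m₀ * s⁻¹) * s⁻¹ = m₀ := by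
    have h1 := Subgroup.mem_centralizer_iff.1 hs2 m₀ hm₀
    calc s * (s * m₀ * s⁻¹) * s⁻¹ = ((s * s) * m₀) * (s * s)⁻¹ := by group
      _ = m₀ := by rw [← h1, mul_inv_cancel_right]
  have hmM : m₀⁻¹ * (s * m₀ * s⁻¹) ∈ M := M.mul_mem (M.inv_mem hm₀) (hM.conj_mem m₀ hm₀ s)
  have hconj : IsConj (m₀⁻¹ * (s * m₀ * s⁻¹)) (m₀⁻¹ * (s * m₀ * s⁻¹))⁻¹ := by
    rw [isConj_iff]
    refine ⟨s, ?_⟩
    calc s * (m₀⁻¹ * (s * m₀ * s⁻¹)) * s⁻¹
        = (s * m₀ * s⁻¹)⁻¹ * (s * (s * m₀ * s⁻¹) * s⁻¹) := by group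
      _ = (s * m₀ * s⁻¹)⁻¹ * m₀ := by rw [hs2c]
      _ = (m₀⁻¹ * (s * m₀ * s⁻¹))⁻¹ := by group
  have h1 := hno _ hmM hconj
  apply hne
  have h2 : s * m₀ * s⁻¹ = m₀ := by
    have := inv_mul_eq_one.1 h1
    exact this.symm
  calc m₀ * s = s * m₀ * s⁻¹ * s := by rw [h2]
    _ = s * m₀ := by group

end Cfsg.Agent.Helper82
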