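import Mathlib
import Cfsg.Agent.Helper82.RNSylow
import Cfsg.Agent.Helper82.RealCentral
import Cfsg.Agent.Helper3.BrauerPerm2
import Cfsg.Agent.Helper3.Induced
import Cfsg.Agent.Helper15.RamGen
import Cfsg.Agent.Helper75.InnerLin
import Cfsg.Agent.Helper75.ConjFun
import Cfsg.Agent.Helper79.Induced

/-!
# Real classes and Sylow normalizers (helper82)

Tools for: if the subgroup generated by the `p`-elements of `G` is solvable and every real-valued
irreducible character of `G` has degree prime to `p`, then every real element of `G` normalizes a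
Sylow `p`-subgroup.

* `realNorm_sum_odd_fixed`: an odd sum of an involution-invariant weight has an odd fixed point.
* `realNorm_exists_real_over`: over a real irreducible character of a normal subgroup of odd index
  lies a real irreducible character.
* `realNorm_pass`: the hypotheses pass to normal subgroups of odd index.
* `realNorm_extends`: if the index is a power of `p`, real irreducible characters of the normal
  subgroup are restrictions of irreducible characters of `G`.
* `realNorm_real_sub`: real elements lie in, and are real in, normal subgroups of odd index.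
* `realNorm_class_invariant`: a twisted form of Brauer's permutation lemma.
-/

set_option autoImplicit false

namespace Cfsg.Agent.Helper82

open Cfsg
open scoped ComplexConjugate

universe u

theorem realNorm_sum_odd_fixed {ι : Type*} [Fintype ι] (σ : ι → ι) (hσ : ∀ i, σ (σ i) = i)
    (n : ι → ℕ) (hn : ∀ i, n (σ i) = n i) (hodd : Odd (∑ i, n i)) :
    ∃ i, σ i = i ∧ Odd (n i) := by
  classical
  by_contra hcon
  push Not at hcon
  have h0 : ∑ i, ((n i : ℕ) : ZMod 2) = 0 := by
    apply Finset.sum_involution (fun i _ => σ i)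
    · intro i _
      rw [hn i]
      exact CharTwo.add_self_eq_zero _
    · intro i _ hne hfix
      apply hne
      have := hcon i hfix
      rw [Nat.not_odd_iff_even] at this
      exact ZMod.natCast_eq_zero_iff_even.2 this
    · intro i _
      exact Finset.mem_univ _
    · intro i _
      exact hσ i
  rw [← Nat.cast_sum, ZMod.natCast_eq_zero_iff_even] at h0
  exact (Nat.not_odd_iff_even.2 h0) hodd

theorem realNorm_exists_real_over {G : Type*} [Group G] [Fintype G] (N : Subgroup G)
    [hN : N.Normal] [Fintype N] (hodd : Odd N.index) (θ : IrrCharacter ↥N)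
    (hθ : ∀ n : N, ((θ : N → ℂ) n).im = 0) :
    ∃ χ : IrrCharacter G, (∀ g : G, ((χ : G → ℂ) g).im = 0) ∧
      classInner (fun n : N => (χ : G → ℂ) n) (θ : N → ℂ) ≠ 0 := by
  classical
  let _ : Fintype (IrrCharacter G) := Fintype.ofFinite _
  have hθc : IsCharacter N (θ : N → ℂ) := Helper80.isCharacter_of_irr θ.2
  have hθ1 : (θ : N → ℂ) 1 ≠ 0 := Helper80.irr_one_ne_zero θ
  have hind : IsCharacter G (indFun N (θ : N → ℂ)) := Helper3.isCharacter_indFun N _ hθc
  -- multiplicities
  have hm : ∀ χ : IrrCharacter G, ∃ m : ℕ,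
      classInner (θ : N → ℂ) (fun n : N => (χ : G → ℂ) n) = (m : ℂ) := fun χ =>
    Helper3.classInner_isCharacter_nat hθc
      (Helper79.isCharacter_restrict (Helper80.isCharacter_of_irr χ.2) N)
  choose m hm using hm
  have hm' : ∀ χ : IrrCharacter G,
      classInner (fun n : N => (χ : G → ℂ) n) (θ : N → ℂ) = (m χ : ℂ) := by
    intro χ
    rw [Helper79.classInner_conj_symm, hm χ, Complex.conj_natCast]
  -- degree ratios
  have hk : ∀ χ : IrrCharacter G, ∃ k : ℕ, m χ ≠ 0 → (χ : G → ℂ) 1 = k * (θ : N → ℂ) 1 := by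
    intro χ
    by_cases h0 : m χ = 0
    · exact ⟨0, fun h => absurd h0 h⟩
    · have hne : classInner (fun n : N => (χ : G → ℂ) n) (θ : N → ℂ) ≠ 0 := by
        rw [hm' χ]
        exact_mod_cast h0
      obtain ⟨k, hk, -⟩ := Helper15.degree_eq_mul_of_constituent N (χ : G → ℂ) χ.2
        (θ : N → ℂ) θ.2 hne
      exact ⟨k, fun _ => hk⟩
  choose k hk using hk
  -- the weight
  have hsum : ((∑ χ : IrrCharacter G, m χ * k χ : ℕ) : ℂ) = (N.index : ℂ) := by
    have h1 := congrFun (Helper75.character_eq_sum_irr hind) 1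
    rw [Helper75.indFun_one, Finset.sum_apply] at h1
    have h2 : ∀ χ : IrrCharacter G,
        (classInner (indFun N (θ : N → ℂ)) (χ : G → ℂ) • (χ : G → ℂ)) 1
          = ((m χ * k χ : ℕ) : ℂ) * (θ : N → ℂ) 1 := by
      intro χ
      rw [Pi.smul_apply, smul_eq_mul, Helper3.frobenius_reciprocity N _ _
        (Helper79.isCharacter_isClassFunction (Helper80.isCharacter_of_irr χ.2)), hm χ]
      by_cases h0 : m χ = 0
      · rw [h0]; simp
      · rw [hk χ h0]; push_cast; ring
    rw [Finset.sum_congr rfl (fun χ _ => h2 χ), ← Finset.sum_mul] at h1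
    have h3 : (Nat.card G : ℂ) / (Nat.card N : ℂ) = (N.index : ℂ) := by
      have hc : (Nat.card N : ℂ) ≠ 0 := by exact_mod_cast Nat.card_pos.ne'
      rw [div_eq_iff hc, ← Nat.cast_mul, mul_comm, Subgroup.card_mul_index]
    rw [h3] at h1
    have h4 := mul_right_cancel₀ hθ1 h1
    rw [h4, Nat.cast_sum]
  have hsumN : ∑ χ : IrrCharacter G, m χ * k χ = N.index := by exact_mod_cast hsum
  -- invariance under conjugation
  have hmc : ∀ χ : IrrCharacter G, m (Helper3.conjIrr χ) = m χ := by
    intro χ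
    have h1 : classInner (θ : N → ℂ) (fun n : N => (Helper3.conjIrr χ : G → ℂ) n)
        = conj (classInner (θ : N → ℂ) (fun n : N => (χ : G → ℂ) n)) := by
      unfold classInner
      rw [map_mul, map_sum, map_inv₀, Complex.conj_natCast]
      congr 1
      apply Finset.sum_congr rfl
      intro n _
      show (θ : N → ℂ) n * conj ((Helper3.conjIrr χ : G → ℂ) n)
        = conj ((θ : N → ℂ) n * conj ((χ : G → ℂ) n))
      rw [map_mul, Helper3.conjIrr_apply, Complex.conj_conj,
        Complex.conj_eq_iff_im.2 (hθ n)]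

    rw [hm, hm, Complex.conj_natCast] at h1
    exact_mod_cast h1
  have hkc : ∀ χ : IrrCharacter G, m χ * k (Helper3.conjIrr χ) = m χ * k χ := by
    intro χ
    by_cases h0 : m χ = 0
    · rw [h0, zero_mul, zero_mul]
    · congr 1
      have h1 := hk χ h0
      have h2 := hk (Helper3.conjIrr χ) (by rw [hmc]; exact h0)
      rw [Helper3.conjIrr_apply, h1, map_mul, Complex.conj_natCast,
        Complex.conj_eq_iff_im.2 (hθ 1)] at h2
      have h3 := mul_right_cancel₀ hθ1 h2
      exact_mod_cast h3.symm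
  obtain ⟨χ, hfix, hoddχ⟩ := realNorm_sum_odd_fixed Helper3.conjIrr Helper3.conjIrr_conjIrr
    (fun χ => m χ * k χ) (fun χ => by rw [hmc, hkc]) (by rw [hsumN]; exact hodd)
  refine ⟨χ, (Helper3.conjIrr_eq_iff χ).1 hfix, ?_⟩
  rw [hm' χ]
  have : m χ ≠ 0 := by
    rintro h0
    rw [h0, zero_mul] at hoddχ
    exact (Nat.not_odd_iff_even.2 ⟨0, rfl⟩) hoddχ
  exact_mod_cast this

theorem realNorm_degree_dvd {G : Type*} [Group G] [Fintype G] (N : Subgroup G)
    [hN : N.Normal] [Fintype N] (χ : IrrCharacter G) (θ : IrrCharacter ↥N)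
    (hne : classInner (fun n : N => (χ : G → ℂ) n) (θ : N → ℂ) ≠ 0) :
    ∃ k : ℕ, charDegree (χ : G → ℂ) = k * charDegree (θ : N → ℂ) ∧ k ∣ N.index := by
  obtain ⟨k, hk, hkd⟩ := Helper15.degree_eq_mul_of_constituent N (χ : G → ℂ) χ.2
    (θ : N → ℂ) θ.2 hne
  refine ⟨k, ?_, hkd⟩
  rw [Helper80.irr_one_eq χ, Helper80.irr_one_eq θ] at hk
  exact_mod_cast hk

theorem realNorm_pass {G : Type u} [Group G] [Finite G] (p : ℕ) [Fact p.Prime]
    (N : Subgroup G) [hN : N.Normal] (hodd : Odd N.index)
    (hsolv : Group.IsSolvable ↥(rnsK p G))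
    (hreal : ∀ χ : IrrCharacter G, (∀ g : G, ((χ : G → ℂ) g).im = 0) →
      ¬ p ∣ charDegree (χ : G → ℂ)) :
    Group.IsSolvable ↥(rnsK p ↥N) ∧
      ∀ θ : IrrCharacter ↥N, (∀ n : N, ((θ : N → ℂ) n).im = 0) →
        ¬ p ∣ charDegree (θ : N → ℂ) := by
  classical
  let _ : Fintype G := Fintype.ofFinite G
  constructor
  · have hle : (rnsK p ↥N).map N.subtype ≤ rnsK p G := by
      rw [Subgroup.map_le_iff_le_comap, Subgroup.closure_le]
      rintro g ⟨j, hj⟩
      show N.subtype g ∈ rnsK p G
      apply Subgroup.subset_closure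
      refine ⟨j, ?_⟩
      rw [← hj]
      exact Subgroup.orderOf_coe g
    have h1 : Group.IsSolvable ↥((rnsK p ↥N).map N.subtype) :=
      Group.isSolvable_of_isSolvable_injective (Subgroup.inclusion_injective hle)
    exact Group.isSolvable_of_isSolvable_injective
      (f := ((rnsK p ↥N).equivMapOfInjective N.subtype (Subgroup.subtype_injective N)).toMonoidHom)
      (MulEquiv.injective _)
  · intro θ hθ hdvd
    obtain ⟨χ, hχ, hne⟩ := realNorm_exists_real_over N hodd θ hθ
    obtain ⟨k, hk, -⟩ := realNorm_degree_dvd N χ θ hne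
    apply hreal χ hχ
    rw [hk]
    exact Dvd.dvd.mul_left hdvd k

theorem realNorm_extends {G : Type u} [Group G] [Finite G] (p : ℕ) [hp : Fact p.Prime]
    (N : Subgroup G) [hN : N.Normal] (hodd : Odd N.index) (a : ℕ) (hidx : N.index = p ^ a)
    (hreal : ∀ χ : IrrCharacter G, (∀ g : G, ((χ : G → ℂ) g).im = 0) →
      ¬ p ∣ charDegree (χ : G → ℂ))
    (θ : IrrCharacter ↥N) (hθ : ∀ n : N, ((θ : N → ℂ) n).im = 0) :
    ∃ χ : IrrCharacter G, ∀ n : N, (χ : G → ℂ) n = (θ : N → ℂ) n := by
  classical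
  let _ : Fintype G := Fintype.ofFinite G
  obtain ⟨χ, hχ, hne⟩ := realNorm_exists_real_over N hodd θ hθ
  obtain ⟨k, hk, hkd⟩ := realNorm_degree_dvd N χ θ hne
  have hpk : ¬ p ∣ k := by
    intro h
    apply hreal χ hχ
    rw [hk]
    exact Dvd.dvd.mul_right h _
  have hk1 : k = 1 := by
    rw [hidx] at hkd
    obtain ⟨j, -, hj⟩ := (Nat.dvd_prime_pow hp.out).1 hkd
    rcases Nat.eq_zero_or_pos j with h0 | hpos
    · rw [hj, h0, pow_zero]
    · exfalso
      apply hpk
      rw [hj]
      exact dvd_pow_self p hpos.ne'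
  rw [hk1, one_mul] at hk
  have hres : IsCharacter N (fun n : N => (χ : G → ℂ) n) :=
    Helper79.isCharacter_restrict (Helper80.isCharacter_of_irr χ.2) N
  have heq := Helper75.eq_irr_of_constituent_of_le hres θ hne (by
    have : charDegree (fun n : N => (χ : G → ℂ) n) = charDegree (χ : G → ℂ) := rfl
    rw [this, hk])
  exact ⟨χ, fun n => congrFun heq n⟩

theorem realNorm_real_sub {G : Type*} [Group G] [Finite G] (N : Subgroup G) [hN : N.Normal]
    (hodd : Odd N.index) (x : G) (hx : IsConj x x⁻¹) :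
    ∃ hxN : x ∈ N, IsConj (⟨x, hxN⟩ : ↥N) (⟨x, hxN⟩ : ↥N)⁻¹ := by
  have hxN : x ∈ N := by
    have h1 : IsConj (QuotientGroup.mk' N x) (QuotientGroup.mk' N x)⁻¹ := by
      have := (QuotientGroup.mk' N).map_isConj hx
      rwa [map_inv] at this
    have h2 : Odd (Nat.card (G ⧸ N)) := by
      rw [← Subgroup.index_eq_card]
      exact hodd
    have h3 := Helper3.eq_one_of_isConj_inv_of_odd h2 h1
    exact (QuotientGroup.eq_one_iff x).1 h3
  refine ⟨hxN, ?_⟩
  obtain ⟨g, hg⟩ := isConj_iff.1 hx
  obtain ⟨j, hj⟩ := hodd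
  have hgN : g ^ (2 * j + 1) ∈ N := by
    rw [← hj]
    exact Subgroup.pow_index_mem N g
  have hinv := realLift_conj_odd_pow g x hg j
  rw [isConj_iff]
  refine ⟨⟨g ^ (2 * j + 1), hgN⟩, ?_⟩
  apply Subtype.ext
  simpa using hinv

theorem realNorm_class_invariant {H : Type*} [Group H] [Finite H] (α : H ≃* H)
    (hA : ∀ χ : IrrCharacter H, (∀ g : H, ((χ : H → ℂ) g).im = 0) →
      ∀ g : H, (χ : H → ℂ) (α g) = (χ : H → ℂ) g)
    (hB : ∀ g : H, IsConj g (α g)⁻¹ → IsConj g g⁻¹) (x : H) (hx : IsConj x x⁻¹) :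
    IsConj x (α x) := by
  classical
  let _ : Fintype (IrrCharacter H) := Fintype.ofFinite _
  let _ : Fintype (ConjClasses H) := Fintype.ofFinite _
  let T : IrrCharacter H → IrrCharacter H := fun χ =>
    Helper3.conjIrr ⟨fun g => (χ : H → ℂ) (α g), (Helper79.isIrrCharacter_mulEquiv α).mpr χ.2⟩
  let P : ConjClasses H → Prop := fun C => ∀ g : H, ConjClasses.mk g = C → IsConj g (α g)⁻¹
  let R : ConjClasses H → Prop := fun C => ∀ g : H, ConjClasses.mk g = C → IsConj g g⁻¹
  have hPR : ∀ C, P C → R C := fun C hC g hg => hB g (hC g hg)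
  have hbr := Helper3.brauer_perm (fun g : H => (α g)⁻¹) T (fun χ g => by
      show conj ((χ : H → ℂ) (α g)) = (χ : H → ℂ) (α g)⁻¹
      exact (Helper80.isCharacter_inv (Helper80.isCharacter_of_irr χ.2) (α g)).symm) P
    (fun g => by
      constructor
      · intro hg g' hg'
        rw [ConjClasses.mk_eq_mk_iff_isConj] at hg'
        have h1 : IsConj (α g)⁻¹ (α g')⁻¹ := by
          have := α.toMonoidHom.map_isConj hg'.symm
          obtain ⟨c, hc⟩ := isConj_iff.1 this
          exact isConj_iff.2 ⟨c, by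
            have e : (α g')⁻¹ = (c * α g * c⁻¹)⁻¹ := by
              rw [show c * α g * c⁻¹ = α g' from hc]
            rw [e]; group⟩
        exact (hg'.trans hg).trans h1
      · intro h
        exact h g rfl)
  have hreal := Helper3.card_real_irr_eq (G := H)
  -- real characters are `T`-fixed
  have hle1 : Nat.card {χ : IrrCharacter H // ∀ g : H, ((χ : H → ℂ) g).im = 0}
      ≤ Nat.card {χ : IrrCharacter H // T χ = χ} := by
    apply Nat.card_le_card_of_injective
      (fun χ => (⟨χ.1, by
        apply Subtype.ext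
        funext g
        show conj ((χ.1 : H → ℂ) (α g)) = (χ.1 : H → ℂ) g
        rw [hA χ.1 χ.2 g]
        exact Complex.conj_eq_iff_im.2 (χ.2 g)⟩ : {χ : IrrCharacter H // T χ = χ}))
    intro a b hab
    exact Subtype.ext (congrArg (fun z => z.1) hab)
  have hcardP : Nat.card {C : ConjClasses H // P C} = (Finset.univ.filter P).card := by
    rw [Nat.card_eq_fintype_card, Fintype.card_subtype]
  have hcardR : Nat.card {C : ConjClasses H // R C} = (Finset.univ.filter R).card := by
    rw [Nat.card_eq_fintype_card, Fintype.card_subtype]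
  have hsub : Finset.univ.filter P ⊆ Finset.univ.filter R := by
    intro C hC
    rw [Finset.mem_filter] at hC ⊢
    exact ⟨hC.1, hPR C hC.2⟩
  have heq : Finset.univ.filter P = Finset.univ.filter R := by
    apply Finset.eq_of_subset_of_card_le hsub
    rw [← hcardP, ← hcardR, ← hbr, ← hreal]
    exact hle1
  have hxR : ConjClasses.mk x ∈ Finset.univ.filter R := by
    rw [Finset.mem_filter]
    refine ⟨Finset.mem_univ _, ?_⟩
    intro g hg
    rw [ConjClasses.mk_eq_mk_iff_isConj] at hg
    obtain ⟨c, hc⟩ := isConj_iff.1 hg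
    have h1 : IsConj x⁻¹ g⁻¹ := isConj_iff.2 ⟨c⁻¹, by rw [← hc]; group⟩
    exact (hg.trans hx).trans h1
  rw [← heq, Finset.mem_filter] at hxR
  have h1 : IsConj x (α x)⁻¹ := hxR.2 x rfl
  have h2 : IsConj (α x)⁻¹ (α x) := by
    have := α.toMonoidHom.map_isConj hx.symm
    simpa using this
  exact h1.trans h2

end Cfsg.Agent.Helper82
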