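import Mathlib
import Cfsg.Agent.Helper82.RealNorm

/-!
# Real classes and Sylow normalizers, main induction (helper82)

* `realNorm_main`: if the subgroup generated by the `p`-elements of `G` is solvable and every
  real-valued irreducible character of `G` has degree prime to `p`, then every real element of `G`
  normalizes a Sylow `p`-subgroup.
* `realNorm_final`: the normalizer of any Sylow `p`-subgroup meets every real class.
-/

set_option autoImplicit false

namespace Cfsg.Agent.Helper82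

open Cfsg
open scoped ComplexConjugate

universe u

theorem realNorm_mem_normalizer {G : Type*} [Group G] [Finite G] (S : Subgroup G) (x : G)
    (h : ∀ y ∈ S, x * y * x⁻¹ ∈ S) : x ∈ Subgroup.normalizer (S : Set G) := by
  rw [Subgroup.mem_set_normalizer_iff]
  intro y
  constructor
  · exact h y
  · intro hy
    let f : S → S := fun z => ⟨x * z * x⁻¹, h z z.2⟩
    have hinj : Function.Injective f := by
      intro a b hab
      have h1 := congrArg Subtype.val hab
      apply Subtype.ext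
      have h2 : x * (a : G) * x⁻¹ = x * (b : G) * x⁻¹ := h1
      exact mul_left_cancel (mul_right_cancel h2)
    obtain ⟨z, hz⟩ := (Finite.injective_iff_surjective.1 hinj) ⟨x * y * x⁻¹, hy⟩
    have h1 : x * (z : G) * x⁻¹ = x * y * x⁻¹ := congrArg Subtype.val hz
    have h2 : (z : G) = y := mul_left_cancel (mul_right_cancel h1)
    rw [← h2]
    exact z.2

theorem realNorm_main (p : ℕ) [hp : Fact p.Prime] : ∀ (n : ℕ) (G : Type u) [Group G] [Finite G],
    Nat.card G = n → Group.IsSolvable ↥(rnsK p G) →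
    (∀ χ : IrrCharacter G, (∀ g : G, ((χ : G → ℂ) g).im = 0) → ¬ p ∣ charDegree (χ : G → ℂ)) →
    ∀ x : G, IsConj x x⁻¹ →
      ∃ P : Sylow p G, x ∈ Subgroup.normalizer ((P : Subgroup G) : Set G) := by
  intro n
  induction n using Nat.strong_induction_on with
  | _ n ih =>
  intro G _ _ hcard hsolv hreal x hx
  classical
  have : Fact (Nat.Prime 2) := ⟨Nat.prime_two⟩
  have hKpn : (rnsK p G).Normal := rns_normal p G
  have hK2n : (rnsK 2 G).Normal := rns_normal 2 G
  obtain ⟨R, hRn, hRp, hRK, hRi⟩ := rns_main p n G hcard hsolv hreal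
  have := hRn
  set K := rnsK 2 G with hK
  have hKodd : Odd K.index := by
    rw [← Nat.not_even_iff_odd, even_iff_two_dvd]
    exact rns_index 2
  -- `p`-elements of `K` lie in `R`
  have hpK : ∀ z ∈ K, (∃ j : ℕ, orderOf z = p ^ j) → z ∈ R := by
    intro z hz hj
    have hn : (R.subgroupOf K).Normal := hRn.subgroupOf K
    have h1 : rnsK p ↥K ≤ R.subgroupOf K := rns_le_of_index p (R.subgroupOf K) hRi
    have h2 : (⟨z, hz⟩ : ↥K) ∈ rnsK p ↥K := by
      apply Subgroup.subset_closure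
      obtain ⟨j, hj⟩ := hj
      exact ⟨j, by rw [← hj]; exact Subgroup.orderOf_mk z hz⟩
    exact Subgroup.mem_subgroupOf.1 (h1 h2)
  -- `R` lies in every Sylow `p`-subgroup
  have hRle : ∀ P : Sylow p G, R ≤ (P : Subgroup G) := by
    intro P
    have h1 : IsPGroup p ↥(R ⊔ (P : Subgroup G)) := IsPGroup.to_sup_of_normal_left hRp P.2
    have h2 := P.is_maximal' h1 le_sup_right
    rw [← h2]
    exact le_sup_left
  by_cases hpidx : p ∣ K.index
  swap
  · have hRidx : ¬ p ∣ R.index := by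
      rw [← Subgroup.relIndex_mul_index hRK]
      exact (Nat.Prime.dvd_mul hp.out).not.2 (not_or.2 ⟨hRi, hpidx⟩)
    refine ⟨hRp.toSylow hRidx, ?_⟩
    show x ∈ Subgroup.normalizer (R : Set G)
    rw [Subgroup.normalizer_eq_top_iff.2 hRn]
    trivial
  set A := rnsK p G with hA
  by_cases hKA : K ⊔ A = ⊤
  swap
  · -- pass to the proper normal subgroup `K ⊔ A` of index prime to `p`
    set G₀ := K ⊔ A with hG₀
    have hG₀n : G₀.Normal := Subgroup.sup_normal K A
    have hG₀odd : Odd G₀.index := Odd.of_dvd_nat hKodd (Subgroup.index_dvd_of_le le_sup_left)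
    have hG₀p : ¬ p ∣ G₀.index := fun h =>
      rns_index (G := G) p (h.trans (Subgroup.index_dvd_of_le le_sup_right))
    have hlt : Nat.card ↥G₀ < n := by
      rw [← hcard]
      exact lt_of_le_of_ne (Subgroup.card_le_card_group G₀)
        (fun h => hKA (Subgroup.eq_top_of_card_eq G₀ h))
    obtain ⟨hsolv₀, hreal₀⟩ := realNorm_pass p G₀ hG₀odd hsolv hreal
    obtain ⟨hx₀, hxr₀⟩ := realNorm_real_sub G₀ hG₀odd x hx
    obtain ⟨P₀, hP₀⟩ := ih (Nat.card ↥G₀) hlt ↥G₀ rfl hsolv₀ hreal₀ ⟨x, hx₀⟩ hxr₀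
    set P : Subgroup G := (P₀ : Subgroup ↥G₀).map G₀.subtype with hP
    have hPp : IsPGroup p ↥P := P₀.2.map _
    have hPG₀ : P ≤ G₀ := Subgroup.map_subtype_le _
    have hPidx : ¬ p ∣ P.index := by
      rw [← Subgroup.relIndex_mul_index hPG₀]
      have e : P.subgroupOf G₀ = (P₀ : Subgroup ↥G₀) :=
        Subgroup.comap_map_eq_self_of_injective (Subgroup.subtype_injective _) _
      rw [Subgroup.relIndex, e]
      exact (Nat.Prime.dvd_mul hp.out).not.2 (not_or.2 ⟨P₀.not_dvd_index, hG₀p⟩)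
    refine ⟨hPp.toSylow hPidx, ?_⟩
    show x ∈ Subgroup.normalizer (P : Set G)
    apply realNorm_mem_normalizer
    rintro y ⟨y', hy', rfl⟩
    have h1 := (Subgroup.mem_set_normalizer_iff.1 hP₀ y').1 hy'
    exact ⟨_, h1, rfl⟩
  -- now `G = K A`, so `G ⧸ K` is solvable and nontrivial
  have hQsolv : Group.IsSolvable (G ⧸ K) := by
    have hsurj : Function.Surjective ((QuotientGroup.mk' K).comp A.subtype) := by
      intro q
      obtain ⟨g, rfl⟩ := QuotientGroup.mk'_surjective K q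
      have hg : g ∈ ((K ⊔ A : Subgroup G) : Set G) := by rw [hKA]; trivial
      rw [Subgroup.normal_mul] at hg
      obtain ⟨k, hk, a, ha, rfl⟩ := Set.mem_mul.1 hg
      refine ⟨⟨a, ha⟩, ?_⟩
      show QuotientGroup.mk' K a = QuotientGroup.mk' K (k * a)
      have hk1 : QuotientGroup.mk' K k = 1 := (QuotientGroup.eq_one_iff k).2 hk
      rw [map_mul, hk1, one_mul]
    exact Group.isSolvable_of_surjective hsurj
  have hQnt : Nontrivial (G ⧸ K) := by
    rw [← Finite.one_lt_card_iff_nontrivial, ← Subgroup.index_eq_card]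
    rcases Nat.lt_or_ge 1 K.index with h | h
    · exact h
    · exfalso
      have h0 : K.index ≠ 0 := Subgroup.index_ne_zero_of_finite
      have h1 : K.index = 1 := by omega
      rw [h1] at hpidx
      exact hp.out.one_lt.ne' (Nat.dvd_one.1 hpidx)
  have hcomm : commutator (G ⧸ K) < ⊤ := Group.IsSolvable.commutator_lt_top_of_nontrivial (G ⧸ K)
  set φ : G →* Abelianization (G ⧸ K) := (Abelianization.of).comp (QuotientGroup.mk' K) with hφ
  have hφs : Function.Surjective φ := by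
    intro y
    obtain ⟨q, hq⟩ := QuotientGroup.mk'_surjective (commutator (G ⧸ K)) y
    obtain ⟨g, rfl⟩ := QuotientGroup.mk'_surjective K q
    exact ⟨g, hq⟩
  have hφK : ∀ k ∈ K, φ k = 1 := by
    intro k hk
    show Abelianization.of (QuotientGroup.mk' K k) = 1
    have hk1 : QuotientGroup.mk' K k = 1 := (QuotientGroup.eq_one_iff k).2 hk
    rw [hk1, map_one]
  have hAbp : IsPGroup p (Abelianization (G ⧸ K)) := by
    have hT : K ⊔ A ≤ (CommGroup.primaryComponent (Abelianization (G ⧸ K)) p).comap φ := by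
      refine sup_le ?_ ?_
      · intro k hk
        refine Subgroup.mem_comap.2 ?_
        rw [hφK k hk]
        exact Subgroup.one_mem _
      · rw [hA, Subgroup.closure_le]
        rintro g ⟨j, hj⟩
        refine Subgroup.mem_comap.2 ?_
        rw [CommGroup.mem_primaryComponent]
        refine ⟨j, ?_⟩
        rw [← map_pow, ← hj, pow_orderOf_eq_one, map_one]
    intro y
    obtain ⟨g, rfl⟩ := hφs y
    have hg : g ∈ K ⊔ A := by rw [hKA]; trivial
    exact CommGroup.mem_primaryComponent.1 (hT hg)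
  set G₁ : Subgroup G := φ.ker with hG₁
  have hG₁n : G₁.Normal := MonoidHom.normal_ker φ
  have hKG₁ : K ≤ G₁ := fun k hk => (MonoidHom.mem_ker).2 (hφK k hk)
  have hidxcard : G₁.index = Nat.card (Abelianization (G ⧸ K)) := by
    rw [hG₁, Subgroup.index_ker, MonoidHom.range_eq_top.2 hφs, Subgroup.card_top]
  obtain ⟨a, ha⟩ := IsPGroup.iff_card.1 hAbp
  have hG₁idx : G₁.index = p ^ a := by rw [hidxcard, ha]
  have hG₁ne : G₁ ≠ ⊤ := by
    intro h
    have h1 : G₁.index = 1 := Subgroup.index_eq_one.2 h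
    rw [hidxcard] at h1
    have h2 : (commutator (G ⧸ K)).index = 1 := by
      rw [Subgroup.index_eq_card]
      exact h1
    exact hcomm.ne (Subgroup.index_eq_one.1 h2)
  have hG₁odd : Odd G₁.index := Odd.of_dvd_nat hKodd (Subgroup.index_dvd_of_le hKG₁)
  have hG₁lt : Nat.card ↥G₁ < n := by
    rw [← hcard]
    exact lt_of_le_of_ne (Subgroup.card_le_card_group G₁)
      (fun h => hG₁ne (Subgroup.eq_top_of_card_eq G₁ h))
  obtain ⟨hsolv₁, hreal₁⟩ := realNorm_pass p G₁ hG₁odd hsolv hreal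
  obtain ⟨hx₁, hxr₁⟩ := realNorm_real_sub G₁ hG₁odd x hx
  obtain ⟨P₁, hP₁⟩ := ih (Nat.card ↥G₁) hG₁lt ↥G₁ rfl hsolv₁ hreal₁ ⟨x, hx₁⟩ hxr₁
  -- the `G₁`-class of `x` is `G`-invariant
  have hcl : ∀ c : G, ∃ h ∈ G₁, h * x * h⁻¹ = c * x * c⁻¹ := by
    intro c
    have h1 := realNorm_class_invariant (MulAut.conjNormal c : ↥G₁ ≃* ↥G₁)
      (by
        intro θ hθ g
        obtain ⟨χ, hχ⟩ := realNorm_extends p G₁ hG₁odd a hG₁idx hreal θ hθ
        rw [← hχ, ← hχ, MulAut.conjNormal_apply]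
        exact Helper79.isCharacter_isClassFunction (Helper80.isCharacter_of_irr χ.2) g c)
      (by
        intro g hg
        obtain ⟨h, hh⟩ := isConj_iff.1 hg
        have hh' : (h : G) * (g : G) * (h : G)⁻¹ = (c * (g : G) * c⁻¹)⁻¹ := by
          have := congrArg Subtype.val hh
          simpa [MulAut.conjNormal_apply] using this
        have e : (c⁻¹ * (h : G)) * (g : G) * (c⁻¹ * (h : G))⁻¹ = (g : G)⁻¹ := by
          have e1 : (c⁻¹ * (h : G)) * (g : G) * (c⁻¹ * (h : G))⁻¹
              = c⁻¹ * ((h : G) * (g : G) * (h : G)⁻¹) * c := by group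
          rw [e1, hh']
          group
        obtain ⟨j, hj⟩ := hG₁odd
        have hmem : (c⁻¹ * (h : G)) ^ (2 * j + 1) ∈ G₁ := by
          rw [← hj]
          exact Subgroup.pow_index_mem G₁ _
        have hinv := realLift_conj_odd_pow (c⁻¹ * (h : G)) (g : G) e j
        rw [isConj_iff]
        refine ⟨⟨(c⁻¹ * (h : G)) ^ (2 * j + 1), hmem⟩, ?_⟩
        apply Subtype.ext
        simpa using hinv)
      ⟨x, hx₁⟩ hxr₁
    obtain ⟨h, hh⟩ := isConj_iff.1 h1
    refine ⟨h, h.2, ?_⟩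
    have := congrArg Subtype.val hh
    simpa [MulAut.conjNormal_apply] using this
  -- the preimage of the centralizer of `x` modulo `R`
  set π := QuotientGroup.mk' R with hπ
  set C : Subgroup G := (Subgroup.centralizer ({π x} : Set (G ⧸ R))).comap π with hC
  have hCmem : ∀ y : G, y ∈ C ↔ π x * π y = π y * π x := by
    intro y
    show π y ∈ Subgroup.centralizer ({π x} : Set (G ⧸ R)) ↔ _
    rw [Subgroup.mem_centralizer_iff]
    constructor
    · intro h
      exact h (π x) rfl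
    · intro h z hz
      rw [Set.mem_singleton_iff] at hz
      rw [hz]
      exact h
  have key : ∀ y ∈ C, ∀ P' : Sylow p G, y ∈ (P' : Subgroup G) → x * y * x⁻¹ ∈ (P' : Subgroup G) := by
    intro y hy P' hyP
    have h1 : π (y⁻¹ * (x * y * x⁻¹)) = 1 := by
      rw [map_mul, map_mul, map_mul, (hCmem y).1 hy, map_inv, map_inv]
      group
    have h2 : y⁻¹ * (x * y * x⁻¹) ∈ R := (QuotientGroup.eq_one_iff _).1 h1
    have e : x * y * x⁻¹ = y * (y⁻¹ * (x * y * x⁻¹)) := by group
    rw [e]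
    exact (P' : Subgroup G).mul_mem hyP (hRle P' h2)
  have hCG : C ⊔ G₁ = ⊤ := by
    rw [eq_top_iff]
    intro c _
    obtain ⟨h, hh, e⟩ := hcl c
    have e1 : c = h * (h⁻¹ * c) := by group
    rw [e1]
    refine Subgroup.mul_mem _ (le_sup_right (a := C) hh) (le_sup_left (b := G₁) ?_)
    rw [hCmem, ← map_mul, ← map_mul]
    congr 1
    have e2 : x * (h⁻¹ * c) = h⁻¹ * (h * x * h⁻¹) * c := by group
    rw [e2, e]
    group
  set P₁' : Subgroup G := (P₁ : Subgroup ↥G₁).map G₁.subtype with hP₁'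
  have hP₁p : IsPGroup p ↥P₁' := P₁.2.map _
  have hP₁G : P₁' ≤ G₁ := Subgroup.map_subtype_le _
  have hP₁C : P₁' ≤ C := by
    rintro y ⟨y', hy', rfl⟩
    rw [hCmem, ← map_mul, ← map_mul]
    show QuotientGroup.mk' R (x * (y' : G)) = QuotientGroup.mk' R ((y' : G) * x)
    apply QuotientGroup.eq.2
    have hxinv : (⟨x, hx₁⟩ : ↥G₁)⁻¹ ∈ Subgroup.normalizer ((P₁ : Subgroup ↥G₁) : Set ↥G₁) :=
      Subgroup.inv_mem _ hP₁
    have h1 := (Subgroup.mem_set_normalizer_iff.1 hxinv y').1 hy'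
    rw [inv_inv] at h1
    have h2 : y'⁻¹ * ((⟨x, hx₁⟩ : ↥G₁)⁻¹ * y' * ⟨x, hx₁⟩) ∈ (P₁ : Subgroup ↥G₁) :=
      Subgroup.mul_mem _ (Subgroup.inv_mem _ hy') h1
    have e : (x * (y' : G))⁻¹ * ((y' : G) * x)
        = ((y'⁻¹ * ((⟨x, hx₁⟩ : ↥G₁)⁻¹ * y' * ⟨x, hx₁⟩) : ↥G₁) : G) := by
      push_cast
      group
    have hw : (x * (y' : G))⁻¹ * ((y' : G) * x) ∈ P₁' := by
      rw [e]
      exact ⟨_, h2, rfl⟩
    apply hpK _ _ _
    · have e2 : (x * (y' : G))⁻¹ * ((y' : G) * x) = ((y' : G)⁻¹ * x⁻¹ * (y' : G)⁻¹⁻¹) * x := by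
        group
      rw [e2]
      obtain ⟨hxK, -⟩ := realNorm_real_sub K hKodd x hx
      exact K.mul_mem (hK2n.conj_mem _ (K.inv_mem hxK) _) hxK
    · obtain ⟨j, hj⟩ := (IsPGroup.iff_orderOf.1 hP₁p) ⟨_, hw⟩
      exact ⟨j, by rw [← hj]; exact (Subgroup.orderOf_mk _ hw).symm⟩
  have hCidx : ¬ p ∣ C.index := by
    have h1 : (C ⊓ G₁).relIndex C * C.index = (C ⊓ G₁).index :=
      Subgroup.relIndex_mul_index inf_le_left
    have h2 : (C ⊓ G₁).relIndex G₁ * G₁.index = (C ⊓ G₁).index :=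
      Subgroup.relIndex_mul_index inf_le_right
    rw [Subgroup.inf_relIndex_left] at h1
    rw [Subgroup.inf_relIndex_right] at h2
    have h3 : G₁.relIndex C = G₁.index := by
      rw [← Subgroup.relIndex_sup_right C G₁, hCG, Subgroup.relIndex_top_right]
    rw [h3] at h1
    have h4 : C.index = C.relIndex G₁ := by
      have h0 : G₁.index ≠ 0 := Subgroup.index_ne_zero_of_finite
      have h5 : G₁.index * C.index = G₁.index * C.relIndex G₁ := by
        rw [h1, ← h2, mul_comm]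
      exact Nat.eq_of_mul_eq_mul_left (Nat.pos_of_ne_zero h0) h5
    rw [h4]
    intro hdvd
    have h6 : C.relIndex G₁ ∣ P₁'.relIndex G₁ := Subgroup.relIndex_dvd_of_le_left G₁ hP₁C
    have e : P₁'.subgroupOf G₁ = (P₁ : Subgroup ↥G₁) :=
      Subgroup.comap_map_eq_self_of_injective (Subgroup.subtype_injective _) _
    have e' : P₁'.relIndex G₁ = (P₁ : Subgroup ↥G₁).index := by rw [Subgroup.relIndex, e]
    rw [e'] at h6
    exact P₁.not_dvd_index (hdvd.trans h6)
  obtain ⟨PC⟩ := (inferInstance : Nonempty (Sylow p ↥C))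
  set P : Subgroup G := (PC : Subgroup ↥C).map C.subtype with hP
  have hPp : IsPGroup p ↥P := PC.2.map _
  have hPC : P ≤ C := Subgroup.map_subtype_le _
  have hPidx : ¬ p ∣ P.index := by
    rw [← Subgroup.relIndex_mul_index hPC]
    have e : P.subgroupOf C = (PC : Subgroup ↥C) :=
      Subgroup.comap_map_eq_self_of_injective (Subgroup.subtype_injective _) _
    rw [Subgroup.relIndex, e]
    exact (Nat.Prime.dvd_mul hp.out).not.2 (not_or.2 ⟨PC.not_dvd_index, hCidx⟩)
  refine ⟨hPp.toSylow hPidx, ?_⟩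
  show x ∈ Subgroup.normalizer (P : Set G)
  apply realNorm_mem_normalizer
  intro y hy
  exact key y (hPC hy) (hPp.toSylow hPidx) hy

theorem realNorm_final {G : Type u} [Group G] [Finite G] (p : ℕ) [Fact p.Prime]
    (hsolv : Group.IsSolvable ↥(Subgroup.closure {g : G | ∃ k : ℕ, orderOf g = p ^ k}))
    (hreal : ∀ χ : IrrCharacter G, (∀ g : G, ((χ : G → ℂ) g).im = 0) →
      ¬ p ∣ charDegree (χ : G → ℂ))
    (P : Sylow p G) (x : G) (hx : IsConj x x⁻¹) :
    ∃ y ∈ Subgroup.normalizer ((P : Subgroup G) : Set G), IsConj x y := by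
  obtain ⟨P', hP'⟩ := realNorm_main p _ G rfl hsolv hreal x hx
  obtain ⟨g, hg⟩ := MulAction.exists_smul_eq G P' P
  have hP'' : x • P' = P' := Sylow.smul_eq_iff_mem_normalizer.2 hP'
  refine ⟨g * x * g⁻¹, Sylow.smul_eq_iff_mem_normalizer.1 ?_, isConj_iff.2 ⟨g, rfl⟩⟩
  rw [← hg, ← mul_smul, inv_mul_cancel_right, mul_smul, hP'']

end Cfsg.Agent.Helper82
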