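import Cfsg.Agent.Helper81.SectionSum
import Cfsg.Agent.Helper77.BlockRank

/-!
# Block sums over a `p`-section, general form

Let `z` be a `p`-element of `G` with centralizer `H`, `B` a block of `G` and `U` the set of the
irreducible characters of `H` whose block induces `B`.  Then for `p`-regular `y, y' ∈ H`
`∑_{ζ ∈ B} ζ(z y) conj ζ(z y') = ∑_{χ ∈ U} χ(y) conj χ(y')`.
-/

set_option autoImplicit false
open Cfsg
open scoped ComplexConjugate

namespace Cfsg.Agent.Helper82

universe u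

/-- A sum over a union of blocks vanishes if it vanishes over each block. -/
theorem finsum_mem_eq_zero_of_blocks {H : Type u} [Group H] [Fintype H] {M : Ideal Cfsg.AlgInt}
    [hMp : M.IsPrime] (U : Set (Cfsg.IrrCharacter H))
    (hU : ∀ a ∈ U, ∀ c : Cfsg.IrrCharacter H, Cfsg.SameBlock M (a : H → ℂ) (c : H → ℂ) → c ∈ U)
    (g : Cfsg.IrrCharacter H → ℂ)
    (h : ∀ a ∈ U, ∑ᶠ c ∈ Cfsg.blockOf M (a : H → ℂ), g c = 0) :
    ∑ᶠ a ∈ U, g a = 0 := by
  classical
  have := Fintype.ofFinite (Cfsg.IrrCharacter H)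
  let r : Setoid (Cfsg.IrrCharacter H) :=
    ⟨fun a c => Cfsg.SameBlock M (a : H → ℂ) (c : H → ℂ),
      ⟨fun a => Helper81.mem_blockOf_self a, fun h => Helper81.sameBlock_symm h,
        fun h h' => Helper81.sameBlock_trans h h'⟩⟩
  rw [finsum_mem_def, finsum_eq_sum_of_fintype]
  have h1 : ∑ a : Cfsg.IrrCharacter H, Set.indicator U g a
      = ∑ a ∈ Finset.univ.filter (fun a : Cfsg.IrrCharacter H => a ∈ U), g a := by
    rw [Finset.sum_filter]
    refine Finset.sum_congr rfl fun a _ => ?_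
    rw [Set.indicator_apply]
  rw [h1]
  apply Helper81.sum_eq_zero_of_classes r
  · intro a ha c hac
    rw [Finset.mem_filter] at ha ⊢
    exact ⟨Finset.mem_univ _, hU a ha.2 c hac⟩
  · intro a ha
    rw [Finset.mem_filter] at ha
    have h0 := h a ha.2
    rw [finsum_mem_def, finsum_eq_sum_of_fintype] at h0
    rw [← h0, Finset.sum_filter]
    refine Finset.sum_congr rfl fun ψ _ => ?_
    rw [Set.indicator_apply]
    by_cases hψ : Cfsg.SameBlock M (a : H → ℂ) (ψ : H → ℂ)
    · rw [if_pos (show r a ψ from hψ), if_pos (show ψ ∈ Cfsg.blockOf M (a : H → ℂ) from hψ)]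
    · rw [if_neg (show ¬ r a ψ from hψ), if_neg (show ψ ∉ Cfsg.blockOf M (a : H → ℂ) from hψ)]

variable {G : Type u} [Group G] [Fintype G]

/-- **Block sums over a `p`-section**, for the union `U` of all blocks of the centralizer
inducing `B`. -/
theorem sum_block_section_union {p : ℕ} [Fact p.Prime] {M : Ideal Cfsg.AlgInt}
    (hM : Cfsg.IsPModular p M) (z : G) (hz : ∃ k : ℕ, orderOf z = p ^ k)
    [Fintype (Subgroup.centralizer ({z} : Set G))]
    {B : Set (Cfsg.IrrCharacter G)} (hB : Cfsg.IsPBlock M B)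
    (U : Set (Cfsg.IrrCharacter (Subgroup.centralizer ({z} : Set G))))
    (hU : ∀ ψ : Cfsg.IrrCharacter (Subgroup.centralizer ({z} : Set G)), ψ ∈ U ↔
      Cfsg.IsInducedBlock M (Subgroup.centralizer ({z} : Set G))
        (Cfsg.blockOf M (ψ : Subgroup.centralizer ({z} : Set G) → ℂ)) B)
    (y y' : Subgroup.centralizer ({z} : Set G)) (hy : ¬ p ∣ orderOf y) (hy' : ¬ p ∣ orderOf y') :
    ∑ᶠ ζ ∈ B, (ζ : G → ℂ) (z * (y : G)) * conj ((ζ : G → ℂ) (z * (y' : G)))
      = ∑ᶠ χ ∈ U, (χ : Subgroup.centralizer ({z} : Set G) → ℂ) y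
          * conj ((χ : Subgroup.centralizer ({z} : Set G) → ℂ) y') := by
  classical
  have hMm := hM.2.1
  have hMp : M.IsPrime := Helper81.isPrime_of_isPModular hM
  have := Fintype.ofFinite (Cfsg.IrrCharacter G)
  have := Fintype.ofFinite (Cfsg.IrrCharacter (Subgroup.centralizer ({z} : Set G)))
  have hUcl : ∀ a ∈ U, ∀ c : Cfsg.IrrCharacter (Subgroup.centralizer ({z} : Set G)),
      Cfsg.SameBlock M (a : Subgroup.centralizer ({z} : Set G) → ℂ)
        (c : Subgroup.centralizer ({z} : Set G) → ℂ) → c ∈ U := by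
    intro a ha c hac
    rw [hU] at ha ⊢
    have h1 : Cfsg.blockOf M (c : Subgroup.centralizer ({z} : Set G) → ℂ)
        = Cfsg.blockOf M (a : Subgroup.centralizer ({z} : Set G) → ℂ) :=
      Helper16.blockOf_eq_of_mem hMm hac
    rw [h1]
    exact ha
  have hUcl' : ∀ a ∈ Uᶜ, ∀ c : Cfsg.IrrCharacter (Subgroup.centralizer ({z} : Set G)),
      Cfsg.SameBlock M (a : Subgroup.centralizer ({z} : Set G) → ℂ)
        (c : Subgroup.centralizer ({z} : Set G) → ℂ) → c ∈ Uᶜ := by
    intro a ha c hac hc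
    exact ha (hUcl c hc a (Helper81.sameBlock_symm hac))
  have hzH : z ∈ Subgroup.centralizer ({z} : Set G) := by
    rw [Subgroup.mem_centralizer_iff]
    intro s hs
    rw [Set.mem_singleton_iff] at hs
    rw [hs]
  have hcomm : ∀ c : Subgroup.centralizer ({z} : Set G), z * (c : G) = (c : G) * z :=
    fun c => Subgroup.mem_centralizer_iff.mp c.2 z rfl
  have hcardH : (Nat.card (Subgroup.centralizer ({z} : Set G)) : ℂ) ≠ 0 := by
    have : 0 < Nat.card (Subgroup.centralizer ({z} : Set G)) := Nat.card_pos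
    exact_mod_cast this.ne'
  -- the class functions `c ↦ ζ (z c)`
  have hϑ : ∀ ζ : Cfsg.IrrCharacter G, Cfsg.IsClassFunction (Subgroup.centralizer ({z} : Set G))
      (fun c : Subgroup.centralizer ({z} : Set G) => (ζ : G → ℂ) (z * c)) := by
    intro ζ c d
    show (ζ : G → ℂ) (z * ((d : G) * (c : G) * (d : G)⁻¹)) = (ζ : G → ℂ) (z * (c : G))
    have : z * ((d : G) * (c : G) * (d : G)⁻¹) = (d : G) * (z * (c : G)) * (d : G)⁻¹ := by
      rw [← mul_assoc, ← mul_assoc, hcomm d]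
      group
    rw [this]
    exact Helper81.irr_conj ζ _ _
  -- the `U`-part
  obtain ⟨P, hP⟩ : ∃ P : Cfsg.IrrCharacter G → ℂ, ∀ ζ, P ζ = ∑ᶠ ψ ∈ U,
      Cfsg.classInner (fun c : Subgroup.centralizer ({z} : Set G) => (ζ : G → ℂ) (z * c))
        (ψ : Subgroup.centralizer ({z} : Set G) → ℂ)
        * (ψ : Subgroup.centralizer ({z} : Set G) → ℂ) y := ⟨_, fun _ => rfl⟩
  -- F1: the `U`-part vanishes outside `B`
  have hF1 : ∀ ζ : Cfsg.IrrCharacter G, ζ ∉ B → P ζ = 0 := by
    intro ζ hζ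
    rw [hP]
    apply finsum_mem_eq_zero_of_blocks U hUcl
    intro a ha
    rw [Helper16.finsum_classInner_mul_eq_sum_blockCoeff _ (hϑ ζ) y]
    have hpp : Cfsg.IsPPart p (z * (y : G)) z :=
      Helper16.isPPart_mul (hcomm y) hz (by rw [Subgroup.orderOf_coe]; exact hy)
    have hC : ∀ w : G, Cfsg.IsPPart p
        (((⟨z, hzH⟩ * y : Subgroup.centralizer ({z} : Set G))) : G) w →
        Subgroup.centralizer ({w} : Set G) ≤ Subgroup.centralizer ({z} : Set G) := by
      intro w hw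
      rw [Helper16.isPPart_unique hw hpp]
    have h0 := Helper16.sum_blockCoeff_mul_irr_eq_zero hM (Subgroup.centralizer ({z} : Set G))
      ((hU a).mp ha) (⟨z, hzH⟩ * y) hC ζ hζ
    rw [← h0]
    refine Finset.sum_congr rfl fun k _ => ?_
    congr 1
    show (ζ : G → ℂ) (z * ((k : G) * (y : G))) = (ζ : G → ℂ) ((k : G) * (z * (y : G)))
    rw [← mul_assoc, hcomm k, mul_assoc]
  -- expansion of the class function `c ↦ ζ (z c)`
  have hexp : ∀ ζ : Cfsg.IrrCharacter G,
      ∑ ψ : Cfsg.IrrCharacter (Subgroup.centralizer ({z} : Set G)),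
        Cfsg.classInner (fun c : Subgroup.centralizer ({z} : Set G) => (ζ : G → ℂ) (z * c))
          (ψ : Subgroup.centralizer ({z} : Set G) → ℂ)
          * (ψ : Subgroup.centralizer ({z} : Set G) → ℂ) y = (ζ : G → ℂ) (z * (y : G)) := by
    intro ζ
    have h1 := Helper16.finsum_classInner_mul_eq_sum_blockCoeff
      (Set.univ : Set (Cfsg.IrrCharacter (Subgroup.centralizer ({z} : Set G)))) (hϑ ζ) y
    rw [finsum_mem_univ, finsum_eq_sum_of_fintype] at h1
    rw [h1]
    have h2 : ∀ k : Subgroup.centralizer ({z} : Set G),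
        Cfsg.blockCoeff (Set.univ : Set (Cfsg.IrrCharacter (Subgroup.centralizer ({z} : Set G)))) k
          = if k = 1 then 1 else 0 := by
      intro k
      rw [Helper77.blockCoeff_eq_sum]
      simp only [Set.mem_univ, if_true]
      rw [Helper81.sum_irr_one_mul k⁻¹]
      by_cases hk : k = 1
      · rw [if_pos hk, if_pos (by rw [hk, inv_one]), inv_mul_cancel₀ hcardH]
      · rw [if_neg hk, if_neg (by rwa [inv_eq_one]), mul_zero]
    simp only [h2, ite_mul, one_mul, zero_mul, Finset.sum_ite_eq', Finset.mem_univ, if_true]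
  -- F2: the `U`-part of a member of `B`
  have hF2 : ∀ ζ : Cfsg.IrrCharacter G, ζ ∈ B → P ζ = (ζ : G → ℂ) (z * (y : G)) := by
    intro ζ hζ
    obtain ⟨g, hg⟩ : ∃ g : Cfsg.IrrCharacter (Subgroup.centralizer ({z} : Set G)) → ℂ, ∀ ψ, g ψ =
        Cfsg.classInner (fun c : Subgroup.centralizer ({z} : Set G) => (ζ : G → ℂ) (z * c))
          (ψ : Subgroup.centralizer ({z} : Set G) → ℂ)
          * (ψ : Subgroup.centralizer ({z} : Set G) → ℂ) y := ⟨_, fun _ => rfl⟩
    have hsum : ∑ᶠ ψ ∈ Uᶜ, g ψ = 0 := by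
      apply finsum_mem_eq_zero_of_blocks Uᶜ hUcl'
      intro a ha
      have hb' : Cfsg.IsPBlock M
          (Cfsg.blockOf M (a : Subgroup.centralizer ({z} : Set G) → ℂ)) := ⟨a, rfl⟩
      have hnot : ¬ Cfsg.IsInducedBlock M (Subgroup.centralizer ({z} : Set G))
          (Cfsg.blockOf M (a : Subgroup.centralizer ({z} : Set G) → ℂ)) B :=
        fun hi => ha ((hU a).mpr hi)
      have h0 := Helper16.finsum_classInner_centralizer_eq_zero hM z hz hB ζ hζ hb' hnot y hy
      rw [← h0]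
      refine finsum_congr fun ψ => ?_
      refine finsum_congr fun _ => ?_
      rw [hg]
    have hall := hexp ζ
    rw [hP, ← hall]
    have h5 : ∑ᶠ ψ ∈ U, g ψ + ∑ᶠ ψ ∈ Uᶜ, g ψ
        = ∑ ψ : Cfsg.IrrCharacter (Subgroup.centralizer ({z} : Set G)), g ψ := by
      rw [finsum_mem_def, finsum_mem_def, finsum_eq_sum_of_fintype, finsum_eq_sum_of_fintype,
        ← Finset.sum_add_distrib]
      refine Finset.sum_congr rfl fun ψ _ => ?_
      exact Set.indicator_self_add_compl_apply U g ψ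
    rw [hsum, add_zero] at h5
    simp only [← hg]
    exact h5
  -- the kernel `Ψ`
  obtain ⟨Ψ, hΨ⟩ : ∃ Ψ : Subgroup.centralizer ({z} : Set G) → ℂ, ∀ c, Ψ c = ∑ᶠ χ ∈ U,
      (χ : Subgroup.centralizer ({z} : Set G) → ℂ) y
        * conj ((χ : Subgroup.centralizer ({z} : Set G) → ℂ) c) := ⟨_, fun _ => rfl⟩
  have hΨcl : ∀ c d : Subgroup.centralizer ({z} : Set G), Ψ (d * c * d⁻¹) = Ψ c := by
    intro c d
    rw [hΨ, hΨ]
    simp only [Helper81.irr_conj]
  have hPΨ : ∀ ζ : Cfsg.IrrCharacter G,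
      (Nat.card (Subgroup.centralizer ({z} : Set G)) : ℂ) * P ζ
        = ∑ c : Subgroup.centralizer ({z} : Set G), Ψ c * (ζ : G → ℂ) (z * (c : G)) := by
    intro ζ
    rw [hP, finsum_mem_def, finsum_eq_sum_of_fintype, Finset.mul_sum]
    have hΨ' : ∀ c, Ψ c = ∑ χ : Cfsg.IrrCharacter (Subgroup.centralizer ({z} : Set G)),
        Set.indicator U (fun χ : Cfsg.IrrCharacter (Subgroup.centralizer ({z} : Set G)) =>
          (χ : Subgroup.centralizer ({z} : Set G) → ℂ) y
            * conj ((χ : Subgroup.centralizer ({z} : Set G) → ℂ) c)) χ := by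
      intro c
      rw [hΨ, finsum_mem_def, finsum_eq_sum_of_fintype]
    simp only [hΨ', Finset.sum_mul]
    rw [Finset.sum_comm]
    refine Finset.sum_congr rfl fun ψ _ => ?_
    simp only [Set.indicator_apply]
    by_cases hψ : ψ ∈ U
    · simp only [if_pos hψ, Cfsg.classInner]
      rw [← mul_assoc, ← mul_assoc, mul_inv_cancel₀ hcardH, one_mul, Finset.sum_mul]
      refine Finset.sum_congr rfl fun c _ => ?_
      ring
    · simp only [if_neg hψ, mul_zero, zero_mul, Finset.sum_const_zero]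
  -- the Fourier identity
  have hfour := Helper16.sum_conj_eq_sum_irr
    (Helper16.ext0 (Subgroup.centralizer ({z} : Set G)) Ψ) (z * (y' : G))⁻¹ z
  have hR : ∑ ψ : Cfsg.IrrCharacter G, (ψ : G → ℂ) (z * (y' : G))⁻¹ *
      ∑ x : G, Helper16.ext0 (Subgroup.centralizer ({z} : Set G)) Ψ x * (ψ : G → ℂ) (z * x)
      = (Nat.card (Subgroup.centralizer ({z} : Set G)) : ℂ) *
        ∑ᶠ ζ ∈ B, (ζ : G → ℂ) (z * (y : G)) * conj ((ζ : G → ℂ) (z * (y' : G))) := by
    rw [finsum_mem_def, finsum_eq_sum_of_fintype, Finset.mul_sum]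
    refine Finset.sum_congr rfl fun ψ _ => ?_
    rw [Helper16.sum_ext0_mul (Subgroup.centralizer ({z} : Set G)) Ψ
      (fun x => (ψ : G → ℂ) (z * x)), ← hPΨ ψ, Helper77.irr_inv, Set.indicator_apply]
    by_cases hψ : ψ ∈ B
    · rw [if_pos hψ, hF2 ψ hψ]; ring
    · rw [if_neg hψ, hF1 ψ hψ]; ring
  have hL : ∑ γ : G, Helper16.ext0 (Subgroup.centralizer ({z} : Set G)) Ψ
      (z⁻¹ * γ⁻¹ * ((z * (y' : G))⁻¹)⁻¹ * γ)
      = (Nat.card (Subgroup.centralizer ({z} : Set G)) : ℂ) * Ψ y' := by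
    have h1 : ∀ γ : G, Helper16.ext0 (Subgroup.centralizer ({z} : Set G)) Ψ
        (z⁻¹ * γ⁻¹ * ((z * (y' : G))⁻¹)⁻¹ * γ)
        = Helper16.ext0 (Subgroup.centralizer ({z} : Set G)) (fun _ => Ψ y') γ := by
      intro γ
      rw [inv_inv]
      by_cases hγ : γ ∈ Subgroup.centralizer ({z} : Set G)
      · rw [Helper16.ext0_apply_mem _ _ hγ]
        have hc := hcomm ⟨γ, hγ⟩
        have hc' : γ⁻¹ * z = z * γ⁻¹ := by
          have h5 : z * γ = γ * z := hc
          calc γ⁻¹ * z = γ⁻¹ * (z * γ) * γ⁻¹ := by group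
            _ = γ⁻¹ * (γ * z) * γ⁻¹ := by rw [h5]
            _ = z * γ⁻¹ := by group
        have e : z⁻¹ * γ⁻¹ * (z * (y' : G)) * γ
            = (((⟨γ, hγ⟩ : Subgroup.centralizer ({z} : Set G))⁻¹ * y'
                * ((⟨γ, hγ⟩ : Subgroup.centralizer ({z} : Set G))⁻¹)⁻¹ :
                Subgroup.centralizer ({z} : Set G)) : G) := by
          simp only [Subgroup.coe_mul, Subgroup.coe_inv, inv_inv]
          calc z⁻¹ * γ⁻¹ * (z * (y' : G)) * γ = z⁻¹ * (γ⁻¹ * z) * (y' : G) * γ := by group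
            _ = z⁻¹ * (z * γ⁻¹) * (y' : G) * γ := by rw [hc']
            _ = γ⁻¹ * (y' : G) * γ := by group
        rw [e, Helper16.ext0_apply_coe, hΨcl]
      · rw [Helper16.ext0_apply_not_mem _ _ hγ]
        by_cases hc : z⁻¹ * γ⁻¹ * (z * (y' : G)) * γ ∈ Subgroup.centralizer ({z} : Set G)
        · rw [Helper16.ext0_apply_mem _ _ hc, hΨ]
          have hsing : p ∣ orderOf (⟨_, hc⟩ : Subgroup.centralizer ({z} : Set G)) := by
            by_contra hnd
            apply hγ
            have hpp1 : Cfsg.IsPPart p (z * (z⁻¹ * γ⁻¹ * (z * (y' : G)) * γ)) z :=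
              Helper16.isPPart_mul (hcomm ⟨_, hc⟩) hz (by
                rw [← Subgroup.orderOf_coe] at hnd; exact hnd)
            have hpp2 : Cfsg.IsPPart p (z * (y' : G)) z :=
              Helper16.isPPart_mul (hcomm y') hz (by rw [Subgroup.orderOf_coe]; exact hy')
            have hpp3 := Helper16.isPPart_conj hpp2 γ⁻¹
            have e1 : z * (z⁻¹ * γ⁻¹ * (z * (y' : G)) * γ) = γ⁻¹ * (z * (y' : G)) * γ⁻¹⁻¹ := by
              group
            rw [e1] at hpp1
            have e2 := Helper16.isPPart_unique hpp1 hpp3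
            rw [Subgroup.mem_centralizer_iff]
            intro s hs
            rw [Set.mem_singleton_iff] at hs
            rw [hs]
            calc z * γ = γ * (γ⁻¹ * z * γ⁻¹⁻¹) := by group
              _ = γ * z := by rw [← e2]
          apply finsum_mem_eq_zero_of_blocks U hUcl
          intro a _
          exact Helper77.weak_block_orthogonality hM ⟨a, rfl⟩ hy hsing
        · rw [Helper16.ext0_apply_not_mem _ _ hc]
    simp only [h1]
    have h2 := Helper16.sum_ext0_mul (Subgroup.centralizer ({z} : Set G))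
      (fun _ : Subgroup.centralizer ({z} : Set G) => Ψ y') (fun _ => (1 : ℂ))
    simp only [mul_one] at h2
    rw [h2, Finset.sum_const, Finset.card_univ, nsmul_eq_mul, Nat.card_eq_fintype_card]
  rw [hL, hR] at hfour
  have h3 := mul_left_cancel₀ hcardH hfour
  rw [← h3, hΨ]

end Cfsg.Agent.Helper82
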