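import Cfsg.Agent.Helper82.SectionUnion
import Cfsg.Agent.Helper82.SectionDecomp

/-!
# The ranks of the blocks of a centralizer inducing a given block

For a `p`-element `z` with centralizer `H` and a block `B` of `G`,
`∑_{b^G = B} l(b) = |H|⁻¹ ∑_{y ∈ H, y p-regular} ∑_{ζ ∈ B} |ζ(z y)|²`.
-/

set_option autoImplicit false
open Cfsg
open scoped ComplexConjugate

namespace Cfsg.Agent.Helper82

universe u

variable {G : Type u} [Group G] [Fintype G]

/-- The sum of the ranks of the blocks of `C(z)` inducing `B`, as a character sum over the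
`p`-section of `z`. -/
theorem section_rank {p : ℕ} [Fact p.Prime] {M : Ideal Cfsg.AlgInt}
    (hM : Cfsg.IsPModular p M) (z : G) (hz : ∃ k : ℕ, orderOf z = p ^ k)
    {B : Set (Cfsg.IrrCharacter G)} (hB : Cfsg.IsPBlock M B) :
    ((∑ᶠ b ∈ {b : Set (Cfsg.IrrCharacter ↥(Subgroup.centralizer ({z} : Set G))) |
        Cfsg.IsInducedBlock M (Subgroup.centralizer ({z} : Set G)) b B},
          Cfsg.blockRank p b : ℕ) : ℂ)
      = (Nat.card (Subgroup.centralizer ({z} : Set G)) : ℂ)⁻¹ *
        ∑ᶠ y : Subgroup.centralizer ({z} : Set G),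
          if ¬ p ∣ orderOf y then
            (∑ᶠ ζ ∈ B, (ζ : G → ℂ) (z * (y : G)) * conj ((ζ : G → ℂ) (z * (y : G)))) else 0 := by
  classical
  have hMm := hM.2.1
  have hMp : M.IsPrime := Helper81.isPrime_of_isPModular hM
  have := Fintype.ofFinite (Subgroup.centralizer ({z} : Set G))
  have := Fintype.ofFinite (Cfsg.IrrCharacter (Subgroup.centralizer ({z} : Set G)))
  have hcardH : (Nat.card (Subgroup.centralizer ({z} : Set G)) : ℂ) ≠ 0 := by
    have : 0 < Nat.card (Subgroup.centralizer ({z} : Set G)) := Nat.card_pos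
    exact_mod_cast this.ne'
  obtain ⟨U, hU⟩ : ∃ U : Set (Cfsg.IrrCharacter (Subgroup.centralizer ({z} : Set G))),
      ∀ ψ : Cfsg.IrrCharacter (Subgroup.centralizer ({z} : Set G)), ψ ∈ U ↔
        Cfsg.IsInducedBlock M (Subgroup.centralizer ({z} : Set G))
          (Cfsg.blockOf M (ψ : Subgroup.centralizer ({z} : Set G) → ℂ)) B :=
    ⟨{ψ | Cfsg.IsInducedBlock M (Subgroup.centralizer ({z} : Set G))
          (Cfsg.blockOf M (ψ : Subgroup.centralizer ({z} : Set G) → ℂ)) B}, fun ψ => Iff.rfl⟩
  have hfin : {b : Set (Cfsg.IrrCharacter ↥(Subgroup.centralizer ({z} : Set G))) |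
      Cfsg.IsInducedBlock M (Subgroup.centralizer ({z} : Set G)) b B}.Finite := Set.toFinite _
  rw [Nat.cast_finsum_mem hfin, finsum_mem_eq_finite_toFinset_sum _ hfin]
  -- the rank of a block as a character sum
  have h2 : ∀ b ∈ hfin.toFinset, (Cfsg.blockRank p b : ℂ)
      = (Nat.card (Subgroup.centralizer ({z} : Set G)) : ℂ)⁻¹ *
        ∑ χ : Cfsg.IrrCharacter (Subgroup.centralizer ({z} : Set G)),
          if χ ∈ b then Helper77.pregInner p (χ : Subgroup.centralizer ({z} : Set G) → ℂ)
            (χ : Subgroup.centralizer ({z} : Set G) → ℂ) else 0 := by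
    intro b hb
    rw [Set.Finite.mem_toFinset, Set.mem_ofPred_eq] at hb
    have h := Helper77.card_mul_blockRank (p := p) hM hb.1
    rw [Finset.sum_filter] at h
    rw [← h, ← mul_assoc, inv_mul_cancel₀ hcardH, one_mul]
  rw [Finset.sum_congr rfl h2, ← Finset.mul_sum]
  congr 1
  rw [Finset.sum_comm]
  -- the blocks inducing `B` partition `U`
  have h3 : ∀ χ : Cfsg.IrrCharacter (Subgroup.centralizer ({z} : Set G)),
      ∑ b ∈ hfin.toFinset, (if χ ∈ b then
        Helper77.pregInner p (χ : Subgroup.centralizer ({z} : Set G) → ℂ)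
          (χ : Subgroup.centralizer ({z} : Set G) → ℂ) else 0)
      = if χ ∈ U then Helper77.pregInner p (χ : Subgroup.centralizer ({z} : Set G) → ℂ)
          (χ : Subgroup.centralizer ({z} : Set G) → ℂ) else 0 := by
    intro χ
    by_cases hχ : χ ∈ U
    · rw [if_pos hχ, Finset.sum_eq_single
        (Cfsg.blockOf M (χ : Subgroup.centralizer ({z} : Set G) → ℂ))]
      · rw [if_pos (Helper81.mem_blockOf_self χ)]
      · intro b hb hne
        rw [Set.Finite.mem_toFinset, Set.mem_ofPred_eq] at hb
        rw [if_neg]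
        intro hχb
        exact hne (Helper16.eq_blockOf_of_mem hMm hb.1 hχb)
      · intro h
        exfalso
        apply h
        rw [Set.Finite.mem_toFinset, Set.mem_ofPred_eq]
        exact (hU χ).mp hχ
    · rw [if_neg hχ]
      apply Finset.sum_eq_zero
      intro b hb
      rw [Set.Finite.mem_toFinset, Set.mem_ofPred_eq] at hb
      rw [if_neg]
      intro hχb
      apply hχ
      rw [hU, ← Helper16.eq_blockOf_of_mem hMm hb.1 hχb]
      exact hb
  rw [Finset.sum_congr rfl (fun χ _ => h3 χ), finsum_eq_sum_of_fintype]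
  -- the section sum
  have h4 : ∀ y : Subgroup.centralizer ({z} : Set G),
      (if ¬ p ∣ orderOf y then
        (∑ᶠ ζ ∈ B, (ζ : G → ℂ) (z * (y : G)) * conj ((ζ : G → ℂ) (z * (y : G)))) else 0)
      = ∑ χ : Cfsg.IrrCharacter (Subgroup.centralizer ({z} : Set G)),
          if χ ∈ U then (if ¬ p ∣ orderOf y then
            (χ : Subgroup.centralizer ({z} : Set G) → ℂ) y
              * conj ((χ : Subgroup.centralizer ({z} : Set G) → ℂ) y) else 0) else 0 := by
    intro y
    by_cases hy : p ∣ orderOf y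
    · rw [if_neg (not_not.mpr hy)]
      symm
      apply Finset.sum_eq_zero
      intro χ _
      rw [if_neg (not_not.mpr hy), ite_self]
    · rw [if_pos hy, sum_block_section_union hM z hz hB U hU y y hy hy, finsum_mem_def,
        finsum_eq_sum_of_fintype]
      refine Finset.sum_congr rfl fun χ _ => ?_
      rw [Set.indicator_apply, if_pos hy]
  have h5 : ∀ χ : Cfsg.IrrCharacter (Subgroup.centralizer ({z} : Set G)),
      (if χ ∈ U then Helper77.pregInner p (χ : Subgroup.centralizer ({z} : Set G) → ℂ)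
          (χ : Subgroup.centralizer ({z} : Set G) → ℂ) else 0)
      = ∑ y : Subgroup.centralizer ({z} : Set G),
          if χ ∈ U then (if ¬ p ∣ orderOf y then
            (χ : Subgroup.centralizer ({z} : Set G) → ℂ) y
              * conj ((χ : Subgroup.centralizer ({z} : Set G) → ℂ) y) else 0) else 0 := by
    intro χ
    by_cases hχ : χ ∈ U
    · simp only [if_pos hχ]
      rfl
    · simp only [if_neg hχ, Finset.sum_const_zero]
  rw [Finset.sum_congr rfl (fun y _ => h4 y), Finset.sum_congr rfl (fun χ _ => h5 χ),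
    Finset.sum_comm]

end Cfsg.Agent.Helper82
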