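import Mathlib
import Cfsg.Agent.Helper76.PSolvable

/-!
# Coprime action tools and the Hall–Higman configuration for TI Sylow subgroups

`PInv P R` : `R` is normalized by `P`; `PCent P R` : `R` is centralized by `P`.
-/

set_option autoImplicit false

namespace Cfsg.Agent.Helper82

section basic
variable {G : Type*} [Group G]

/-- `R` is normalized by `P`. -/
def PInv (P R : Subgroup G) : Prop := ∀ x ∈ P, ∀ r ∈ R, x * r * x⁻¹ ∈ R

/-- `R` is centralized by `P`. -/
def PCent (P R : Subgroup G) : Prop := ∀ x ∈ P, ∀ r ∈ R, x * r = r * x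

theorem PInv.inv_conj {P R : Subgroup G} (h : PInv P R) {x r : G} (hx : x ∈ P) (hr : r ∈ R) :
    x⁻¹ * r * x ∈ R := by
  have := h x⁻¹ (P.inv_mem hx) r hr
  rwa [inv_inv] at this

/-- If `x a x⁻¹ = a c` with `c` commuting with `x`, `x` a `p`-element and `c` a `p'`-element,
then `c = 1`. -/
theorem eq_one_of_conj_eq_mul {p : ℕ} [hp : Fact p.Prime] {x a c : G}
    (hx : ∃ k : ℕ, orderOf x = p ^ k) (hc : (orderOf c).Coprime p) (hxc : x * c = c * x)
    (h : x * a * x⁻¹ = a * c) : c = 1 := by
  have key : ∀ n : ℕ, x ^ n * a * (x ^ n)⁻¹ = a * c ^ n := by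
    intro n
    induction n with
    | zero => simp
    | succ n ih =>
      have hcomm : x * c ^ n * x⁻¹ = c ^ n := by
        have h1 : Commute x (c ^ n) := (show Commute x c from hxc).pow_right n
        rw [h1.eq, mul_assoc, mul_inv_cancel, mul_one]
      calc x ^ (n + 1) * a * (x ^ (n + 1))⁻¹
          = x * (x ^ n * a * (x ^ n)⁻¹) * x⁻¹ := by
            rw [pow_succ', mul_inv_rev]; group
        _ = x * (a * c ^ n) * x⁻¹ := by rw [ih]
        _ = (x * a * x⁻¹) * (x * c ^ n * x⁻¹) := by group
        _ = a * c ^ (n + 1) := by rw [h, hcomm, pow_succ', mul_assoc]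
  obtain ⟨k, hk⟩ := hx
  have h1 := key (orderOf x)
  rw [pow_orderOf_eq_one, one_mul, inv_one, mul_one] at h1
  have h2 : c ^ orderOf x = 1 := by
    have := congrArg (fun t => a⁻¹ * t) h1
    simpa using this.symm
  have h3 : orderOf c ∣ p ^ k := hk ▸ orderOf_dvd_of_pow_eq_one h2
  have h4 : orderOf c = 1 := by
    have h5 : (orderOf c).Coprime (p ^ k) := Nat.Coprime.pow_right k hc
    exact Nat.Coprime.eq_one_of_dvd h5 h3
  exact orderOf_eq_one_iff.mp h4

end basic

section hh
variable {G : Type*} [Group G] [Finite G] {p : ℕ} [hp : Fact p.Prime]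

omit [Finite G] in
/-- An element that is both a `p`-element and a `p'`-element is trivial. -/
theorem eq_one_of_pow_of_coprime {u : G} (h1 : ∃ k : ℕ, orderOf u = p ^ k)
    (h2 : (orderOf u).Coprime p) : u = 1 := by
  obtain ⟨k, hk⟩ := h1
  rw [hk] at h2
  rcases Nat.eq_zero_or_pos k with h0 | h0
  · rw [h0, pow_zero] at hk
    exact orderOf_eq_one_iff.mp hk
  · exfalso
    have h3 : p ∣ p ^ k := dvd_pow_self p h0.ne'
    have h4 : p ∣ Nat.gcd (p ^ k) p := Nat.dvd_gcd h3 dvd_rfl
    rw [h2] at h4
    exact hp.out.one_lt.ne' (Nat.dvd_one.mp h4)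

/-- In a `p`-solvable group without nontrivial normal `p`-subgroups, if all `p`-elements
centralize `O_{p'}(G)` then there are no nontrivial `p`-elements. -/
theorem forall_p_elt_eq_one (hs : Helper76.IsPSolvableElt p G)
    (hO : ∀ N : Subgroup G, N.Normal → IsPGroup p N → N = ⊥)
    (hC : ∀ u : G, (∃ k : ℕ, orderOf u = p ^ k) → ∀ k ∈ Cfsg.pPrimeCore p G, u * k = k * u) :
    ∀ u : G, (∃ k : ℕ, orderOf u = p ^ k) → u = 1 := by
  classical
  set K := Cfsg.pPrimeCore p G with hK
  have hKn : K.Normal := Helper76.pPrimeCore_normal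
  have hKp : ∀ x ∈ K, (orderOf x).Coprime p := Helper76.pPrimeCore_forall_coprime
  suffices htop : (⊤ : Subgroup G) ≤ K by
    intro u hu
    exact eq_one_of_pow_of_coprime hu (hKp u (htop (Subgroup.mem_top u)))
  by_contra hcon
  obtain ⟨Y, hYn, -, hYK, hcase⟩ := hs.exists_step ⊤ inferInstance K hcon
  apply hYK
  apply Helper76.le_pPrimeCore' Y hYn
  rcases hcase with ha | hb
  · -- the p-step
    set T := Subgroup.closure {u : G | u ∈ Y ∧ ∃ k : ℕ, orderOf u = p ^ k} with hT
    have hTY : T ≤ Y := (Subgroup.closure_le Y).mpr (fun u hu => hu.1)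
    have hTn : T.Normal := by
      constructor
      intro n hn g
      induction hn using Subgroup.closure_induction with
      | mem x hx =>
        refine Subgroup.subset_closure ⟨hYn.conj_mem x hx.1 g, ?_⟩
        have h1 : orderOf (g * x * g⁻¹) = orderOf x := by
          rw [← MulAut.conj_apply]; exact MulEquiv.orderOf_eq _ x
        rw [h1]; exact hx.2
      | one => simp
      | mul x y _ _ ihx ihy =>
        have : g * (x * y) * g⁻¹ = (g * x * g⁻¹) * (g * y * g⁻¹) := by group
        rw [this]; exact mul_mem ihx ihy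
      | inv x _ ih =>
        have : g * x⁻¹ * g⁻¹ = (g * x * g⁻¹)⁻¹ := by group
        rw [this]; exact inv_mem ih
    have hTK : ∀ t ∈ T, ∀ k ∈ K, t * k = k * t := by
      intro t ht k hk
      have h1 : T ≤ Subgroup.centralizer (K : Set G) := by
        rw [hT, Subgroup.closure_le]
        intro u hu
        rw [SetLike.mem_coe, Subgroup.mem_centralizer_iff]
        intro k' hk'
        exact (hC u hu.2 k' hk').symm
      exact (Subgroup.mem_centralizer_iff.mp (h1 ht) k hk).symm
    have hquot : IsPGroup p (T ⧸ Subgroup.center T) := by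
      intro tbar
      obtain ⟨t, rfl⟩ := QuotientGroup.mk_surjective tbar
      obtain ⟨k, hk⟩ := ha t (hTY t.2)
      refine ⟨k, ?_⟩
      rw [← QuotientGroup.mk_pow, QuotientGroup.eq_one_iff, Subgroup.mem_center_iff]
      intro s
      apply Subtype.ext
      simp only [Subgroup.coe_mul, Subgroup.coe_pow]
      exact hTK s s.2 _ hk
    obtain ⟨j, hj⟩ := IsPGroup.iff_card.mp hquot
    have he : (Subgroup.center T).index = p ^ j := by
      rw [Subgroup.index_eq_card]; exact hj
    set τ := MonoidHom.transferCenterPow T with hτ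
    have hτker : ∀ t : T, τ t = 1 ↔ (t : G) ^ (p ^ j) = 1 := by
      intro t
      constructor
      · intro h1
        have h2 : ((τ t : Subgroup.center T) : T) = 1 := by rw [h1]; rfl
        rw [hτ, MonoidHom.transferCenterPow_apply, he] at h2
        have h3 := congrArg Subtype.val h2
        simpa using h3
      · intro h1
        apply Subtype.ext
        rw [hτ, MonoidHom.transferCenterPow_apply, he]
        apply Subtype.ext
        simpa using h1
    set S := τ.ker.map T.subtype with hS
    have hSmem : ∀ x : G, x ∈ S ↔ x ∈ T ∧ x ^ (p ^ j) = 1 := by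
      intro x
      constructor
      · rintro ⟨t, ht, rfl⟩
        exact ⟨t.2, (hτker t).mp ht⟩
      · rintro ⟨hx, hxe⟩
        exact ⟨⟨x, hx⟩, (hτker ⟨x, hx⟩).mpr hxe, rfl⟩
    have hSn : S.Normal := by
      constructor
      intro x hx g
      rw [hSmem] at hx ⊢
      refine ⟨hTn.conj_mem x hx.1 g, ?_⟩
      rw [conj_pow, hx.2]; group
    have hSp : IsPGroup p S := by
      intro s
      refine ⟨j, Subtype.ext ?_⟩
      have := ((hSmem s).mp s.2).2
      simpa using this
    have hSbot := hO S hSn hSp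
    have hτinj : ∀ t : T, τ t = 1 → t = 1 := by
      intro t ht
      have h1 : (t : G) ∈ S := ⟨t, ht, rfl⟩
      rw [hSbot, Subgroup.mem_bot] at h1
      exact Subtype.ext h1
    have hTcomm : ∀ u v : T, u * v = v * u := by
      intro u v
      have h1 : τ (u * v * (v * u)⁻¹) = 1 := by
        rw [map_mul, map_inv, map_mul, map_mul]
        have h2 : τ u * τ v = τ v * τ u := by
          apply Subtype.ext
          simp only [Subgroup.coe_mul]
          exact Subgroup.mem_center_iff.mp (τ v).2 (τ u)
        rw [h2, mul_inv_cancel]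
      have h3 := hτinj _ h1
      rw [mul_inv_eq_one] at h3
      exact h3
    have hTp : IsPGroup p T := by
      have key : ∀ t ∈ T, ∃ k : ℕ, t ^ (p ^ k) = 1 := by
        intro t ht
        induction ht using Subgroup.closure_induction with
        | mem x hx =>
          obtain ⟨k, hk⟩ := hx.2
          exact ⟨k, by rw [← hk]; exact pow_orderOf_eq_one x⟩
        | one => exact ⟨0, by simp⟩
        | mul x y hx hy ihx ihy =>
          obtain ⟨a, ha'⟩ := ihx
          obtain ⟨b, hb'⟩ := ihy
          have hc : Commute x y := congrArg Subtype.val (hTcomm ⟨x, hx⟩ ⟨y, hy⟩)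
          refine ⟨a + b, ?_⟩
          rw [hc.mul_pow, pow_add, pow_mul, ha', one_pow, mul_comm (p ^ a) (p ^ b), pow_mul, hb',
            one_pow, one_mul]
        | inv x _ ih =>
          obtain ⟨a, ha'⟩ := ih
          exact ⟨a, by rw [inv_pow, ha', inv_one]⟩
      intro t
      obtain ⟨k, hk⟩ := key t t.2
      exact ⟨k, Subtype.ext (by simpa using hk)⟩
    have hTbot := hO T hTn hTp
    intro y hy
    obtain ⟨a, m, hm, hn⟩ :=
      Nat.exists_eq_pow_mul_and_not_dvd (orderOf_pos y).ne' p hp.out.ne_one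
    have h1 : ∃ k : ℕ, orderOf (y ^ m) = p ^ k := by
      have h2 : (y ^ m) ^ (p ^ a) = 1 := by
        rw [← pow_mul, mul_comm, ← hn, pow_orderOf_eq_one]
      obtain ⟨k, -, hk⟩ := (Nat.dvd_prime_pow hp.out).mp (orderOf_dvd_of_pow_eq_one h2)
      exact ⟨k, hk⟩
    have h2 : y ^ m ∈ T := Subgroup.subset_closure ⟨Y.pow_mem hy m, h1⟩
    rw [hTbot, Subgroup.mem_bot] at h2
    have h3 : orderOf y ∣ m := orderOf_dvd_of_pow_eq_one h2
    exact Nat.Coprime.coprime_dvd_left h3 ((Nat.Prime.coprime_iff_not_dvd hp.out).mpr hm).symm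
  · intro y hy
    obtain ⟨m, hm, hym⟩ := hb y hy
    have h3 := hKp _ hym
    have h4 : y ^ (m * orderOf (y ^ m)) = 1 := by
      rw [pow_mul, pow_orderOf_eq_one]
    exact Nat.Coprime.coprime_dvd_left (orderOf_dvd_of_pow_eq_one h4) (Nat.Coprime.mul_left hm h3)

end hh

end Cfsg.Agent.Helper82
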