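import Mathlib
import Cfsg.Agent.Helper82.TIConfig
import Cfsg.Agent.Helper48.CoprimeGen2

/-!
# TI Sylow subgroups which are not normal: a minimal non-centralized invariant subgroup
-/

set_option autoImplicit false

open scoped Pointwise

namespace Cfsg.Agent.Helper82

section ti
variable {G : Type*} [Group G]

theorem mem_conj_smul_iff (g x : G) (P : Subgroup G) :
    x ∈ MulAut.conj g • P ↔ g⁻¹ * x * g ∈ P := by
  rw [Subgroup.mem_pointwise_smul_iff_inv_smul_mem]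
  simp [MulAut.smul_def]

/-- The TI hypothesis, elementwise. -/
theorem ti_elt {P : Subgroup G}
    (hTI : ∀ g : G, g ∉ Subgroup.normalizer (P : Set G) → P ⊓ (MulAut.conj g • P) = ⊥)
    {g x : G} (hx : x ∈ P) (hx1 : x ≠ 1) (hgx : g⁻¹ * x * g ∈ P) :
    g ∈ Subgroup.normalizer (P : Set G) := by
  by_contra hg
  have h1 := hTI g hg
  have h2 : x ∈ P ⊓ (MulAut.conj g • P) := ⟨hx, (mem_conj_smul_iff g x P).mpr hgx⟩
  rw [h1, Subgroup.mem_bot] at h2
  exact hx1 h2

variable [Finite G] {p : ℕ} [hp : Fact p.Prime]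

omit [Finite G] in
theorem sylow_mem_orderOf (P : Sylow p G) {x : G} (hx : x ∈ (P : Subgroup G)) :
    ∃ k : ℕ, orderOf x = p ^ k := by
  obtain ⟨k, hk⟩ := IsPGroup.iff_orderOf.mp P.isPGroup' ⟨x, hx⟩
  exact ⟨k, by rw [← hk]; exact (Subgroup.orderOf_mk x hx).symm⟩

/-- A non-normal TI Sylow `p`-subgroup forces `O_p(G) = 1`. -/
theorem ti_normal_p_subgroup_eq_bot (P : Sylow p G)
    (hTI : ∀ g : G, g ∉ Subgroup.normalizer ((P : Subgroup G) : Set G) →
      (P : Subgroup G) ⊓ (MulAut.conj g • (P : Subgroup G)) = ⊥)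
    (hP : ¬ (P : Subgroup G).Normal) (N : Subgroup G) (hN : N.Normal) (hNp : IsPGroup p N) :
    N = ⊥ := by
  obtain ⟨Q, hQ⟩ := hNp.exists_le_sylow
  obtain ⟨g, rfl⟩ := MulAction.exists_smul_eq G P Q
  have key : ∀ h : G, ∀ n ∈ N, h⁻¹ * n * h ∈ (P : Subgroup G) := by
    intro h n hn
    have h1 : (g * h⁻¹) * n * (g * h⁻¹)⁻¹ ∈ N := hN.conj_mem n hn _
    have h2 := hQ h1
    rw [Sylow.coe_subgroup_smul, mem_conj_smul_iff] at h2
    have h3 : g⁻¹ * (g * h⁻¹ * n * (g * h⁻¹)⁻¹) * g = h⁻¹ * n * h := by group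
    rwa [h3] at h2
  have hex : ∃ g₀, g₀ ∉ Subgroup.normalizer ((P : Subgroup G) : Set G) := by
    by_contra hall
    push Not at hall
    exact hP (Subgroup.normalizer_eq_top_iff.mp ((Subgroup.eq_top_iff' _).mpr hall))
  obtain ⟨g₀, hg₀⟩ := hex
  have h3 := hTI g₀ hg₀
  rw [eq_bot_iff]
  intro n hn
  rw [← h3]
  refine ⟨?_, (mem_conj_smul_iff g₀ n _).mpr (key g₀ n hn)⟩
  have h4 := key 1 n hn
  rw [inv_one, one_mul, mul_one] at h4
  exact h4

/-- In a `p`-solvable group with a non-normal TI Sylow `p`-subgroup `P`, `P` does not centralize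
`O_{p'}(G)`. -/
theorem ti_not_pcent (hs : Helper76.IsPSolvableElt p G) (P : Sylow p G)
    (hTI : ∀ g : G, g ∉ Subgroup.normalizer ((P : Subgroup G) : Set G) →
      (P : Subgroup G) ⊓ (MulAut.conj g • (P : Subgroup G)) = ⊥)
    (hP : ¬ (P : Subgroup G).Normal) :
    ¬ PCent (P : Subgroup G) (Cfsg.pPrimeCore p G) := by
  intro hcent
  have hKn : (Cfsg.pPrimeCore p G).Normal := Helper76.pPrimeCore_normal
  have hC : ∀ u : G, (∃ k : ℕ, orderOf u = p ^ k) →
      ∀ k ∈ Cfsg.pPrimeCore p G, u * k = k * u := by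
    intro u hu k hk
    have hup : IsPGroup p (Subgroup.zpowers u) := by
      obtain ⟨j, hj⟩ := hu
      exact IsPGroup.of_card (n := j) (by rw [Nat.card_zpowers, hj])
    obtain ⟨Q, hQ⟩ := hup.exists_le_sylow
    obtain ⟨g, rfl⟩ := MulAction.exists_smul_eq G P Q
    have h1 := hQ (Subgroup.mem_zpowers u)
    rw [Sylow.coe_subgroup_smul, mem_conj_smul_iff] at h1
    have h2 : g⁻¹ * k * g⁻¹⁻¹ ∈ Cfsg.pPrimeCore p G := hKn.conj_mem k hk g⁻¹
    have h3 := hcent _ h1 _ h2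
    have h4 : u * k = g * ((g⁻¹ * u * g) * (g⁻¹ * k * g⁻¹⁻¹)) * g⁻¹ := by group
    have h5 : k * u = g * ((g⁻¹ * k * g⁻¹⁻¹) * (g⁻¹ * u * g)) * g⁻¹ := by group
    rw [h4, h5, h3]
  have hall := forall_p_elt_eq_one hs (ti_normal_p_subgroup_eq_bot P hTI hP) hC
  apply hP
  have : (P : Subgroup G) = ⊥ := by
    rw [eq_bot_iff]
    intro x hx
    rw [Subgroup.mem_bot]
    exact hall x (sylow_mem_orderOf P hx)
  rw [this]
  exact Subgroup.normal_bot

omit [Finite G] in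
/-- In the TI situation, an element of a normal `p'`-subgroup commuting with one nontrivial
element of `P` commutes with all of `P`. -/
theorem ti_centralizer (P : Sylow p G)
    (hTI : ∀ g : G, g ∉ Subgroup.normalizer ((P : Subgroup G) : Set G) →
      (P : Subgroup G) ⊓ (MulAut.conj g • (P : Subgroup G)) = ⊥)
    (K : Subgroup G) (hKn : K.Normal) (hKp : ∀ k ∈ K, (orderOf k).Coprime p)
    {x k : G} (hx : x ∈ (P : Subgroup G)) (hx1 : x ≠ 1) (hk : k ∈ K) (hxk : x * k = k * x) :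
    ∀ y ∈ (P : Subgroup G), y * k = k * y := by
  intro y hy
  have h1 : k⁻¹ * x * k = x := by
    rw [mul_assoc, hxk, ← mul_assoc, inv_mul_cancel, one_mul]
  have hkN : k ∈ Subgroup.normalizer ((P : Subgroup G) : Set G) :=
    ti_elt hTI hx hx1 (by rw [h1]; exact hx)
  have h2 : k * y * k⁻¹ ∈ (P : Subgroup G) := (Subgroup.mem_normalizer_iff.mp hkN y).mp hy
  have h3 : k * y * k⁻¹ * y⁻¹ ∈ (P : Subgroup G) := mul_mem h2 (inv_mem hy)
  have h4 : k * y * k⁻¹ * y⁻¹ ∈ K := by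
    have : k * y * k⁻¹ * y⁻¹ = k * (y * k⁻¹ * y⁻¹) := by group
    rw [this]
    exact mul_mem hk (hKn.conj_mem _ (inv_mem hk) y)
  have h5 := eq_one_of_pow_of_coprime (sylow_mem_orderOf P h3) (hKp _ h4)
  have h6 : k * y = (k * y * k⁻¹ * y⁻¹) * (y * k) := by group
  rw [h6, h5, one_mul]

/-- A `P`-invariant Sylow subgroup of `O_{p'}(G)` not centralized by `P`. -/
theorem exists_inv_sylow_not_cent (P : Subgroup G) (hPp : IsPGroup p P) (K : Subgroup G)
    [K.Normal] (hK : ¬ p ∣ Nat.card K) (hnc : ¬ PCent P K) :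
    ∃ (q : ℕ) (Q : Subgroup G), q.Prime ∧ IsPGroup q Q ∧ Q ≤ K ∧ PInv P Q ∧ ¬ PCent P Q := by
  by_contra hcon
  push Not at hcon
  apply hnc
  have h1 : K ≤ Subgroup.centralizer (P : Set G) := by
    apply Helper48.le_of_forall_sylow_le
    intro q hq
    obtain ⟨Q, hQ⟩ := Helper48.exists_invariant_sylow K hK P hPp q
    refine ⟨Q, ?_⟩
    have hinv : PInv P ((Q : Subgroup K).map K.subtype) := by
      intro x hx r hr
      exact (Subgroup.mem_normalizer_iff.mp (hQ x hx) r).mp hr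
    have h2 := hcon q _ hq.out (Q.2.map _) (Subgroup.map_subtype_le _) hinv
    intro r hr
    rw [Subgroup.mem_centralizer_iff]
    intro x hx
    exact h2 x hx r hr
  intro x hx k hk
  exact Subgroup.mem_centralizer_iff.mp (h1 hk) x hx

omit hp in
/-- A minimal `P`-invariant subgroup not centralized by `P`. -/
theorem exists_minimal_not_cent {P Q : Subgroup G} (hinv : PInv P Q) (hnc : ¬ PCent P Q) :
    ∃ R : Subgroup G, R ≤ Q ∧ PInv P R ∧ ¬ PCent P R ∧
      ∀ S : Subgroup G, S ≤ R → PInv P S → S ≠ R → PCent P S := by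
  classical
  let T : Set (Subgroup G) := {S | S ≤ Q ∧ PInv P S ∧ ¬ PCent P S}
  have hT : T.Nonempty := ⟨Q, le_rfl, hinv, hnc⟩
  obtain ⟨R, hR, hmin⟩ :=
    WellFounded.has_min (InvImage.wf (fun S : Subgroup G => Nat.card S) Nat.lt_wfRel.wf) T hT
  refine ⟨R, hR.1, hR.2.1, hR.2.2, fun S hSR hSinv hne => ?_⟩
  by_contra hc
  have h1 : S ∈ T := ⟨hSR.trans hR.1, hSinv, hc⟩
  have h2 := hmin S h1
  apply hne
  apply Subgroup.eq_of_le_of_card_ge hSR
  by_contra h3
  push Not at h3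
  exact h2 h3

end ti

end Cfsg.Agent.Helper82
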