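import Mathlib
import Cfsg.Agent.Helper82.TIConfig2

/-!
# Structure of a minimal non-centralized invariant subgroup in the TI configuration
-/

set_option autoImplicit false

open scoped Pointwise commutatorElement

namespace Cfsg.Agent.Helper82

section mincfg
variable {G : Type*} [Group G]

/-- The fixed points of `P` on `R`. -/
def fix (P R : Subgroup G) : Subgroup G := R ⊓ Subgroup.centralizer (P : Set G)

theorem mem_fix {P R : Subgroup G} {a : G} :
    a ∈ fix P R ↔ a ∈ R ∧ ∀ x ∈ P, x * a = a * x := by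
  unfold fix
  rw [Subgroup.mem_inf, Subgroup.mem_centralizer_iff]
  rfl

theorem fix_le (P R : Subgroup G) : fix P R ≤ R := inf_le_left

theorem le_fix_of_pcent {P R S : Subgroup G} (hS : S ≤ R) (hc : PCent P S) : S ≤ fix P R :=
  fun s hs => mem_fix.mpr ⟨hS hs, fun x hx => hc x hx s hs⟩

theorem pcent_fix (P R : Subgroup G) : PCent P (fix P R) :=
  fun x hx _ hc => (mem_fix.mp hc).2 x hx

/-- The minimal configuration: `R` is a `p'`-group of prime power order, normalized but not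
centralized by the `p`-group `P`, every proper `P`-invariant subgroup of `R` is centralized by
`P`, and the centralizer in `R` of any nontrivial element of `P` is the centralizer of `P`. -/
structure MinCfg (p : ℕ) (P R : Subgroup G) : Prop where
  inv : PInv P R
  ncent : ¬ PCent P R
  min : ∀ S : Subgroup G, S ≤ R → PInv P S → S ≠ R → PCent P S
  pP : IsPGroup p P
  pR : ∀ r ∈ R, (orderOf r).Coprime p
  nil : ∃ q : ℕ, q.Prime ∧ IsPGroup q R
  ti : ∀ x ∈ P, x ≠ 1 → ∀ a ∈ R, x * a = a * x → ∀ y ∈ P, y * a = a * y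

namespace MinCfg

variable {p : ℕ} [hp : Fact p.Prime] {P R : Subgroup G}

theorem pelt (h : MinCfg p P R) {x : G} (hx : x ∈ P) : ∃ k : ℕ, orderOf x = p ^ k := by
  obtain ⟨k, hk⟩ := IsPGroup.iff_orderOf.mp h.pP ⟨x, hx⟩
  exact ⟨k, by rw [← hk]; exact (Subgroup.orderOf_mk x hx).symm⟩

omit hp in
theorem ne_bot (h : MinCfg p P R) : R ≠ ⊥ := by
  intro hR
  apply h.ncent
  intro x hx r hr
  rw [hR, Subgroup.mem_bot] at hr
  rw [hr, mul_one, one_mul]

omit hp in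
theorem exists_not_mem_fix (h : MinCfg p P R) : ∃ a ∈ R, a ∉ fix P R := by
  by_contra hcon
  push Not at hcon
  apply h.ncent
  intro x hx r hr
  exact (mem_fix.mp (hcon r hr)).2 x hx

variable [Finite G]

omit hp in
/-- Commutators of `R` are fixed by `P`. -/
theorem comm_mem_fix (h : MinCfg p P R) {a r : G} (ha : a ∈ R) (hr : r ∈ R) :
    a⁻¹ * r * a * r⁻¹ ∈ fix P R := by
  have hS_le : ⁅R, R⁆ ≤ R := by
    rw [Subgroup.commutator_le]
    intro g₁ h₁ g₂ h₂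
    rw [commutatorElement_def]
    exact mul_mem (mul_mem (mul_mem h₁ h₂) (inv_mem h₁)) (inv_mem h₂)
  have hS_inv : PInv P ⁅R, R⁆ := by
    intro x hx s hs
    have h1 : (⁅R, R⁆).map (MulAut.conj x).toMonoidHom ≤ ⁅R, R⁆ := by
      rw [Subgroup.map_commutator]
      apply Subgroup.commutator_mono
      · rintro _ ⟨r, hr, rfl⟩
        exact h.inv x hx r hr
      · rintro _ ⟨r, hr, rfl⟩
        exact h.inv x hx r hr
    exact h1 ⟨s, hs, rfl⟩
  have hS_ne : ⁅R, R⁆ ≠ R := by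
    intro heq
    obtain ⟨q, hq, hqR⟩ := h.nil
    have : Fact q.Prime := ⟨hq⟩
    have : Nontrivial R := (Subgroup.nontrivial_iff_ne_bot R).mpr h.ne_bot
    have : Group.IsNilpotent R := hqR.isNilpotent
    have h2 := Group.IsSolvable.commutator_lt_top_of_nontrivial R
    have h3 : (commutator R).map R.subtype = (⊤ : Subgroup R).map R.subtype := by
      rw [Subgroup.map_subtype_commutator, heq, ← MonoidHom.range_eq_map, Subgroup.range_subtype]
    exact h2.ne (Subgroup.map_injective R.subtype_injective h3)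
  have h4 := le_fix_of_pcent hS_le (h.min _ hS_le hS_inv hS_ne)
  apply h4
  have h5 : a⁻¹ * r * a * r⁻¹ = ⁅a⁻¹, r⁆ := by rw [commutatorElement_def, inv_inv]
  rw [h5]
  exact Subgroup.commutator_mem_commutator (inv_mem ha) hr

/-- The fixed points of `P` on `R` are central in `R`. -/
theorem fix_central (h : MinCfg p P R) {c r : G} (hc : c ∈ fix P R) (hr : r ∈ R) :
    c * r = r * c := by
  set D : Subgroup G := R ⊓ Subgroup.centralizer (fix P R : Set G) with hD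
  have hD_le : D ≤ R := inf_le_left
  have hD_inv : PInv P D := by
    intro x hx d hd
    refine ⟨h.inv x hx d hd.1, Subgroup.mem_centralizer_iff.mpr ?_⟩
    intro c' hc'
    have h1 : Commute c' x := ((mem_fix.mp hc').2 x hx).symm
    have h2 : Commute c' d := Subgroup.mem_centralizer_iff.mp hd.2 c' hc'
    exact (h1.mul_right h2).mul_right h1.inv_right
  by_cases hDR : D = R
  · have h1 : r ∈ D := hDR ▸ hr
    exact Subgroup.mem_centralizer_iff.mp h1.2 c hc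
  · exfalso
    have hDc := h.min D hD_le hD_inv hDR
    apply h.ncent
    intro x hx a ha
    have hxa : x * a * x⁻¹ ∈ R := h.inv x hx a ha
    have hc'R : a⁻¹ * (x * a * x⁻¹) ∈ R := mul_mem (inv_mem ha) hxa
    have hc'D : a⁻¹ * (x * a * x⁻¹) ∈ D := by
      refine ⟨hc'R, Subgroup.mem_centralizer_iff.mpr ?_⟩
      intro c hc
      have hcR : c ∈ R := (mem_fix.mp hc).1
      have h1 : a * c * a⁻¹ ∈ fix P R := by
        have h0 := h.comm_mem_fix hcR ha
        have h2 : a * c * a⁻¹ = c * (c⁻¹ * a * c * a⁻¹) := by group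
        rw [h2]
        exact mul_mem hc h0
      have h3 : x * c = c * x := (mem_fix.mp hc).2 x hx
      have h4 : x * (a * c * a⁻¹) = (a * c * a⁻¹) * x := (mem_fix.mp h1).2 x hx
      have h3' : x⁻¹ * c * x = c := by
        rw [mul_assoc, ← h3, ← mul_assoc, inv_mul_cancel, one_mul]
      have h5 : (x * a * x⁻¹) * c * (x * a * x⁻¹)⁻¹ = a * c * a⁻¹ := by
        calc (x * a * x⁻¹) * c * (x * a * x⁻¹)⁻¹
            = x * (a * (x⁻¹ * c * x) * a⁻¹) * x⁻¹ := by group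
          _ = x * (a * c * a⁻¹) * x⁻¹ := by rw [h3']
          _ = a * c * a⁻¹ := by rw [h4]; group
      calc c * (a⁻¹ * (x * a * x⁻¹))
          = a⁻¹ * (a * c * a⁻¹) * (x * a * x⁻¹) := by group
        _ = a⁻¹ * ((x * a * x⁻¹) * c * (x * a * x⁻¹)⁻¹) * (x * a * x⁻¹) := by rw [h5]
        _ = a⁻¹ * (x * a * x⁻¹) * c := by group
    have hc'x : x * (a⁻¹ * (x * a * x⁻¹)) = (a⁻¹ * (x * a * x⁻¹)) * x := hDc x hx _ hc'D
    have h6 : x * a * x⁻¹ = a * (a⁻¹ * (x * a * x⁻¹)) := by group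
    have h7 := eq_one_of_conj_eq_mul (h.pelt hx) (h.pR _ hc'R) hc'x h6
    have h8 : x * a = a * (a⁻¹ * (x * a * x⁻¹)) * x := by group
    rw [h8, h7, mul_one]

omit [Finite G] in
/-- If `x a x⁻¹ = a c` with `x ∈ P`, `a ∈ R` and `c` a fixed point, then `c = 1`. -/
theorem fix_eq_one (h : MinCfg p P R) {x a c : G} (hx : x ∈ P) (hc : c ∈ fix P R)
    (hxa : x * a * x⁻¹ = a * c) : c = 1 :=
  eq_one_of_conj_eq_mul (h.pelt hx) (h.pR _ (mem_fix.mp hc).1) ((mem_fix.mp hc).2 x hx) hxa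

omit [Finite G] hp in
/-- An element of `R` commuting with a nontrivial element of `P` is a fixed point. -/
theorem mem_fix_of_comm (h : MinCfg p P R) {x a : G} (hx : x ∈ P) (hx1 : x ≠ 1) (ha : a ∈ R)
    (hxa : x * a = a * x) : a ∈ fix P R :=
  mem_fix.mpr ⟨ha, h.ti x hx hx1 a ha hxa⟩

/-- `|R| ≥ (|P| + 1) |C_R(P)|`. -/
theorem card_le (h : MinCfg p P R) :
    (Nat.card P + 1) * Nat.card (fix P R) ≤ Nat.card R := by
  classical
  obtain ⟨a₁, ha₁, ha₁'⟩ := h.exists_not_mem_fix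
  have hmem : ∀ (x : P) (c : fix P R), (x : G) * a₁ * (x : G)⁻¹ * (c : G) ∈ R := fun x c =>
    mul_mem (h.inv x x.2 a₁ ha₁) (fix_le P R c.2)
  let f : Option P × fix P R → R := fun t =>
    match t.1 with
    | none => ⟨(t.2 : G), fix_le P R t.2.2⟩
    | some x => ⟨(x : G) * a₁ * (x : G)⁻¹ * (t.2 : G), hmem x t.2⟩
  have hfix_comm : ∀ (y : P) (c : fix P R), (y : G) * (c : G) = (c : G) * (y : G) := fun y c =>
    (mem_fix.mp c.2).2 y y.2
  have hf : Function.Injective f := by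
    rintro ⟨_ | x, c⟩ ⟨_ | y, c'⟩ hxy
    · have h1 : (c : G) = (c' : G) := by
        have h0 := congrArg (fun t : R => (t : G)) hxy
        exact h0
      rw [Subtype.ext h1]
    · exfalso
      have h1 : (c : G) = (y : G) * a₁ * (y : G)⁻¹ * (c' : G) := by
        have h0 := congrArg (fun t : R => (t : G)) hxy
        exact h0
      apply ha₁'
      have h2 : a₁ = (y : G)⁻¹ * ((c : G) * (c' : G)⁻¹) * (y : G) := by
        rw [h1]; group
      have h3 : (c : G) * (c' : G)⁻¹ ∈ fix P R := mul_mem c.2 (inv_mem c'.2)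
      have h4 : (y : G) * ((c : G) * (c' : G)⁻¹) = ((c : G) * (c' : G)⁻¹) * (y : G) :=
        (mem_fix.mp h3).2 y y.2
      have h5 : (y : G)⁻¹ * ((c : G) * (c' : G)⁻¹) * (y : G) = (c : G) * (c' : G)⁻¹ := by
        rw [mul_assoc, ← h4, ← mul_assoc, inv_mul_cancel, one_mul]
      rw [h2, h5]
      exact h3
    · exfalso
      have h1 : (x : G) * a₁ * (x : G)⁻¹ * (c : G) = (c' : G) := by
        have h0 := congrArg (fun t : R => (t : G)) hxy
        exact h0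
      apply ha₁'
      have h2 : a₁ = (x : G)⁻¹ * ((c' : G) * (c : G)⁻¹) * (x : G) := by
        rw [← h1]; group
      have h3 : (c' : G) * (c : G)⁻¹ ∈ fix P R := mul_mem c'.2 (inv_mem c.2)
      have h4 : (x : G) * ((c' : G) * (c : G)⁻¹) = ((c' : G) * (c : G)⁻¹) * (x : G) :=
        (mem_fix.mp h3).2 x x.2
      have h5 : (x : G)⁻¹ * ((c' : G) * (c : G)⁻¹) * (x : G) = (c' : G) * (c : G)⁻¹ := by
        rw [mul_assoc, ← h4, ← mul_assoc, inv_mul_cancel, one_mul]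
      rw [h2, h5]
      exact h3
    · have h1 : (x : G) * a₁ * (x : G)⁻¹ * (c : G) = (y : G) * a₁ * (y : G)⁻¹ * (c' : G) := by
        have h0 := congrArg (fun t : R => (t : G)) hxy
        exact h0
      have hz : (y : G)⁻¹ * (x : G) ∈ P := mul_mem (inv_mem y.2) x.2
      have hd : (c' : G) * (c : G)⁻¹ ∈ fix P R := mul_mem c'.2 (inv_mem c.2)
      have hyc : (y : G)⁻¹ * (c : G) * (y : G) = (c : G) := by
        rw [mul_assoc, ← hfix_comm y c, ← mul_assoc, inv_mul_cancel, one_mul]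
      have hyc' : (y : G)⁻¹ * (c' : G) * (y : G) = (c' : G) := by
        rw [mul_assoc, ← hfix_comm y c', ← mul_assoc, inv_mul_cancel, one_mul]
      have h2 : ((y : G)⁻¹ * (x : G)) * a₁ * ((y : G)⁻¹ * (x : G))⁻¹ =
          a₁ * ((c' : G) * (c : G)⁻¹) := by
        calc ((y : G)⁻¹ * (x : G)) * a₁ * ((y : G)⁻¹ * (x : G))⁻¹
            = (y : G)⁻¹ * ((x : G) * a₁ * (x : G)⁻¹ * (c : G)) * (y : G) *
                ((y : G)⁻¹ * (c : G) * (y : G))⁻¹ := by group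
          _ = (y : G)⁻¹ * ((y : G) * a₁ * (y : G)⁻¹ * (c' : G)) * (y : G) * (c : G)⁻¹ := by
              rw [h1, hyc]
          _ = a₁ * ((y : G)⁻¹ * (c' : G) * (y : G)) * (c : G)⁻¹ := by group
          _ = a₁ * ((c' : G) * (c : G)⁻¹) := by rw [hyc', mul_assoc]
      have h3 := h.fix_eq_one hz hd h2
      have hcc : c = c' := by
        apply Subtype.ext
        have : (c' : G) = (c' : G) * (c : G)⁻¹ * (c : G) := by group
        rw [this, h3, one_mul]
      have hxy' : x = y := by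
        by_contra hne
        have hz1 : (y : G)⁻¹ * (x : G) ≠ 1 := by
          intro h0
          apply hne
          apply Subtype.ext
          have : (x : G) = (y : G) * ((y : G)⁻¹ * (x : G)) := by group
          rw [this, h0, mul_one]
        rw [h3, mul_one] at h2
        have h4 : ((y : G)⁻¹ * (x : G)) * a₁ = a₁ * ((y : G)⁻¹ * (x : G)) := by
          have : ((y : G)⁻¹ * (x : G)) * a₁ =
              (((y : G)⁻¹ * (x : G)) * a₁ * ((y : G)⁻¹ * (x : G))⁻¹) * ((y : G)⁻¹ * (x : G)) := by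
            group
          rw [this, h2]
        exact ha₁' (h.mem_fix_of_comm hz hz1 ha₁ h4)
      rw [hxy', hcc]
  have h1 := Nat.card_le_card_of_injective f hf
  rwa [Nat.card_prod, Finite.card_option] at h1

/-- In the abelian case `P` has no nontrivial fixed points on `R`. -/
theorem fix_eq_bot_of_abelian (h : MinCfg p P R) (hab : ∀ a ∈ R, ∀ b ∈ R, a * b = b * a)
    (hP : P ≠ ⊥) : fix P R = ⊥ := by
  have : Nontrivial P := (Subgroup.nontrivial_iff_ne_bot P).mpr hP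
  have := h.pP.center_nontrivial
  obtain ⟨z₀, hz₀⟩ := exists_ne (1 : Subgroup.center P)
  set x₀ : G := ((z₀ : P) : G) with hx₀
  have hx₀P : x₀ ∈ P := (z₀ : P).2
  have hx₀1 : x₀ ≠ 1 := by
    intro h0
    apply hz₀
    apply Subtype.ext
    apply Subtype.ext
    exact h0
  have hx₀c : ∀ y ∈ P, y * x₀ = x₀ * y := by
    intro y hy
    have := Subgroup.mem_center_iff.mp z₀.2 ⟨y, hy⟩
    exact congrArg Subtype.val this
  have hconj : ∀ a ∈ R, x₀ * a * x₀⁻¹ ∈ R := fun a ha => h.inv x₀ hx₀P a ha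
  let I : Subgroup G :=
    { carrier := {b | ∃ a ∈ R, a⁻¹ * x₀ * a * x₀⁻¹ = b}
      mul_mem' := by
        rintro _ _ ⟨a, ha, rfl⟩ ⟨b, hb, rfl⟩
        refine ⟨a * b, mul_mem ha hb, ?_⟩
        calc (a * b)⁻¹ * x₀ * (a * b) * x₀⁻¹
            = (b⁻¹ * a⁻¹) * (x₀ * a * x₀⁻¹) * (x₀ * b * x₀⁻¹) := by group
          _ = (a⁻¹ * b⁻¹) * (x₀ * a * x₀⁻¹) * (x₀ * b * x₀⁻¹) := by
              rw [hab _ (inv_mem hb) _ (inv_mem ha)]
          _ = a⁻¹ * (b⁻¹ * (x₀ * a * x₀⁻¹)) * (x₀ * b * x₀⁻¹) := by group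
          _ = a⁻¹ * ((x₀ * a * x₀⁻¹) * b⁻¹) * (x₀ * b * x₀⁻¹) := by
              rw [hab _ (inv_mem hb) _ (hconj a ha)]
          _ = a⁻¹ * x₀ * a * x₀⁻¹ * (b⁻¹ * x₀ * b * x₀⁻¹) := by group
      one_mem' := ⟨1, one_mem R, by group⟩
      inv_mem' := by
        rintro _ ⟨a, ha, rfl⟩
        refine ⟨a⁻¹, inv_mem ha, ?_⟩
        have e1 : a⁻¹⁻¹ * x₀ * a⁻¹ * x₀⁻¹ = a * (x₀ * a⁻¹ * x₀⁻¹) := by group
        have e2 : (a⁻¹ * x₀ * a * x₀⁻¹)⁻¹ = (x₀ * a⁻¹ * x₀⁻¹) * a := by group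
        rw [e1, e2, hab _ ha _ (hconj _ (inv_mem ha))] }
  have hI_mem : ∀ b, b ∈ I ↔ ∃ a ∈ R, a⁻¹ * x₀ * a * x₀⁻¹ = b := fun b => Iff.rfl
  have hI_le : I ≤ R := by
    rintro _ ⟨a, ha, rfl⟩
    have : a⁻¹ * x₀ * a * x₀⁻¹ = a⁻¹ * (x₀ * a * x₀⁻¹) := by group
    rw [this]
    exact mul_mem (inv_mem ha) (hconj a ha)
  have hI_inv : PInv P I := by
    rintro y hy _ ⟨a, ha, rfl⟩
    refine ⟨y * a * y⁻¹, h.inv y hy a ha, ?_⟩
    have hyx := hx₀c y hy
    have h1 : y⁻¹ * x₀ * y = x₀ := by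
      rw [mul_assoc, ← hyx, ← mul_assoc, inv_mul_cancel, one_mul]
    have h2 : y⁻¹ * x₀⁻¹ * y = x₀⁻¹ := by
      have : y⁻¹ * x₀⁻¹ * y = (y⁻¹ * x₀ * y)⁻¹ := by group
      rw [this, h1]
    calc (y * a * y⁻¹)⁻¹ * x₀ * (y * a * y⁻¹) * x₀⁻¹
        = y * a⁻¹ * (y⁻¹ * x₀ * y) * a * (y⁻¹ * x₀⁻¹ * y) * y⁻¹ := by group
      _ = y * a⁻¹ * x₀ * a * x₀⁻¹ * y⁻¹ := by rw [h1, h2]
      _ = y * (a⁻¹ * x₀ * a * x₀⁻¹) * y⁻¹ := by group
  have hIR : I = R := by
    by_contra hne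
    have hIc := h.min I hI_le hI_inv hne
    apply h.ncent
    intro x hx a ha
    have h1 : a⁻¹ * x₀ * a * x₀⁻¹ ∈ I := ⟨a, ha, rfl⟩
    have h2 : x₀ * (a⁻¹ * x₀ * a * x₀⁻¹) = (a⁻¹ * x₀ * a * x₀⁻¹) * x₀ := hIc x₀ hx₀P _ h1
    have h3 : x₀ * a * x₀⁻¹ = a * (a⁻¹ * x₀ * a * x₀⁻¹) := by group
    have h4 := eq_one_of_conj_eq_mul (h.pelt hx₀P) (h.pR _ (hI_le h1)) h2 h3
    have h5 : x₀ * a = a * (a⁻¹ * x₀ * a * x₀⁻¹) * x₀ := by group
    rw [h4, mul_one] at h5
    exact h.ti x₀ hx₀P hx₀1 a ha h5 x hx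
  rw [eq_bot_iff]
  intro c hc
  rw [Subgroup.mem_bot]
  have hcI : c ∈ I := hIR ▸ (fix_le P R hc)
  obtain ⟨a, ha, hac⟩ := hcI
  have h3 : x₀ * a * x₀⁻¹ = a * c := by rw [← hac]; group
  exact h.fix_eq_one hx₀P hc h3

/-- In the abelian case, for `z ∈ P` nontrivial the map `a ↦ a⁻¹ z a z⁻¹` is onto `R`. -/
theorem surj_of_abelian (h : MinCfg p P R) (hab : ∀ a ∈ R, ∀ b ∈ R, a * b = b * a)
    (hP : P ≠ ⊥) {z : G} (hz : z ∈ P) (hz1 : z ≠ 1) {b : G} (hb : b ∈ R) :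
    ∃ a ∈ R, a⁻¹ * z * a * z⁻¹ = b := by
  have hfix := h.fix_eq_bot_of_abelian hab hP
  have hmem : ∀ a : R, (a : G)⁻¹ * z * (a : G) * z⁻¹ ∈ R := by
    intro a
    have : (a : G)⁻¹ * z * (a : G) * z⁻¹ = (a : G)⁻¹ * (z * (a : G) * z⁻¹) := by group
    rw [this]
    exact mul_mem (inv_mem a.2) (h.inv z hz a a.2)
  let g : R → R := fun a => ⟨(a : G)⁻¹ * z * (a : G) * z⁻¹, hmem a⟩
  have hg : Function.Injective g := by
    intro a b hab'
    have E : (a : G)⁻¹ * z * (a : G) * z⁻¹ = (b : G)⁻¹ * z * (b : G) * z⁻¹ :=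
      congrArg Subtype.val hab'
    have h1 : z * ((a : G) * (b : G)⁻¹) = ((a : G) * (b : G)⁻¹) * z := by
      have : z * ((a : G) * (b : G)⁻¹) =
          (a : G) * ((a : G)⁻¹ * z * (a : G) * z⁻¹) * z * (b : G)⁻¹ := by group
      rw [this, E]
      group
    have h2 := h.mem_fix_of_comm hz hz1 (mul_mem a.2 (inv_mem b.2)) h1
    rw [hfix, Subgroup.mem_bot] at h2
    apply Subtype.ext
    have : (a : G) = (a : G) * (b : G)⁻¹ * (b : G) := by group
    rw [this, h2, one_mul]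
  have hsurj := Finite.injective_iff_surjective.mp hg
  obtain ⟨a, ha⟩ := hsurj ⟨b, hb⟩
  exact ⟨a, a.2, congrArg Subtype.val ha⟩

end MinCfg

end mincfg

end Cfsg.Agent.Helper82
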