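import Mathlib
import Cfsg.Agent.Helper82.TIConfig
import Cfsg.Agent.Helper3.AbelEigen
import Cfsg.Agent.Helper80.CharEigen

/-!
# Linear algebra for the TI configuration

Degree bounds for a faithful complex representation restricted to a `P`-invariant
subgroup `R`, obtained from common eigenvectors (no character theory needed).
-/

set_option autoImplicit false

namespace Cfsg.Agent.Helper82

/-- Simultaneous eigenvectors with pairwise distinct eigenvalue systems are linearly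
independent. -/
theorem linearIndependent_of_eigen {K V ι σ : Type*} [Field K] [AddCommGroup V] [Module K V]
    (T : σ → V →ₗ[K] V) (v : ι → V) (κ : ι → σ → K)
    (hv : ∀ i, v i ≠ 0) (hT : ∀ i s, T s (v i) = κ i s • v i)
    (hκ : ∀ i j, i ≠ j → ∃ s, κ i s ≠ κ j s) : LinearIndependent K v := by
  classical
  rw [linearIndependent_iff']
  intro s
  induction s using Finset.induction_on with
  | empty =>
    intro g _ i hi
    simp at hi
  | insert j s hj ih =>
    intro g hg
    rw [Finset.sum_insert hj] at hg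
    have hsum : ∑ i ∈ s, g i • v i = -(g j • v j) := by
      rw [eq_neg_iff_add_eq_zero, add_comm]
      exact hg
    have hs : ∀ i ∈ s, g i = 0 := by
      intro i₀ hi₀
      have hne : i₀ ≠ j := fun h => hj (h ▸ hi₀)
      obtain ⟨t, ht⟩ := hκ i₀ j hne
      have h1 : ∑ i ∈ s, (g i * (κ i t - κ j t)) • v i = 0 := by
        calc ∑ i ∈ s, (g i * (κ i t - κ j t)) • v i
            = ∑ i ∈ s, (T t (g i • v i) - κ j t • (g i • v i)) := by
              apply Finset.sum_congr rfl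
              intro i _
              rw [map_smul, hT, smul_smul, smul_smul, ← sub_smul]
              congr 1
              ring
          _ = T t (∑ i ∈ s, g i • v i) - κ j t • ∑ i ∈ s, g i • v i := by
              rw [Finset.sum_sub_distrib, map_sum, Finset.smul_sum]
          _ = 0 := by
              rw [hsum, map_neg, map_smul, hT, smul_neg, smul_smul, smul_smul, mul_comm,
                sub_self]
      have h2 := ih (fun i => g i * (κ i t - κ j t)) h1 i₀ hi₀
      exact (mul_eq_zero.mp h2).resolve_right (sub_ne_zero.mpr ht)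
    have hj0 : g j = 0 := by
      rw [Finset.sum_eq_zero (fun i hi => by rw [hs i hi, zero_smul]), add_zero] at hg
      exact (smul_eq_zero.mp hg).resolve_right (hv j)
    intro i hi
    rcases Finset.mem_insert.mp hi with rfl | hi
    · exact hj0
    · exact hs i hi

section rep

open Module

/-- A finite abelian group acting on a complex vector space has a common eigenvector on which
a given nontrivially acting element acts nontrivially. -/
theorem exists_common_eigenvector_ne {A : Type*} [Group A] [Finite A] {V : Type*}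
    [AddCommGroup V] [Module ℂ V] [FiniteDimensional ℂ V] (ρ : Representation ℂ A V)
    (hcomm : ∀ a b : A, a * b = b * a) (c₀ : A) (h : ρ c₀ ≠ 1) :
    ∃ v : V, v ≠ 0 ∧ (∀ a, ∃ c : ℂ, ρ a v = c • v) ∧ ρ c₀ v ≠ v := by
  classical
  obtain ⟨ι, _, b, μ, h1, -, -, -, -⟩ := Helper80.rep_exists_eigenbasis ρ c₀
  have hex : ∃ i, μ i ≠ 1 := by
    by_contra hcon
    push Not at hcon
    apply h
    apply b.ext
    intro i
    rw [h1, hcon, one_smul]
    rfl
  obtain ⟨i, hi⟩ := hex
  let U : Subrepresentation ρ :=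
    { toSubmodule := Module.End.eigenspace (ρ c₀) (μ i)
      apply_mem_toSubmodule := by
        intro g v hv
        rw [Module.End.mem_eigenspace_iff] at hv ⊢
        rw [← Module.End.mul_apply, ← map_mul, hcomm c₀ g, map_mul, Module.End.mul_apply, hv,
          map_smul] }
  have hbi : b i ∈ U.toSubmodule := Module.End.mem_eigenspace_iff.mpr (h1 i)
  have hnt : Nontrivial U.toSubmodule :=
    ⟨⟨⟨b i, hbi⟩, 0, fun h0 => b.ne_zero i (congrArg Subtype.val h0)⟩⟩
  obtain ⟨v, hv, hev⟩ := Helper3.exists_common_eigenvector U.toRepresentation ⊤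
    (fun a _ b _ => hcomm a b)
  refine ⟨(v : V), fun h0 => hv (Subtype.ext h0), fun a => ?_, ?_⟩
  · obtain ⟨c, hc⟩ := hev a (Subgroup.mem_top a)
    exact ⟨c, congrArg Subtype.val hc⟩
  · have h2 : ρ c₀ (v : V) = μ i • (v : V) := Module.End.mem_eigenspace_iff.mp v.2
    rw [h2]
    intro h3
    have h4 : (μ i - 1) • (v : V) = 0 := by rw [sub_smul, h3, one_smul, sub_self]
    rcases smul_eq_zero.mp h4 with h5 | h5
    · exact hi (sub_eq_zero.mp h5)
    · exact hv (Subtype.ext h5)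

variable {G : Type*} [Group G] [Finite G] {V : Type*} [AddCommGroup V] [Module ℂ V]
  [FiniteDimensional ℂ V] (ρ : Representation ℂ G V)

/-- A common eigenvector of an abelian subgroup together with its eigenvalue function. -/
theorem exists_eigen_character (A : Subgroup G) (hA : ∀ a ∈ A, ∀ b ∈ A, a * b = b * a)
    {c₀ : G} (hc₀ : c₀ ∈ A) (h : ρ c₀ ≠ 1) :
    ∃ (v : V) (lam : G → ℂ), v ≠ 0 ∧ (∀ a ∈ A, ρ a v = lam a • v) ∧ lam c₀ ≠ 1 ∧ lam 1 = 1 ∧
      (∀ a ∈ A, ∀ b ∈ A, lam (a * b) = lam a * lam b) := by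
  classical
  let ρA : Representation ℂ A V := ρ.comp A.subtype
  have hne : ρA ⟨c₀, hc₀⟩ ≠ 1 := h
  obtain ⟨v, hv, hev, hv0⟩ := exists_common_eigenvector_ne ρA
    (fun a b => Subtype.ext (hA a a.2 b b.2)) ⟨c₀, hc₀⟩ hne
  let lam : G → ℂ := fun g => if hg : g ∈ A then Classical.choose (hev ⟨g, hg⟩) else 0
  have hlam : ∀ a ∈ A, ρ a v = lam a • v := by
    intro a ha
    simp only [lam, dif_pos ha]
    exact Classical.choose_spec (hev ⟨a, ha⟩)
  have hinj := smul_left_injective ℂ hv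
  refine ⟨v, lam, hv, hlam, ?_, ?_, ?_⟩
  · intro h1
    apply hv0
    show ρ c₀ v = v
    rw [hlam c₀ hc₀, h1, one_smul]
  · apply hinj
    show lam 1 • v = (1 : ℂ) • v
    rw [← hlam 1 (one_mem A), map_one, one_smul, Module.End.one_apply]
  · intro a ha b hb
    apply hinj
    show lam (a * b) • v = (lam a * lam b) • v
    rw [← hlam _ (mul_mem ha hb), map_mul, Module.End.mul_apply, hlam b hb, map_smul, hlam a ha,
      smul_smul, mul_comm]

omit [Finite G] [FiniteDimensional ℂ V] in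
theorem rep_apply_ne_zero (g : G) {v : V} (hv : v ≠ 0) : ρ g v ≠ 0 := by
  intro h0
  apply hv
  have h1 : ρ g⁻¹ (ρ g v) = v := by
    rw [← Module.End.mul_apply, ← map_mul, inv_mul_cancel, map_one, Module.End.one_apply]
  rw [← h1, h0, map_zero]

/-- Abelian case: if `R` is abelian, `P`-invariant, acts nontrivially, and every nontrivial
element of `P` induces a fixed-point-free automorphism of `R`, then the degree is at least
`|P|`. -/
theorem card_le_finrank_of_abelian (P R : Subgroup G) (hinv : PInv P R)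
    (hab : ∀ a ∈ R, ∀ b ∈ R, a * b = b * a)
    (hsurj : ∀ z ∈ P, z ≠ 1 → ∀ b ∈ R, ∃ a ∈ R, a⁻¹ * z * a * z⁻¹ = b)
    {a₀ : G} (ha₀ : a₀ ∈ R) (hρ : ρ a₀ ≠ 1) : Nat.card P ≤ finrank ℂ V := by
  classical
  obtain ⟨v, lam, hv, hlam, hlam0, hlam1, hmul⟩ := exists_eigen_character ρ R hab ha₀ hρ
  have hne : ∀ b ∈ R, lam b ≠ 0 := by
    intro b hb h0
    have h1 := hmul b hb b⁻¹ (inv_mem hb)
    rw [mul_inv_cancel, hlam1, h0, zero_mul] at h1
    exact one_ne_zero h1
  have hli : LinearIndependent ℂ (fun x : P => ρ (x : G) v) := by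
    apply linearIndependent_of_eigen (fun a : R => ρ (a : G)) _
      (fun (x : P) (a : R) => lam ((x : G)⁻¹ * (a : G) * (x : G)))
    · intro x
      exact rep_apply_ne_zero ρ _ hv
    · intro x a
      have h1 : (a : G) * (x : G) = (x : G) * ((x : G)⁻¹ * (a : G) * (x : G)) := by group
      show ρ (a : G) (ρ (x : G) v) = _
      rw [← Module.End.mul_apply, ← map_mul, h1, map_mul, Module.End.mul_apply,
        hlam _ (hinv.inv_conj x.2 a.2), map_smul]
    · intro x y hxy
      by_contra hcon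
      push Not at hcon
      set z : G := (x : G)⁻¹ * (y : G) with hz
      have hzP : z ∈ P := mul_mem (inv_mem x.2) y.2
      have hz1 : z ≠ 1 := by
        intro h0
        apply hxy
        apply Subtype.ext
        have h1 : (y : G) = (x : G) * z := by rw [hz]; group
        rw [h1, h0, mul_one]
      obtain ⟨a, ha, hab'⟩ := hsurj z hzP hz1 a₀ ha₀
      have h3 := hcon ⟨(y : G) * a * (y : G)⁻¹, hinv y y.2 a ha⟩
      have e1 : (x : G)⁻¹ * ((y : G) * a * (y : G)⁻¹) * (x : G) = a * (a⁻¹ * z * a * z⁻¹) := by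
        rw [hz]; group
      have e2 : (y : G)⁻¹ * ((y : G) * a * (y : G)⁻¹) * (y : G) = a := by group
      have h4 : lam (a * (a⁻¹ * z * a * z⁻¹)) = lam a := by
        rw [← e1]
        refine h3.trans ?_
        rw [e2]
      rw [hab', hmul a ha a₀ ha₀] at h4
      apply hlam0
      exact mul_left_cancel₀ (hne a ha) (by rw [h4, mul_one])
  have : Fintype P := Fintype.ofFinite P
  have h5 := hli.fintype_card_le_finrank
  rwa [← Nat.card_eq_fintype_card] at h5

/-- Nonabelian case: `Φ ≤ Z(R)` contains all commutators of `R` and is centralized by `P`,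
every proper `P`-invariant subgroup of `R` lies in `Φ`, and some commutator of `R` acts
nontrivially. Then `|R : Φ| ≤ (deg)^2`. -/
theorem card_le_of_nonabelian (P R Φ : Subgroup G) (hΦR : Φ ≤ R) (hinv : PInv P R)
    (hPΦ : PCent P Φ) (hΦc : ∀ c ∈ Φ, ∀ r ∈ R, c * r = r * c)
    (hcomm : ∀ a ∈ R, ∀ r ∈ R, a⁻¹ * r * a * r⁻¹ ∈ Φ)
    (hmin : ∀ S : Subgroup G, S ≤ R → PInv P S → S ≠ R → S ≤ Φ)
    {a₀ r₀ : G} (ha₀ : a₀ ∈ R) (hr₀ : r₀ ∈ R) (hρ : ρ (a₀⁻¹ * r₀ * a₀ * r₀⁻¹) ≠ 1) :
    Nat.card R ≤ Nat.card Φ * (finrank ℂ V) ^ 2 := by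
  classical
  have hΦab : ∀ a ∈ Φ, ∀ b ∈ Φ, a * b = b * a := fun a ha b hb => hΦc a ha b (hΦR hb)
  obtain ⟨v, lam, hv, hlam, hlam0, hlam1, hmul⟩ :=
    exists_eigen_character ρ Φ hΦab (hcomm a₀ ha₀ r₀ hr₀) hρ
  have hlam_ne : ∀ b ∈ Φ, lam b ≠ 0 := by
    intro b hb h0
    have h1 := hmul b hb b⁻¹ (inv_mem hb)
    rw [mul_inv_cancel, hlam1, h0, zero_mul] at h1
    exact one_ne_zero h1
  let κ : G → G → ℂ := fun a r => lam (a⁻¹ * r * a * r⁻¹)
  have hκmul : ∀ a ∈ R, ∀ b ∈ R, ∀ r ∈ R, κ (a * b) r = κ a r * κ b r := by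
    intro a ha b hb r hr
    show lam _ = lam _ * lam _
    rw [← hmul _ (hcomm a ha r hr) _ (hcomm b hb r hr)]
    congr 1
    have h1 : (a * b)⁻¹ * r * (a * b) * r⁻¹ = b⁻¹ * (a⁻¹ * r * a * r⁻¹) * (r * b * r⁻¹) := by
      group
    rw [h1, ← hΦc _ (hcomm a ha r hr) _ (inv_mem hb)]
    group
  have hκ1 : ∀ r, κ 1 r = 1 := by
    intro r
    show lam _ = 1
    rw [inv_one, one_mul, mul_one, mul_inv_cancel, hlam1]
  have hκinv : ∀ a ∈ R, ∀ r ∈ R, κ a⁻¹ r * κ a r = 1 := by
    intro a ha r hr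
    rw [← hκmul _ (inv_mem ha) _ ha r hr, inv_mul_cancel, hκ1]
  let Z : Subgroup G :=
    { carrier := {a | a ∈ R ∧ ∀ r ∈ R, κ a r = 1}
      mul_mem' := by
        rintro a b ⟨ha, ha'⟩ ⟨hb, hb'⟩
        exact ⟨mul_mem ha hb, fun r hr => by
          rw [hκmul a ha b hb r hr, ha' r hr, hb' r hr, one_mul]⟩
      one_mem' := ⟨one_mem R, fun r _ => hκ1 r⟩
      inv_mem' := by
        rintro a ⟨ha, ha'⟩
        refine ⟨inv_mem ha, fun r hr => ?_⟩
        have h1 := hκinv a ha r hr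
        rwa [ha' r hr, mul_one] at h1 }
  have hZ_mem : ∀ a, a ∈ Z ↔ a ∈ R ∧ ∀ r ∈ R, κ a r = 1 := fun a => Iff.rfl
  have hZ_le : Z ≤ R := fun a ha => ha.1
  have hZ_inv : PInv P Z := by
    intro x hx a ha
    refine ⟨hinv x hx a ha.1, fun r hr => ?_⟩
    have hr' : x⁻¹ * r * x ∈ R := hinv.inv_conj hx hr
    have h1 : (x * a * x⁻¹)⁻¹ * r * (x * a * x⁻¹) * r⁻¹ =
        x * (a⁻¹ * (x⁻¹ * r * x) * a * (x⁻¹ * r * x)⁻¹) * x⁻¹ := by group
    have h2 := hPΦ x hx _ (hcomm a ha.1 _ hr')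
    show lam _ = 1
    rw [h1, h2, mul_assoc, mul_inv_cancel, mul_one]
    exact ha.2 _ hr'
  have hZ_ne : Z ≠ R := by
    intro hZR
    have h1 : a₀ ∈ Z := hZR ▸ ha₀
    exact hlam0 (h1.2 r₀ hr₀)
  have hZΦ : Z ≤ Φ := hmin Z hZ_le hZ_inv hZ_ne
  have : Fintype Φ := Fintype.ofFinite Φ
  let e : Module.End ℂ V := ∑ c : Φ, (lam (c : G))⁻¹ • ρ (c : G)
  have he1 : ∀ c ∈ Φ, ρ c * e = lam c • e := by
    intro c hc
    show ρ c * ∑ d : Φ, (lam (d : G))⁻¹ • ρ (d : G) = lam c • ∑ d : Φ, (lam (d : G))⁻¹ • ρ (d : G)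
    rw [Finset.mul_sum, Finset.smul_sum]
    apply Fintype.sum_equiv (Equiv.mulLeft (⟨c, hc⟩ : Φ))
    intro d
    simp only [Equiv.coe_mulLeft, Subgroup.coe_mul]
    rw [hmul c hc d d.2, mul_smul_comm, ← map_mul, smul_smul]
    congr 1
    have h1 := hlam_ne c hc
    have h2 := hlam_ne d d.2
    field_simp
  have he2 : ∀ r ∈ R, ρ r * e = e * ρ r := by
    intro r hr
    show ρ r * ∑ d : Φ, (lam (d : G))⁻¹ • ρ (d : G) = (∑ d : Φ, (lam (d : G))⁻¹ • ρ (d : G)) * ρ r
    rw [Finset.mul_sum, Finset.sum_mul]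
    apply Finset.sum_congr rfl
    intro d _
    rw [mul_smul_comm, smul_mul_assoc, ← map_mul, ← map_mul, hΦc d d.2 r hr]
  have he3 : e v = (Nat.card Φ : ℂ) • v := by
    show (∑ c : Φ, (lam (c : G))⁻¹ • ρ (c : G)) v = _
    rw [LinearMap.sum_apply]
    have h1 : ∀ c ∈ (Finset.univ : Finset Φ), ((lam (c : G))⁻¹ • ρ (c : G)) v = v := by
      intro c _
      rw [LinearMap.smul_apply, hlam c c.2, smul_smul, inv_mul_cancel₀ (hlam_ne c c.2), one_smul]
    rw [Finset.sum_congr rfl h1, Finset.sum_const, Finset.card_univ, Nat.card_eq_fintype_card,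
      Nat.cast_smul_eq_nsmul]
  let ι := R ⧸ (Z.subgroupOf R)
  let M : ι → Module.End ℂ V := fun q => ρ ((q.out : R) : G) * e
  let T : R → Module.End ℂ (Module.End ℂ V) := fun r =>
    LinearMap.mulLeft ℂ (ρ (r : G)) ∘ₗ LinearMap.mulRight ℂ (ρ ((r : G)⁻¹))
  have hli : LinearIndependent ℂ M := by
    apply linearIndependent_of_eigen T M (fun q r => κ ((q.out : R) : G) (r : G))
    · intro q h0
      have h1 : (M q) v = (Nat.card Φ : ℂ) • ρ ((q.out : R) : G) v := by
        show (ρ _ * e) v = _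
        rw [Module.End.mul_apply, he3, map_smul]
      rw [h0, LinearMap.zero_apply] at h1
      have h2 : ρ ((q.out : R) : G) v ≠ 0 := rep_apply_ne_zero ρ _ hv
      have h3 : (Nat.card Φ : ℂ) ≠ 0 := Nat.cast_ne_zero.mpr Nat.card_pos.ne'
      exact (smul_ne_zero h3 h2) h1.symm
    · intro q r
      set a : G := ((q.out : R) : G) with ha_def
      have ha : a ∈ R := (q.out : R).2
      show ρ (r : G) * ((ρ a * e) * ρ ((r : G)⁻¹)) = κ a (r : G) • (ρ a * e)
      calc ρ (r : G) * ((ρ a * e) * ρ ((r : G)⁻¹))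
          = ρ (r : G) * (ρ a * (e * ρ ((r : G)⁻¹))) := by rw [mul_assoc]
        _ = ρ (r : G) * (ρ a * (ρ ((r : G)⁻¹) * e)) := by rw [he2 _ (inv_mem r.2)]
        _ = ρ ((r : G) * a * (r : G)⁻¹) * e := by
            rw [map_mul, map_mul]; simp only [mul_assoc]
        _ = ρ (a * (a⁻¹ * (r : G) * a * (r : G)⁻¹)) * e := by
            congr 2; group
        _ = ρ a * (ρ (a⁻¹ * (r : G) * a * (r : G)⁻¹) * e) := by rw [map_mul, mul_assoc]
        _ = ρ a * (κ a (r : G) • e) := by rw [he1 _ (hcomm a ha _ r.2)]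
        _ = κ a (r : G) • (ρ a * e) := by rw [mul_smul_comm]
    · intro q q' hqq'
      have h1 : ((q.out)⁻¹ * q'.out : R) ∉ Z.subgroupOf R := by
        intro hmem
        apply hqq'
        rw [← QuotientGroup.out_eq' q, ← QuotientGroup.out_eq' q']
        exact QuotientGroup.eq.mpr hmem
      have h2 : ¬ ∀ r ∈ R, κ (((q.out : R) : G)⁻¹ * ((q'.out : R) : G)) r = 1 := by
        intro hall
        apply h1
        rw [Subgroup.mem_subgroupOf]
        exact ⟨mul_mem (inv_mem (q.out : R).2) (q'.out : R).2, hall⟩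
      push Not at h2
      obtain ⟨r, hr, hne⟩ := h2
      refine ⟨⟨r, hr⟩, fun heq => hne ?_⟩
      have heq' : κ ((q.out : R) : G) r = κ ((q'.out : R) : G) r := heq
      rw [hκmul _ (inv_mem (q.out : R).2) _ (q'.out : R).2 r hr, ← heq']
      exact hκinv _ (q.out : R).2 r hr
  have : Fintype ι := Fintype.ofFinite ι
  have h1 := hli.fintype_card_le_finrank
  rw [Module.finrank_linearMap ℂ ℂ V V, ← Nat.card_eq_fintype_card] at h1
  have h2 := Subgroup.card_eq_card_quotient_mul_card_subgroup (Z.subgroupOf R)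
  have h3 : Nat.card (Z.subgroupOf R) = Nat.card Z :=
    Nat.card_congr (Subgroup.subgroupOfEquivOfLe hZ_le).toEquiv
  have h4 : Nat.card Z ≤ Nat.card Φ := Subgroup.card_le_of_le hZΦ
  rw [h2, h3, sq, mul_comm (Nat.card Φ)]
  exact Nat.mul_le_mul h1 h4

end rep

end Cfsg.Agent.Helper82
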